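import Mathlib
import Cfsg.Agent.Helper26.EssP2

set_option autoImplicit false

namespace Cfsg.Agent.Helper1

open Cfsg.Agent.Helper26

/-- product of `2 × 2` matrices written as quadruples -/
def ffm_mul {R : Type*} [CommRing R] (m n : R × R × R × R) : R × R × R × R :=
  (m.1 * n.1 + m.2.1 * n.2.2.1, m.1 * n.2.1 + m.2.1 * n.2.2.2,
    m.2.2.1 * n.1 + m.2.2.2 * n.2.2.1, m.2.2.1 * n.2.1 + m.2.2.2 * n.2.2.2)

/-- the matrix of a quadruple -/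
def ffm_mat {R : Type*} [CommRing R] (m : R × R × R × R) : Matrix (Fin 2) (Fin 2) R :=
  !![m.1, m.2.1; m.2.2.1, m.2.2.2]

theorem ffm_mat_mul {R : Type*} [CommRing R] (m n : R × R × R × R) :
    ffm_mat m * ffm_mat n = ffm_mat (ffm_mul m n) := by
  unfold ffm_mat ffm_mul
  rw [Matrix.mul_fin_two]

theorem ffm_mat_one {R : Type*} [CommRing R] : ffm_mat ((1 : R), 0, 0, 1) = 1 :=
  Matrix.one_fin_two.symm

theorem ffm_mat_inj {R : Type*} [CommRing R] {m n : R × R × R × R}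
    (h : ffm_mat m = ffm_mat n) : m = n := by
  have h00 : m.1 = n.1 := congrFun (congrFun h 0) 0
  have h01 : m.2.1 = n.2.1 := congrFun (congrFun h 0) 1
  have h10 : m.2.2.1 = n.2.2.1 := congrFun (congrFun h 1) 0
  have h11 : m.2.2.2 = n.2.2.2 := congrFun (congrFun h 1) 1
  exact Prod.ext h00 (Prod.ext h01 (Prod.ext h10 h11))

theorem ffm_pow6 : ∀ t : ZMod 2 × ZMod 2 × ZMod 2 × ZMod 2,
    t.1 * t.2.2.2 - t.2.1 * t.2.2.1 = 1 →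
    ffm_mul (ffm_mul (ffm_mul t t) t) (ffm_mul (ffm_mul t t) t) = (1, 0, 0, 1) := by
  decide

/-- cube of a quadruple -/
def ffm_cube {R : Type*} [CommRing R] (t : R × R × R × R) : R × R × R × R :=
  ffm_mul (ffm_mul t t) t

/-- square of a quadruple -/
def ffm_sq {R : Type*} [CommRing R] (t : R × R × R × R) : R × R × R × R :=
  ffm_mul t t

theorem ffm_pow24 : ∀ t : ZMod 3 × ZMod 3 × ZMod 3 × ZMod 3,
    t.1 * t.2.2.2 - t.2.1 * t.2.2.1 = 1 →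
    ffm_sq (ffm_sq (ffm_sq (ffm_cube t))) = (1, 0, 0, 1) := by
  decide

theorem ffm_nc3 : ∀ σ : ZMod 3, σ ≠ 0 →
    ffm_mul (ffm_mul (1, 0, σ, 1) (1, 2, 0, 1))
        (ffm_mul (ffm_mul (1, 1, 0, 1) (ffm_mul (1, 0, σ, 1) (1, 2, 0, 1))) (1, 2, 0, 1))
      ≠ ffm_mul (ffm_mul (ffm_mul (1, 1, 0, 1) (ffm_mul (1, 0, σ, 1) (1, 2, 0, 1))) (1, 2, 0, 1))
        (ffm_mul (1, 0, σ, 1) (1, 2, 0, 1)) := by
  decide

theorem ffm_sl2_pow6 (M : Matrix.SpecialLinearGroup (Fin 2) (ZMod 2)) : M ^ 6 = 1 := by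
  apply Subtype.ext
  rw [Matrix.SpecialLinearGroup.coe_pow, Matrix.SpecialLinearGroup.coe_one]
  have hdet : M.1 0 0 * M.1 1 1 - M.1 0 1 * M.1 1 0 = 1 := by
    have h := M.2
    rw [Matrix.det_fin_two] at h
    exact h
  obtain ⟨t, ht⟩ : ∃ t : ZMod 2 × ZMod 2 × ZMod 2 × ZMod 2,
      t = (M.1 0 0, M.1 0 1, M.1 1 0, M.1 1 1) := ⟨_, rfl⟩
  have h1 : M.1 = ffm_mat t := by rw [ht]; exact Matrix.eta_fin_two M.1
  have hdet' : t.1 * t.2.2.2 - t.2.1 * t.2.2.1 = 1 := by rw [ht]; exact hdet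
  have e : M.1 ^ 6 = (M.1 ^ 3) ^ 2 := by rw [← pow_mul]
  rw [e, pow_three', sq, h1]
  simp only [ffm_mat_mul]
  rw [← ffm_mat_one]
  congr 1
  exact ffm_pow6 t hdet'

theorem ffm_sl2_pow24 (M : Matrix.SpecialLinearGroup (Fin 2) (ZMod 3)) : M ^ 24 = 1 := by
  apply Subtype.ext
  rw [Matrix.SpecialLinearGroup.coe_pow, Matrix.SpecialLinearGroup.coe_one]
  have hdet : M.1 0 0 * M.1 1 1 - M.1 0 1 * M.1 1 0 = 1 := by
    have h := M.2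
    rw [Matrix.det_fin_two] at h
    exact h
  obtain ⟨t, ht⟩ : ∃ t : ZMod 3 × ZMod 3 × ZMod 3 × ZMod 3,
      t = (M.1 0 0, M.1 0 1, M.1 1 0, M.1 1 1) := ⟨_, rfl⟩
  have h1 : M.1 = ffm_mat t := by rw [ht]; exact Matrix.eta_fin_two M.1
  have hdet' : t.1 * t.2.2.2 - t.2.1 * t.2.2.1 = 1 := by rw [ht]; exact hdet
  have e : M.1 ^ 24 = (((M.1 ^ 3) ^ 2) ^ 2) ^ 2 := by rw [← pow_mul, ← pow_mul, ← pow_mul]
  rw [e, pow_three', sq, sq, sq, h1]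
  simp only [ffm_mat_mul]
  rw [← ffm_mat_one]
  congr 1
  exact ffm_pow24 t hdet'

theorem ffm_sl2_nc3 (σ : ZMod 3) (hσ : σ ≠ 0) :
    sl2L σ * sl2U 2 * (sl2U 1 * (sl2L σ * sl2U 2) * sl2U 2)
      ≠ sl2U 1 * (sl2L σ * sl2U 2) * sl2U 2 * (sl2L σ * sl2U 2) := by
  intro h
  have h' : ffm_mat ((1 : ZMod 3), 0, σ, 1) * ffm_mat (1, 2, 0, 1)
        * (ffm_mat (1, 1, 0, 1) * (ffm_mat (1, 0, σ, 1) * ffm_mat (1, 2, 0, 1))
          * ffm_mat (1, 2, 0, 1))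
      = ffm_mat (1, 1, 0, 1) * (ffm_mat (1, 0, σ, 1) * ffm_mat (1, 2, 0, 1))
          * ffm_mat (1, 2, 0, 1) * (ffm_mat (1, 0, σ, 1) * ffm_mat (1, 2, 0, 1)) :=
    congrArg Subtype.val h
  simp only [ffm_mat_mul] at h'
  exact ffm_nc3 σ hσ (ffm_mat_inj h')

end Cfsg.Agent.Helper1
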