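import Mathlib
import Cfsg.Agent.Helper26.EssP2

set_option autoImplicit false

namespace Cfsg.Agent.Helper1

open Cfsg.Agent.Helper26
open scoped commutatorElement

variable {G : Type*} [Group G]

theorem ffp_conj_pow_fix (a x : G) (h : a * x * a⁻¹ = x) (n : ℕ) :
    a ^ n * x * (a ^ n)⁻¹ = x := by
  have hc : Commute a x := by
    show a * x = x * a
    calc a * x = a * x * a⁻¹ * a := by group
      _ = x * a := by rw [h]
  have hc' : Commute (a ^ n) x := hc.pow_left n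
  calc a ^ n * x * (a ^ n)⁻¹ = x * a ^ n * (a ^ n)⁻¹ := by rw [hc'.eq]
    _ = x := mul_inv_cancel_right _ _

theorem ffp_conj_mul (g u v : G) : g * (u * v) * g⁻¹ = (g * u * g⁻¹) * (g * v * g⁻¹) := by
  group

theorem ffp_conj_pow (g u : G) (n : ℕ) : g * u ^ n * g⁻¹ = (g * u * g⁻¹) ^ n :=
  (conj_pow).symm

theorem ffp_conj_pow_shift (a x y : G) (hax : a * x * a⁻¹ = x) (k : ℕ)
    (hay : a * y * a⁻¹ = y * x ^ k) (n : ℕ) : a ^ n * y * (a ^ n)⁻¹ = y * x ^ (n * k) := by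
  induction n with
  | zero => simp
  | succ n ih =>
    have e : a ^ (n + 1) * y * (a ^ (n + 1))⁻¹ = a * (a ^ n * y * (a ^ n)⁻¹) * a⁻¹ := by
      rw [pow_succ']; simp only [mul_inv_rev, mul_assoc]
    have e2 : k + n * k = (n + 1) * k := by ring
    rw [e, ih, ffp_conj_mul, hay, ffp_conj_pow, hax, mul_assoc, ← pow_add, e2]

theorem ffp_conj_eq_self {p : ℕ} [Fact p.Prime] (a u : G) (ha : a ^ p = 1) (hu : u ^ p = 1)
    (k : ℕ) (h : a * u * a⁻¹ = u ^ k) : a * u * a⁻¹ = u := by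
  have h1 : ∀ n : ℕ, a ^ n * u * (a ^ n)⁻¹ = u ^ (k ^ n) := by
    intro n
    induction n with
    | zero => simp
    | succ n ih =>
      have e : a ^ (n + 1) * u * (a ^ (n + 1))⁻¹ = a * (a ^ n * u * (a ^ n)⁻¹) * a⁻¹ := by
        rw [pow_succ']; simp only [mul_inv_rev, mul_assoc]
      rw [e, ih, ffp_conj_pow, h, ← pow_mul, pow_succ']
  have h2 := h1 p
  rw [ha, one_mul, inv_one, mul_one] at h2
  have h3 : k ^ p ≡ k [MOD p] :=
    (ZMod.natCast_eq_natCast_iff _ _ _).mp (by push_cast; exact ZMod.pow_card _)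
  have h4 : u ^ (k ^ p) = u ^ k := by
    rw [pow_eq_pow_iff_modEq]
    exact h3.of_dvd (orderOf_dvd_of_pow_eq_one hu)
  rw [h, ← h4, ← h2]

theorem ffp_exists_pow [Finite G] {x g : G} (hg : g ∈ Subgroup.zpowers x) :
    ∃ n : ℕ, g = x ^ n := by
  obtain ⟨n, hn⟩ := (Submonoid.mem_powers_iff _ _).mp (mem_powers_iff_mem_zpowers.mpr hg)
  exact ⟨n, hn.symm⟩

theorem ffp_wf_mul {x y : G} (hc : Commute x y) (i j k l : ℕ) :
    (x ^ i * y ^ j) * (x ^ k * y ^ l) = x ^ (i + k) * y ^ (j + l) := by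
  have h := (hc.symm.pow_pow j k).eq
  calc x ^ i * y ^ j * (x ^ k * y ^ l) = x ^ i * (y ^ j * x ^ k) * y ^ l := by
        simp only [mul_assoc]
    _ = x ^ i * (x ^ k * y ^ j) * y ^ l := by rw [h]
    _ = x ^ (i + k) * y ^ (j + l) := by rw [pow_add, pow_add]; simp only [mul_assoc]

theorem ffp_closure_induction [Finite G] {s : Set G} {P : G → Prop} (hs : ∀ g ∈ s, P g)
    (h1 : P 1) (hmul : ∀ g h, P g → P h → P (g * h)) : ∀ g ∈ Subgroup.closure s, P g := by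
  have hpow : ∀ g, P g → ∀ n : ℕ, P (g ^ n) := by
    intro g hg n
    induction n with
    | zero => rw [pow_zero]; exact h1
    | succ n ih => rw [pow_succ]; exact hmul _ _ ih hg
  have hinv : ∀ g, P g → P g⁻¹ := by
    intro g hg
    have e : g⁻¹ = g ^ (orderOf g - 1) := by
      apply inv_eq_of_mul_eq_one_right
      rw [← pow_succ', Nat.sub_add_cancel (orderOf_pos g), pow_orderOf_eq_one]
    rw [e]; exact hpow g hg _
  intro g hg
  exact Subgroup.closure_induction (p := fun g _ => P g) (fun x hx => hs x hx) h1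
    (fun x y _ _ hx hy => hmul x y hx hy) (fun x _ hx => hinv x hx) hg

theorem ffp_exists_inv {p : ℕ} [Fact p.Prime] (k : ℕ) (hk : ¬ p ∣ k) :
    ∃ k' : ℕ, k * k' ≡ 1 [MOD p] := by
  have hne : NeZero p := ⟨(Fact.out : p.Prime).ne_zero⟩
  have hk0 : (k : ZMod p) ≠ 0 := by
    rw [Ne, ZMod.natCast_eq_zero_iff]; exact hk
  refine ⟨((k : ZMod p)⁻¹).val, ?_⟩
  have h1 : ((k * ((k : ZMod p)⁻¹).val : ℕ) : ZMod p) = ((1 : ℕ) : ZMod p) := by
    rw [Nat.cast_mul, ZMod.natCast_zmod_val, mul_inv_cancel₀ hk0, Nat.cast_one]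
  exact (ZMod.natCast_eq_natCast_iff _ _ _).mp h1

theorem ffp_not_dvd_of_inv {p : ℕ} [Fact p.Prime] {k k' : ℕ} (h : k * k' ≡ 1 [MOD p]) :
    ¬ p ∣ k' := by
  intro hdvd
  have h0 : k * k' ≡ 0 [MOD p] := (Nat.modEq_zero_iff_dvd).mpr (Dvd.dvd.mul_left hdvd k)
  have h1 : 1 ≡ 0 [MOD p] := h.symm.trans h0
  have h2 : p ∣ 1 := (Nat.modEq_zero_iff_dvd).mp h1
  exact (Fact.out : p.Prime).one_lt.ne' (Nat.dvd_one.mp h2)

theorem ffp_pow_modEq {u : G} {p : ℕ} (hu : u ^ p = 1) {n m : ℕ} (h : n ≡ m [MOD p]) :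
    u ^ n = u ^ m := by
  rw [pow_eq_pow_iff_modEq]
  exact h.of_dvd (orderOf_dvd_of_pow_eq_one hu)

theorem ffp_pow_modEq_one {u : G} {p : ℕ} (hu : u ^ p = 1) {n : ℕ} (h : n ≡ 1 [MOD p]) :
    u ^ n = u := by
  rw [ffp_pow_modEq hu h, pow_one]

theorem ffp_pow_mod {p : ℕ} {u : G} (hu : u ^ p = 1) (m : ℕ) : u ^ (m % p) = u ^ m := by
  conv_rhs => rw [← Nat.mod_add_div m p]
  rw [pow_add, pow_mul, hu, one_pow, mul_one]

theorem ffp_exists_conj_hom (W L : Subgroup G) (hLW : ∀ g ∈ L, ∀ w ∈ W, g * w * g⁻¹ ∈ W) :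
    ∃ ρ : ↥L →* MulAut ↥W, ∀ (g : ↥L) (w : ↥W),
      ((ρ g w : ↥W) : G) = (g : G) * (w : G) * (g : G)⁻¹ := by
  have hinv : ∀ g ∈ L, ∀ w ∈ W, g⁻¹ * w * g ∈ W := by
    intro g hg w hw
    have h := hLW g⁻¹ (L.inv_mem hg) w hw
    rwa [inv_inv] at h
  let f : ↥L → MulAut ↥W := fun g =>
    { toFun := fun w => ⟨(g : G) * (w : G) * (g : G)⁻¹, hLW g g.2 w w.2⟩
      invFun := fun w => ⟨(g : G)⁻¹ * (w : G) * (g : G), hinv g g.2 w w.2⟩
      left_inv := fun w => Subtype.ext (by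
        show (g : G)⁻¹ * ((g : G) * (w : G) * (g : G)⁻¹) * (g : G) = w
        group)
      right_inv := fun w => Subtype.ext (by
        show (g : G) * ((g : G)⁻¹ * (w : G) * (g : G)) * (g : G)⁻¹ = w
        group)
      map_mul' := fun w₁ w₂ => Subtype.ext (by
        show (g : G) * ((w₁ : G) * (w₂ : G)) * (g : G)⁻¹
          = ((g : G) * (w₁ : G) * (g : G)⁻¹) * ((g : G) * (w₂ : G) * (g : G)⁻¹)
        group) }
  refine ⟨{ toFun := f, map_one' := ?_, map_mul' := ?_ }, fun g w => rfl⟩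
  · apply MulEquiv.ext
    intro w
    apply Subtype.ext
    show ((1 : ↥L) : G) * (w : G) * ((1 : ↥L) : G)⁻¹ = (w : G)
    simp
  · intro g h
    apply MulEquiv.ext
    intro w
    apply Subtype.ext
    show ((g * h : ↥L) : G) * (w : G) * ((g * h : ↥L) : G)⁻¹
      = (g : G) * ((h : G) * (w : G) * (h : G)⁻¹) * (g : G)⁻¹
    rw [Subgroup.coe_mul]
    group

theorem ffp_sl2_of_action {p : ℕ} [Fact p.Prime] {Y : Type*} [Group Y] {W : Type*} [Group W]
    (hcomm : ∀ u v : W, u * v = v * u) (hW : ∀ v : W, v ^ p = 1) (hcard : Nat.card W = p ^ 2)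
    (ρ : Y →* MulAut W) (hρ : Function.Injective ρ) (a b : Y) (x y : W)
    (hx : x ≠ 1) (hy : ∀ n : ℕ, y ≠ x ^ n)
    (hax : ρ a x = x) (hay : ρ a y = y * x) (hby : ρ b y = y) (hbx : ρ b x = x * y)
    (hgen : Subgroup.closure {a, b} = (⊤ : Subgroup Y)) :
    ∃ ψ : Matrix.SpecialLinearGroup (Fin 2) (ZMod p) ≃* Y,
      (∀ t : ZMod p, ψ (sl2U t) = a ^ t.val) ∧ (∀ t : ZMod p, ψ (sl2L t) = b ^ t.val) ∧
      ∀ (M : Matrix.SpecialLinearGroup (Fin 2) (ZMod p)) (α β : ZMod p),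
        ρ (ψ M) (x ^ α.val * y ^ β.val)
          = x ^ (M.1 0 0 * α + M.1 0 1 * β).val * y ^ (M.1 1 0 * α + M.1 1 1 * β).val := by
  letI : CommGroup W := { (inferInstance : Group W) with mul_comm := hcomm }
  have hb := coordHom_bijective hW hcard hx hy
  obtain ⟨Φ, hΦ⟩ : ∃ Φ, Φ = sl2Hom (MulEquiv.ofBijective (coordHom hW x y) hb) := ⟨_, rfl⟩
  have hΦinj : Function.Injective Φ := by rw [hΦ]; exact sl2Hom_injective _
  have hΦU : ∀ t, Φ (sl2U t) = ρ a ^ t.val := by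
    intro t; rw [hΦ]; exact sl2Hom_U hW hb hax hay t
  have hΦL : ∀ t, Φ (sl2L t) = ρ b ^ t.val := by
    intro t; rw [hΦ]; exact sl2Hom_L hW hb hby hbx t
  have hΦmem : ∀ M, Φ M ∈ ρ.range := by
    intro M; rw [hΦ]
    exact sl2Hom_mem hW hb ρ.range ⟨a, rfl⟩ ⟨b, rfl⟩ hax hay hby hbx M
  have hρmem : ∀ g : Y, ρ g ∈ Φ.range := by
    intro g
    have hg : g ∈ Subgroup.closure {a, b} := by rw [hgen]; exact Subgroup.mem_top g
    have hle : Subgroup.closure {a, b} ≤ Φ.range.comap ρ := by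
      rw [Subgroup.closure_le]
      intro c hc
      rcases hc with hca | hcb
      · rw [hca]
        show ρ a ∈ Φ.range
        exact ⟨sl2U 1, by rw [hΦU, ZMod.val_one, pow_one]⟩
      · rw [Set.mem_singleton_iff.mp hcb]
        show ρ b ∈ Φ.range
        exact ⟨sl2L 1, by rw [hΦL, ZMod.val_one, pow_one]⟩
    exact hle hg
  have hex : ∀ M, ∃ g : Y, ρ g = Φ M := fun M => hΦmem M
  choose ψ₀ hψ₀ using hex
  have hψmul : ∀ M N, ψ₀ (M * N) = ψ₀ M * ψ₀ N := by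
    intro M N; apply hρ; rw [hψ₀, map_mul, map_mul, hψ₀, hψ₀]
  have hψinj : Function.Injective ψ₀ := by
    intro M N h; apply hΦinj; rw [← hψ₀, ← hψ₀, h]
  have hψsurj : Function.Surjective ψ₀ := by
    intro g
    obtain ⟨M, hM⟩ := hρmem g
    exact ⟨M, hρ (by rw [hψ₀, hM])⟩
  refine ⟨MulEquiv.ofBijective (MonoidHom.mk' ψ₀ hψmul) ⟨hψinj, hψsurj⟩, ?_, ?_, ?_⟩
  · intro t; apply hρ
    show ρ (ψ₀ (sl2U t)) = ρ (a ^ t.val)
    rw [hψ₀, hΦU, map_pow]
  · intro t; apply hρ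
    show ρ (ψ₀ (sl2L t)) = ρ (b ^ t.val)
    rw [hψ₀, hΦL, map_pow]
  · intro M α β
    show ρ (ψ₀ M) (x ^ α.val * y ^ β.val) = _
    rw [hψ₀, hΦ]
    exact sl2Hom_coord hW hb M α β

theorem ffp_act_form [Finite G] (V : Subgroup G) {a b x y : G}
    (hcomm : ∀ u ∈ V, ∀ v ∈ V, u * v = v * u) (hx : x ∈ V) (hy : y ∈ V)
    (hav : ∀ v ∈ V, ∃ n : ℕ, a * v * a⁻¹ = v * x ^ n)
    (hbv : ∀ v ∈ V, ∃ n : ℕ, b * v * b⁻¹ = v * y ^ n) :
    ∀ g ∈ Subgroup.closure ({a, b} : Set G), ∀ v ∈ V,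
      ∃ i j : ℕ, g * v * g⁻¹ = v * (x ^ i * y ^ j) := by
  apply ffp_closure_induction
    (P := fun g => ∀ v ∈ V, ∃ i j : ℕ, g * v * g⁻¹ = v * (x ^ i * y ^ j))
  · intro c hc v hv
    rcases hc with hca | hcb
    · obtain ⟨n, hn⟩ := hav v hv
      exact ⟨n, 0, by rw [hca, hn, pow_zero, mul_one]⟩
    · obtain ⟨n, hn⟩ := hbv v hv
      exact ⟨0, n, by rw [Set.mem_singleton_iff.mp hcb, hn, pow_zero, one_mul]⟩
  · intro v hv
    exact ⟨0, 0, by simp⟩
  · intro g h hg hh v hv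
    obtain ⟨i, j, hij⟩ := hh v hv
    have hv' : v * (x ^ i * y ^ j) ∈ V :=
      V.mul_mem hv (V.mul_mem (V.pow_mem hx i) (V.pow_mem hy j))
    obtain ⟨k, l, hkl⟩ := hg _ hv'
    refine ⟨i + k, j + l, ?_⟩
    have e : g * h * v * (g * h)⁻¹ = g * (h * v * h⁻¹) * g⁻¹ := by group
    rw [e, hij, hkl, mul_assoc, ffp_wf_mul (hcomm x hx y hy)]

/-- a pair of transvection-like elements acting on an elementary abelian subgroup -/
structure TPair (p : ℕ) (V : Subgroup G) (a b x y : G) : Prop where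
  comm : ∀ u ∈ V, ∀ v ∈ V, u * v = v * u
  exp : ∀ v ∈ V, v ^ p = 1
  hx : x ∈ V
  hy : y ∈ V
  hx1 : x ≠ 1
  hax : a * x * a⁻¹ = x
  hay : a * y * a⁻¹ = y * x
  hbx : b * x * b⁻¹ = x * y
  hby : b * y * b⁻¹ = y
  hav : ∀ v ∈ V, ∃ n : ℕ, a * v * a⁻¹ = v * x ^ n
  hbv : ∀ v ∈ V, ∃ n : ℕ, b * v * b⁻¹ = v * y ^ n

variable {p : ℕ} [Fact p.Prime] {V : Subgroup G} {a b x y : G}

theorem TPair.xy (P : TPair p V a b x y) : Commute x y := P.comm x P.hx y P.hy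

theorem TPair.y_ne (P : TPair p V a b x y) : ∀ n : ℕ, y ≠ x ^ n := by
  intro n hn
  have hxp : x ^ p = 1 := P.exp x P.hx
  have h1 : b * x ^ n * b⁻¹ = x ^ n := by rw [← hn]; exact P.hby
  rw [ffp_conj_pow, P.hbx, hn, ← pow_succ', ← pow_mul] at h1
  have h2 : x ^ (n * n) = 1 := by
    have h3 : x ^ (n * n) * x ^ n = 1 * x ^ n := by
      have e : n * n + n = (n + 1) * n := by ring
      rw [← pow_add, e, h1, one_mul]
    exact mul_right_cancel h3
  have h4 : p ∣ n * n := by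
    have ho : orderOf x = p := orderOf_eq_prime hxp P.hx1
    rw [← ho]; exact orderOf_dvd_of_pow_eq_one h2
  have h5 : p ∣ n := by
    rcases (Nat.Prime.dvd_mul (Fact.out : p.Prime)).mp h4 with h | h <;> exact h
  have hy1 : y = 1 := by
    obtain ⟨m, hm⟩ := h5
    rw [hn, hm, pow_mul, hxp, one_pow]
  have h6 := P.hay
  rw [hy1] at h6
  apply P.hx1
  have h7 : a * 1 * a⁻¹ = (1 : G) := by group
  rw [h7, one_mul] at h6
  exact h6.symm

theorem TPair.conj_a (P : TPair p V a b x y) (i j : ℕ) :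
    a * (x ^ i * y ^ j) * a⁻¹ = x ^ (i + j) * y ^ j := by
  have hc : Commute y x := P.xy.symm
  rw [ffp_conj_mul, ffp_conj_pow, ffp_conj_pow, P.hax, P.hay, hc.mul_pow, (hc.pow_pow j j).eq,
    ← mul_assoc, ← pow_add]

theorem TPair.conj_b (P : TPair p V a b x y) (i j : ℕ) :
    b * (x ^ i * y ^ j) * b⁻¹ = x ^ i * y ^ (i + j) := by
  rw [ffp_conj_mul, ffp_conj_pow, ffp_conj_pow, P.hbx, P.hby, P.xy.mul_pow, mul_assoc, ← pow_add]

theorem TPair.wform [Finite G] (P : TPair p V a b x y) :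
    ∀ w ∈ Subgroup.closure ({x, y} : Set G), ∃ i j : ℕ, w = x ^ i * y ^ j := by
  apply ffp_closure_induction (P := fun w => ∃ i j : ℕ, w = x ^ i * y ^ j)
  · intro c hc
    rcases hc with hcx | hcy
    · exact ⟨1, 0, by rw [hcx, pow_one, pow_zero, mul_one]⟩
    · exact ⟨0, 1, by rw [Set.mem_singleton_iff.mp hcy, pow_one, pow_zero, one_mul]⟩
  · exact ⟨0, 0, by rw [pow_zero, pow_zero, mul_one]⟩
  · rintro g h ⟨i, j, hg⟩ ⟨k, l, hh⟩
    exact ⟨i + k, j + l, by rw [hg, hh, ffp_wf_mul P.xy]⟩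

theorem TPair.W_le (P : TPair p V a b x y) : Subgroup.closure ({x, y} : Set G) ≤ V := by
  rw [Subgroup.closure_le]
  intro c hc
  rcases hc with hcx | hcy
  · rw [hcx]; exact P.hx
  · rw [Set.mem_singleton_iff.mp hcy]; exact P.hy

theorem TPair.act [Finite G] (P : TPair p V a b x y) :
    ∀ g ∈ Subgroup.closure ({a, b} : Set G), ∀ v ∈ V,
      ∃ i j : ℕ, g * v * g⁻¹ = v * (x ^ i * y ^ j) :=
  ffp_act_form V P.comm P.hx P.hy P.hav P.hbv

theorem TPair.comm_le [Finite G] (P : TPair p V a b x y) :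
    ⁅V, Subgroup.closure ({a, b} : Set G)⁆ ≤ Subgroup.closure ({x, y} : Set G) := by
  rw [Subgroup.commutator_le]
  intro v hv g hg
  obtain ⟨i, j, hij⟩ := P.act g hg v⁻¹ (V.inv_mem hv)
  have e : ⁅v, g⁆ = v * (g * v⁻¹ * g⁻¹) := by rw [commutatorElement_def]; group
  rw [e, hij, mul_inv_cancel_left]
  exact Subgroup.mul_mem _ (Subgroup.pow_mem _ (Subgroup.subset_closure (Set.mem_insert _ _)) _)
    (Subgroup.pow_mem _
      (Subgroup.subset_closure (Set.mem_insert_of_mem _ (Set.mem_singleton _))) _)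

theorem TPair.comm_ge (P : TPair p V a b x y) :
    Subgroup.closure ({x, y} : Set G) ≤ ⁅V, Subgroup.closure ({a, b} : Set G)⁆ := by
  rw [Subgroup.closure_le]
  intro c hc
  rcases hc with hcx | hcy
  · have e : x = ⁅y⁻¹, a⁆ := by
      rw [commutatorElement_def, inv_inv]
      calc x = y⁻¹ * (y * x) := by group
        _ = y⁻¹ * (a * y * a⁻¹) := by rw [P.hay]
        _ = y⁻¹ * a * y * a⁻¹ := by group
    rw [hcx, e]
    exact Subgroup.commutator_mem_commutator (V.inv_mem P.hy)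
      (Subgroup.subset_closure (Set.mem_insert _ _))
  · have e : y = ⁅x⁻¹, b⁆ := by
      rw [commutatorElement_def, inv_inv]
      calc y = x⁻¹ * (x * y) := by group
        _ = x⁻¹ * (b * x * b⁻¹) := by rw [P.hbx]
        _ = x⁻¹ * b * x * b⁻¹ := by group
    rw [Set.mem_singleton_iff.mp hcy, e]
    exact Subgroup.commutator_mem_commutator (V.inv_mem P.hx)
      (Subgroup.subset_closure (Set.mem_insert_of_mem _ (Set.mem_singleton _)))

theorem TPair.comm_eq [Finite G] (P : TPair p V a b x y) :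
    ⁅V, Subgroup.closure ({a, b} : Set G)⁆ = Subgroup.closure ({x, y} : Set G) :=
  le_antisymm P.comm_le P.comm_ge

theorem TPair.card_W [Finite G] (P : TPair p V a b x y) :
    Nat.card ↥(Subgroup.closure ({x, y} : Set G)) = p ^ 2 := by
  have hp := (Fact.out : p.Prime)
  have hxp : x ^ p = 1 := P.exp x P.hx
  have hyp : y ^ p = 1 := P.exp y P.hy
  obtain ⟨W, hW⟩ : ∃ W : Subgroup G, W = Subgroup.closure ({x, y} : Set G) := ⟨_, rfl⟩
  rw [← hW]
  have hxW : x ∈ W := by rw [hW]; exact Subgroup.subset_closure (Set.mem_insert _ _)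
  have hyW : y ∈ W := by
    rw [hW]; exact Subgroup.subset_closure (Set.mem_insert_of_mem _ (Set.mem_singleton _))
  have hWV : W ≤ V := by rw [hW]; exact P.W_le
  have hWp : IsPGroup p ↥W := by
    intro w
    refine ⟨1, ?_⟩
    apply Subtype.ext
    rw [pow_one, Subgroup.coe_pow, Subgroup.coe_one]
    exact P.exp _ (hWV w.2)
  obtain ⟨n, hn⟩ := IsPGroup.iff_card.mp hWp
  have hle : Nat.card ↥W ≤ p ^ 2 := by
    have hsurj : Function.Surjective (fun ij : Fin p × Fin p =>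
        (⟨x ^ (ij.1 : ℕ) * y ^ (ij.2 : ℕ),
          W.mul_mem (W.pow_mem hxW _) (W.pow_mem hyW _)⟩ : ↥W)) := by
      intro w
      obtain ⟨i, j, hij⟩ := P.wform w.1 (by rw [← hW]; exact w.2)
      refine ⟨(⟨i % p, Nat.mod_lt _ hp.pos⟩, ⟨j % p, Nat.mod_lt _ hp.pos⟩), ?_⟩
      apply Subtype.ext
      show x ^ (i % p) * y ^ (j % p) = w.1
      rw [hij, ffp_pow_mod hxp, ffp_pow_mod hyp]
    have h := Nat.card_le_card_of_surjective _ hsurj
    rw [Nat.card_prod, Nat.card_fin] at h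
    rw [pow_two]; exact h
  have hlt : p < Nat.card ↥W := by
    have hZ : Subgroup.zpowers x ≤ W := Subgroup.zpowers_le.mpr hxW
    have hne : Subgroup.zpowers x ≠ W := by
      intro h
      have hy' : y ∈ Subgroup.zpowers x := by rw [h]; exact hyW
      obtain ⟨m, hm⟩ := ffp_exists_pow hy'
      exact P.y_ne m hm
    have hcz : Nat.card ↥(Subgroup.zpowers x) = p := by
      rw [Nat.card_zpowers]; exact orderOf_eq_prime hxp P.hx1
    by_contra hcon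
    push_neg at hcon
    exact hne (Subgroup.eq_of_le_of_card_ge hZ (by rw [hcz]; exact hcon))
  rw [hn] at hle hlt ⊢
  have h1 : n ≤ 2 := (Nat.pow_le_pow_iff_right hp.one_lt).mp hle
  have h2 : 1 < n := by
    have h3 : p ^ 1 < p ^ n := by rw [pow_one]; exact hlt
    exact (Nat.pow_lt_pow_iff_right hp.one_lt).mp h3
  have h3 : n = 2 := by omega
  rw [h3]

theorem TPair.main [Finite G] (P : TPair p V a b x y)
    (hfaith : ∀ g ∈ Subgroup.closure ({a, b} : Set G), g * x * g⁻¹ = x → g * y * g⁻¹ = y → g = 1) :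
    ∃ ψ : Matrix.SpecialLinearGroup (Fin 2) (ZMod p) ≃* ↥(Subgroup.closure ({a, b} : Set G)),
      (∀ t : ZMod p, ((ψ (sl2U t) : ↥(Subgroup.closure ({a, b} : Set G))) : G) = a ^ t.val) ∧
      (∀ t : ZMod p, ((ψ (sl2L t) : ↥(Subgroup.closure ({a, b} : Set G))) : G) = b ^ t.val) ∧
      ∀ (M : Matrix.SpecialLinearGroup (Fin 2) (ZMod p)) (α β : ZMod p),
        ((ψ M : ↥(Subgroup.closure ({a, b} : Set G))) : G) * (x ^ α.val * y ^ β.val)
            * ((ψ M : ↥(Subgroup.closure ({a, b} : Set G))) : G)⁻¹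
          = x ^ (M.1 0 0 * α + M.1 0 1 * β).val * y ^ (M.1 1 0 * α + M.1 1 1 * β).val := by
  obtain ⟨L, hL⟩ : ∃ L : Subgroup G, L = Subgroup.closure ({a, b} : Set G) := ⟨_, rfl⟩
  obtain ⟨W, hW⟩ : ∃ W : Subgroup G, W = Subgroup.closure ({x, y} : Set G) := ⟨_, rfl⟩
  rw [← hL] at hfaith ⊢
  have haL : a ∈ L := by rw [hL]; exact Subgroup.subset_closure (Set.mem_insert _ _)
  have hbL : b ∈ L := by
    rw [hL]; exact Subgroup.subset_closure (Set.mem_insert_of_mem _ (Set.mem_singleton _))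
  have hxW : x ∈ W := by rw [hW]; exact Subgroup.subset_closure (Set.mem_insert _ _)
  have hyW : y ∈ W := by
    rw [hW]; exact Subgroup.subset_closure (Set.mem_insert_of_mem _ (Set.mem_singleton _))
  have hWV : W ≤ V := by rw [hW]; exact P.W_le
  have hLW : ∀ g ∈ L, ∀ w ∈ W, g * w * g⁻¹ ∈ W := by
    intro g hg w hw
    obtain ⟨i, j, hij⟩ := P.act g (by rw [← hL]; exact hg) w (hWV hw)
    rw [hij]
    exact W.mul_mem hw (W.mul_mem (W.pow_mem hxW i) (W.pow_mem hyW j))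
  obtain ⟨ρ, hρ⟩ := ffp_exists_conj_hom W L hLW
  have hρinj : Function.Injective ρ := by
    rw [injective_iff_map_eq_one]
    intro g hg
    apply Subtype.ext
    rw [Subgroup.coe_one]
    apply hfaith g.1 g.2
    · have h := hρ g ⟨x, hxW⟩
      rw [hg] at h
      exact h.symm
    · have h := hρ g ⟨y, hyW⟩
      rw [hg] at h
      exact h.symm
  have hcardW : Nat.card ↥W = p ^ 2 := by rw [hW]; exact P.card_W
  have hgen : Subgroup.closure ({(⟨a, haL⟩ : ↥L), ⟨b, hbL⟩} : Set ↥L) = ⊤ := by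
    have h1 : (Subgroup.closure ({(⟨a, haL⟩ : ↥L), ⟨b, hbL⟩} : Set ↥L)).map L.subtype = L := by
      rw [MonoidHom.map_closure, Set.image_pair]
      exact hL.symm
    rw [eq_top_iff]
    intro g _
    have hg : (g : G) ∈ (Subgroup.closure ({(⟨a, haL⟩ : ↥L), ⟨b, hbL⟩} : Set ↥L)).map
        L.subtype := by
      rw [h1]; exact g.2
    obtain ⟨g', hg', hgg'⟩ := hg
    have h2 : g' = g := Subtype.ext hgg'
    rw [← h2]; exact hg'
  have e1 : ρ ⟨a, haL⟩ ⟨x, hxW⟩ = ⟨x, hxW⟩ := Subtype.ext (by rw [hρ]; exact P.hax)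
  have e2 : ρ ⟨a, haL⟩ ⟨y, hyW⟩ = ⟨y, hyW⟩ * ⟨x, hxW⟩ := Subtype.ext (by rw [hρ]; exact P.hay)
  have e3 : ρ ⟨b, hbL⟩ ⟨y, hyW⟩ = ⟨y, hyW⟩ := Subtype.ext (by rw [hρ]; exact P.hby)
  have e4 : ρ ⟨b, hbL⟩ ⟨x, hxW⟩ = ⟨x, hxW⟩ * ⟨y, hyW⟩ := Subtype.ext (by rw [hρ]; exact P.hbx)
  obtain ⟨ψ, hψU, hψL, hψact⟩ := ffp_sl2_of_action (p := p) (Y := ↥L) (W := ↥W)
    (fun u v => Subtype.ext (P.comm u.1 (hWV u.2) v.1 (hWV v.2)))
    (fun v => Subtype.ext (by
      rw [Subgroup.coe_pow, Subgroup.coe_one]; exact P.exp v.1 (hWV v.2)))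
    hcardW ρ hρinj ⟨a, haL⟩ ⟨b, hbL⟩ ⟨x, hxW⟩ ⟨y, hyW⟩
    (fun h => P.hx1 (congrArg Subtype.val h))
    (fun n h => P.y_ne n (by
      have h' := congrArg Subtype.val h
      rwa [Subgroup.coe_pow] at h'))
    e1 e2 e3 e4 hgen
  refine ⟨ψ, ?_, ?_, ?_⟩
  · intro t; rw [hψU, Subgroup.coe_pow]
  · intro t; rw [hψL, Subgroup.coe_pow]
  · intro M α β
    have h := congrArg Subtype.val (hψact M α β)
    rw [hρ] at h
    simp only [Subgroup.coe_mul, Subgroup.coe_pow] at h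
    exact h

end Cfsg.Agent.Helper1
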