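import Mathlib
import Cfsg.Prelude.Def_PLocal
import Cfsg.Agent.Helper1.FFPair
import Cfsg.Agent.Helper9.Offender3

set_option autoImplicit false

namespace Cfsg.Agent.Helper1

open Cfsg.Agent.Helper26
open scoped commutatorElement

variable {G : Type*} [Group G]

/-- the standing hypotheses of the FF-module lemmas, in elementwise form -/
structure FFSet (p : ℕ) (V H Q : Subgroup G) : Prop where
  comm : ∀ u ∈ V, ∀ v ∈ V, u * v = v * u
  exp : ∀ v ∈ V, v ^ p = 1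
  hHV : ∀ g ∈ H, ∀ v ∈ V, g * v * g⁻¹ ∈ V
  faith : ∀ g ∈ H, (∀ v ∈ V, g * v * g⁻¹ = v) → g = 1
  hQH : Q ≤ H
  hQp : (Nat.card Q).Coprime p
  hHQ : ∀ g ∈ H, ∀ r ∈ Q, g * r * g⁻¹ ∈ Q
  hQc : ∀ c ∈ H, c ^ p = 1 → (∀ r ∈ Q, r * c = c * r) → c = 1

theorem ffset_of [Finite G] {p : ℕ} [Fact p.Prime] (V H : Subgroup G)
    (hV : Cfsg.IsElementaryAbelian p V) (hHV : H ≤ Subgroup.normalizer (V : Set G))
    (hf : H ⊓ Subgroup.centralizer (V : Set G) = ⊥)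
    (hS1 : Subgroup.centralizer (Cfsg.pPrimeCore p ↥H : Set ↥H) ≤ Cfsg.pPrimeCore p ↥H) :
    FFSet p V H ((Cfsg.pPrimeCore p ↥H).map H.subtype) := by
  obtain ⟨Q, hQ⟩ : ∃ Q : Subgroup G, Q = (Cfsg.pPrimeCore p ↥H).map H.subtype := ⟨_, rfl⟩
  rw [← hQ]
  have hQH : Q ≤ H := by rw [hQ]; exact Subgroup.map_subtype_le _
  have hQp : (Nat.card Q).Coprime p := by
    rw [hQ, Subgroup.card_map_of_injective H.subtype_injective]
    exact Cfsg.Agent.Helper9.pPrimeCore_coprime p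
  have hHQ : H ≤ Subgroup.normalizer (Q : Set G) := by
    rw [hQ]
    exact Subgroup.le_normalizer.trans
      (Cfsg.Agent.Helper9.char_map_normalizer H (Cfsg.pPrimeCore p ↥H))
  refine ⟨?_, hV.2, ?_, ?_, hQH, hQp, ?_, ?_⟩
  · intro u hu v hv
    have h := hV.1.is_comm.comm ⟨u, hu⟩ ⟨v, hv⟩
    exact congrArg Subtype.val h
  · intro g hg v hv
    exact (Subgroup.mem_normalizer_iff.mp (hHV hg) v).mp hv
  · intro g hg hgv
    have h1 : g ∈ H ⊓ Subgroup.centralizer (V : Set G) := by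
      refine Subgroup.mem_inf.mpr ⟨hg, Subgroup.mem_centralizer_iff.mpr ?_⟩
      intro v hv
      have h := hgv v hv
      calc v * g = g * v * g⁻¹ * g := by rw [h]
        _ = g * v := by group
    rw [hf, Subgroup.mem_bot] at h1
    exact h1
  · intro g hg r hr
    exact (Subgroup.mem_normalizer_iff.mp (hHQ hg) r).mp hr
  · intro c hc hcp hcQ
    have h1 : (⟨c, hc⟩ : ↥H) ∈ Subgroup.centralizer (Cfsg.pPrimeCore p ↥H : Set ↥H) := by
      refine Subgroup.mem_centralizer_iff.mpr fun k hk => Subtype.ext ?_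
      have hk' : (k : G) ∈ Q := by rw [hQ]; exact ⟨k, hk, rfl⟩
      exact hcQ _ hk'
    have h2 : c ∈ Q := by rw [hQ]; exact ⟨⟨c, hc⟩, hS1 h1, rfl⟩
    have h3 : orderOf c ∣ Nat.card Q := Q.orderOf_dvd_natCard h2
    have h4 : orderOf c ∣ p := orderOf_dvd_of_pow_eq_one hcp
    have h5 : orderOf c = 1 := Nat.eq_one_of_dvd_coprimes hQp h3 h4
    exact orderOf_eq_one_iff.mp h5

theorem ffp_eq_one_of_coprime [Finite G] {p : ℕ} {Q : Subgroup G}
    (hQp : (Nat.card Q).Coprime p) {d : G} (hd : d ∈ Q) (hdp : d ^ p = 1) : d = 1 := by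
  have h3 : orderOf d ∣ Nat.card Q := Q.orderOf_dvd_natCard hd
  have h4 : orderOf d ∣ p := orderOf_dvd_of_pow_eq_one hdp
  exact orderOf_eq_one_iff.mp (Nat.eq_one_of_dvd_coprimes hQp h3 h4)

/-- `a` is a transvection-like element of order dividing `p` with centre `x` -/
structure IsTv (p : ℕ) (V H : Subgroup G) (a x : G) : Prop where
  aH : a ∈ H
  ap : a ^ p = 1
  xV : x ∈ V
  x1 : x ≠ 1
  ax : a * x * a⁻¹ = x
  av : ∀ v ∈ V, ∃ n : ℕ, a * v * a⁻¹ = v * x ^ n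

theorem IsTv.conj {p : ℕ} {V H Q : Subgroup G} {a x : G} (S : FFSet p V H Q)
    (T : IsTv p V H a x) {g : G} (hg : g ∈ H) : IsTv p V H (g * a * g⁻¹) (g * x * g⁻¹) := by
  refine ⟨H.mul_mem (H.mul_mem hg T.aH) (H.inv_mem hg), ?_, S.hHV g hg x T.xV, ?_, ?_, ?_⟩
  · rw [conj_pow, T.ap]; group
  · intro h
    apply T.x1
    calc x = g⁻¹ * (g * x * g⁻¹) * g := by group
      _ = 1 := by rw [h]; group
  · calc g * a * g⁻¹ * (g * x * g⁻¹) * (g * a * g⁻¹)⁻¹ = g * (a * x * a⁻¹) * g⁻¹ := by group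
      _ = g * x * g⁻¹ := by rw [T.ax]
  · intro v hv
    have hv' : g⁻¹ * v * g ∈ V := by
      have h := S.hHV g⁻¹ (H.inv_mem hg) v hv
      rwa [inv_inv] at h
    obtain ⟨n, hn⟩ := T.av _ hv'
    refine ⟨n, ?_⟩
    calc g * a * g⁻¹ * v * (g * a * g⁻¹)⁻¹ = g * (a * (g⁻¹ * v * g) * a⁻¹) * g⁻¹ := by group
      _ = g * (g⁻¹ * v * g * x ^ n) * g⁻¹ := by rw [hn]
      _ = v * (g * x ^ n * g⁻¹) := by simp only [mul_assoc, mul_inv_cancel_left]
      _ = v * (g * x * g⁻¹) ^ n := by rw [ffp_conj_pow]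

theorem ffp_cyclic_of_card [Finite G] {p : ℕ} [Fact p.Prime] (A : Subgroup G)
    (hA : Nat.card A = p) : ∃ a ∈ A, a ≠ 1 ∧ a ^ p = 1 ∧ A = Subgroup.zpowers a := by
  have hp := (Fact.out : p.Prime)
  have hne : A ≠ ⊥ := by
    intro h
    rw [h, Subgroup.card_bot] at hA
    exact hp.one_lt.ne hA
  have hex : ∃ a ∈ A, a ≠ 1 := by
    by_contra hcon
    push_neg at hcon
    exact hne (by rw [Subgroup.eq_bot_iff_forall]; exact hcon)
  obtain ⟨a, ha, ha1⟩ := hex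
  have hap : a ^ p = 1 := by
    have h := A.orderOf_dvd_natCard ha
    rw [hA] at h
    exact orderOf_dvd_iff_pow_eq_one.mp h
  refine ⟨a, ha, ha1, hap, ?_⟩
  symm
  apply Subgroup.eq_of_le_of_card_ge (Subgroup.zpowers_le.mpr ha)
  exact le_of_eq (by rw [Nat.card_zpowers, orderOf_eq_prime hap ha1, hA])

theorem tv_of_offender [Finite G] {p : ℕ} [Fact p.Prime] {V H Q : Subgroup G}
    (S : FFSet p V H Q) (A : Subgroup G) (hAH : A ≤ H) (hA : Nat.card A = p)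
    (hU : Nat.card ↥(⁅V, A⁆) = p) :
    ∃ a x : G, IsTv p V H a x ∧ a ≠ 1 ∧ A = Subgroup.zpowers a ∧
      ⁅V, A⁆ = Subgroup.zpowers x := by
  obtain ⟨a, haA, ha1, hap, hAz⟩ := ffp_cyclic_of_card A hA
  have hUV : ⁅V, A⁆ ≤ V := by
    rw [Subgroup.commutator_le]
    intro v hv g hg
    have e : ⁅v, g⁆ = v * (g * v⁻¹ * g⁻¹) := by rw [commutatorElement_def]; group
    rw [e]
    exact V.mul_mem hv (S.hHV g (hAH hg) v⁻¹ (V.inv_mem hv))
  obtain ⟨x, hxU, hx1, hxp, hUz⟩ := ffp_cyclic_of_card ⁅V, A⁆ hU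
  have hxV : x ∈ V := hUV hxU
  have hav : ∀ v ∈ V, ∃ n : ℕ, a * v * a⁻¹ = v * x ^ n := by
    intro v hv
    have h1 : ⁅v⁻¹, a⁆ ∈ ⁅V, A⁆ := Subgroup.commutator_mem_commutator (V.inv_mem hv) haA
    rw [hUz] at h1
    obtain ⟨n, hn⟩ := ffp_exists_pow h1
    refine ⟨n, ?_⟩
    rw [← hn, commutatorElement_def, inv_inv]
    group
  have hax : a * x * a⁻¹ = x := by
    obtain ⟨n, hn⟩ := hav x hxV
    exact ffp_conj_eq_self a x hap hxp (n + 1) (by rw [hn, pow_succ'])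
  exact ⟨a, x, ⟨hAH haA, hap, hxV, hx1, hax, hav⟩, ha1, hAz, hUz⟩

theorem ffp_qrep [Finite G] {p : ℕ} {V H Q : Subgroup G} (S : FFSet p V H Q) {a b : G}
    (haH : a ∈ H) (hab : b * a⁻¹ ∈ Q) :
    ∀ g ∈ Subgroup.closure ({a, b} : Set G), ∃ r ∈ Q, ∃ i : ℕ, g = r * a ^ i := by
  apply ffp_closure_induction (P := fun g => ∃ r ∈ Q, ∃ i : ℕ, g = r * a ^ i)
  · intro c hc
    rcases hc with hca | hcb
    · exact ⟨1, Q.one_mem, 1, by rw [hca, one_mul, pow_one]⟩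
    · exact ⟨b * a⁻¹, hab, 1, by
        rw [Set.mem_singleton_iff.mp hcb, pow_one, inv_mul_cancel_right]⟩
  · exact ⟨1, Q.one_mem, 0, by rw [one_mul, pow_zero]⟩
  · rintro g h ⟨r, hr, i, hg⟩ ⟨r', hr', j, hh⟩
    refine ⟨r * (a ^ i * r' * (a ^ i)⁻¹),
      Q.mul_mem hr (S.hHQ _ (H.pow_mem haH i) r' hr'), i + j, ?_⟩
    rw [hg, hh, pow_add]
    simp only [mul_assoc, inv_mul_cancel_left]

theorem ffp_kernel [Finite G] {p : ℕ} [Fact p.Prime] {V H Q : Subgroup G} (S : FFSet p V H Q)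
    {a b x y : G} (haH : a ∈ H) (hbH : b ∈ H) (hap : a ^ p = 1) (hx : x ∈ V) (hy : y ∈ V)
    (hax : a * x * a⁻¹ = x) (hav : ∀ v ∈ V, ∃ n : ℕ, a * v * a⁻¹ = v * x ^ n)
    (hbv : ∀ v ∈ V, ∃ n : ℕ, b * v * b⁻¹ = v * y ^ n)
    (hrep : ∀ g ∈ Subgroup.closure ({a, b} : Set G), ∃ r ∈ Q, ∃ i : ℕ, g = r * a ^ i) :
    ∀ g ∈ Subgroup.closure ({a, b} : Set G), g * x * g⁻¹ = x → g * y * g⁻¹ = y →
      ∃ i : ℕ, g = a ^ i := by
  have haL : a ∈ Subgroup.closure ({a, b} : Set G) :=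
    Subgroup.subset_closure (Set.mem_insert _ _)
  have hLH : Subgroup.closure ({a, b} : Set G) ≤ H := by
    rw [Subgroup.closure_le]
    intro c hc
    rcases hc with hca | hcb
    · rw [hca]; exact haH
    · rw [Set.mem_singleton_iff.mp hcb]; exact hbH
  have hstep1 : ∀ g ∈ Subgroup.closure ({a, b} : Set G), g * x * g⁻¹ = x → g * y * g⁻¹ = y →
      g ^ p = 1 := by
    intro g hg hgx hgy
    have hgp : g ^ p ∈ H := H.pow_mem (hLH hg) p
    apply S.faith _ hgp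
    intro v hv
    obtain ⟨i, j, hij⟩ := ffp_act_form V S.comm hx hy hav hbv g hg v hv
    have hw : g * (x ^ i * y ^ j) * g⁻¹ = x ^ i * y ^ j := by
      rw [ffp_conj_mul, ffp_conj_pow, ffp_conj_pow, hgx, hgy]
    have h := ffp_conj_pow_shift g (x ^ i * y ^ j) v hw 1 (by rw [pow_one]; exact hij) p
    rw [h, mul_one, S.exp _ (V.mul_mem (V.pow_mem hx i) (V.pow_mem hy j)), mul_one]
  intro g hg hgx hgy
  obtain ⟨m, hm⟩ := hav y hy
  obtain ⟨d, hd⟩ : ∃ d : G, d = a⁻¹ * g * a * g⁻¹ := ⟨_, rfl⟩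
  have hdL : d ∈ Subgroup.closure ({a, b} : Set G) := by
    rw [hd]
    exact Subgroup.mul_mem _ (Subgroup.mul_mem _ (Subgroup.mul_mem _ (Subgroup.inv_mem _ haL) hg)
      haL) (Subgroup.inv_mem _ hg)
  have hgx' : g⁻¹ * x * g = x := by
    calc g⁻¹ * x * g = g⁻¹ * (g * x * g⁻¹) * g := by rw [hgx]
      _ = x := by group
  have hgy' : g⁻¹ * y * g = y := by
    calc g⁻¹ * y * g = g⁻¹ * (g * y * g⁻¹) * g := by rw [hgy]
      _ = y := by group
  have hax' : a⁻¹ * x * a = x := by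
    calc a⁻¹ * x * a = a⁻¹ * (a * x * a⁻¹) * a := by rw [hax]
      _ = x := by group
  have hdx : d * x * d⁻¹ = x := by
    calc d * x * d⁻¹ = a⁻¹ * (g * (a * (g⁻¹ * x * g) * a⁻¹) * g⁻¹) * a := by rw [hd]; group
      _ = x := by rw [hgx', hax, hgx, hax']
  have hdy : d * y * d⁻¹ = y := by
    calc d * y * d⁻¹ = a⁻¹ * (g * (a * (g⁻¹ * y * g) * a⁻¹) * g⁻¹) * a := by rw [hd]; group
      _ = a⁻¹ * (g * (y * x ^ m) * g⁻¹) * a := by rw [hgy', hm]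
      _ = a⁻¹ * (y * x ^ m) * a := by rw [ffp_conj_mul, ffp_conj_pow, hgx, hgy]
      _ = a⁻¹ * (a * y * a⁻¹) * a := by rw [hm]
      _ = y := by group
  have hdp : d ^ p = 1 := hstep1 d hdL hdx hdy
  have hdQ : d ∈ Q := by
    obtain ⟨r, hr, i, hgi⟩ := hrep g hg
    have e : d = (a⁻¹ * r * a⁻¹⁻¹) * r⁻¹ := by
      rw [hd, hgi, inv_inv]
      have hc : a ^ i * a = a * a ^ i := ((Commute.refl a).pow_left i).eq
      simp only [mul_inv_rev, mul_assoc]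
      rw [← mul_assoc (a ^ i) a, hc, mul_assoc a, mul_inv_cancel_left]
    rw [e]
    exact Q.mul_mem (S.hHQ _ (H.inv_mem haH) r hr) (Q.inv_mem hr)
  have hd1 : d = 1 := ffp_eq_one_of_coprime S.hQp hdQ hdp
  have hcomm : a * g = g * a := by
    have h1 : a⁻¹ * g * a * g⁻¹ = 1 := by rw [← hd]; exact hd1
    calc a * g = a * (a⁻¹ * g * a * g⁻¹) * g := by rw [h1, mul_one]
      _ = g * a := by group
  obtain ⟨r, hr, i, hgi⟩ := hrep g hg
  have hgp : g ^ p = 1 := hstep1 g hg hgx hgy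
  have hr_eq : r = g * (a ^ i)⁻¹ := by rw [hgi, mul_inv_cancel_right]
  have hc1 : Commute g ((a ^ i)⁻¹) := by
    have h0 : Commute a g := hcomm
    exact ((h0.pow_left i).inv_left).symm
  have hrp : r ^ p = 1 := by
    rw [hr_eq, hc1.mul_pow, hgp, one_mul, inv_pow, ← pow_mul, mul_comm, pow_mul, hap, one_pow,
      inv_one]
  have hr1 : r = 1 := ffp_eq_one_of_coprime S.hQp hr hrp
  exact ⟨i, by rw [hgi, hr1, one_mul]⟩

/-- the data produced from a transvection `a` and an element `q` of the `p'`-core not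
commuting with it -/
structure PData (p : ℕ) (V H Q : Subgroup G) (a b x y q : G) : Prop where
  P : TPair p V a b x y
  bH : b ∈ H
  bp : b ^ p = 1
  hcl : Subgroup.closure ({a, b} : Set G) = Subgroup.closure ({a, q * a * q⁻¹} : Set G)
  hbs : ∃ s : ℕ, q * a * q⁻¹ = b ^ s
  hyk : ∃ k : ℕ, y = (q * x * q⁻¹) ^ k
  hky : ∃ k : ℕ, q * x * q⁻¹ = y ^ k
  faith : ∀ g ∈ Subgroup.closure ({a, b} : Set G), g * x * g⁻¹ = x → g * y * g⁻¹ = y → g = 1
  rep : ∀ g ∈ Subgroup.closure ({a, b} : Set G), ∃ r ∈ Q, ∃ i : ℕ, g = r * a ^ i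

theorem ffp_pair [Finite G] {p : ℕ} [Fact p.Prime] {V H Q : Subgroup G} (S : FFSet p V H Q)
    {a x : G} (T : IsTv p V H a x) (ha1 : a ≠ 1) {q : G} (hq : q ∈ Q) (hqa : q * a ≠ a * q) :
    ∃ b y : G, PData p V H Q a b x y q := by
  have hp := (Fact.out : p.Prime)
  have hqH : q ∈ H := S.hQH hq
  have T₀ := T.conj S hqH
  obtain ⟨b₀, hb₀⟩ : ∃ b₀ : G, b₀ = q * a * q⁻¹ := ⟨_, rfl⟩
  obtain ⟨y₀, hy₀⟩ : ∃ y₀ : G, y₀ = q * x * q⁻¹ := ⟨_, rfl⟩
  rw [← hb₀, ← hy₀] at T₀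
  have hab₀ : b₀ * a⁻¹ ∈ Q := by
    have e : b₀ * a⁻¹ = q * (a * q⁻¹ * a⁻¹) := by rw [hb₀]; group
    rw [e]
    exact Q.mul_mem hq (S.hHQ a T.aH q⁻¹ (Q.inv_mem hq))
  have hab₀' : a * b₀⁻¹ ∈ Q := by
    have e : a * b₀⁻¹ = (b₀ * a⁻¹)⁻¹ := by group
    rw [e]; exact Q.inv_mem hab₀
  have hrep := ffp_qrep S T.aH hab₀
  have hrep' := ffp_qrep S T₀.aH hab₀'
  have K₁ := ffp_kernel S T.aH T₀.aH T.ap T.xV T₀.xV T.ax T.av T₀.av hrep
  have K₂ := ffp_kernel S T₀.aH T.aH T₀.ap T₀.xV T.xV T₀.ax T₀.av T.av hrep'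
  have hswap : Subgroup.closure ({b₀, a} : Set G) = Subgroup.closure ({a, b₀} : Set G) := by
    rw [Set.pair_comm]
  have hA : ∀ i j : ℕ, a ^ i = b₀ ^ j → a ^ i = 1 := by
    intro i j hij
    by_contra hne
    have h1 : a ∈ Subgroup.zpowers (a ^ i) :=
      Cfsg.Agent.Helper9.mem_zpowers_of_ne_one9 T.ap
        (Subgroup.pow_mem _ (Subgroup.mem_zpowers a) i) hne
    have h2 : b₀ ∈ Subgroup.zpowers (b₀ ^ j) :=
      Cfsg.Agent.Helper9.mem_zpowers_of_ne_one9 T₀.ap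
        (Subgroup.pow_mem _ (Subgroup.mem_zpowers b₀) j) (by rw [← hij]; exact hne)
    rw [← hij] at h2
    have h3 : b₀ ∈ Subgroup.zpowers a :=
      (Subgroup.zpowers_le.mpr (Subgroup.pow_mem _ (Subgroup.mem_zpowers a) i)) h2
    obtain ⟨n, hn⟩ := ffp_exists_pow h3
    have hc : Commute (a ^ n) a⁻¹ := ((Commute.refl a).pow_left n).inv_right
    have h4 : (b₀ * a⁻¹) ^ p = 1 := by
      rw [hn, hc.mul_pow, ← pow_mul, mul_comm n p, pow_mul, T.ap, one_pow, one_mul, inv_pow,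
        T.ap, inv_one]
    have h5 : b₀ * a⁻¹ = 1 := ffp_eq_one_of_coprime S.hQp hab₀ h4
    apply hqa
    have h6 : b₀ = a := by
      calc b₀ = b₀ * a⁻¹ * a := by group
        _ = a := by rw [h5, one_mul]
    calc q * a = q * a * q⁻¹ * q := by group
      _ = a * q := by rw [← hb₀, h6]
  obtain ⟨k, hk⟩ := T.av y₀ T₀.xV
  obtain ⟨m, hm⟩ := T₀.av x T.xV
  have haL : a ∈ Subgroup.closure ({a, b₀} : Set G) :=
    Subgroup.subset_closure (Set.mem_insert _ _)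
  have hbL : b₀ ∈ Subgroup.closure ({a, b₀} : Set G) :=
    Subgroup.subset_closure (Set.mem_insert_of_mem _ (Set.mem_singleton _))
  have hxp : x ^ p = 1 := S.exp x T.xV
  have hy₀p : y₀ ^ p = 1 := S.exp y₀ T₀.xV
  have hkp : ¬ p ∣ k := by
    intro hdvd
    obtain ⟨c, hc⟩ := hdvd
    rw [hc, pow_mul, hxp, one_pow, mul_one] at hk
    obtain ⟨i, hi⟩ := K₂ a (by rw [hswap]; exact haL) hk T.ax
    apply ha1
    have h1 := hA 1 i (by rw [pow_one]; exact hi)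
    rwa [pow_one] at h1
  have hmp : ¬ p ∣ m := by
    intro hdvd
    obtain ⟨c, hc⟩ := hdvd
    rw [hc, pow_mul, hy₀p, one_pow, mul_one] at hm
    obtain ⟨i, hi⟩ := K₁ b₀ hbL hm T₀.ax
    have h1 : a ^ i = 1 := hA i 1 (by rw [pow_one]; exact hi.symm)
    apply ha1
    have h2 : q * a * q⁻¹ = 1 := by rw [← hb₀, hi, h1]
    calc a = q⁻¹ * (q * a * q⁻¹) * q := by group
      _ = 1 := by rw [h2]; group
  obtain ⟨k', hk'⟩ := ffp_exists_inv (p := p) k hkp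
  obtain ⟨m', hm'⟩ := ffp_exists_inv (p := p) m hmp
  have hk'p : ¬ p ∣ k' := ffp_not_dvd_of_inv hk'
  have hm'p : ¬ p ∣ m' := ffp_not_dvd_of_inv hm'
  obtain ⟨t, ht⟩ : ∃ t : ℕ, t = m' * k' := ⟨_, rfl⟩
  have htp : ¬ p ∣ t := by
    rw [ht]; intro hdvd
    rcases (Nat.Prime.dvd_mul hp).mp hdvd with h | h
    · exact hm'p h
    · exact hk'p h
  obtain ⟨t', ht'⟩ := ffp_exists_inv (p := p) t htp
  obtain ⟨b, hb⟩ : ∃ b : G, b = b₀ ^ t := ⟨_, rfl⟩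
  obtain ⟨y, hy⟩ : ∃ y : G, y = y₀ ^ k' := ⟨_, rfl⟩
  have hxy₀ : Commute x y₀ := S.comm x T.xV y₀ T₀.xV
  have hyV : y ∈ V := by rw [hy]; exact V.pow_mem T₀.xV k'
  have hy₀y : y₀ = y ^ k := by
    rw [hy, ← pow_mul]
    exact (ffp_pow_modEq_one hy₀p (by rw [mul_comm]; exact hk')).symm
  have hay : a * y * a⁻¹ = y * x := by
    rw [hy, ffp_conj_pow, hk, (hxy₀.symm.pow_right k).mul_pow, ← pow_mul,
      ffp_pow_modEq_one hxp hk']
  have hbx : b * x * b⁻¹ = x * y := by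
    rw [hb, ffp_conj_pow_shift b₀ y₀ x T₀.ax m hm t, hy]
    congr 1
    apply ffp_pow_modEq hy₀p
    rw [ht]
    have e : m' * k' * m = (m * m') * k' := by ring
    rw [e]
    have h1 := hm'.mul_right k'
    rwa [one_mul] at h1
  have hby : b * y * b⁻¹ = y := by
    rw [hb, hy, ffp_conj_pow, ffp_conj_pow_fix b₀ y₀ T₀.ax t]
  have hbv : ∀ v ∈ V, ∃ n : ℕ, b * v * b⁻¹ = v * y ^ n := by
    intro v hv
    obtain ⟨n₀, hn₀⟩ := T₀.av v hv
    refine ⟨k * (t * n₀), ?_⟩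
    rw [hb, ffp_conj_pow_shift b₀ y₀ v T₀.ax n₀ hn₀ t, pow_mul y k (t * n₀), ← hy₀y]
  have hbb₀ : b₀ = b ^ t' := by
    rw [hb, ← pow_mul]
    exact (ffp_pow_modEq_one T₀.ap ht').symm
  have hcl : Subgroup.closure ({a, b} : Set G) = Subgroup.closure ({a, b₀} : Set G) := by
    apply le_antisymm
    · rw [Subgroup.closure_le]
      intro c hc
      rcases hc with hca | hcb
      · rw [hca]; exact haL
      · rw [Set.mem_singleton_iff.mp hcb, hb]; exact Subgroup.pow_mem _ hbL t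
    · rw [Subgroup.closure_le]
      intro c hc
      rcases hc with hca | hcb
      · rw [hca]; exact Subgroup.subset_closure (Set.mem_insert _ _)
      · rw [Set.mem_singleton_iff.mp hcb, hbb₀]
        exact Subgroup.pow_mem _
          (Subgroup.subset_closure (Set.mem_insert_of_mem _ (Set.mem_singleton _))) t'
  have hfaith : ∀ g ∈ Subgroup.closure ({a, b} : Set G), g * x * g⁻¹ = x → g * y * g⁻¹ = y →
      g = 1 := by
    intro g hg hgx hgy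
    rw [hcl] at hg
    have hgy₀ : g * y₀ * g⁻¹ = y₀ := by
      rw [hy₀y, ffp_conj_pow, hgy]
    obtain ⟨i, hi⟩ := K₁ g hg hgx hgy₀
    obtain ⟨j, hj⟩ := K₂ g (by rw [hswap]; exact hg) hgy₀ hgx
    rw [hi]
    exact hA i j (by rw [← hi, ← hj])
  refine ⟨b, y, ⟨⟨S.comm, S.exp, T.xV, hyV, T.x1, T.ax, hay, hbx, hby, T.av, hbv⟩, ?_, ?_, ?_,
    ⟨t', ?_⟩, ⟨k', ?_⟩, ⟨k, ?_⟩, hfaith, ?_⟩⟩
  · rw [hb]; exact H.pow_mem T₀.aH t
  · rw [hb, ← pow_mul, mul_comm, pow_mul, T₀.ap, one_pow]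
  · rw [hcl, hb₀]
  · rw [← hb₀]; exact hbb₀
  · rw [← hy₀]; exact hy
  · rw [← hy₀]; exact hy₀y
  · intro g hg; exact hrep g (by rw [← hcl]; exact hg)

theorem PData.p23 [Finite G] {p : ℕ} [Fact p.Prime] {V H Q : Subgroup G} {a b x y q : G}
    (S : FFSet p V H Q) (T : IsTv p V H a x) (ha1 : a ≠ 1) (D : PData p V H Q a b x y q) :
    p = 2 ∨ p = 3 := by
  have hp := (Fact.out : p.Prime)
  by_contra hcon
  push_neg at hcon
  obtain ⟨hp2, hp3⟩ := hcon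
  have h2 : (2 : ZMod p) ≠ 0 := by
    intro h
    have h' : ((2 : ℕ) : ZMod p) = 0 := by exact_mod_cast h
    rw [ZMod.natCast_eq_zero_iff] at h'
    exact hp2 ((Nat.prime_dvd_prime_iff_eq hp Nat.prime_two).mp h')
  obtain ⟨ψ, hψU, -, -⟩ := D.P.main D.faith
  obtain ⟨Dm, hDm⟩ : ∃ Dm : Matrix.SpecialLinearGroup (Fin 2) (ZMod p),
      Dm * sl2U 1 = sl2U 4 * Dm := by
    refine ⟨⟨!![2, 0; 0, 2⁻¹], by rw [Matrix.det_fin_two_of, mul_inv_cancel₀ h2]; ring⟩, ?_⟩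
    apply Subtype.ext
    show !![(2 : ZMod p), 0; 0, 2⁻¹] * !![1, 1; 0, 1] = !![1, 4; 0, 1] * !![2, 0; 0, 2⁻¹]
    rw [Matrix.mul_fin_two, Matrix.mul_fin_two]
    have e : (4 : ZMod p) * 2⁻¹ = 2 := by
      have h4 : (4 : ZMod p) = 2 * 2 := by norm_num
      rw [h4, mul_assoc, mul_inv_cancel₀ h2, mul_one]
    simp only [mul_one, mul_zero, zero_mul, one_mul, add_zero, zero_add, e]
  obtain ⟨g, hg⟩ : ∃ g : G, g = ((ψ Dm : ↥(Subgroup.closure ({a, b} : Set G))) : G) :=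
    ⟨_, rfl⟩
  have hgL : g ∈ Subgroup.closure ({a, b} : Set G) := by rw [hg]; exact (ψ Dm).2
  have h1 : g * a = a ^ (4 : ZMod p).val * g := by
    have h := congrArg (fun M => ((ψ M : ↥(Subgroup.closure ({a, b} : Set G))) : G)) hDm
    simp only [map_mul, Subgroup.coe_mul, hψU] at h
    rw [ZMod.val_one, pow_one] at h
    rw [hg]; exact h
  obtain ⟨r, hr, i, hri⟩ := D.rep g hgL
  obtain ⟨n, hn⟩ : ∃ n : ℕ, n = (4 : ZMod p).val := ⟨_, rfl⟩
  rw [← hn] at h1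
  have h3 : r * a * r⁻¹ = a ^ n := by
    have hc : a ^ i * a = a * a ^ i := ((Commute.refl a).pow_left i).eq
    have h4 : r * a * a ^ i = a ^ n * r * a ^ i := by
      calc r * a * a ^ i = r * (a ^ i * a) := by rw [hc, mul_assoc]
        _ = g * a := by rw [hri, mul_assoc]
        _ = a ^ n * g := h1
        _ = a ^ n * r * a ^ i := by rw [hri, mul_assoc]
    have h5 : r * a = a ^ n * r := mul_right_cancel h4
    rw [h5, mul_inv_cancel_right]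
  have h6 : a ^ n * a⁻¹ ∈ Q := by
    have e : a ^ n * a⁻¹ = r * (a * r⁻¹ * a⁻¹) := by
      rw [← h3]; group
    rw [e]
    exact Q.mul_mem hr (S.hHQ a T.aH r⁻¹ (Q.inv_mem hr))
  have hc : Commute (a ^ n) a⁻¹ := ((Commute.refl a).pow_left n).inv_right
  have h7 : (a ^ n * a⁻¹) ^ p = 1 := by
    rw [hc.mul_pow, ← pow_mul, mul_comm n p, pow_mul, T.ap, one_pow, one_mul, inv_pow, T.ap,
      inv_one]
  have h8 : a ^ n * a⁻¹ = 1 := ffp_eq_one_of_coprime S.hQp h6 h7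
  have h9 : a ^ n = a ^ 1 := by
    rw [pow_one]
    calc a ^ n = a ^ n * a⁻¹ * a := by rw [inv_mul_cancel_right]
      _ = a := by rw [h8, one_mul]
  have h10 : n ≡ 1 [MOD p] := by
    have ho : orderOf a = p := orderOf_eq_prime T.ap ha1
    rw [← ho]
    exact pow_eq_pow_iff_modEq.mp h9
  have h11 : (4 : ZMod p) = 1 := by
    have hne : NeZero p := ⟨hp.ne_zero⟩
    have h12 : ((n : ℕ) : ZMod p) = ((1 : ℕ) : ZMod p) :=
      (ZMod.natCast_eq_natCast_iff _ _ _).mpr h10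
    rw [hn, ZMod.natCast_zmod_val, Nat.cast_one] at h12
    exact h12
  have h13 : ((3 : ℕ) : ZMod p) = 0 := by
    have h14 : (3 : ZMod p) = 0 := by linear_combination h11
    exact_mod_cast h14
  rw [ZMod.natCast_eq_zero_iff] at h13
  exact hp3 ((Nat.prime_dvd_prime_iff_eq hp Nat.prime_three).mp h13)

end Cfsg.Agent.Helper1
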