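import Mathlib
import Cfsg.Agent.Helper1.FFOff
import Cfsg.Agent.Helper1.FFMat

set_option autoImplicit false

namespace Cfsg.Agent.Helper1

open Cfsg.Agent.Helper26
open scoped commutatorElement

variable {G : Type*} [Group G]

theorem TPair.cover {p : ℕ} [Fact p.Prime] {V : Subgroup G} {a b x y : G}
    (P : TPair p V a b x y) (u : G) (hu : u ∈ V) :
    b * u * b⁻¹ = u ∨
      ∃ j : ℕ, a * (b ^ j * u * (b ^ j)⁻¹) * a⁻¹ = b ^ j * u * (b ^ j)⁻¹ := by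
  have hp := (Fact.out : p.Prime)
  obtain ⟨n, hn⟩ := P.hav u hu
  obtain ⟨m, hm⟩ := P.hbv u hu
  have hxp := P.exp x P.hx
  have hyp := P.exp y P.hy
  by_cases hpm : p ∣ m
  · left
    obtain ⟨c, hc⟩ := hpm
    rw [hm, hc, pow_mul, hyp, one_pow, mul_one]
  · right
    obtain ⟨m', hm'⟩ := ffp_exists_inv (p := p) m hpm
    obtain ⟨p', hp'⟩ : ∃ p' : ℕ, p = p' + 1 := ⟨p - 1, by have := hp.pos; omega⟩
    obtain ⟨j, hj⟩ : ∃ j : ℕ, j = p' * n * m' := ⟨_, rfl⟩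
    refine ⟨j, ?_⟩
    have h1 : b ^ j * u * (b ^ j)⁻¹ = u * y ^ (j * m) := ffp_conj_pow_shift b y u P.hby m hm j
    rw [h1]
    have hc : Commute y x := P.xy.symm
    rw [ffp_conj_mul, ffp_conj_pow, hn, P.hay, hc.mul_pow]
    have h2 : x ^ n * (y ^ (j * m) * x ^ (j * m)) = y ^ (j * m) := by
      rw [(hc.pow_pow (j * m) (j * m)).eq, ← mul_assoc, ← pow_add]
      have h3 : x ^ (n + j * m) = 1 := by
        have h4 : n + j * m ≡ 0 [MOD p] := by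
          have e1 : j * m = p' * n * (m * m') := by rw [hj]; ring
          have h5 : p' * n * (m * m') ≡ p' * n * 1 [MOD p] := Nat.ModEq.mul_left _ hm'
          have h6 : n + j * m ≡ n + p' * n * 1 [MOD p] := by
            rw [e1]; exact Nat.ModEq.add_left n h5
          have e2 : n + p' * n * 1 = p * n := by rw [hp']; ring
          rw [e2] at h6
          exact h6.trans ((Nat.modEq_zero_iff_dvd).mpr (dvd_mul_right p n))
        rw [ffp_pow_modEq hxp h4, pow_zero]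
      rw [h3, one_mul]
    rw [mul_assoc, h2]

theorem ffp_conj_mem [Finite G] {p : ℕ} [Fact p.Prime] {V H Q : Subgroup G} {a b x y q : G}
    (S : FFSet p V H Q) (T : IsTv p V H a x) (ha1 : a ≠ 1) (D : PData p V H Q a b x y q)
    (hq : q ∈ Q) : ∀ r ∈ Q, r * a * r⁻¹ ∈ Subgroup.closure ({a, b} : Set G) := by
  have haL : a ∈ Subgroup.closure ({a, b} : Set G) :=
    Subgroup.subset_closure (Set.mem_insert _ _)
  have hbL : b ∈ Subgroup.closure ({a, b} : Set G) :=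
    Subgroup.subset_closure (Set.mem_insert_of_mem _ (Set.mem_singleton _))
  have key : ∀ z ∈ Q, a * (z * x * z⁻¹) * a⁻¹ = z * x * z⁻¹ → z * a = a * z := by
    intro z hz hfix
    by_contra hne
    obtain ⟨b', y', D'⟩ := ffp_pair S T ha1 hz hne
    obtain ⟨k, hk⟩ := D'.hyk
    have h1 : a * y' * a⁻¹ = y' := by
      rw [hk, ffp_conj_pow, hfix]
    have h2 := D'.P.hay
    rw [h1] at h2
    apply T.x1
    have h3 : y' * 1 = y' * x := by rw [mul_one]; exact h2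
    exact (mul_left_cancel h3).symm
  intro r hr
  rcases D.P.cover (r * x * r⁻¹) (S.hHV r (S.hQH hr) x T.xV) with hb | ⟨j, hj⟩
  · obtain ⟨s, hs⟩ := D.hbs
    have hfix0 : (q * a * q⁻¹) * (r * x * r⁻¹) * (q * a * q⁻¹)⁻¹ = r * x * r⁻¹ := by
      rw [hs]; exact ffp_conj_pow_fix b _ hb s
    obtain ⟨z, hz⟩ : ∃ z : G, z = q⁻¹ * r := ⟨_, rfl⟩
    have hzQ : z ∈ Q := by rw [hz]; exact Q.mul_mem (Q.inv_mem hq) hr
    have hfix : a * (z * x * z⁻¹) * a⁻¹ = z * x * z⁻¹ := by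
      calc a * (z * x * z⁻¹) * a⁻¹
          = q⁻¹ * ((q * a * q⁻¹) * (r * x * r⁻¹) * (q * a * q⁻¹)⁻¹) * q := by
            rw [hz]; group
        _ = q⁻¹ * (r * x * r⁻¹) * q := by rw [hfix0]
        _ = z * x * z⁻¹ := by rw [hz]; group
    have hcz := key z hzQ hfix
    have e : r * a * r⁻¹ = q * a * q⁻¹ := by
      have hr_eq : r = q * z := by rw [hz]; group
      calc r * a * r⁻¹ = q * (z * a) * z⁻¹ * q⁻¹ := by rw [hr_eq]; group
        _ = q * (a * z) * z⁻¹ * q⁻¹ := by rw [hcz]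
        _ = q * a * q⁻¹ := by group
    rw [e, hs]
    exact Subgroup.pow_mem _ hbL s
  · obtain ⟨r', hr', i, hri⟩ := D.rep (b ^ j) (Subgroup.pow_mem _ hbL j)
    obtain ⟨c, hc⟩ : ∃ c : G, c = b ^ j := ⟨_, rfl⟩
    rw [← hc] at hj hri
    obtain ⟨e₀, he₀⟩ : ∃ e₀ : G, e₀ = a ^ i := ⟨_, rfl⟩
    rw [← he₀] at hri
    have he₀x : e₀ * x * e₀⁻¹ = x := by rw [he₀]; exact ffp_conj_pow_fix a x T.ax i
    have he₀x' : e₀⁻¹ * x * e₀ = x := by
      calc e₀⁻¹ * x * e₀ = e₀⁻¹ * (e₀ * x * e₀⁻¹) * e₀ := by rw [he₀x]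
        _ = x := by group
    have he₀a : e₀ * a = a * e₀ := by rw [he₀]; exact ((Commute.refl a).pow_left i).eq
    have he₀H : e₀ ∈ H := by rw [he₀]; exact H.pow_mem T.aH i
    obtain ⟨z, hz⟩ : ∃ z : G, z = c * r * e₀⁻¹ := ⟨_, rfl⟩
    have hzQ : z ∈ Q := by
      have e : z = r' * (e₀ * r * e₀⁻¹) := by rw [hz, hri]; group
      rw [e]
      exact Q.mul_mem hr' (S.hHQ e₀ he₀H r hr)
    have hfix : a * (z * x * z⁻¹) * a⁻¹ = z * x * z⁻¹ := by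
      have e : z * x * z⁻¹ = c * (r * x * r⁻¹) * c⁻¹ := by
        calc z * x * z⁻¹ = c * (r * (e₀⁻¹ * x * e₀) * r⁻¹) * c⁻¹ := by rw [hz]; group
          _ = c * (r * x * r⁻¹) * c⁻¹ := by rw [he₀x']
      rw [e]; exact hj
    have hcz := key z hzQ hfix
    have e : r * a * r⁻¹ = c⁻¹ * a * c := by
      have h1 : z * a * z⁻¹ = a := by rw [hcz, mul_inv_cancel_right]
      have h2 : z * a * z⁻¹ = c * (r * a * r⁻¹) * c⁻¹ := by
        calc z * a * z⁻¹ = c * r * (e₀⁻¹ * (a * e₀)) * r⁻¹ * c⁻¹ := by rw [hz]; group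
          _ = c * r * (e₀⁻¹ * (e₀ * a)) * r⁻¹ * c⁻¹ := by rw [he₀a]
          _ = c * (r * a * r⁻¹) * c⁻¹ := by group
      rw [h2] at h1
      calc r * a * r⁻¹ = c⁻¹ * (c * (r * a * r⁻¹) * c⁻¹) * c := by group
        _ = c⁻¹ * a * c := by rw [h1]
    rw [e, hc]
    exact Subgroup.mul_mem _ (Subgroup.mul_mem _
      (Subgroup.inv_mem _ (Subgroup.pow_mem _ hbL j)) haL) (Subgroup.pow_mem _ hbL j)

theorem ffp_comm_le [Finite G] {p : ℕ} [Fact p.Prime] {V H Q : Subgroup G} {a b x y q : G}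
    (S : FFSet p V H Q) (T : IsTv p V H a x) (ha1 : a ≠ 1) (D : PData p V H Q a b x y q)
    (hq : q ∈ Q) :
    ⁅Q, Subgroup.zpowers a⁆ ≤ Subgroup.closure ({a, b} : Set G) ⊓ Q := by
  have haL : a ∈ Subgroup.closure ({a, b} : Set G) :=
    Subgroup.subset_closure (Set.mem_insert _ _)
  rw [Subgroup.commutator_le]
  intro r hr c hc
  obtain ⟨n, hn⟩ := ffp_exists_pow hc
  have h1 : r * a * r⁻¹ ∈ Subgroup.closure ({a, b} : Set G) := ffp_conj_mem S T ha1 D hq r hr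
  refine Subgroup.mem_inf.mpr ⟨?_, ?_⟩
  · have e : ⁅r, c⁆ = (r * a * r⁻¹) ^ n * c⁻¹ := by
      rw [commutatorElement_def, hn, ← ffp_conj_pow]
    rw [e]
    exact Subgroup.mul_mem _ (Subgroup.pow_mem _ h1 n)
      (Subgroup.inv_mem _ (by rw [hn]; exact Subgroup.pow_mem _ haL n))
  · have e : ⁅r, c⁆ = r * (c * r⁻¹ * c⁻¹) := by rw [commutatorElement_def]; group
    rw [e]
    have hcH : c ∈ H := by rw [hn]; exact H.pow_mem T.aH n
    exact Q.mul_mem hr (S.hHQ c hcH r⁻¹ (Q.inv_mem hr))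

theorem ffp_LQ_pow2 [Finite G] {V H Q : Subgroup G} {a b x y q : G} (S : FFSet 2 V H Q)
    (D : PData 2 V H Q a b x y q) :
    ∀ g ∈ Subgroup.closure ({a, b} : Set G), g ∈ Q → g ^ 3 = 1 := by
  intro g hgL hgQ
  obtain ⟨ψ, -, -, -⟩ := D.P.main D.faith
  have h6 : g ^ 6 = 1 := by
    obtain ⟨M, hM⟩ := ψ.surjective ⟨g, hgL⟩
    have h1 : (⟨g, hgL⟩ : ↥(Subgroup.closure ({a, b} : Set G))) ^ 6 = 1 := by
      rw [← hM, ← map_pow, ffm_sl2_pow6, map_one]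
    have h2 := congrArg Subtype.val h1
    rw [Subgroup.coe_pow, Subgroup.coe_one] at h2
    exact h2
  apply ffp_eq_one_of_coprime S.hQp (Q.pow_mem hgQ 3)
  rw [← pow_mul]; exact h6

theorem ffp_LQ_pow3 [Finite G] {V H Q : Subgroup G} {a b x y q : G} (S : FFSet 3 V H Q)
    (D : PData 3 V H Q a b x y q) :
    ∀ g ∈ Subgroup.closure ({a, b} : Set G), g ∈ Q → g ^ 8 = 1 := by
  intro g hgL hgQ
  obtain ⟨ψ, -, -, -⟩ := D.P.main D.faith
  have h24 : g ^ 24 = 1 := by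
    obtain ⟨M, hM⟩ := ψ.surjective ⟨g, hgL⟩
    have h1 : (⟨g, hgL⟩ : ↥(Subgroup.closure ({a, b} : Set G))) ^ 24 = 1 := by
      rw [← hM, ← map_pow, ffm_sl2_pow24, map_one]
    have h2 := congrArg Subtype.val h1
    rw [Subgroup.coe_pow, Subgroup.coe_one] at h2
    exact h2
  apply ffp_eq_one_of_coprime S.hQp (Q.pow_mem hgQ 8)
  rw [← pow_mul]; exact h24

theorem ffp_noncomm3 [Finite G] {V H Q : Subgroup G} {a b x y q : G} (S : FFSet 3 V H Q)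
    (T : IsTv 3 V H a x) (ha1 : a ≠ 1) (D : PData 3 V H Q a b x y q) (hq : q ∈ Q) :
    ∃ g₁ g₂ : G, g₁ ∈ ⁅Q, Subgroup.zpowers a⁆ ∧ g₂ ∈ ⁅Q, Subgroup.zpowers a⁆ ∧
      g₁ * g₂ ≠ g₂ * g₁ := by
  obtain ⟨s, hs⟩ := D.hbs
  obtain ⟨ψ, hψU, hψL, -⟩ := D.P.main D.faith
  have haA : a ∈ Subgroup.zpowers a := Subgroup.mem_zpowers a
  have hq' : a * q * a⁻¹ ∈ Q := S.hHQ a T.aH q hq
  refine ⟨⁅q, a⁆, ⁅a * q * a⁻¹, a⁆, Subgroup.commutator_mem_commutator hq haA,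
    Subgroup.commutator_mem_commutator hq' haA, ?_⟩
  have ha3 : a ^ 3 = 1 := T.ap
  have hainv : a⁻¹ = a ^ 2 := by
    apply inv_eq_of_mul_eq_one_right
    rw [← pow_succ']; exact ha3
  have hσ : ((s : ℕ) : ZMod 3) ≠ 0 := by
    intro h0
    rw [ZMod.natCast_eq_zero_iff] at h0
    obtain ⟨c, hc⟩ := h0
    have h1 : q * a * q⁻¹ = 1 := by rw [hs, hc, pow_mul, D.bp, one_pow]
    apply ha1
    calc a = q⁻¹ * (q * a * q⁻¹) * q := by group
      _ = 1 := by rw [h1]; group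
  obtain ⟨σ, hσdef⟩ : ∃ σ : ZMod 3, σ = ((s : ℕ) : ZMod 3) := ⟨_, rfl⟩
  have hbσ : b ^ σ.val = b ^ s := by
    rw [hσdef, ZMod.val_natCast]
    exact ffp_pow_mod D.bp s
  have hv2 : (2 : ZMod 3).val = 2 := by decide
  have hv1 : (1 : ZMod 3).val = 1 := by decide
  have e1 : ⁅q, a⁆
      = ((ψ (sl2L σ * sl2U 2) : ↥(Subgroup.closure ({a, b} : Set G))) : G) := by
    rw [map_mul, Subgroup.coe_mul, hψL, hψU, hbσ, hv2, commutatorElement_def, hs, hainv]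
  have e2 : ⁅a * q * a⁻¹, a⁆
      = ((ψ (sl2U 1 * (sl2L σ * sl2U 2) * sl2U 2) :
          ↥(Subgroup.closure ({a, b} : Set G))) : G) := by
    have e3 : ⁅a * q * a⁻¹, a⁆ = a * ⁅q, a⁆ * a⁻¹ := by
      rw [commutatorElement_def, commutatorElement_def]; group
    rw [e3, commutatorElement_def, hs, hainv]
    simp only [map_mul, Subgroup.coe_mul, hψU, hψL, hbσ, hv1, hv2, pow_one]
  intro hcomm
  rw [e1, e2] at hcomm
  have h3 : ψ (sl2L σ * sl2U 2) * ψ (sl2U 1 * (sl2L σ * sl2U 2) * sl2U 2)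
      = ψ (sl2U 1 * (sl2L σ * sl2U 2) * sl2U 2) * ψ (sl2L σ * sl2U 2) :=
    Subtype.ext hcomm
  rw [← map_mul, ← map_mul] at h3
  exact ffm_sl2_nc3 σ (by rw [hσdef]; exact hσ) (ψ.injective h3)

end Cfsg.Agent.Helper1
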