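import Mathlib
import Cfsg.Agent.Helper1.FFComm

set_option autoImplicit false

namespace Cfsg.Agent.Helper1

open Cfsg.Agent.Helper26
open scoped commutatorElement

variable {G : Type*} [Group G]

theorem ffp_comm_fix (t₁ t₂ u : G) (h1 : t₁ * u * t₁⁻¹ = u)
    (h2 : t₁ * (t₂⁻¹ * u * t₂) * t₁⁻¹ = t₂⁻¹ * u * t₂) :
    (t₁ * t₂ * t₁⁻¹ * t₂⁻¹) * u * (t₁ * t₂ * t₁⁻¹ * t₂⁻¹)⁻¹ = u := by
  have h2' : t₁⁻¹ * (t₂⁻¹ * u * t₂) * t₁ = t₂⁻¹ * u * t₂ := by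
    calc t₁⁻¹ * (t₂⁻¹ * u * t₂) * t₁
        = t₁⁻¹ * (t₁ * (t₂⁻¹ * u * t₂) * t₁⁻¹) * t₁ := by rw [h2]
      _ = t₂⁻¹ * u * t₂ := by group
  calc (t₁ * t₂ * t₁⁻¹ * t₂⁻¹) * u * (t₁ * t₂ * t₁⁻¹ * t₂⁻¹)⁻¹
      = t₁ * (t₂ * (t₁⁻¹ * (t₂⁻¹ * u * t₂) * t₁) * t₂⁻¹) * t₁⁻¹ := by group
    _ = t₁ * (t₂ * (t₂⁻¹ * u * t₂) * t₂⁻¹) * t₁⁻¹ := by rw [h2']
    _ = t₁ * u * t₁⁻¹ := by group
    _ = u := h1

theorem ffp_comm_all [Finite G] {a b h : G} (ha : h * a = a * h) (hb : h * b = b * h) :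
    ∀ g ∈ Subgroup.closure ({a, b} : Set G), h * g = g * h := by
  apply ffp_closure_induction (P := fun g => h * g = g * h)
  · intro g hg
    rcases hg with hga | hgb
    · rw [hga]; exact ha
    · rw [Set.mem_singleton_iff.mp hgb]; exact hb
  · rw [one_mul, mul_one]
  · intro g k hg hk
    calc h * (g * k) = (h * g) * k := by group
      _ = g * h * k := by rw [hg]
      _ = g * (h * k) := by group
      _ = g * (k * h) := by rw [hk]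
      _ = g * k * h := by group

theorem ffp_cent_closure [Finite G] {a b c : G} (ha : a * c = c * a) (hb : b * c = c * b) :
    c ∈ Subgroup.centralizer ((Subgroup.closure ({a, b} : Set G) : Subgroup G) : Set G) := by
  rw [Subgroup.mem_centralizer_iff]
  intro g hg
  exact (ffp_comm_all ha.symm hb.symm g hg).symm

theorem IsTv.pow {p : ℕ} {V H : Subgroup G} {t c : G} (T : IsTv p V H t c) (k : ℕ) :
    IsTv p V H (t ^ k) c := by
  refine ⟨H.pow_mem T.aH k, ?_, T.xV, T.x1, ffp_conj_pow_fix t c T.ax k, ?_⟩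
  · rw [← pow_mul, mul_comm, pow_mul, T.ap, one_pow]
  · intro v hv
    obtain ⟨n, hn⟩ := T.av v hv
    exact ⟨k * n, ffp_conj_pow_shift t c v T.ax n hn k⟩

theorem IsTv.inv {p : ℕ} [Fact p.Prime] {V H : Subgroup G} {t c : G} (T : IsTv p V H t c) :
    IsTv p V H t⁻¹ c := by
  have hp := (Fact.out : p.Prime)
  have e : t⁻¹ = t ^ (p - 1) := by
    apply inv_eq_of_mul_eq_one_right
    rw [← pow_succ', Nat.sub_add_cancel hp.pos, T.ap]
  rw [e]; exact T.pow (p - 1)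

theorem IsTv.mul {p : ℕ} {V H Q : Subgroup G} (S : FFSet p V H Q) {t₁ t₂ c : G}
    (T₁ : IsTv p V H t₁ c) (T₂ : IsTv p V H t₂ c) : IsTv p V H (t₁ * t₂) c := by
  have hfix : t₁ * t₂ * c * (t₁ * t₂)⁻¹ = c := by
    calc t₁ * t₂ * c * (t₁ * t₂)⁻¹ = t₁ * (t₂ * c * t₂⁻¹) * t₁⁻¹ := by group
      _ = c := by rw [T₂.ax, T₁.ax]
  have hav : ∀ v ∈ V, ∃ n : ℕ, t₁ * t₂ * v * (t₁ * t₂)⁻¹ = v * c ^ n := by
    intro v hv
    obtain ⟨n₂, h₂⟩ := T₂.av v hv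
    obtain ⟨n₁, h₁⟩ := T₁.av v hv
    refine ⟨n₁ + n₂, ?_⟩
    calc t₁ * t₂ * v * (t₁ * t₂)⁻¹ = t₁ * (t₂ * v * t₂⁻¹) * t₁⁻¹ := by group
      _ = t₁ * (v * c ^ n₂) * t₁⁻¹ := by rw [h₂]
      _ = v * c ^ n₁ * c ^ n₂ := by rw [ffp_conj_mul, h₁, ffp_conj_pow, T₁.ax]
      _ = v * c ^ (n₁ + n₂) := by rw [mul_assoc, ← pow_add]
  refine ⟨H.mul_mem T₁.aH T₂.aH, ?_, T₁.xV, T₁.x1, hfix, hav⟩
  apply S.faith _ (H.pow_mem (H.mul_mem T₁.aH T₂.aH) p)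
  intro v hv
  obtain ⟨n, hn⟩ := hav v hv
  have h := ffp_conj_pow_shift (t₁ * t₂) c v hfix n hn p
  rw [h, pow_mul, S.exp c T₁.xV, one_pow, mul_one]

theorem IsTv.commute_of_fix {p : ℕ} {V H Q : Subgroup G} (S : FFSet p V H Q) {t₁ t₂ c₁ c₂ : G}
    (T₁ : IsTv p V H t₁ c₁) (T₂ : IsTv p V H t₂ c₂)
    (h12 : t₁ * c₂ * t₁⁻¹ = c₂) (h21 : t₂ * c₁ * t₂⁻¹ = c₁) : t₁ * t₂ = t₂ * t₁ := by
  have key : ∀ v ∈ V, t₁ * (t₂ * v * t₂⁻¹) * t₁⁻¹ = t₂ * (t₁ * v * t₁⁻¹) * t₂⁻¹ := by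
    intro v hv
    obtain ⟨n₁, h₁⟩ := T₁.av v hv
    obtain ⟨n₂, h₂⟩ := T₂.av v hv
    rw [h₁, h₂, ffp_conj_mul, ffp_conj_mul, h₁, h₂, ffp_conj_pow, ffp_conj_pow, h12, h21]
    rw [mul_assoc, mul_assoc, (S.comm _ (V.pow_mem T₁.xV n₁) _ (V.pow_mem T₂.xV n₂))]
  have hg : (t₂ * t₁)⁻¹ * (t₁ * t₂) = 1 := by
    apply S.faith _ (H.mul_mem (H.inv_mem (H.mul_mem T₂.aH T₁.aH)) (H.mul_mem T₁.aH T₂.aH))
    intro v hv
    calc (t₂ * t₁)⁻¹ * (t₁ * t₂) * v * ((t₂ * t₁)⁻¹ * (t₁ * t₂))⁻¹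
        = (t₂ * t₁)⁻¹ * (t₁ * (t₂ * v * t₂⁻¹) * t₁⁻¹) * (t₂ * t₁) := by group
      _ = (t₂ * t₁)⁻¹ * (t₂ * (t₁ * v * t₁⁻¹) * t₂⁻¹) * (t₂ * t₁) := by rw [key v hv]
      _ = v := by group
  calc t₁ * t₂ = (t₂ * t₁) * ((t₂ * t₁)⁻¹ * (t₁ * t₂)) := by group
    _ = t₂ * t₁ := by rw [hg, mul_one]

theorem IsTv.exists_moved {p : ℕ} {V H Q : Subgroup G} (S : FFSet p V H Q) {t c : G}
    (T : IsTv p V H t c) (ht : t ≠ 1) :
    ∃ v ∈ V, ∃ n : ℕ, t * v * t⁻¹ = v * c ^ n ∧ c ^ n ≠ 1 := by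
  by_contra hcon
  push_neg at hcon
  apply ht
  apply S.faith t T.aH
  intro v hv
  obtain ⟨n, hn⟩ := T.av v hv
  have h1 := hcon v hv n hn
  rw [hn, h1, mul_one]

theorem IsTv.fix_of_commute [Finite G] {p : ℕ} [Fact p.Prime] {V H Q : Subgroup G}
    (S : FFSet p V H Q) {t c h : G} (T : IsTv p V H t c) (ht : t ≠ 1)
    (hh : h ∈ H) (hhp : h ^ p = 1) (hcomm : h * t = t * h) : h * c * h⁻¹ = c := by
  obtain ⟨v₀, hv₀, l, hl, hl1⟩ := T.exists_moved S ht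
  have hcp : c ^ p = 1 := S.exp c T.xV
  have huV : h * v₀ * h⁻¹ ∈ V := S.hHV h hh v₀ hv₀
  obtain ⟨m, hm⟩ := T.av _ huV
  have h1 : h * c ^ l * h⁻¹ = c ^ m := by
    have e1 : c ^ l = v₀⁻¹ * (t * v₀ * t⁻¹) := by rw [hl, inv_mul_cancel_left]
    have e2 : h * t * h⁻¹ = t := by rw [hcomm, mul_inv_cancel_right]
    obtain ⟨cl, hcl⟩ : ∃ cl : G, cl = c ^ l := ⟨_, rfl⟩
    rw [← hcl] at e1 ⊢
    calc h * cl * h⁻¹ = h * (v₀⁻¹ * (t * v₀ * t⁻¹)) * h⁻¹ := by rw [← e1]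
      _ = (h * v₀ * h⁻¹)⁻¹ * ((h * t * h⁻¹) * (h * v₀ * h⁻¹) * (h * t * h⁻¹)⁻¹) := by group
      _ = (h * v₀ * h⁻¹)⁻¹ * (t * (h * v₀ * h⁻¹) * t⁻¹) := by rw [e2]
      _ = c ^ m := by rw [hm, inv_mul_cancel_left]
  have hlp : ¬ p ∣ l := by
    intro hd
    obtain ⟨e, he⟩ := hd
    apply hl1
    rw [he, pow_mul, hcp, one_pow]
  obtain ⟨l', hl'⟩ := ffp_exists_inv (p := p) l hlp
  have h2 : h * c * h⁻¹ = c ^ (m * l') := by
    have hup : (h * c * h⁻¹) ^ p = 1 := by rw [← ffp_conj_pow, hcp]; group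
    calc h * c * h⁻¹ = (h * c * h⁻¹) ^ (l * l') := (ffp_pow_modEq_one hup hl').symm
      _ = ((h * c * h⁻¹) ^ l) ^ l' := pow_mul _ _ _
      _ = (c ^ m) ^ l' := by rw [← ffp_conj_pow, h1]
      _ = c ^ (m * l') := (pow_mul _ _ _).symm
  exact ffp_conj_eq_self h c hhp hcp (m * l') h2

theorem ffp_key [Finite G] {p : ℕ} [Fact p.Prime] {V H Q : Subgroup G} (S : FFSet p V H Q)
    {a x : G} (T : IsTv p V H a x) (ha1 : a ≠ 1) :
    ∀ z ∈ Q, a * (z * x * z⁻¹) * a⁻¹ = z * x * z⁻¹ → z * a = a * z := by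
  intro z hz hfix
  by_contra hne
  obtain ⟨b', y', D'⟩ := ffp_pair S T ha1 hz hne
  obtain ⟨k, hk⟩ := D'.hyk
  have h1 : a * y' * a⁻¹ = y' := by
    rw [hk, ffp_conj_pow, hfix]
  have h2 := D'.P.hay
  rw [h1] at h2
  apply T.x1
  have h3 : y' * 1 = y' * x := by rw [mul_one]; exact h2
  exact (mul_left_cancel h3).symm

theorem ffp_nocent [Finite G] {p : ℕ} [Fact p.Prime] {V H Q : Subgroup G} (S : FFSet p V H Q)
    {g c : G} (T : IsTv p V H g c)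
    (hcent : ∀ z ∈ Q, g * (z * c * z⁻¹) * g⁻¹ = z * c * z⁻¹) : g = 1 := by
  by_contra hg
  exact hg (S.hQc g T.aH T.ap (fun r hr => ffp_key S T hg r hr (hcent r hr)))

theorem ffp_normL [Finite G] {p : ℕ} [Fact p.Prime] {V H Q : Subgroup G} (S : FFSet p V H Q)
    {a b x y q : G} (T : IsTv p V H a x) (ha1 : a ≠ 1) (D : PData p V H Q a b x y q)
    (hq : q ∈ Q) (h : G) (hh : h ∈ H) (hc : h * a = a * h) :
    ∀ g ∈ Subgroup.closure ({a, b} : Set G), h * g * h⁻¹ ∈ Subgroup.closure ({a, b} : Set G) := by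
  intro g hg
  rw [D.hcl] at hg
  have haL : a ∈ Subgroup.closure ({a, b} : Set G) :=
    Subgroup.subset_closure (Set.mem_insert _ _)
  have hfa : h * a * h⁻¹ = a := by rw [hc, mul_inv_cancel_right]
  have hle : Subgroup.closure ({a, q * a * q⁻¹} : Set G)
      ≤ (Subgroup.closure ({a, b} : Set G)).comap (MulAut.conj h).toMonoidHom := by
    rw [Subgroup.closure_le]
    intro c hcm
    rcases hcm with hca | hcb
    · rw [hca]
      show h * a * h⁻¹ ∈ Subgroup.closure ({a, b} : Set G)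
      rw [hfa]; exact haL
    · rw [Set.mem_singleton_iff.mp hcb]
      show h * (q * a * q⁻¹) * h⁻¹ ∈ Subgroup.closure ({a, b} : Set G)
      have e : h * (q * a * q⁻¹) * h⁻¹
          = (h * q * h⁻¹) * (h * a * h⁻¹) * (h * q * h⁻¹)⁻¹ := by group
      rw [e, hfa]
      exact ffp_conj_mem S T ha1 D hq _ (S.hHQ h hh q hq)
  exact hle hg

theorem ffp_normW_of_normL [Finite G] {p : ℕ} [Fact p.Prime] {V H Q : Subgroup G}
    (S : FFSet p V H Q) {a b x y : G} (P : TPair p V a b x y) {h : G} (hh : h ∈ H)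
    (hL : ∀ g ∈ Subgroup.closure ({a, b} : Set G),
      h * g * h⁻¹ ∈ Subgroup.closure ({a, b} : Set G)) :
    ∀ w ∈ Subgroup.closure ({x, y} : Set G), h * w * h⁻¹ ∈ Subgroup.closure ({x, y} : Set G) := by
  intro w hw
  rw [← P.comm_eq] at hw ⊢
  have hle : ⁅V, Subgroup.closure ({a, b} : Set G)⁆
      ≤ (⁅V, Subgroup.closure ({a, b} : Set G)⁆).comap (MulAut.conj h).toMonoidHom := by
    rw [Subgroup.commutator_le]
    intro v hv g hg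
    show (MulAut.conj h).toMonoidHom ⁅v, g⁆ ∈ ⁅V, Subgroup.closure ({a, b} : Set G)⁆
    rw [map_commutatorElement]
    exact Subgroup.commutator_mem_commutator (S.hHV h hh v hv) (hL g hg)
  exact hle hw

theorem ffp_QL [Finite G] {p : ℕ} [Fact p.Prime] {V H Q : Subgroup G} (S : FFSet p V H Q)
    {a b x y q : G} (T : IsTv p V H a x) (ha1 : a ≠ 1) (D : PData p V H Q a b x y q)
    (hq : q ∈ Q) :
    ∀ r ∈ Q, ∀ g ∈ Subgroup.closure ({a, b} : Set G),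
      r * g * r⁻¹ ∈ Subgroup.closure ({a, b} : Set G) := by
  intro r hr g hg
  rw [D.hcl] at hg
  have hmem := ffp_conj_mem S T ha1 D hq
  have hle : Subgroup.closure ({a, q * a * q⁻¹} : Set G)
      ≤ (Subgroup.closure ({a, b} : Set G)).comap (MulAut.conj r).toMonoidHom := by
    rw [Subgroup.closure_le]
    intro c hc
    rcases hc with hca | hcb
    · rw [hca]
      show r * a * r⁻¹ ∈ Subgroup.closure ({a, b} : Set G)
      exact hmem r hr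
    · rw [Set.mem_singleton_iff.mp hcb]
      show r * (q * a * q⁻¹) * r⁻¹ ∈ Subgroup.closure ({a, b} : Set G)
      have e : r * (q * a * q⁻¹) * r⁻¹ = (r * q) * a * (r * q)⁻¹ := by group
      rw [e]; exact hmem (r * q) (Q.mul_mem hr hq)
  exact hle hg

theorem ffp_QW [Finite G] {p : ℕ} [Fact p.Prime] {V H Q : Subgroup G} (S : FFSet p V H Q)
    {a b x y q : G} (T : IsTv p V H a x) (ha1 : a ≠ 1) (D : PData p V H Q a b x y q)
    (hq : q ∈ Q) : ∀ z ∈ Q, z * x * z⁻¹ ∈ Subgroup.closure ({x, y} : Set G) := by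
  intro z hz
  rw [← D.P.comm_eq]
  have e : z * x * z⁻¹ = ⁅z * y⁻¹ * z⁻¹, z * a * z⁻¹⁆ := by
    have hx : x = y⁻¹ * (a * y * a⁻¹) := by rw [D.P.hay]; group
    rw [commutatorElement_def]
    calc z * x * z⁻¹ = z * (y⁻¹ * (a * y * a⁻¹)) * z⁻¹ := by rw [← hx]
      _ = z * y⁻¹ * z⁻¹ * (z * a * z⁻¹) * (z * y⁻¹ * z⁻¹)⁻¹ * (z * a * z⁻¹)⁻¹ := by group
  rw [e]
  exact Subgroup.commutator_mem_commutator (S.hHV z (S.hQH hz) y⁻¹ (V.inv_mem D.P.hy))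
    (ffp_conj_mem S T ha1 D hq z hz)

theorem ffp_QWy [Finite G] {p : ℕ} [Fact p.Prime] {V H Q : Subgroup G} (S : FFSet p V H Q)
    {a b x y q : G} (T : IsTv p V H a x) (ha1 : a ≠ 1) (D : PData p V H Q a b x y q)
    (hq : q ∈ Q) : ∀ z ∈ Q, z * y * z⁻¹ ∈ Subgroup.closure ({x, y} : Set G) := by
  intro z hz
  have hbL : b ∈ Subgroup.closure ({a, b} : Set G) :=
    Subgroup.subset_closure (Set.mem_insert_of_mem _ (Set.mem_singleton _))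
  rw [← D.P.comm_eq]
  have e : z * y * z⁻¹ = ⁅z * x⁻¹ * z⁻¹, z * b * z⁻¹⁆ := by
    have hy : y = x⁻¹ * (b * x * b⁻¹) := by rw [D.P.hbx]; group
    rw [commutatorElement_def]
    calc z * y * z⁻¹ = z * (x⁻¹ * (b * x * b⁻¹)) * z⁻¹ := by rw [← hy]
      _ = z * x⁻¹ * z⁻¹ * (z * b * z⁻¹) * (z * x⁻¹ * z⁻¹)⁻¹ * (z * b * z⁻¹)⁻¹ := by group
  rw [e]
  exact Subgroup.commutator_mem_commutator (S.hHV z (S.hQH hz) x⁻¹ (V.inv_mem D.P.hx))
    (ffp_QL S T ha1 D hq z hz b hbL)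

theorem ffp_normL_b [Finite G] {p : ℕ} [Fact p.Prime] {V H Q : Subgroup G} (S : FFSet p V H Q)
    {a b x y q : G} (T : IsTv p V H a x) (ha1 : a ≠ 1) (D : PData p V H Q a b x y q)
    (hq : q ∈ Q) (h : G) (hh : h ∈ H) (hc : h * b = b * h) :
    ∀ g ∈ Subgroup.closure ({a, b} : Set G), h * g * h⁻¹ ∈ Subgroup.closure ({a, b} : Set G) := by
  intro g hg
  have hbL : b ∈ Subgroup.closure ({a, b} : Set G) :=
    Subgroup.subset_closure (Set.mem_insert_of_mem _ (Set.mem_singleton _))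
  have hfb : h * b * h⁻¹ = b := by rw [hc, mul_inv_cancel_right]
  have hle : Subgroup.closure ({a, b} : Set G)
      ≤ (Subgroup.closure ({a, b} : Set G)).comap (MulAut.conj h).toMonoidHom := by
    rw [Subgroup.closure_le]
    intro c hcm
    rcases hcm with hca | hcb
    · rw [hca]
      show h * a * h⁻¹ ∈ Subgroup.closure ({a, b} : Set G)
      obtain ⟨s, hs⟩ := D.hbs
      have hbs' : h * b ^ s * h⁻¹ = b ^ s := by rw [ffp_conj_pow, hfb]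
      obtain ⟨β₀, hβ₀⟩ : ∃ β₀ : G, β₀ = b ^ s := ⟨_, rfl⟩
      rw [← hβ₀] at hs hbs'
      have hβL : β₀ ∈ Subgroup.closure ({a, b} : Set G) := by
        rw [hβ₀]; exact Subgroup.pow_mem _ hbL s
      have e : h * a * h⁻¹ = (h * q⁻¹ * h⁻¹) * β₀ * (h * q⁻¹ * h⁻¹)⁻¹ := by
        calc h * a * h⁻¹ = h * (q⁻¹ * (q * a * q⁻¹) * q) * h⁻¹ := by group
          _ = h * (q⁻¹ * β₀ * q) * h⁻¹ := by rw [hs]
          _ = (h * q⁻¹ * h⁻¹) * (h * β₀ * h⁻¹) * (h * q⁻¹ * h⁻¹)⁻¹ := by group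
          _ = (h * q⁻¹ * h⁻¹) * β₀ * (h * q⁻¹ * h⁻¹)⁻¹ := by rw [hbs']
      rw [e]
      exact ffp_QL S T ha1 D hq _ (S.hHQ h hh q⁻¹ (Q.inv_mem hq)) β₀ hβL
    · rw [Set.mem_singleton_iff.mp hcb]
      show h * b * h⁻¹ ∈ Subgroup.closure ({a, b} : Set G)
      rw [hfb]; exact hbL
  exact hle hg

theorem ffp_TL [Finite G] {p : ℕ} [Fact p.Prime] {V H Q : Subgroup G} (S : FFSet p V H Q)
    {t₁ t₂ c₁ c₂ : G} (T₁ : IsTv p V H t₁ c₁) (T₂ : IsTv p V H t₂ c₂) (ht₁ : t₁ ≠ 1)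
    (h12 : t₁ * c₂ * t₁⁻¹ = c₂) : t₂ * c₁ * t₂⁻¹ = c₁ := by
  by_contra hne
  have hc₁p : c₁ ^ p = 1 := S.exp c₁ T₁.xV
  have hc₂p : c₂ ^ p = 1 := S.exp c₂ T₂.xV
  have T₂c : IsTv p V H (t₁ * t₂ * t₁⁻¹) c₂ := by
    have h := T₂.conj S T₁.aH
    rw [h12] at h
    exact h
  have T₂i : IsTv p V H t₂⁻¹ c₂ := T₂.inv
  obtain ⟨t₃, ht₃⟩ : ∃ t₃ : G, t₃ = t₁ * t₂ * t₁⁻¹ * t₂⁻¹ := ⟨_, rfl⟩
  have T₃ : IsTv p V H t₃ c₂ := by rw [ht₃]; exact IsTv.mul S T₂c T₂i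
  have hfix3 : ∀ u ∈ V, t₁ * u * t₁⁻¹ = u → t₃ * u * t₃⁻¹ = u := by
    intro u hu h1
    obtain ⟨m, hm⟩ := T₂i.av u hu
    rw [inv_inv] at hm
    rw [ht₃]
    exact ffp_comm_fix t₁ t₂ u h1 (by rw [hm, ffp_conj_mul, ffp_conj_pow, h1, h12])
  have ht₃1 : t₃ ≠ 1 := by
    intro h1
    apply hne
    have hc : t₂ * t₁ = t₁ * t₂ := by
      have h2 : t₁ * t₂ * t₁⁻¹ * t₂⁻¹ = 1 := by rw [← ht₃]; exact h1
      calc t₂ * t₁ = (t₁ * t₂ * t₁⁻¹ * t₂⁻¹)⁻¹ * (t₁ * t₂) := by group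
        _ = t₁ * t₂ := by rw [h2, inv_one, one_mul]
    exact T₁.fix_of_commute S ht₁ T₂.aH T₂.ap hc
  have h31 : t₃ * c₁ * t₃⁻¹ = c₁ := hfix3 c₁ T₁.xV T₁.ax
  have hc13 : t₁ * t₃ = t₃ * t₁ := IsTv.commute_of_fix S T₁ T₃ h12 h31
  have hex : ∃ q₃ ∈ Q, q₃ * t₃ ≠ t₃ * q₃ := by
    by_contra hcon
    push_neg at hcon
    exact ht₃1 (S.hQc t₃ T₃.aH T₃.ap hcon)
  obtain ⟨q₃, hq₃, hq₃t⟩ := hex
  obtain ⟨b₃, y₃, D₃⟩ := ffp_pair S T₃ ht₃1 hq₃ hq₃t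
  have hy₃V : y₃ ∈ V := D₃.P.hy
  have hyW : y₃ ∈ Subgroup.closure ({c₂, y₃} : Set G) :=
    Subgroup.subset_closure (Set.mem_insert_of_mem _ (Set.mem_singleton _))
  have hNW := ffp_normW_of_normL S D₃.P T₁.aH (ffp_normL S T₃ ht₃1 D₃ hq₃ t₁ T₁.aH hc13)
  have h1y : t₁ * y₃ * t₁⁻¹ ∈ Subgroup.closure ({c₂, y₃} : Set G) := hNW y₃ hyW
  obtain ⟨l, hl⟩ := T₁.av y₃ hy₃V
  by_cases hcl : c₁ ^ l = 1
  · have h2 : t₁ * y₃ * t₁⁻¹ = y₃ := by rw [hl, hcl, mul_one]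
    have h3 := hfix3 y₃ hy₃V h2
    have h4 := D₃.P.hay
    rw [h3] at h4
    apply T₂.x1
    have h5 : y₃ * 1 = y₃ * c₂ := by rw [mul_one]; exact h4
    exact (mul_left_cancel h5).symm
  · have h2 : c₁ ^ l ∈ Subgroup.closure ({c₂, y₃} : Set G) := by
      have e : c₁ ^ l = y₃⁻¹ * (t₁ * y₃ * t₁⁻¹) := by rw [hl, inv_mul_cancel_left]
      rw [e]
      exact Subgroup.mul_mem _ (Subgroup.inv_mem _ hyW) h1y
    have h3 : c₁ ∈ Subgroup.closure ({c₂, y₃} : Set G) :=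
      (Subgroup.zpowers_le.mpr h2) (Cfsg.Agent.Helper9.mem_zpowers_of_ne_one9 hc₁p
        (Subgroup.pow_mem _ (Subgroup.mem_zpowers c₁) l) hcl)
    obtain ⟨α, β, hαβ⟩ := D₃.P.wform c₁ h3
    have h4 := D₃.P.conj_a α β
    rw [← hαβ, h31, hαβ, pow_add] at h4
    have h5 : c₂ ^ β = 1 := by
      have h6 : c₂ ^ α * 1 = c₂ ^ α * c₂ ^ β := by rw [mul_one]; exact mul_right_cancel h4
      exact (mul_left_cancel h6).symm
    have hpβ : p ∣ β := by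
      have ho : orderOf c₂ = p := orderOf_eq_prime hc₂p T₂.x1
      rw [← ho]; exact orderOf_dvd_of_pow_eq_one h5
    obtain ⟨e, he⟩ := hpβ
    have hy₃β : y₃ ^ β = 1 := by rw [he, pow_mul, S.exp y₃ hy₃V, one_pow]
    apply hne
    rw [hαβ, hy₃β, mul_one, ffp_conj_pow, T₂.ax]

theorem TPair.symm {p : ℕ} [Fact p.Prime] {V : Subgroup G} {a b x y : G}
    (P : TPair p V a b x y) : TPair p V b a y x :=
  ⟨P.comm, P.exp, P.hy, P.hx, fun h => P.y_ne 0 (by rw [h, pow_zero]), P.hby, P.hbx, P.hay,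
    P.hax, P.hbv, P.hav⟩

theorem PData.Tb {p : ℕ} [Fact p.Prime] {V H Q : Subgroup G} {a b x y q : G}
    (D : PData p V H Q a b x y q) : IsTv p V H b y :=
  ⟨D.bH, D.bp, D.P.hy, fun h => D.P.y_ne 0 (by rw [h, pow_zero]), D.P.hby, D.P.hbv⟩

theorem PData.b_ne {p : ℕ} [Fact p.Prime] {V H Q : Subgroup G} {a b x y q : G}
    (D : PData p V H Q a b x y q) : b ≠ 1 := by
  intro h
  have h1 := D.P.hbx
  rw [h] at h1
  have h2 : (1 : G) * x * 1⁻¹ = x := by group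
  rw [h2] at h1
  have h3 : x * 1 = x * y := by rw [mul_one]; exact h1
  exact D.P.y_ne 0 (by rw [pow_zero]; exact (mul_left_cancel h3).symm)

theorem ffp_dich_a [Finite G] {p : ℕ} [Fact p.Prime] {V H Q : Subgroup G} (S : FFSet p V H Q)
    {a b x y : G} (P : TPair p V a b x y) (Ta : IsTv p V H a x) (Tb : IsTv p V H b y)
    (ha1 : a ≠ 1)
    (hQW : ∀ z ∈ Q, z * x * z⁻¹ ∈ Subgroup.closure ({x, y} : Set G))
    (hN : ∀ h ∈ H, h * a = a * h → ∀ w ∈ Subgroup.closure ({x, y} : Set G),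
      h * w * h⁻¹ ∈ Subgroup.closure ({x, y} : Set G))
    {a' x' : G} (T' : IsTv p V H a' x') (ha'1 : a' ≠ 1) (hfix : a * x' * a⁻¹ = x') :
    a' ∈ Subgroup.closure ({a, b} : Set G) ∨ (a' * a = a * a' ∧ a' * b = b * a') := by
  have hp := (Fact.out : p.Prime)
  have haL : a ∈ Subgroup.closure ({a, b} : Set G) :=
    Subgroup.subset_closure (Set.mem_insert _ _)
  have hyW : y ∈ Subgroup.closure ({x, y} : Set G) :=
    Subgroup.subset_closure (Set.mem_insert_of_mem _ (Set.mem_singleton _))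
  have h1 : a' * x * a'⁻¹ = x := ffp_TL S Ta T' ha1 hfix
  have hc : a * a' = a' * a := IsTv.commute_of_fix S Ta T' hfix h1
  have hW := hN a' T'.aH hc.symm
  obtain ⟨n, hn⟩ := T'.av y P.hy
  by_cases hxn : x' ^ n = 1
  · right
    have hy' : a' * y * a'⁻¹ = y := by rw [hn, hxn, mul_one]
    have h2 : b * x' * b⁻¹ = x' := ffp_TL S T' Tb ha'1 hy'
    exact ⟨hc.symm, IsTv.commute_of_fix S T' Tb hy' h2⟩
  · left
    have h3 : x' ^ n ∈ Subgroup.closure ({x, y} : Set G) := by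
      have e : x' ^ n = y⁻¹ * (a' * y * a'⁻¹) := by rw [hn, inv_mul_cancel_left]
      rw [e]
      exact Subgroup.mul_mem _ (Subgroup.inv_mem _ hyW) (hW y hyW)
    have hx'p := S.exp x' T'.xV
    have hxp := S.exp x Ta.xV
    have h4 : x' ∈ Subgroup.closure ({x, y} : Set G) :=
      (Subgroup.zpowers_le.mpr h3) (Cfsg.Agent.Helper9.mem_zpowers_of_ne_one9 hx'p
        (Subgroup.pow_mem _ (Subgroup.mem_zpowers x') n) hxn)
    obtain ⟨α, β, hαβ⟩ := P.wform x' h4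
    have h5 : x ^ β = 1 := by
      have h6 := P.conj_a α β
      rw [← hαβ, hfix, hαβ, pow_add] at h6
      have h7 : x ^ α * 1 = x ^ α * x ^ β := by rw [mul_one]; exact mul_right_cancel h6
      exact (mul_left_cancel h7).symm
    have hpβ : p ∣ β := by
      have ho : orderOf x = p := orderOf_eq_prime hxp Ta.x1
      rw [← ho]; exact orderOf_dvd_of_pow_eq_one h5
    obtain ⟨e, he⟩ := hpβ
    have hyβ : y ^ β = 1 := by rw [he, pow_mul, S.exp y P.hy, one_pow]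
    have hx' : x' = x ^ α := by rw [hαβ, hyβ, mul_one]
    obtain ⟨p', hp'⟩ : ∃ p' : ℕ, p = p' + 1 := ⟨p - 1, by have := hp.pos; omega⟩
    obtain ⟨k, hk⟩ : ∃ k : ℕ, k = p' * (α * n) := ⟨_, rfl⟩
    have T'x : IsTv p V H a' x := by
      refine ⟨T'.aH, T'.ap, Ta.xV, Ta.x1, h1, ?_⟩
      intro v hv
      obtain ⟨n', hn'⟩ := T'.av v hv
      exact ⟨α * n', by rw [hn', hx', pow_mul]⟩
    have Tg : IsTv p V H (a' * a ^ k) x := IsTv.mul S T'x (Ta.pow k)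
    have hgy : (a' * a ^ k) * y * (a' * a ^ k)⁻¹ = y := by
      have e1 : a ^ k * y * (a ^ k)⁻¹ = y * x ^ k := by
        have h8 := ffp_conj_pow_shift a x y Ta.ax 1 (by rw [pow_one]; exact P.hay) k
        rwa [mul_one] at h8
      have e2 : (a' * a ^ k) * y * (a' * a ^ k)⁻¹ = a' * (a ^ k * y * (a ^ k)⁻¹) * a'⁻¹ := by
        simp only [mul_inv_rev, mul_assoc]
      rw [e2, e1, ffp_conj_mul, ffp_conj_pow, hn, h1, hx', ← pow_mul, mul_assoc, ← pow_add]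
      have e3 : x ^ (α * n + k) = 1 := by
        have h8 : α * n + k = p * (α * n) := by rw [hk, hp']; ring
        rw [h8, pow_mul, hxp, one_pow]
      rw [e3, mul_one]
    have hg1 : a' * a ^ k = 1 := by
      apply ffp_nocent S Tg
      intro z hz
      obtain ⟨i, j, hij⟩ := P.wform _ (hQW z hz)
      rw [hij, ffp_conj_mul, ffp_conj_pow, ffp_conj_pow, Tg.ax, hgy]
    have e : a' = (a ^ k)⁻¹ := eq_inv_of_mul_eq_one_left hg1
    rw [e]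
    exact Subgroup.inv_mem _ (Subgroup.pow_mem _ haL k)

theorem ffp_dich [Finite G] {p : ℕ} [Fact p.Prime] {V H Q : Subgroup G} (S : FFSet p V H Q)
    {a b x y q : G} (T : IsTv p V H a x) (ha1 : a ≠ 1) (D : PData p V H Q a b x y q)
    (hq : q ∈ Q) {a' x' : G} (T' : IsTv p V H a' x') (ha'1 : a' ≠ 1) :
    a' ∈ Subgroup.closure ({a, b} : Set G) ∨
      ∀ g ∈ Subgroup.closure ({a, b} : Set G), a' * g = g * a' := by
  have haL : a ∈ Subgroup.closure ({a, b} : Set G) :=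
    Subgroup.subset_closure (Set.mem_insert _ _)
  have hbL : b ∈ Subgroup.closure ({a, b} : Set G) :=
    Subgroup.subset_closure (Set.mem_insert_of_mem _ (Set.mem_singleton _))
  have Tb : IsTv p V H b y := D.Tb
  have hb1 : b ≠ 1 := D.b_ne
  have hQWx := ffp_QW S T ha1 D hq
  have hQWy := ffp_QWy S T ha1 D hq
  have hNa : ∀ h ∈ H, h * a = a * h → ∀ w ∈ Subgroup.closure ({x, y} : Set G),
      h * w * h⁻¹ ∈ Subgroup.closure ({x, y} : Set G) :=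
    fun h hh hc => ffp_normW_of_normL S D.P hh (ffp_normL S T ha1 D hq h hh hc)
  have hNb : ∀ h ∈ H, h * b = b * h → ∀ w ∈ Subgroup.closure ({x, y} : Set G),
      h * w * h⁻¹ ∈ Subgroup.closure ({x, y} : Set G) :=
    fun h hh hc => ffp_normW_of_normL S D.P hh (ffp_normL_b S T ha1 D hq h hh hc)
  rcases D.P.cover x' T'.xV with hb | ⟨j, hj⟩
  · have hsw : Subgroup.closure ({y, x} : Set G) = Subgroup.closure ({x, y} : Set G) := by
      rw [Set.pair_comm]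
    have hswL : Subgroup.closure ({b, a} : Set G) = Subgroup.closure ({a, b} : Set G) := by
      rw [Set.pair_comm]
    have h := ffp_dich_a S D.P.symm Tb T hb1 (by rw [hsw]; exact hQWy)
      (by rw [hsw]; exact hNb) T' ha'1 hb
    rw [hswL] at h
    rcases h with h | ⟨h1, h2⟩
    · left; exact h
    · right; exact ffp_comm_all h2 h1
  · obtain ⟨c, hc⟩ : ∃ c : G, c = b ^ j := ⟨_, rfl⟩
    rw [← hc] at hj
    have hcL : c ∈ Subgroup.closure ({a, b} : Set G) := by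
      rw [hc]; exact Subgroup.pow_mem _ hbL j
    have hcH : c ∈ H := by rw [hc]; exact H.pow_mem D.bH j
    have T'' := T'.conj S hcH
    have ha''1 : c * a' * c⁻¹ ≠ 1 := by
      intro h
      apply ha'1
      calc a' = c⁻¹ * (c * a' * c⁻¹) * c := by group
        _ = 1 := by rw [h]; group
    rcases ffp_dich_a S D.P T Tb ha1 hQWx hNa T'' ha''1 hj with h | ⟨h1, h2⟩
    · left
      have e : a' = c⁻¹ * (c * a' * c⁻¹) * c := by group
      rw [e]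
      exact Subgroup.mul_mem _ (Subgroup.mul_mem _ (Subgroup.inv_mem _ hcL) h) hcL
    · right
      have hall := ffp_comm_all h1 h2
      intro g hg
      have hg' : c * g * c⁻¹ ∈ Subgroup.closure ({a, b} : Set G) :=
        Subgroup.mul_mem _ (Subgroup.mul_mem _ hcL hg) (Subgroup.inv_mem _ hcL)
      have h3 := hall _ hg'
      calc a' * g = c⁻¹ * (c * a' * c⁻¹ * (c * g * c⁻¹)) * c := by group
        _ = c⁻¹ * (c * g * c⁻¹ * (c * a' * c⁻¹)) * c := by rw [h3]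
        _ = g * a' := by group

end Cfsg.Agent.Helper1
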