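import Mathlib
import Cfsg.Agent.Helper1.FFDich
import Cfsg.Agent.Helper9.Offender4

set_option autoImplicit false

namespace Cfsg.Agent.Helper1

open Cfsg.Agent.Helper26
open scoped commutatorElement

variable {G : Type*} [Group G]

theorem TPair.W_inf [Finite G] {p : ℕ} [Fact p.Prime] {V : Subgroup G} {a b x y : G}
    (P : TPair p V a b x y) :
    Subgroup.closure ({x, y} : Set G) ⊓
      (V ⊓ Subgroup.centralizer ((Subgroup.closure ({a, b} : Set G) : Subgroup G) : Set G))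
      = ⊥ := by
  rw [eq_bot_iff]
  intro w hw
  obtain ⟨hwW, hwC⟩ := Subgroup.mem_inf.mp hw
  obtain ⟨-, hwC⟩ := Subgroup.mem_inf.mp hwC
  rw [Subgroup.mem_bot]
  have hxp := P.exp x P.hx
  have hyp := P.exp y P.hy
  obtain ⟨i, j, hij⟩ := P.wform w hwW
  have hca : a * w = w * a :=
    Subgroup.mem_centralizer_iff.mp hwC a (Subgroup.subset_closure (Set.mem_insert _ _))
  have hcb : b * w = w * b :=
    Subgroup.mem_centralizer_iff.mp hwC b
      (Subgroup.subset_closure (Set.mem_insert_of_mem _ (Set.mem_singleton _)))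
  have hfa : a * w * a⁻¹ = w := by rw [hca, mul_inv_cancel_right]
  have hfb : b * w * b⁻¹ = w := by rw [hcb, mul_inv_cancel_right]
  rw [hij] at hfa hfb
  rw [P.conj_a] at hfa
  rw [P.conj_b] at hfb
  have hxj : x ^ j = 1 := by
    have h1 : x ^ (i + j) = x ^ i := mul_right_cancel hfa
    rw [pow_add] at h1
    have h2 : x ^ i * x ^ j = x ^ i * 1 := by rw [mul_one]; exact h1
    exact mul_left_cancel h2
  have hyi : y ^ i = 1 := by
    have h1 : y ^ (i + j) = y ^ j := mul_left_cancel hfb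
    rw [pow_add] at h1
    have h2 : y ^ i * y ^ j = 1 * y ^ j := by rw [one_mul]; exact h1
    exact mul_right_cancel h2
  have hpj : p ∣ j := by
    have ho : orderOf x = p := orderOf_eq_prime hxp P.hx1
    rw [← ho]; exact orderOf_dvd_of_pow_eq_one hxj
  have hpi : p ∣ i := by
    have ho : orderOf y = p := orderOf_eq_prime hyp (fun h => P.y_ne 0 (by rw [h, pow_zero]))
    rw [← ho]; exact orderOf_dvd_of_pow_eq_one hyi
  obtain ⟨ci, hci⟩ := hpi
  obtain ⟨cj, hcj⟩ := hpj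
  rw [hij, hci, hcj, pow_mul, pow_mul, hxp, hyp, one_pow, one_pow, mul_one]

theorem TPair.W_sup [Finite G] {p : ℕ} [Fact p.Prime] {V : Subgroup G} {a b x y : G}
    (P : TPair p V a b x y) :
    Subgroup.closure ({x, y} : Set G) ⊔
      (V ⊓ Subgroup.centralizer ((Subgroup.closure ({a, b} : Set G) : Subgroup G) : Set G))
      = V := by
  have hxW : x ∈ Subgroup.closure ({x, y} : Set G) :=
    Subgroup.subset_closure (Set.mem_insert _ _)
  have hyW : y ∈ Subgroup.closure ({x, y} : Set G) :=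
    Subgroup.subset_closure (Set.mem_insert_of_mem _ (Set.mem_singleton _))
  apply le_antisymm
  · exact sup_le P.W_le inf_le_left
  · intro v hv
    obtain ⟨n, hn⟩ := P.hav v hv
    obtain ⟨m, hm⟩ := P.hbv v hv
    obtain ⟨w, hw⟩ : ∃ w : G, w = x ^ m * y ^ n := ⟨_, rfl⟩
    have hwW : w ∈ Subgroup.closure ({x, y} : Set G) := by
      rw [hw]; exact Subgroup.mul_mem _ (Subgroup.pow_mem _ hxW m) (Subgroup.pow_mem _ hyW n)
    have hwV : w ∈ V := P.W_le hwW
    have haw : a * w * a⁻¹ = w * x ^ n := by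
      rw [hw, P.conj_a, pow_add, mul_assoc, mul_assoc, (P.xy.pow_pow n n).eq]
    have hbw : b * w * b⁻¹ = w * y ^ m := by
      rw [hw, P.conj_b, mul_assoc, ← pow_add, add_comm]
    have hcV : w⁻¹ * v ∈ V := V.mul_mem (V.inv_mem hwV) hv
    have key : ∀ X ∈ V, (w * X)⁻¹ * (v * X) = w⁻¹ * v := by
      intro X hX
      have h1 := P.comm X hX (w⁻¹ * v) hcV
      calc (w * X)⁻¹ * (v * X) = X⁻¹ * ((w⁻¹ * v) * X) := by group
        _ = X⁻¹ * (X * (w⁻¹ * v)) := by rw [h1]
        _ = w⁻¹ * v := by group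
    have hac : a * (w⁻¹ * v) * a⁻¹ = w⁻¹ * v := by
      calc a * (w⁻¹ * v) * a⁻¹ = (a * w * a⁻¹)⁻¹ * (a * v * a⁻¹) := by group
        _ = (w * x ^ n)⁻¹ * (v * x ^ n) := by rw [haw, hn]
        _ = w⁻¹ * v := key _ (V.pow_mem P.hx n)
    have hbc : b * (w⁻¹ * v) * b⁻¹ = w⁻¹ * v := by
      calc b * (w⁻¹ * v) * b⁻¹ = (b * w * b⁻¹)⁻¹ * (b * v * b⁻¹) := by group
        _ = (w * y ^ m)⁻¹ * (v * y ^ m) := by rw [hbw, hm]
        _ = w⁻¹ * v := key _ (V.pow_mem P.hy m)
    have hca : a * (w⁻¹ * v) = (w⁻¹ * v) * a := by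
      calc a * (w⁻¹ * v) = a * (w⁻¹ * v) * a⁻¹ * a := by group
        _ = (w⁻¹ * v) * a := by rw [hac]
    have hcb : b * (w⁻¹ * v) = (w⁻¹ * v) * b := by
      calc b * (w⁻¹ * v) = b * (w⁻¹ * v) * b⁻¹ * b := by group
        _ = (w⁻¹ * v) * b := by rw [hbc]
    have h2 : w * (w⁻¹ * v) ∈ Subgroup.closure ({x, y} : Set G) ⊔
        (V ⊓ Subgroup.centralizer ((Subgroup.closure ({a, b} : Set G) : Subgroup G) : Set G)) :=
      Subgroup.mul_mem_sup hwW (Subgroup.mem_inf.mpr ⟨hcV, ffp_cent_closure hca hcb⟩)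
    rwa [mul_inv_cancel_left] at h2

theorem ff_gen [Finite G] {p : ℕ} [Fact p.Prime] (V H : Subgroup G)
    (hV : Cfsg.IsElementaryAbelian p V) (hHV : H ≤ Subgroup.normalizer (V : Set G))
    (hf : H ⊓ Subgroup.centralizer (V : Set G) = ⊥)
    (hS1 : Subgroup.centralizer (Cfsg.pPrimeCore p ↥H : Set ↥H) ≤ Cfsg.pPrimeCore p ↥H)
    (hS3 : H = ⨆ A : {A : Subgroup G // A ≤ H ∧ Cfsg.IsBestOffenderOn p V A}, (A : Subgroup G))
    (K : Subgroup G)
    (hK : ∀ a' x' : G, IsTv p V H a' x' → a' ≠ 1 → a' ∈ K) : H ≤ K := by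
  have S := ffset_of V H hV hHV hf hS1
  have h1 : (⨆ A : {A : Subgroup G // A ≤ H ∧ Cfsg.IsBestOffenderOn p V A}, (A : Subgroup G))
      ≤ K := by
    apply iSup_le
    rintro ⟨A', hA'H, hA'⟩
    obtain ⟨k, B, hB, -, hsup⟩ :=
      Cfsg.Agent.Helper9.offender_decomp9 V H hV hHV hf hS1 A' hA'H hA'
    show A' ≤ K
    rw [← hsup]
    apply iSup_le
    intro i
    obtain ⟨hBA, hBo, hBV, hBmin⟩ := hB i
    have hBH : B i ≤ H := hBA.trans hA'H
    obtain ⟨hc, hU, -⟩ :=
      Cfsg.Agent.Helper9.min_offender9 V H hV hHV hf hS1 (B i) hBH hBo hBV hBmin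
    obtain ⟨a', x', T', ha'1, hBz, -⟩ := tv_of_offender S (B i) hBH hc hU
    rw [hBz]
    exact Subgroup.zpowers_le.mpr (hK a' x' T' ha'1)
  rw [hS3]; exact h1

theorem ffp_H_norm [Finite G] {p : ℕ} [Fact p.Prime] {V H Q : Subgroup G} (S : FFSet p V H Q)
    {a b x y q : G} (T : IsTv p V H a x) (ha1 : a ≠ 1) (D : PData p V H Q a b x y q)
    (hq : q ∈ Q)
    (hgen : ∀ K : Subgroup G, (∀ a' x' : G, IsTv p V H a' x' → a' ≠ 1 → a' ∈ K) → H ≤ K) :
    ∀ h ∈ H, ∀ g ∈ Subgroup.closure ({a, b} : Set G),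
      h * g * h⁻¹ ∈ Subgroup.closure ({a, b} : Set G) := by
  have h1 : H ≤ Subgroup.normalizer
      ((Subgroup.closure ({a, b} : Set G) : Subgroup G) : Set G) := by
    apply hgen
    intro a' x' T' ha'1
    rw [Subgroup.mem_normalizer_iff]
    intro g
    rcases ffp_dich S T ha1 D hq T' ha'1 with h | h
    · constructor
      · intro hg
        have hg' : g ∈ Subgroup.closure ({a, b} : Set G) := hg
        show a' * g * a'⁻¹ ∈ Subgroup.closure ({a, b} : Set G)
        exact Subgroup.mul_mem _ (Subgroup.mul_mem _ h hg') (Subgroup.inv_mem _ h)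
      · intro hg
        have hg' : a' * g * a'⁻¹ ∈ Subgroup.closure ({a, b} : Set G) := hg
        have h2 : a'⁻¹ * (a' * g * a'⁻¹) * a' ∈ Subgroup.closure ({a, b} : Set G) :=
          Subgroup.mul_mem _ (Subgroup.mul_mem _ (Subgroup.inv_mem _ h) hg') h
        have e : a'⁻¹ * (a' * g * a'⁻¹) * a' = g := by group
        rw [e] at h2
        exact h2
    · constructor
      · intro hg
        have hg' : g ∈ Subgroup.closure ({a, b} : Set G) := hg
        have e : a' * g * a'⁻¹ = g := by rw [h g hg', mul_inv_cancel_right]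
        rw [e]; exact hg
      · intro hg
        have hg' : a' * g * a'⁻¹ ∈ Subgroup.closure ({a, b} : Set G) := hg
        have h1 := h _ hg'
        have e : a' * g * a'⁻¹ = g := by
          calc a' * g * a'⁻¹ = a'⁻¹ * (a' * (a' * g * a'⁻¹)) := by group
            _ = a'⁻¹ * ((a' * g * a'⁻¹) * a') := by rw [h1]
            _ = g := by group
        rw [e] at hg; exact hg
  intro h hh g hg
  exact (Subgroup.mem_normalizer_iff.mp (h1 hh) g).mp hg

theorem ffp_commLH [Finite G] {p : ℕ} [Fact p.Prime] {V H Q : Subgroup G} {a b x y q : G}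
    (D : PData p V H Q a b x y q) {h : G}
    (hN : ∀ g ∈ Subgroup.closure ({a, b} : Set G),
      h * g * h⁻¹ ∈ Subgroup.closure ({a, b} : Set G))
    (hx : h * x * h⁻¹ = x) (hy : h * y * h⁻¹ = y) :
    ∀ e ∈ Subgroup.closure ({a, b} : Set G), h * e = e * h := by
  have hxW : x ∈ Subgroup.closure ({x, y} : Set G) :=
    Subgroup.subset_closure (Set.mem_insert _ _)
  have hyW : y ∈ Subgroup.closure ({x, y} : Set G) :=
    Subgroup.subset_closure (Set.mem_insert_of_mem _ (Set.mem_singleton _))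
  intro e he
  have hfixW' : ∀ w ∈ Subgroup.closure ({x, y} : Set G), h * w * h⁻¹ = w := by
    intro w hw
    obtain ⟨i, j, hij⟩ := D.P.wform w hw
    rw [hij, ffp_conj_mul, ffp_conj_pow, ffp_conj_pow, hx, hy]
  have hfixW : ∀ w ∈ Subgroup.closure ({x, y} : Set G), h⁻¹ * w * h = w := by
    intro w hw
    have h1 := hfixW' w hw
    calc h⁻¹ * w * h = h⁻¹ * (h * w * h⁻¹) * h := by rw [h1]
      _ = w := by group
  have hLW : ∀ g ∈ Subgroup.closure ({a, b} : Set G), ∀ w ∈ Subgroup.closure ({x, y} : Set G),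
      g * w * g⁻¹ ∈ Subgroup.closure ({x, y} : Set G) := by
    intro g hg w hw
    obtain ⟨i, j, hij⟩ := D.P.act g hg w (D.P.W_le hw)
    rw [hij]
    exact Subgroup.mul_mem _ hw
      (Subgroup.mul_mem _ (Subgroup.pow_mem _ hxW i) (Subgroup.pow_mem _ hyW j))
  have key : ∀ w ∈ Subgroup.closure ({x, y} : Set G),
      (h * e * h⁻¹ * e⁻¹) * w * (h * e * h⁻¹ * e⁻¹)⁻¹ = w := by
    intro w hw
    have hu : e⁻¹ * w * e ∈ Subgroup.closure ({x, y} : Set G) := by
      have h1 := hLW e⁻¹ (Subgroup.inv_mem _ he) w hw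
      rwa [inv_inv] at h1
    calc (h * e * h⁻¹ * e⁻¹) * w * (h * e * h⁻¹ * e⁻¹)⁻¹
        = h * (e * (h⁻¹ * (e⁻¹ * w * e) * h) * e⁻¹) * h⁻¹ := by group
      _ = h * (e * (e⁻¹ * w * e) * e⁻¹) * h⁻¹ := by rw [hfixW _ hu]
      _ = h * w * h⁻¹ := by group
      _ = w := hfixW' w hw
  have he' : h * e * h⁻¹ * e⁻¹ = 1 :=
    D.faith _ (Subgroup.mul_mem _ (hN e he) (Subgroup.inv_mem _ he)) (key x hxW) (key y hyW)
  calc h * e = (h * e * h⁻¹ * e⁻¹) * e * h := by group
    _ = e * h := by rw [he', one_mul]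

theorem ffp_fix_of_centW {x y h : G}
    (hhC : h ∈ Subgroup.centralizer ((Subgroup.closure ({x, y} : Set G) : Subgroup G) : Set G)) :
    h * x * h⁻¹ = x ∧ h * y * h⁻¹ = y := by
  have hxW : x ∈ Subgroup.closure ({x, y} : Set G) :=
    Subgroup.subset_closure (Set.mem_insert _ _)
  have hyW : y ∈ Subgroup.closure ({x, y} : Set G) :=
    Subgroup.subset_closure (Set.mem_insert_of_mem _ (Set.mem_singleton _))
  have h1 : x * h = h * x := Subgroup.mem_centralizer_iff.mp hhC x hxW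
  have h2 : y * h = h * y := Subgroup.mem_centralizer_iff.mp hhC y hyW
  exact ⟨by rw [← h1, mul_inv_cancel_right], by rw [← h2, mul_inv_cancel_right]⟩

theorem ffp_s6 [Finite G] {p : ℕ} [Fact p.Prime] {V H Q : Subgroup G} {a b x y q : G}
    (D : PData p V H Q a b x y q)
    (hN : ∀ h ∈ H, ∀ g ∈ Subgroup.closure ({a, b} : Set G),
      h * g * h⁻¹ ∈ Subgroup.closure ({a, b} : Set G)) :
    ⁅Subgroup.closure ({a, b} : Set G),
      H ⊓ Subgroup.centralizer ((Subgroup.closure ({x, y} : Set G) : Subgroup G) : Set G)⁆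
      = ⊥ := by
  rw [Subgroup.commutator_eq_bot_iff_le_centralizer]
  intro e he
  rw [Subgroup.mem_centralizer_iff]
  intro h hh
  obtain ⟨hhH, hhC⟩ := Subgroup.mem_inf.mp hh
  obtain ⟨hx, hy⟩ := ffp_fix_of_centW hhC
  exact ffp_commLH D (hN h hhH) hx hy e he

theorem ffp_s7 [Finite G] {p : ℕ} [Fact p.Prime] {V H Q : Subgroup G} {a b x y q : G}
    (D : PData p V H Q a b x y q) :
    Subgroup.closure ({a, b} : Set G) ⊓
      (H ⊓ Subgroup.centralizer ((Subgroup.closure ({x, y} : Set G) : Subgroup G) : Set G))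
      = ⊥ := by
  rw [eq_bot_iff]
  intro g hg
  obtain ⟨hgL, hg2⟩ := Subgroup.mem_inf.mp hg
  obtain ⟨-, hgC⟩ := Subgroup.mem_inf.mp hg2
  rw [Subgroup.mem_bot]
  obtain ⟨hx, hy⟩ := ffp_fix_of_centW hgC
  exact D.faith g hgL hx hy

theorem ffp_s8 [Finite G] {p : ℕ} [Fact p.Prime] {V H Q : Subgroup G} (S : FFSet p V H Q)
    {a b x y q : G} (T : IsTv p V H a x) (ha1 : a ≠ 1) (D : PData p V H Q a b x y q)
    (hq : q ∈ Q)
    (hgen : ∀ K : Subgroup G, (∀ a' x' : G, IsTv p V H a' x' → a' ≠ 1 → a' ∈ K) → H ≤ K) :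
    Subgroup.closure ({a, b} : Set G) ⊔
      (H ⊓ Subgroup.centralizer ((Subgroup.closure ({x, y} : Set G) : Subgroup G) : Set G))
      = H := by
  have haL : a ∈ Subgroup.closure ({a, b} : Set G) :=
    Subgroup.subset_closure (Set.mem_insert _ _)
  have hbL : b ∈ Subgroup.closure ({a, b} : Set G) :=
    Subgroup.subset_closure (Set.mem_insert_of_mem _ (Set.mem_singleton _))
  have hLH : Subgroup.closure ({a, b} : Set G) ≤ H := by
    rw [Subgroup.closure_le]
    intro c hc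
    rcases hc with hca | hcb
    · rw [hca]; exact T.aH
    · rw [Set.mem_singleton_iff.mp hcb]; exact D.bH
  apply le_antisymm (sup_le hLH inf_le_left)
  apply hgen
  intro a' x' T' ha'1
  rcases ffp_dich S T ha1 D hq T' ha'1 with h | h
  · exact Subgroup.mem_sup_left h
  · apply Subgroup.mem_sup_right
    refine Subgroup.mem_inf.mpr ⟨T'.aH, ?_⟩
    have hfx : a' * x * a'⁻¹ = x := T.fix_of_commute S ha1 T'.aH T'.ap (h a haL)
    have hfy : a' * y * a'⁻¹ = y := D.Tb.fix_of_commute S D.b_ne T'.aH T'.ap (h b hbL)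
    have hcx : x * a' = a' * x := by
      calc x * a' = a' * x * a'⁻¹ * a' := by rw [hfx]
        _ = a' * x := by group
    have hcy : y * a' = a' * y := by
      calc y * a' = a' * y * a'⁻¹ * a' := by rw [hfy]
        _ = a' * y := by group
    exact ffp_cent_closure hcx hcy

theorem ffp_s9 [Finite G] {p : ℕ} [Fact p.Prime] {V H Q : Subgroup G} (S : FFSet p V H Q)
    {a b x y q : G} (D : PData p V H Q a b x y q)
    (hN : ∀ h ∈ H, ∀ g ∈ Subgroup.closure ({a, b} : Set G),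
      h * g * h⁻¹ ∈ Subgroup.closure ({a, b} : Set G)) :
    ⁅V, H ⊓ Subgroup.centralizer ((Subgroup.closure ({x, y} : Set G) : Subgroup G) : Set G)⁆
      ≤ V ⊓ Subgroup.centralizer ((Subgroup.closure ({a, b} : Set G) : Subgroup G) : Set G) := by
  have haL : a ∈ Subgroup.closure ({a, b} : Set G) :=
    Subgroup.subset_closure (Set.mem_insert _ _)
  have hbL : b ∈ Subgroup.closure ({a, b} : Set G) :=
    Subgroup.subset_closure (Set.mem_insert_of_mem _ (Set.mem_singleton _))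
  have hxW : x ∈ Subgroup.closure ({x, y} : Set G) :=
    Subgroup.subset_closure (Set.mem_insert _ _)
  have hyW : y ∈ Subgroup.closure ({x, y} : Set G) :=
    Subgroup.subset_closure (Set.mem_insert_of_mem _ (Set.mem_singleton _))
  rw [Subgroup.commutator_le]
  intro v hv h hh
  obtain ⟨hhH, hhC⟩ := Subgroup.mem_inf.mp hh
  obtain ⟨hx, hy⟩ := ffp_fix_of_centW hhC
  have hcomm := ffp_commLH D (hN h hhH) hx hy
  refine Subgroup.mem_inf.mpr ⟨?_, ?_⟩
  · have e : ⁅v, h⁆ = v * (h * v⁻¹ * h⁻¹) := by rw [commutatorElement_def]; group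
    rw [e]
    exact V.mul_mem hv (S.hHV h hhH v⁻¹ (V.inv_mem hv))
  · have key : ∀ e ∈ Subgroup.closure ({a, b} : Set G), e * ⁅v, h⁆ = ⁅v, h⁆ * e := by
      intro e he
      obtain ⟨i, j, hij⟩ := D.P.act e he v hv
      obtain ⟨w, hw⟩ : ∃ w : G, w = x ^ i * y ^ j := ⟨_, rfl⟩
      rw [← hw] at hij
      have hwW : w ∈ Subgroup.closure ({x, y} : Set G) := by
        rw [hw]; exact Subgroup.mul_mem _ (Subgroup.pow_mem _ hxW i) (Subgroup.pow_mem _ hyW j)
      have hwh : w * h = h * w := Subgroup.mem_centralizer_iff.mp hhC w hwW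
      have heh : h * e = e * h := hcomm e he
      have h1 : e * h * e⁻¹ = h := by rw [← heh, mul_inv_cancel_right]
      have h2 : w * h * w⁻¹ = h := by rw [hwh, mul_inv_cancel_right]
      have e1 : e * ⁅v, h⁆ * e⁻¹ = ⁅v, h⁆ := by
        rw [commutatorElement_def]
        calc e * (v * h * v⁻¹ * h⁻¹) * e⁻¹
            = (e * v * e⁻¹) * (e * h * e⁻¹) * (e * v * e⁻¹)⁻¹ * (e * h * e⁻¹)⁻¹ := by group
          _ = (v * w) * h * (v * w)⁻¹ * h⁻¹ := by rw [hij, h1]
          _ = v * (w * h * w⁻¹) * v⁻¹ * h⁻¹ := by group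
          _ = v * h * v⁻¹ * h⁻¹ := by rw [h2]
      calc e * ⁅v, h⁆ = e * ⁅v, h⁆ * e⁻¹ * e := by group
        _ = ⁅v, h⁆ * e := by rw [e1]
    exact ffp_cent_closure (key a haL) (key b hbL)

theorem ffp_E_eq [Finite G] {p : ℕ} [Fact p.Prime] {V H Q : Subgroup G} (S : FFSet p V H Q)
    {a b x y q : G} (T : IsTv p V H a x) (ha1 : a ≠ 1) (D : PData p V H Q a b x y q)
    (hq : q ∈ Q) :
    ⁅Q, Subgroup.zpowers a⁆ ⊔ Subgroup.zpowers a = Subgroup.closure ({a, b} : Set G) := by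
  have haL : a ∈ Subgroup.closure ({a, b} : Set G) :=
    Subgroup.subset_closure (Set.mem_insert _ _)
  have haA : a ∈ Subgroup.zpowers a := Subgroup.mem_zpowers a
  apply le_antisymm
  · exact sup_le ((ffp_comm_le S T ha1 D hq).trans inf_le_left) (Subgroup.zpowers_le.mpr haL)
  · rw [D.hcl, Subgroup.closure_le]
    intro c hc
    rcases hc with hca | hcb
    · rw [hca]; exact Subgroup.mem_sup_right haA
    · rw [Set.mem_singleton_iff.mp hcb]
      have e : q * a * q⁻¹ = ⁅q, a⁆ * a := by rw [commutatorElement_def]; group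
      rw [e]
      exact Subgroup.mul_mem _ (Subgroup.mem_sup_left (Subgroup.commutator_mem_commutator hq haA))
        (Subgroup.mem_sup_right haA)

end Cfsg.Agent.Helper1
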