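import Mathlib
import Cfsg.Agent.Helper1.FFStruct

set_option autoImplicit false

namespace Cfsg.Agent.Helper1

open Cfsg.Agent.Helper26
open scoped commutatorElement

variable {G : Type*} [Group G]

/-- `E` is a component: generated by a transvection pair coming from a minimal offender -/
structure IsComp (p : ℕ) (V H Q E : Subgroup G) : Prop where
  ex : ∃ a b x y q : G, IsTv p V H a x ∧ a ≠ 1 ∧ q ∈ Q ∧ PData p V H Q a b x y q ∧
    E = Subgroup.closure ({a, b} : Set G)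

theorem ff_comp_of_offender [Finite G] {p : ℕ} [Fact p.Prime] (V H : Subgroup G)
    (hV : Cfsg.IsElementaryAbelian p V) (hHV : H ≤ Subgroup.normalizer (V : Set G))
    (hf : H ⊓ Subgroup.centralizer (V : Set G) = ⊥)
    (hS1 : Subgroup.centralizer (Cfsg.pPrimeCore p ↥H : Set ↥H) ≤ Cfsg.pPrimeCore p ↥H)
    (A : Subgroup G) (hAH : A ≤ H) (hA : Cfsg.IsBestOffenderOn p V A) (hAV : ⁅V, A⁆ ≠ ⊥)
    (hmin : ∀ B : Subgroup G, B ≤ A → Cfsg.IsBestOffenderOn p V B → ⁅V, B⁆ ≠ ⊥ → B = A) :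
    IsComp p V H ((Cfsg.pPrimeCore p ↥H).map H.subtype)
      (⁅((Cfsg.pPrimeCore p ↥H).map H.subtype), A⁆ ⊔ A) := by
  obtain ⟨hAc, hUc, -⟩ := Cfsg.Agent.Helper9.min_offender9 V H hV hHV hf hS1 A hAH hA hAV hmin
  have S := ffset_of V H hV hHV hf hS1
  obtain ⟨a, x, T, ha1, hAz, hUz⟩ := tv_of_offender S A hAH hAc hUc
  have hex : ∃ q ∈ ((Cfsg.pPrimeCore p ↥H).map H.subtype), q * a ≠ a * q := by
    by_contra hcon
    push_neg at hcon
    exact ha1 (S.hQc a T.aH T.ap hcon)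
  obtain ⟨q, hq, hqa⟩ := hex
  obtain ⟨b, y, D⟩ := ffp_pair S T ha1 hq hqa
  exact ⟨⟨a, b, x, y, q, T, ha1, hq, D, by rw [hAz]; exact ffp_E_eq S T ha1 D hq⟩⟩

theorem ff_gen_min [Finite G] {p : ℕ} [Fact p.Prime] (V H : Subgroup G)
    (hV : Cfsg.IsElementaryAbelian p V) (hHV : H ≤ Subgroup.normalizer (V : Set G))
    (hf : H ⊓ Subgroup.centralizer (V : Set G) = ⊥)
    (hS1 : Subgroup.centralizer (Cfsg.pPrimeCore p ↥H : Set ↥H) ≤ Cfsg.pPrimeCore p ↥H)
    (hS3 : H = ⨆ A : {A : Subgroup G // A ≤ H ∧ Cfsg.IsBestOffenderOn p V A}, (A : Subgroup G))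
    (K : Subgroup G)
    (hK : ∀ B : Subgroup G, B ≤ H → Cfsg.IsBestOffenderOn p V B → ⁅V, B⁆ ≠ ⊥ →
      (∀ C : Subgroup G, C ≤ B → Cfsg.IsBestOffenderOn p V C → ⁅V, C⁆ ≠ ⊥ → C = B) → B ≤ K) :
    H ≤ K := by
  have h1 : (⨆ A : {A : Subgroup G // A ≤ H ∧ Cfsg.IsBestOffenderOn p V A}, (A : Subgroup G))
      ≤ K := by
    apply iSup_le
    rintro ⟨A', hA'H, hA'⟩
    obtain ⟨k, B, hB, -, hsup⟩ :=
      Cfsg.Agent.Helper9.offender_decomp9 V H hV hHV hf hS1 A' hA'H hA'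
    show A' ≤ K
    rw [← hsup]
    apply iSup_le
    intro i
    obtain ⟨hBA, hBo, hBV, hBmin⟩ := hB i
    exact hK (B i) (hBA.trans hA'H) hBo hBV hBmin
  rw [hS3]; exact h1

section comp

variable [Finite G] {p : ℕ} [Fact p.Prime] {V H Q : Subgroup G}

theorem IsComp.le_H {E : Subgroup G} (hE : IsComp p V H Q E) : E ≤ H := by
  obtain ⟨a, b, x, y, q, T, ha1, hq, D, rfl⟩ := hE.ex
  rw [Subgroup.closure_le]
  intro c hc
  rcases hc with hca | hcb
  · rw [hca]; exact T.aH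
  · rw [Set.mem_singleton_iff.mp hcb]; exact D.bH

theorem IsComp.p23 (S : FFSet p V H Q) {E : Subgroup G} (hE : IsComp p V H Q E) :
    p = 2 ∨ p = 3 := by
  obtain ⟨a, b, x, y, q, T, ha1, hq, D, rfl⟩ := hE.ex
  exact PData.p23 S T ha1 D

theorem IsComp.iso {E : Subgroup G} (hE : IsComp p V H Q E) :
    Nonempty (↥E ≃* Matrix.SpecialLinearGroup (Fin 2) (ZMod p)) := by
  obtain ⟨a, b, x, y, q, T, ha1, hq, D, rfl⟩ := hE.ex
  obtain ⟨ψ, -, -, -⟩ := D.P.main D.faith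
  exact ⟨ψ.symm⟩

theorem IsComp.cardW {E : Subgroup G} (hE : IsComp p V H Q E) :
    Nat.card ↥(⁅V, E⁆) = p ^ 2 := by
  obtain ⟨a, b, x, y, q, T, ha1, hq, D, rfl⟩ := hE.ex
  rw [D.P.comm_eq]; exact D.P.card_W

theorem IsComp.W_le {E : Subgroup G} (hE : IsComp p V H Q E) : ⁅V, E⁆ ≤ V := by
  obtain ⟨a, b, x, y, q, T, ha1, hq, D, rfl⟩ := hE.ex
  rw [D.P.comm_eq]; exact D.P.W_le

theorem IsComp.norm (S : FFSet p V H Q)
    (hgen : ∀ K : Subgroup G, (∀ a' x' : G, IsTv p V H a' x' → a' ≠ 1 → a' ∈ K) → H ≤ K)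
    {E : Subgroup G} (hE : IsComp p V H Q E) : H ≤ Subgroup.normalizer (E : Set G) := by
  obtain ⟨a, b, x, y, q, T, ha1, hq, D, rfl⟩ := hE.ex
  have hN := ffp_H_norm S T ha1 D hq hgen
  intro h hh
  rw [Subgroup.mem_normalizer_iff]
  intro n
  constructor
  · intro hn; exact hN h hh n hn
  · intro hn
    have h1 := hN h⁻¹ (H.inv_mem hh) _ hn
    have e : h⁻¹ * (h * n * h⁻¹) * h⁻¹⁻¹ = n := by group
    rw [e] at h1; exact h1

theorem IsComp.F4 {E : Subgroup G} (hE : IsComp p V H Q E) :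
    ⁅V, E⁆ ⊓ (V ⊓ Subgroup.centralizer (E : Set G)) = ⊥ := by
  obtain ⟨a, b, x, y, q, T, ha1, hq, D, rfl⟩ := hE.ex
  rw [D.P.comm_eq]; exact D.P.W_inf

theorem IsComp.F5 {E : Subgroup G} (hE : IsComp p V H Q E) :
    ⁅V, E⁆ ⊔ (V ⊓ Subgroup.centralizer (E : Set G)) = V := by
  obtain ⟨a, b, x, y, q, T, ha1, hq, D, rfl⟩ := hE.ex
  rw [D.P.comm_eq]; exact D.P.W_sup

theorem IsComp.F7 {E : Subgroup G} (hE : IsComp p V H Q E) :
    E ⊓ (H ⊓ Subgroup.centralizer ((⁅V, E⁆ : Subgroup G) : Set G)) = ⊥ := by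
  obtain ⟨a, b, x, y, q, T, ha1, hq, D, rfl⟩ := hE.ex
  rw [D.P.comm_eq]; exact ffp_s7 D

theorem IsComp.F9 (S : FFSet p V H Q)
    (hgen : ∀ K : Subgroup G, (∀ a' x' : G, IsTv p V H a' x' → a' ≠ 1 → a' ∈ K) → H ≤ K)
    {E : Subgroup G} (hE : IsComp p V H Q E) :
    ⁅V, H ⊓ Subgroup.centralizer ((⁅V, E⁆ : Subgroup G) : Set G)⁆
      ≤ V ⊓ Subgroup.centralizer (E : Set G) := by
  obtain ⟨a, b, x, y, q, T, ha1, hq, D, rfl⟩ := hE.ex
  rw [D.P.comm_eq]; exact ffp_s9 S D (ffp_H_norm S T ha1 D hq hgen)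

theorem ffp_mem_HC (S : FFSet p V H Q) {a b x y q : G} (T : IsTv p V H a x) (ha1 : a ≠ 1)
    (D : PData p V H Q a b x y q) {g : G} (hg : g ∈ H) (hgp : g ^ p = 1)
    (h : ∀ e ∈ Subgroup.closure ({a, b} : Set G), g * e = e * g) :
    g ∈ H ⊓ Subgroup.centralizer ((Subgroup.closure ({x, y} : Set G) : Subgroup G) : Set G) := by
  have haL : a ∈ Subgroup.closure ({a, b} : Set G) :=
    Subgroup.subset_closure (Set.mem_insert _ _)
  have hbL : b ∈ Subgroup.closure ({a, b} : Set G) :=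
    Subgroup.subset_closure (Set.mem_insert_of_mem _ (Set.mem_singleton _))
  refine Subgroup.mem_inf.mpr ⟨hg, ?_⟩
  have hfx : g * x * g⁻¹ = x := T.fix_of_commute S ha1 hg hgp (h a haL)
  have hfy : g * y * g⁻¹ = y := D.Tb.fix_of_commute S D.b_ne hg hgp (h b hbL)
  have hcx : x * g = g * x := by
    calc x * g = g * x * g⁻¹ * g := by rw [hfx]
      _ = g * x := by group
  have hcy : y * g = g * y := by
    calc y * g = g * y * g⁻¹ * g := by rw [hfy]
      _ = g * y := by group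
  exact ffp_cent_closure hcx hcy

theorem IsComp.pair (S : FFSet p V H Q) {E E' : Subgroup G} (hE : IsComp p V H Q E)
    (hE' : IsComp p V H Q E') :
    E' = E ∨ E' ≤ H ⊓ Subgroup.centralizer ((⁅V, E⁆ : Subgroup G) : Set G) := by
  obtain ⟨a, b, x, y, q, T, ha1, hq, D, rfl⟩ := hE.ex
  obtain ⟨a', b', x', y', q', T', ha'1, hq', D', rfl⟩ := hE'.ex
  rw [D.P.comm_eq]
  have haL : a ∈ Subgroup.closure ({a, b} : Set G) :=
    Subgroup.subset_closure (Set.mem_insert _ _)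
  have hbL : b ∈ Subgroup.closure ({a, b} : Set G) :=
    Subgroup.subset_closure (Set.mem_insert_of_mem _ (Set.mem_singleton _))
  have T'' := T'.conj S (S.hQH hq')
  have hb₀1 : q' * a' * q'⁻¹ ≠ 1 := by
    intro h
    apply ha'1
    calc a' = q'⁻¹ * (q' * a' * q'⁻¹) * q' := by group
      _ = 1 := by rw [h]; group
  rcases ffp_dich S T ha1 D hq T' ha'1 with h | h
  · left
    have hle : Subgroup.closure ({a', b'} : Set G) ≤ Subgroup.closure ({a, b} : Set G) := by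
      rw [D'.hcl, Subgroup.closure_le]
      intro c hc
      rcases hc with hca | hcb
      · rw [hca]; exact h
      · rw [Set.mem_singleton_iff.mp hcb]; exact ffp_QL S T ha1 D hq q' hq' a' h
    obtain ⟨ψ, -, -, -⟩ := D.P.main D.faith
    obtain ⟨ψ', -, -, -⟩ := D'.P.main D'.faith
    apply Subgroup.eq_of_le_of_card_ge hle
    exact le_of_eq ((Nat.card_congr ψ.toEquiv).symm.trans (Nat.card_congr ψ'.toEquiv))
  · right
    have hcomm_b₀ : ∀ g ∈ Subgroup.closure ({a, b} : Set G),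
        (q' * a' * q'⁻¹) * g = g * (q' * a' * q'⁻¹) := by
      rcases ffp_dich S T ha1 D hq T'' hb₀1 with h2 | h2
      · exfalso
        have h3 : a' ∈ Subgroup.closure ({a, b} : Set G) := by
          have h4 := ffp_QL S T ha1 D hq q'⁻¹ (Q.inv_mem hq') _ h2
          have e : q'⁻¹ * (q' * a' * q'⁻¹) * q'⁻¹⁻¹ = a' := by group
          rwa [e] at h4
        have hfx := T.fix_of_commute S ha1 T'.aH T'.ap (h a haL)
        have hfy := D.Tb.fix_of_commute S D.b_ne T'.aH T'.ap (h b hbL)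
        exact ha'1 (D.faith a' h3 hfx hfy)
      · exact h2
    rw [D'.hcl, Subgroup.closure_le]
    intro c hc
    rcases hc with hca | hcb
    · rw [hca]
      exact ffp_mem_HC S T ha1 D T'.aH T'.ap h
    · rw [Set.mem_singleton_iff.mp hcb]
      exact ffp_mem_HC S T ha1 D T''.aH T''.ap hcomm_b₀

theorem IsComp.w1 (S : FFSet p V H Q)
    (hgen : ∀ K : Subgroup G, (∀ a' x' : G, IsTv p V H a' x' → a' ≠ 1 → a' ∈ K) → H ≤ K)
    {E E' : Subgroup G} (hE : IsComp p V H Q E) (hE' : IsComp p V H Q E') (hne : E' ≠ E) :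
    ⁅V, E'⁆ ≤ V ⊓ Subgroup.centralizer (E : Set G) := by
  rcases hE.pair S hE' with h | h
  · exact absurd h hne
  · exact (Subgroup.commutator_mono le_rfl h).trans (hE.F9 S hgen)

theorem ffp_sup_split {A B : Subgroup G} (comm : ∀ u ∈ V, ∀ v ∈ V, u * v = v * u)
    (hA : A ≤ V) (hB : B ≤ V) : ∀ x ∈ A ⊔ B, ∃ a ∈ A, ∃ b ∈ B, x = a * b := by
  rw [Subgroup.sup_eq_closure]
  apply ffp_closure_induction (P := fun x => ∃ a ∈ A, ∃ b ∈ B, x = a * b)
  · intro g hg
    rcases hg with hgA | hgB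
    · exact ⟨g, hgA, 1, B.one_mem, (mul_one g).symm⟩
    · exact ⟨1, A.one_mem, g, hgB, (one_mul g).symm⟩
  · exact ⟨1, A.one_mem, 1, B.one_mem, (mul_one 1).symm⟩
  · rintro g h ⟨a, ha, b, hb, hg⟩ ⟨a', ha', b', hb', hh⟩
    refine ⟨a * a', A.mul_mem ha ha', b * b', B.mul_mem hb hb', ?_⟩
    have hc := comm b (hB hb) a' (hA ha')
    rw [hg, hh]
    calc a * b * (a' * b') = a * (b * a') * b' := by group
      _ = a * (a' * b) * b' := by rw [hc]
      _ = a * a' * (b * b') := by group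

theorem ff_indep (S : FFSet p V H Q) {ι : Type*} (f : ι → Subgroup G)
    (hinj : Function.Injective f) (hf : ∀ i, IsComp p V H Q (f i)) : iSupIndep f := by
  intro i
  have h1 : (⨆ (j) (_ : j ≠ i), f j)
      ≤ H ⊓ Subgroup.centralizer ((⁅V, f i⁆ : Subgroup G) : Set G) := by
    apply iSup_le; intro j; apply iSup_le; intro hji
    rcases (hf i).pair S (hf j) with h | h
    · exact absurd (hinj h) hji
    · exact h
  exact (disjoint_iff.mpr ((hf i).F7)).mono_right h1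

theorem ff_indep_aux (S : FFSet p V H Q)
    (hgen : ∀ K : Subgroup G, (∀ a' x' : G, IsTv p V H a' x' → a' ≠ 1 → a' ∈ K) → H ≤ K)
    {ι : Type*} [DecidableEq ι] (f : ι → Subgroup G)
    (hinj : Function.Injective f) (hf : ∀ i, IsComp p V H Q (f i)) (s : Finset ι) :
    ∀ u ∈ ⨆ i ∈ s, ⁅V, f i⁆,
      (∀ i ∈ s, u ∈ Subgroup.centralizer ((f i : Subgroup G) : Set G)) → u = 1 := by
  induction s using Finset.induction_on with
  | empty =>
    intro u hu _
    simp at hu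
    exact hu
  | insert i₀ s hi₀ ih =>
    intro u hu hc
    rw [Finset.iSup_insert] at hu
    have hXle : (⨆ i ∈ s, ⁅V, f i⁆)
        ≤ V ⊓ Subgroup.centralizer ((f i₀ : Subgroup G) : Set G) := by
      apply iSup_le; intro j; apply iSup_le; intro hj
      have hne : f j ≠ f i₀ := by
        intro h
        have h' := hinj h
        rw [h'] at hj
        exact hi₀ hj
      exact (hf i₀).w1 S hgen (hf j) hne
    obtain ⟨w₀, hw₀, u', hu', huw⟩ :=
      ffp_sup_split S.comm (hf i₀).W_le (hXle.trans inf_le_left) u hu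
    have hw₀C : w₀ ∈ Subgroup.centralizer ((f i₀ : Subgroup G) : Set G) := by
      have e : w₀ = u * u'⁻¹ := by rw [huw]; group
      rw [e]
      exact Subgroup.mul_mem _ (hc i₀ (Finset.mem_insert_self _ _))
        (Subgroup.inv_mem _ (Subgroup.mem_inf.mp (hXle hu')).2)
    have hw₀1 : w₀ = 1 := by
      have h1 : w₀ ∈ ⁅V, f i₀⁆ ⊓ (V ⊓ Subgroup.centralizer ((f i₀ : Subgroup G) : Set G)) :=
        Subgroup.mem_inf.mpr ⟨hw₀, Subgroup.mem_inf.mpr ⟨(hf i₀).W_le hw₀, hw₀C⟩⟩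
      rw [(hf i₀).F4, Subgroup.mem_bot] at h1
      exact h1
    have huu' : u = u' := by rw [huw, hw₀1, one_mul]
    rw [huu']
    apply ih u' hu'
    intro i hi
    have h2 := hc i (Finset.mem_insert_of_mem hi)
    rw [huu'] at h2
    exact h2

theorem ff_decomp_aux (S : FFSet p V H Q)
    (hgen : ∀ K : Subgroup G, (∀ a' x' : G, IsTv p V H a' x' → a' ≠ 1 → a' ∈ K) → H ≤ K)
    {ι : Type*} [DecidableEq ι] (f : ι → Subgroup G)
    (hinj : Function.Injective f) (hf : ∀ i, IsComp p V H Q (f i)) (s : Finset ι) :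
    ∀ v ∈ V, ∃ u ∈ ⨆ i ∈ s, ⁅V, f i⁆, ∃ c ∈ V,
      (∀ i ∈ s, c ∈ Subgroup.centralizer ((f i : Subgroup G) : Set G)) ∧ v = u * c := by
  induction s using Finset.induction_on with
  | empty =>
    intro v hv
    exact ⟨1, Subgroup.one_mem _, v, hv, fun i hi => absurd hi (Finset.notMem_empty i),
      (one_mul v).symm⟩
  | insert i₀ s hi₀ ih =>
    intro v hv
    obtain ⟨u, hu, c, hcV, hcC, hvuc⟩ := ih v hv
    have hXV : (⨆ i ∈ s, ⁅V, f i⁆) ≤ V := by
      apply iSup_le; intro j; apply iSup_le; intro _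
      exact (hf j).W_le
    have hc' : c ∈ ⁅V, f i₀⁆ ⊔ (V ⊓ Subgroup.centralizer ((f i₀ : Subgroup G) : Set G)) := by
      rw [(hf i₀).F5]; exact hcV
    obtain ⟨w₀, hw₀, c₀, hc₀, hcw⟩ := ffp_sup_split S.comm (hf i₀).W_le inf_le_left c hc'
    obtain ⟨hc₀V, hc₀C⟩ := Subgroup.mem_inf.mp hc₀
    refine ⟨u * w₀, ?_, c₀, hc₀V, ?_, ?_⟩
    · rw [Finset.iSup_insert]
      have h1 : w₀ * u ∈ ⁅V, f i₀⁆ ⊔ ⨆ i ∈ s, ⁅V, f i⁆ := Subgroup.mul_mem_sup hw₀ hu
      have e : u * w₀ = w₀ * u := S.comm u (hXV hu) w₀ ((hf i₀).W_le hw₀)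
      rw [e]; exact h1
    · intro i hi
      rcases Finset.mem_insert.mp hi with hii | hi'
      · rw [hii]; exact hc₀C
      · have e : c₀ = w₀⁻¹ * c := by rw [hcw]; group
        rw [e]
        have hne : f i₀ ≠ f i := by
          intro h
          have h' := hinj h
          rw [h'] at hi₀
          exact hi₀ hi'
        exact Subgroup.mul_mem _
          (Subgroup.inv_mem _ (Subgroup.mem_inf.mp ((hf i).w1 S hgen (hf i₀) hne hw₀)).2)
          (hcC i hi')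
    · rw [hvuc, hcw, mul_assoc]

theorem ff_indep_opt (S : FFSet p V H Q)
    (hgen : ∀ K : Subgroup G, (∀ a' x' : G, IsTv p V H a' x' → a' ≠ 1 → a' ∈ K) → H ≤ K)
    {ι : Type*} [Finite ι] (f : ι → Subgroup G)
    (hinj : Function.Injective f) (hf : ∀ i, IsComp p V H Q (f i)) :
    iSupIndep (fun o : Option ι =>
      o.elim (V ⊓ Subgroup.centralizer (H : Set G)) (fun i => ⁅V, f i⁆)) := by
  classical
  haveI := Fintype.ofFinite ι
  intro o
  cases o with
  | none =>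
    have h1 : (⨆ (o' : Option ι) (_ : o' ≠ none),
        o'.elim (V ⊓ Subgroup.centralizer (H : Set G)) (fun i => ⁅V, f i⁆))
        ≤ ⨆ i ∈ (Finset.univ : Finset ι), ⁅V, f i⁆ := by
      apply iSup_le; intro o'; apply iSup_le; intro ho'
      cases o' with
      | none => exact absurd rfl ho'
      | some i => exact le_iSup₂_of_le i (Finset.mem_univ i) le_rfl
    refine Disjoint.mono_right h1 ?_
    rw [disjoint_iff, eq_bot_iff]
    intro u hu
    obtain ⟨hu1, hu2⟩ := Subgroup.mem_inf.mp hu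
    rw [Subgroup.mem_bot]
    apply ff_indep_aux S hgen f hinj hf Finset.univ u hu2
    intro i _
    exact Subgroup.centralizer_le (SetLike.coe_subset_coe.mpr (hf i).le_H)
      (Subgroup.mem_inf.mp hu1).2
  | some i =>
    have h1 : (⨆ (o' : Option ι) (_ : o' ≠ some i),
        o'.elim (V ⊓ Subgroup.centralizer (H : Set G)) (fun j => ⁅V, f j⁆))
        ≤ V ⊓ Subgroup.centralizer ((f i : Subgroup G) : Set G) := by
      apply iSup_le; intro o'; apply iSup_le; intro ho'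
      cases o' with
      | none =>
        exact inf_le_inf_left V (Subgroup.centralizer_le (SetLike.coe_subset_coe.mpr (hf i).le_H))
      | some j =>
        have hne : f j ≠ f i := by
          intro h
          exact ho' (by rw [hinj h])
        exact (hf i).w1 S hgen (hf j) hne
    exact (disjoint_iff.mpr (hf i).F4).mono_right h1

theorem ff_decomp (S : FFSet p V H Q)
    (hgen : ∀ K : Subgroup G, (∀ a' x' : G, IsTv p V H a' x' → a' ≠ 1 → a' ∈ K) → H ≤ K)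
    {ι : Type*} [Finite ι] (f : ι → Subgroup G)
    (hinj : Function.Injective f) (hf : ∀ i, IsComp p V H Q (f i)) (hsup : ⨆ i, f i = H) :
    (V ⊓ Subgroup.centralizer (H : Set G)) ⊔ (⨆ i, ⁅V, f i⁆) = V := by
  classical
  haveI := Fintype.ofFinite ι
  have hXV : (⨆ i, ⁅V, f i⁆) ≤ V := iSup_le (fun i => (hf i).W_le)
  apply le_antisymm
  · exact sup_le inf_le_left hXV
  · intro v hv
    obtain ⟨u, hu, c, hcV, hcC, hvuc⟩ := ff_decomp_aux S hgen f hinj hf Finset.univ v hv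
    have hu' : u ∈ ⨆ i, ⁅V, f i⁆ := by
      have hle : (⨆ i ∈ (Finset.univ : Finset ι), ⁅V, f i⁆) ≤ ⨆ i, ⁅V, f i⁆ :=
        iSup₂_le (fun i _ => le_iSup (fun i => ⁅V, f i⁆) i)
      exact hle hu
    have hcH : c ∈ Subgroup.centralizer (H : Set G) := by
      have hle : H ≤ Subgroup.centralizer ({c} : Set G) := by
        rw [← hsup]
        apply iSup_le
        intro i g hg
        rw [Subgroup.mem_centralizer_iff]
        intro k hk
        rw [Set.mem_singleton_iff.mp hk]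
        exact (Subgroup.mem_centralizer_iff.mp (hcC i (Finset.mem_univ i)) g hg).symm
      rw [Subgroup.mem_centralizer_iff]
      intro h hh
      have h2 := Subgroup.mem_centralizer_iff.mp (hle hh) c (Set.mem_singleton c)
      exact h2.symm
    have h1 : c * u ∈ (V ⊓ Subgroup.centralizer (H : Set G)) ⊔ ⨆ i, ⁅V, f i⁆ :=
      Subgroup.mul_mem_sup (Subgroup.mem_inf.mpr ⟨hcV, hcH⟩) hu'
    have e : u * c = c * u := S.comm u (hXV hu') c hcV
    rw [hvuc, e]; exact h1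

end comp

/-- the index type of the components -/
abbrev FFIdx (p : ℕ) (V H : Subgroup G) : Type _ :=
  {E : Subgroup G // ∃ A : Subgroup G, A ≤ H ∧ Cfsg.IsBestOffenderOn p V A ∧ ⁅V, A⁆ ≠ ⊥ ∧
    (∀ B : Subgroup G, B ≤ A → Cfsg.IsBestOffenderOn p V B → ⁅V, B⁆ ≠ ⊥ → B = A) ∧
    E = ⁅((Cfsg.pPrimeCore p ↥H).map H.subtype), A⁆ ⊔ A}

theorem ff_structure [Finite G] {p : ℕ} [Fact p.Prime] (V H : Subgroup G)
    (hV : Cfsg.IsElementaryAbelian p V) (hHV : H ≤ Subgroup.normalizer (V : Set G))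
    (hf : H ⊓ Subgroup.centralizer (V : Set G) = ⊥)
    (hS1 : Subgroup.centralizer (Cfsg.pPrimeCore p ↥H : Set ↥H) ≤ Cfsg.pPrimeCore p ↥H)
    (hS3 : H = ⨆ A : {A : Subgroup G // A ≤ H ∧ Cfsg.IsBestOffenderOn p V A}, (A : Subgroup G))
    (hH1 : H ≠ ⊥) :
    (p = 2 ∨ p = 3) ∧
    (∀ E : FFIdx p V H, H ≤ Subgroup.normalizer ((E : Subgroup G) : Set G) ∧
      Nonempty (↥(E : Subgroup G) ≃* Matrix.SpecialLinearGroup (Fin 2) (ZMod p)) ∧
      Nat.card ↥(⁅V, (E : Subgroup G)⁆) = p ^ 2) ∧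
    iSupIndep (fun E : FFIdx p V H => (E : Subgroup G)) ∧
    (⨆ E : FFIdx p V H, (E : Subgroup G)) = H ∧
    iSupIndep (fun o : Option (FFIdx p V H) =>
      o.elim (V ⊓ Subgroup.centralizer (H : Set G)) (fun E => ⁅V, (E : Subgroup G)⁆)) ∧
    (V ⊓ Subgroup.centralizer (H : Set G)) ⊔ (⨆ E : FFIdx p V H, ⁅V, (E : Subgroup G)⁆) = V := by
  have S := ffset_of V H hV hHV hf hS1
  have hgen := ff_gen V H hV hHV hf hS1 hS3
  have hgm := ff_gen_min V H hV hHV hf hS1 hS3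
  have hcomp : ∀ E : FFIdx p V H,
      IsComp p V H ((Cfsg.pPrimeCore p ↥H).map H.subtype) (E : Subgroup G) := by
    rintro ⟨E, A, hAH, hA, hAV, hmin, rfl⟩
    exact ff_comp_of_offender V H hV hHV hf hS1 A hAH hA hAV hmin
  have hinj : Function.Injective (fun E : FFIdx p V H => (E : Subgroup G)) :=
    Subtype.val_injective
  have hsup : (⨆ E : FFIdx p V H, (E : Subgroup G)) = H := by
    apply le_antisymm
    · exact iSup_le (fun E => (hcomp E).le_H)
    · apply hgm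
      intro B hBH hBo hBV hBmin
      exact le_trans le_sup_right (le_iSup (fun E : FFIdx p V H => (E : Subgroup G))
        ⟨⁅((Cfsg.pPrimeCore p ↥H).map H.subtype), B⁆ ⊔ B, B, hBH, hBo, hBV, hBmin, rfl⟩)
  refine ⟨?_, ?_, ff_indep S _ hinj hcomp, hsup, ff_indep_opt S hgen _ hinj hcomp,
    ff_decomp S hgen _ hinj hcomp hsup⟩
  · by_contra hcon
    apply hH1
    rw [eq_bot_iff]
    apply hgm
    intro B hBH hBo hBV hBmin
    exact absurd ((ff_comp_of_offender V H hV hHV hf hS1 B hBH hBo hBV hBmin).p23 S) hcon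
  · intro E
    exact ⟨(hcomp E).norm S hgen, (hcomp E).iso, (hcomp E).cardW⟩

end Cfsg.Agent.Helper1
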