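import Mathlib
import Cfsg.Agent.Helper1.FFAll
import Cfsg.Agent.Helper20.HHDual
import Cfsg.Agent.Helper20.PSolvHall
import Cfsg.Agent.Helper19.DerLen

set_option autoImplicit false

namespace Cfsg.Agent.Helper1

open scoped SemidirectProduct

/-- surjective images of `p`-solvable groups are `p`-solvable -/
theorem ffh_psolv_surj {G G' : Type*} [Group G] [Group G'] (p : ℕ) [Fact p.Prime]
    (hG : Cfsg.IsPSolvable p G) (f : G →* G') (hf : Function.Surjective f) :
    Cfsg.IsPSolvable p G' := by
  obtain ⟨n, H, h0, hlast, hmono, hnorm, hstep⟩ := hG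
  refine ⟨n, fun i => (H i).map f, ?_, ?_, ?_, ?_, ?_⟩
  · show (H 0).map f = ⊥
    rw [h0, Subgroup.map_bot]
  · show (H (Fin.last n)).map f = ⊤
    rw [hlast]
    exact Subgroup.map_top_of_surjective f hf
  · intro i j hij
    exact Subgroup.map_mono (hmono hij)
  · intro i
    exact (hnorm i).map f hf
  · intro i
    have hd := Cfsg.Agent.Helper20.relIndex_map_dvd f (H i.castSucc) (H i.succ)
    rcases hstep i with ⟨m, hm⟩ | hc
    · left
      rw [hm] at hd
      obtain ⟨j, -, hj⟩ := (Nat.dvd_prime_pow (Fact.out : p.Prime)).1 hd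
      exact ⟨j, hj⟩
    · right
      exact Nat.Coprime.coprime_dvd_left hd hc

section hol

variable {G : Type*} [Group G] (V : Subgroup G) [V.Normal]

/-- the holomorph of `V` -/
abbrev Hol := ↥V ⋊[MonoidHom.id (MulAut ↥V)] MulAut ↥V

instance hol_finite [Finite G] : Finite (Hol V) :=
  Finite.of_equiv _ SemidirectProduct.equivProd.symm

/-- the conjugation map of `G` into the holomorph of `V` -/
noncomputable def holRho : G →* Hol V := SemidirectProduct.inr.comp MulAut.conjNormal

/-- the copy of `V` in its holomorph -/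
abbrev holV : Subgroup (Hol V) := (SemidirectProduct.inl : ↥V →* Hol V).range

theorem hol_conj (g : G) (v : ↥V) :
    holRho V g * SemidirectProduct.inl v * (holRho V g)⁻¹ =
      (SemidirectProduct.inl (MulAut.conjNormal g v) : Hol V) := by
  show SemidirectProduct.inr (MulAut.conjNormal g) * SemidirectProduct.inl v *
    (SemidirectProduct.inr (MulAut.conjNormal g))⁻¹ = _
  rw [← map_inv]
  exact (SemidirectProduct.inl_aut (φ := MonoidHom.id (MulAut ↥V)) (MulAut.conjNormal g) v).symm

theorem hol_ker : (holRho V).ker = Subgroup.centralizer (V : Set G) := by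
  ext g
  rw [MonoidHom.mem_ker, Subgroup.mem_centralizer_iff]
  constructor
  · intro h v hv
    have h1 : MulAut.conjNormal g = (1 : MulAut ↥V) := by
      apply SemidirectProduct.inr_injective (φ := MonoidHom.id (MulAut ↥V))
      rw [map_one]
      exact h
    have h2 : (MulAut.conjNormal g (⟨v, hv⟩ : ↥V) : G) = v := by rw [h1]; rfl
    rw [MulAut.conjNormal_apply] at h2
    calc v * g = (g * v * g⁻¹) * g := by rw [h2]
      _ = g * v := by group
  · intro h
    have h1 : MulAut.conjNormal g = (1 : MulAut ↥V) := by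
      apply MulEquiv.ext
      intro v
      apply Subtype.ext
      rw [MulAut.conjNormal_apply]
      have h2 := h v v.2
      show g * (v : G) * g⁻¹ = (v : G)
      rw [← h2]
      group
    show SemidirectProduct.inr (MulAut.conjNormal g) = 1
    rw [h1, map_one]

instance hol_normal : (holV V).Normal := by
  show ((SemidirectProduct.inl : ↥V →* Hol V).range).Normal
  rw [SemidirectProduct.range_inl_eq_ker_rightHom]
  infer_instance

theorem hol_elem (p : ℕ) (hV : Cfsg.IsElementaryAbelian p V) :
    Cfsg.IsElementaryAbelian p (holV V) := by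
  obtain ⟨hc, he⟩ := hV
  refine ⟨⟨⟨?_⟩⟩, ?_⟩
  · rintro ⟨x, v, rfl⟩ ⟨y, w, rfl⟩
    apply Subtype.ext
    show (SemidirectProduct.inl v : Hol V) * SemidirectProduct.inl w =
      SemidirectProduct.inl w * SemidirectProduct.inl v
    rw [← map_mul, ← map_mul, hc.is_comm.comm v w]
  · rintro x ⟨v, rfl⟩
    rw [← map_pow]
    have h1 : v ^ p = 1 := Subtype.ext (by simpa using he v v.2)
    rw [h1, map_one]

theorem hol_comm_iff (g : G) (v : ↥V) :
    (SemidirectProduct.inl v : Hol V) * holRho V g = holRho V g * SemidirectProduct.inl v ↔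
      (v : G) * g = g * (v : G) := by
  have hc := hol_conj V g v
  constructor
  · intro h
    have h1 : (SemidirectProduct.inl (MulAut.conjNormal g v) : Hol V) =
        SemidirectProduct.inl v := by
      rw [← hc, ← h]
      group
    have h2 := SemidirectProduct.inl_injective h1
    have h3 : (MulAut.conjNormal g v : G) = v := by rw [h2]
    rw [MulAut.conjNormal_apply] at h3
    calc (v : G) * g = (g * v * g⁻¹) * g := by rw [h3]
      _ = g * v := by group
  · intro h
    have h3 : MulAut.conjNormal g v = v := by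
      apply Subtype.ext
      rw [MulAut.conjNormal_apply, ← h]
      group
    rw [h3] at hc
    calc (SemidirectProduct.inl v : Hol V) * holRho V g
        = (holRho V g * SemidirectProduct.inl v * (holRho V g)⁻¹) * holRho V g := by rw [hc]
      _ = holRho V g * SemidirectProduct.inl v := by group

theorem hol_cent_card (B : Subgroup G) :
    Nat.card ↥(holV V ⊓
      Subgroup.centralizer ((B.map (holRho V) : Subgroup (Hol V)) : Set (Hol V))) =
      Nat.card ↥(V ⊓ Subgroup.centralizer (B : Set G)) := by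
  have h1 : holV V ⊓ Subgroup.centralizer ((B.map (holRho V) : Subgroup (Hol V)) : Set (Hol V)) =
      ((Subgroup.centralizer (B : Set G)).subgroupOf V).map
        (SemidirectProduct.inl : ↥V →* Hol V) := by
    ext x
    constructor
    · intro hx0
      obtain ⟨hx1, hx⟩ := Subgroup.mem_inf.mp hx0
      obtain ⟨v, rfl⟩ := hx1
      refine Subgroup.mem_map.mpr ⟨v, ?_, rfl⟩
      show (v : G) ∈ Subgroup.centralizer (B : Set G)
      rw [Subgroup.mem_centralizer_iff]
      intro b hb
      have h2 := (Subgroup.mem_centralizer_iff.mp hx) (holRho V b) (Subgroup.mem_map_of_mem _ hb)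
      exact ((hol_comm_iff V b v).mp h2.symm).symm
    · intro hx0
      obtain ⟨v, hv, rfl⟩ := Subgroup.mem_map.mp hx0
      refine Subgroup.mem_inf.mpr ⟨⟨v, rfl⟩, ?_⟩
      rw [Subgroup.mem_centralizer_iff]
      rintro _ ⟨b, hb, rfl⟩
      have hv' : (v : G) ∈ Subgroup.centralizer (B : Set G) := hv
      have h2 := (Subgroup.mem_centralizer_iff.mp hv') b hb
      exact ((hol_comm_iff V b v).mpr h2.symm).symm
  rw [h1, Subgroup.card_map_of_injective SemidirectProduct.inl_injective,
    ← Subgroup.inf_subgroupOf_left (Subgroup.centralizer (B : Set G)) V]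
  exact Nat.card_congr (Subgroup.subgroupOfEquivOfLe inf_le_left).toEquiv

theorem hol_best [Finite G] (p : ℕ) (A : Subgroup G) (hA : Cfsg.IsBestOffenderOn p V A) :
    Cfsg.IsBestOffenderOn p (holV V) (A.map (holRho V)) := by
  obtain ⟨h1, h2, h3⟩ := hA
  have key : ∀ B : Subgroup G, Nat.card ↥((holRho V).ker ⊓ B : Subgroup G) *
      Nat.card ↥(B.map (holRho V)) = Nat.card ↥B := by
    intro B
    have h := Subgroup.relIndex_inf_mul_relIndex (⊥ : Subgroup G) (holRho V).ker B
    rw [bot_inf_eq, Subgroup.relIndex_bot_left, Subgroup.relIndex_bot_left,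
      Subgroup.relIndex_ker] at h
    exact h
  refine ⟨?_, ?_, ?_⟩
  · intro B' hB'
    have hmap : (A ⊓ B'.comap (holRho V)).map (holRho V) = B' := by
      apply le_antisymm
      · rintro _ ⟨b, hb, rfl⟩
        exact (Subgroup.mem_inf.mp hb).2
      · intro x hx
        obtain ⟨a, ha, rfl⟩ := hB' hx
        exact ⟨a, Subgroup.mem_inf.mpr ⟨ha, hx⟩, rfl⟩
    have hker : (holRho V).ker ⊓ (A ⊓ B'.comap (holRho V)) = (holRho V).ker ⊓ A := by
      apply le_antisymm
      · exact inf_le_inf_left _ inf_le_left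
      · intro x hx
        obtain ⟨hx1, hx2⟩ := Subgroup.mem_inf.mp hx
        refine Subgroup.mem_inf.mpr ⟨hx1, Subgroup.mem_inf.mpr ⟨hx2, ?_⟩⟩
        show holRho V x ∈ B'
        rw [MonoidHom.mem_ker.mp hx1]
        exact B'.one_mem
    have kB := key (A ⊓ B'.comap (holRho V))
    rw [hmap, hker] at kB
    have kA := key A
    have hle := h1 (A ⊓ B'.comap (holRho V)) inf_le_left
    have cB := hol_cent_card V (A ⊓ B'.comap (holRho V))
    rw [hmap] at cB
    have cA := hol_cent_card V A
    rw [cB, cA]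
    rw [← kB, ← kA] at hle
    have hk : 0 < Nat.card ↥((holRho V).ker ⊓ A : Subgroup G) := Nat.card_pos
    rw [mul_assoc, mul_assoc] at hle
    exact Nat.le_of_mul_le_mul_left hle hk
  · rw [← Subgroup.map_commutator]
    rintro _ ⟨x, hx, rfl⟩
    have hx' : x ∈ (holRho V).ker := by rw [hol_ker]; exact h2 hx
    rw [MonoidHom.mem_ker.mp hx']
    exact Subgroup.one_mem _
  · rintro _ ⟨a, ha, rfl⟩
    have hx' : a ^ p ∈ (holRho V).ker := by rw [hol_ker]; exact h3 a ha
    rw [← map_pow, MonoidHom.mem_ker.mp hx']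
    exact Subgroup.one_mem _

theorem hol_faithful (H' : Subgroup (Hol V)) (hH : H' ≤ (holRho V).range) :
    H' ⊓ Subgroup.centralizer ((holV V : Subgroup (Hol V)) : Set (Hol V)) = ⊥ := by
  rw [eq_bot_iff]
  intro x hx
  obtain ⟨hx1, hx2⟩ := Subgroup.mem_inf.mp hx
  obtain ⟨g, rfl⟩ := hH hx1
  rw [Subgroup.mem_bot]
  have hg : g ∈ (holRho V).ker := by
    rw [hol_ker, Subgroup.mem_centralizer_iff]
    intro v hv
    have h2 := (Subgroup.mem_centralizer_iff.mp hx2)
      (SemidirectProduct.inl (⟨v, hv⟩ : ↥V)) ⟨_, rfl⟩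
    exact (hol_comm_iff V g ⟨v, hv⟩).mp h2
  exact MonoidHom.mem_ker.mp hg

end hol

end Cfsg.Agent.Helper1
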