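import Mathlib
import Cfsg.Agent.Helper1.FFHol
import Cfsg.Agent.S0610

set_option autoImplicit false

namespace Cfsg.Agent.Helper1

open scoped SemidirectProduct

/-- the hypotheses of the structure theory hold for the image of `J` in the holomorph of `V` -/
theorem ff_hol_hyps {G : Type*} [Group G] [Finite G] {p : ℕ} [Fact p.Prime]
    (V : Subgroup G) [V.Normal]
    (J : Subgroup G) [hJn : J.Normal]
    (𝒜 : Set (Subgroup G)) (hJ : J = sSup 𝒜)
    (hbest : ∀ A ∈ 𝒜, Cfsg.IsBestOffenderOn p V A)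
    (hsep : Cfsg.IsPSolvable p G)
    (hOp : ∀ D : Subgroup G, D.Normal → Subgroup.centralizer (V : Set G) ≤ D →
      (∃ k : ℕ, (Subgroup.centralizer (V : Set G)).relIndex D = p ^ k) →
      D = Subgroup.centralizer (V : Set G)) :
    J.map (holRho V) ≤ Subgroup.normalizer ((holV V : Subgroup (Hol V)) : Set (Hol V)) ∧
    J.map (holRho V) ⊓ Subgroup.centralizer ((holV V : Subgroup (Hol V)) : Set (Hol V)) = ⊥ ∧
    Subgroup.centralizer (Cfsg.pPrimeCore p ↥(J.map (holRho V)) : Set ↥(J.map (holRho V))) ≤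
      Cfsg.pPrimeCore p ↥(J.map (holRho V)) ∧
    J.map (holRho V) = ⨆ A : {A : Subgroup (Hol V) // A ≤ J.map (holRho V) ∧
      Cfsg.IsBestOffenderOn p (holV V) A}, (A : Subgroup (Hol V)) := by
  classical
  have hker : (holRho V).ker = Subgroup.centralizer (V : Set G) := hol_ker V
  obtain ⟨J', hJ'⟩ : ∃ J' : Subgroup (Hol V), J' = J.map (holRho V) := ⟨_, rfl⟩
  have hJ'r : J' ≤ (holRho V).range := by
    rw [hJ']
    rintro _ ⟨j, -, rfl⟩
    exact ⟨j, rfl⟩
  have hHV' : J' ≤ Subgroup.normalizer ((holV V : Subgroup (Hol V)) : Set (Hol V)) := by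
    rw [Subgroup.normalizer_eq_top]
    exact le_top
  have hf' := hol_faithful V J' hJ'r
  have hS3 : J' = ⨆ A : {A : Subgroup (Hol V) // A ≤ J' ∧
      Cfsg.IsBestOffenderOn p (holV V) A}, (A : Subgroup (Hol V)) := by
    apply le_antisymm
    · rw [hJ', Subgroup.map_le_iff_le_comap, hJ]
      apply sSup_le
      intro A hA
      rw [← Subgroup.map_le_iff_le_comap]
      have hAJ : A.map (holRho V) ≤ (sSup 𝒜).map (holRho V) :=
        Subgroup.map_mono (le_sSup hA)
      exact le_iSup_of_le ⟨A.map (holRho V), hAJ, hol_best V p A (hbest A hA)⟩ le_rfl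
    · exact iSup_le fun A => A.2.1
  have hJ'n : ∀ g : G, ∀ x ∈ J', holRho V g * x * (holRho V g)⁻¹ ∈ J' := by
    intro g x hx
    rw [hJ'] at hx ⊢
    obtain ⟨j, hj, rfl⟩ := hx
    refine ⟨g * j * g⁻¹, hJn.conj_mem j hj g, ?_⟩
    simp only [map_mul, map_inv]
  have hsolJ : Cfsg.IsPSolvable p ↥J' := by
    have h1 : Cfsg.IsPSolvable p ↥J := Cfsg.Agent.Helper19.dl_isPSolvable_subgroup p hsep J
    subst hJ'
    exact ffh_psolv_surj p h1 ((holRho V).subgroupMap J) ((holRho V).subgroupMap_surjective J)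
  have hOpJ : Cfsg.pCore p ↥J' = ⊥ := by
    obtain ⟨P, hP⟩ : ∃ P : Subgroup (Hol V), P = (Cfsg.pCore p ↥J').map J'.subtype := ⟨_, rfl⟩
    have hPJ : P ≤ J' := by
      rw [hP]
      rintro _ ⟨x, -, rfl⟩
      exact x.2
    have hPp : IsPGroup p ↥P := by
      rw [hP]
      exact (Cfsg.Agent.Helper9.pCore_isPGroup p).map _
    have hPnJ : ∀ y ∈ J', ∀ x ∈ P, y * x * y⁻¹ ∈ P := by
      intro y hy x hx
      rw [hP] at hx ⊢
      obtain ⟨x0, hx0, rfl⟩ := hx
      have hnn : (Cfsg.pCore p ↥J').Normal := inferInstance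
      exact ⟨(⟨y, hy⟩ : ↥J') * x0 * (⟨y, hy⟩ : ↥J')⁻¹, hnn.conj_mem x0 hx0 _, rfl⟩
    have hPn : ∀ g : G, ∀ x ∈ P, holRho V g * x * (holRho V g)⁻¹ ∈ P := by
      intro g x hx
      obtain ⟨c, hc⟩ : ∃ c : Hol V, c = holRho V g := ⟨_, rfl⟩
      rw [← hc]
      have hcJ : ∀ y ∈ J', c * y * c⁻¹ ∈ J' := by
        rw [hc]
        exact hJ'n g
      have hcJ' : ∀ y ∈ J', c⁻¹ * y * c ∈ J' := by
        intro y hy
        have h2 := hJ'n g⁻¹ y hy
        rw [map_inv, inv_inv, ← hc] at h2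
        exact h2
      obtain ⟨N', hN'⟩ : ∃ N' : Subgroup ↥J',
        N' = (P.map (MulAut.conj c).toMonoidHom).subgroupOf J' := ⟨_, rfl⟩
      have hN'n : N'.Normal := by
        constructor
        intro n hn y
        rw [hN'] at hn ⊢
        obtain ⟨x1, hx1, hx1e⟩ := Subgroup.mem_subgroupOf.mp hn
        have hx1e' : c * x1 * c⁻¹ = (n : Hol V) := hx1e
        refine Subgroup.mem_subgroupOf.mpr
          ⟨(c⁻¹ * (y : Hol V) * c) * x1 * (c⁻¹ * (y : Hol V) * c)⁻¹,
            hPnJ _ (hcJ' _ y.2) x1 hx1, ?_⟩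
        show c * ((c⁻¹ * (y : Hol V) * c) * x1 * (c⁻¹ * (y : Hol V) * c)⁻¹) * c⁻¹ =
          (y : Hol V) * (n : Hol V) * (y : Hol V)⁻¹
        rw [← hx1e']
        group
      have hN'p : IsPGroup p ↥N' := by
        rw [hN']
        exact (hPp.map _).comap_subtype
      have hle := Cfsg.Agent.Helper9.le_pCore hN'n hN'p
      have hxJ : c * x * c⁻¹ ∈ J' := hcJ x (hPJ hx)
      have hmem : (⟨c * x * c⁻¹, hxJ⟩ : ↥J') ∈ N' := by
        rw [hN']
        exact Subgroup.mem_subgroupOf.mpr ⟨x, hx, rfl⟩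
      have h3 := hle hmem
      rw [hP]
      exact ⟨⟨c * x * c⁻¹, hxJ⟩, h3, rfl⟩
    obtain ⟨D, hD⟩ : ∃ D : Subgroup G, D = P.comap (holRho V) := ⟨_, rfl⟩
    have hDn : D.Normal := by
      constructor
      intro d hd g
      rw [hD] at hd ⊢
      show holRho V (g * d * g⁻¹) ∈ P
      rw [map_mul, map_mul, map_inv]
      exact hPn g _ hd
    have hCD : Subgroup.centralizer (V : Set G) ≤ D := by
      rw [← hker, hD]
      intro x hx
      show holRho V x ∈ P
      rw [MonoidHom.mem_ker.mp hx]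
      exact P.one_mem
    have hDmap : D.map (holRho V) = P := by
      rw [hD, Subgroup.map_comap_eq]
      exact inf_eq_right.mpr (hPJ.trans hJ'r)
    have hrel : ∃ k : ℕ, (Subgroup.centralizer (V : Set G)).relIndex D = p ^ k := by
      rw [← hker, Subgroup.relIndex_ker, hDmap]
      exact IsPGroup.exists_card_eq hPp
    have hDC := hOp D hDn hCD hrel
    have hPbot : P = ⊥ := by
      rw [← hDmap, hDC, ← hker]
      exact (Subgroup.map_eq_bot_iff _).mpr le_rfl
    rw [hP] at hPbot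
    exact (Subgroup.map_eq_bot_iff_of_injective _ J'.subtype_injective).mp hPbot
  have hS1 := Cfsg.Agent.Helper20.PLen.centralizer_pPrimeCore_le_of_psolvable p hsolJ hOpJ
  subst hJ'
  exact ⟨hHV', hf', hS1, hS3⟩

/-- a maximal elementary abelian subgroup acting nontrivially on `V` has
`|A : C_A(V)| = |V : C_V(A)|` -/
theorem ff_card_A {G : Type*} [Group G] [Finite G] {p : ℕ} [Fact p.Prime]
    (V : Subgroup G) [V.Normal] (hV : Cfsg.IsElementaryAbelian p V)
    (J : Subgroup G) [hJn : J.Normal]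
    (𝒜 : Set (Subgroup G)) (hJ : J = sSup 𝒜)
    (hbest : ∀ A ∈ 𝒜, Cfsg.IsBestOffenderOn p V A)
    (hsep : Cfsg.IsPSolvable p G)
    (hOp : ∀ D : Subgroup G, D.Normal → Subgroup.centralizer (V : Set G) ≤ D →
      (∃ k : ℕ, (Subgroup.centralizer (V : Set G)).relIndex D = p ^ k) →
      D = Subgroup.centralizer (V : Set G))
    (A : Subgroup G) (hA : A ∈ 𝒜) (hAC : ¬ A ≤ Subgroup.centralizer (V : Set G)) :
    Nat.card A * Nat.card ↥(V ⊓ Subgroup.centralizer (A : Set G)) =
      Nat.card ↥(Subgroup.centralizer (V : Set G) ⊓ A : Subgroup G) * Nat.card V := by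
  obtain ⟨hHV', hf', hS1, hS3⟩ := ff_hol_hyps V J 𝒜 hJ hbest hsep hOp
  have hker : (holRho V).ker = Subgroup.centralizer (V : Set G) := hol_ker V
  have hAJ : A.map (holRho V) ≤ J.map (holRho V) := by
    rw [hJ]
    exact Subgroup.map_mono (le_sSup hA)
  have hA1 : A.map (holRho V) ≠ ⊥ := by
    intro h
    apply hAC
    rw [← hker]
    exact (Subgroup.map_eq_bot_iff A).mp h
  have hH1 : J.map (holRho V) ≠ ⊥ := by
    intro h
    apply hA1
    rw [eq_bot_iff, ← h]
    exact hAJ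
  have h610 := Cfsg.Agent.S0610.result (holV V) (J.map (holRho V)) (hol_elem V p hV) hHV' hf'
    hS1 hS3 hH1 (A.map (holRho V)) hAJ (hol_best V p A (hbest A hA)) hA1
  rw [hol_cent_card V A] at h610
  have hVc : Nat.card ↥(holV V) = Nat.card ↥V :=
    (Nat.card_congr (MonoidHom.ofInjective
      (SemidirectProduct.inl_injective (φ := MonoidHom.id (MulAut ↥V)))).toEquiv).symm
  rw [hVc] at h610
  have key : Nat.card ↥((holRho V).ker ⊓ A : Subgroup G) * Nat.card ↥(A.map (holRho V)) =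
      Nat.card ↥A := by
    have h := Subgroup.relIndex_inf_mul_relIndex (⊥ : Subgroup G) (holRho V).ker A
    rw [bot_inf_eq, Subgroup.relIndex_bot_left, Subgroup.relIndex_bot_left,
      Subgroup.relIndex_ker] at h
    exact h
  rw [hker] at key
  rw [← key, mul_assoc, h610]

end Cfsg.Agent.Helper1
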