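import Mathlib
import Cfsg.Agent.Helper1.FFAll
import Cfsg.Agent.Helper1.FFHol

set_option autoImplicit false

namespace Cfsg.Agent.Helper1

open scoped commutatorElement

theorem ffx_prod {Γ 𝕍 I : Type*} [Group Γ] [CommGroup 𝕍] [Fintype I] [DecidableEq I]
    (κ : Γ →* MulAut 𝕍) (A : I → Γ) (x y : I → 𝕍)
    (h1 : ∀ i j, κ (A i) (x j) = x j)
    (h2 : ∀ i j, κ (A i) (y j) = y j * (if i = j then x j else 1))
    (K : Subgroup Γ) (hK : ∀ i, A i ∈ K) :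
    ∃ g ∈ K, κ g (∏ j, x j) = ∏ j, x j ∧ κ g (∏ j, y j) = (∏ j, y j) * ∏ j, x j := by
  have key : ∀ s : Finset I, ∃ g ∈ K, (∀ j, κ g (x j) = x j) ∧
      (∀ j, κ g (y j) = y j * (if j ∈ s then x j else 1)) := by
    intro s
    induction s using Finset.induction_on with
    | empty =>
      refine ⟨1, K.one_mem, ?_, ?_⟩
      · intro j
        rw [map_one, MulAut.one_apply]
      · intro j
        rw [map_one, MulAut.one_apply, if_neg (Finset.notMem_empty j), mul_one]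
    | insert i s hi ih =>
      obtain ⟨g, hgK, hgx, hgy⟩ := ih
      refine ⟨A i * g, K.mul_mem (hK i) hgK, ?_, ?_⟩
      · intro j
        rw [map_mul, MulAut.mul_apply, hgx, h1]
      · intro j
        rw [map_mul, MulAut.mul_apply, hgy, map_mul, h2]
        by_cases hji : j = i
        · rw [hji, if_pos rfl, if_neg hi, map_one, mul_one,
            if_pos (Finset.mem_insert_self _ _)]
        · have hij : ¬ i = j := fun h => hji h.symm
          rw [if_neg hij, mul_one]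
          by_cases hjs : j ∈ s
          · rw [if_pos hjs, h1, if_pos (Finset.mem_insert_of_mem hjs)]
          · have hjn : ¬ j ∈ insert i s := by
              intro h
              rcases Finset.mem_insert.mp h with h | h
              · exact hji h
              · exact hjs h
            rw [if_neg hjs, map_one, mul_one, if_neg hjn, mul_one]
  obtain ⟨g, hgK, hgx, hgy⟩ := key Finset.univ
  refine ⟨g, hgK, ?_, ?_⟩
  · rw [map_prod]
    exact Finset.prod_congr rfl (fun j _ => hgx j)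
  · rw [map_prod, ← Finset.prod_mul_distrib]
    refine Finset.prod_congr rfl (fun j _ => ?_)
    rw [hgy, if_pos (Finset.mem_univ j)]

theorem ffx_prod_one {Γ 𝕍 I : Type*} [Group Γ] [CommGroup 𝕍] [Fintype I] [DecidableEq I]
    (κ : Γ →* MulAut 𝕍) (A : I → Γ) (x y : I → 𝕍)
    (h2 : ∀ i j, κ (A i) (y j) = y j * (if i = j then x j else 1)) (i₀ : I)
    (hx : x i₀ ≠ 1) : ∏ j, y j ≠ 1 := by
  intro h
  have h3 : κ (A i₀) (∏ j, y j) = (∏ j, y j) * x i₀ := by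
    rw [map_prod]
    have h4 : ∀ j ∈ Finset.univ, κ (A i₀) (y j) = y j * (if i₀ = j then x j else 1) :=
      fun j _ => h2 i₀ j
    rw [Finset.prod_congr rfl h4, Finset.prod_mul_distrib, Finset.prod_ite_eq,
      if_pos (Finset.mem_univ i₀)]
  rw [h, map_one, one_mul] at h3
  exact hx h3.symm

theorem ffx_fixed {Y Γ : Type*} [Group Y] [Group Γ] {q : ℕ} [Fact q.Prime]
    (hY : IsPGroup q Y) (α : Y →* MulAut Γ) (S₀ : Subgroup Γ) [Finite ↥S₀]
    (hq : ¬ q ∣ Nat.card ↥S₀) (g₀ : Γ)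
    (hinv : ∀ (t : Y) (s : Γ), s ∈ S₀ → g₀⁻¹ * α t (g₀ * s) ∈ S₀) :
    ∃ s ∈ S₀, ∀ t : Y, α t (g₀ * s) = g₀ * s := by
  letI : MulAction Y ↥S₀ :=
    { smul := fun t s => ⟨g₀⁻¹ * α t (g₀ * (s : Γ)), hinv t s s.2⟩
      one_smul := fun s => Subtype.ext (by
        show g₀⁻¹ * α 1 (g₀ * (s : Γ)) = (s : Γ)
        rw [map_one, MulAut.one_apply, inv_mul_cancel_left])
      mul_smul := fun t₁ t₂ s => Subtype.ext (by
        show g₀⁻¹ * α (t₁ * t₂) (g₀ * (s : Γ))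
          = g₀⁻¹ * α t₁ (g₀ * (g₀⁻¹ * α t₂ (g₀ * (s : Γ))))
        rw [mul_inv_cancel_left, map_mul α t₁ t₂, MulAut.mul_apply]) }
  have hmod := hY.card_modEq_card_fixedPoints ↥S₀
  have hne : Nonempty (MulAction.fixedPoints Y ↥S₀) := by
    by_contra hemp
    rw [not_nonempty_iff] at hemp
    have h0 : Nat.card (MulAction.fixedPoints Y ↥S₀) = 0 := Nat.card_of_isEmpty
    rw [h0] at hmod
    exact hq ((Nat.modEq_zero_iff_dvd).mp hmod)
  obtain ⟨⟨s, hs⟩⟩ := hne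
  refine ⟨s, s.2, fun t => ?_⟩
  have h := hs t
  have h2 : g₀⁻¹ * α t (g₀ * (s : Γ)) = (s : Γ) := congrArg Subtype.val h
  calc α t (g₀ * (s : Γ)) = g₀ * (g₀⁻¹ * α t (g₀ * (s : Γ))) := by rw [mul_inv_cancel_left]
    _ = g₀ * (s : Γ) := by rw [h2]

section grp

variable {G : Type*} [Group G]

theorem ffx_conj_iff (s u : G) : s * u * s⁻¹ = u ↔ u * s = s * u := by
  constructor
  · intro h
    calc u * s = s * u * s⁻¹ * s := by rw [h]
      _ = s * u := by group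
  · intro h
    calc s * u * s⁻¹ = u * s * s⁻¹ := by rw [h]
      _ = u := by group

theorem ffx_conj_rel (t c u v : G) (h : c * u * c⁻¹ = v) :
    (t * c * t⁻¹) * (t * u * t⁻¹) * (t * c * t⁻¹)⁻¹ = t * v * t⁻¹ := by
  calc (t * c * t⁻¹) * (t * u * t⁻¹) * (t * c * t⁻¹)⁻¹ = t * (c * u * c⁻¹) * t⁻¹ := by group
    _ = t * v * t⁻¹ := by rw [h]

theorem ffx_conj_closure (t u v : G) :
    (Subgroup.closure ({u, v} : Set G)).map (MulAut.conj t).toMonoidHom =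
      Subgroup.closure ({t * u * t⁻¹, t * v * t⁻¹} : Set G) := by
  rw [MonoidHom.map_closure, Set.image_pair]
  simp only [MulEquiv.coe_toMonoidHom, MulAut.conj_apply]

theorem ffx_comm_mem {V E : Subgroup G} (t u c v : G) (hu : t * u⁻¹ * t⁻¹ ∈ V)
    (hc : t * c * t⁻¹ ∈ E) (h : c * u * c⁻¹ = u * v) : t * v * t⁻¹ ∈ ⁅V, E⁆ := by
  have e1 : v = u⁻¹ * c * u * c⁻¹ := by
    calc v = u⁻¹ * (u * v) := by group
      _ = u⁻¹ * (c * u * c⁻¹) := by rw [h]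
      _ = u⁻¹ * c * u * c⁻¹ := by group
  have e : t * v * t⁻¹ = ⁅t * u⁻¹ * t⁻¹, t * c * t⁻¹⁆ := by
    rw [commutatorElement_def]
    calc t * v * t⁻¹ = t * (u⁻¹ * c * u * c⁻¹) * t⁻¹ := by rw [← e1]
      _ = t * u⁻¹ * t⁻¹ * (t * c * t⁻¹) * (t * u⁻¹ * t⁻¹)⁻¹ * (t * c * t⁻¹)⁻¹ := by group
  rw [e]
  exact Subgroup.commutator_mem_commutator hu hc

theorem ffx_fix_elt [Finite G] {q : ℕ} [Fact q.Prime]
    (X H : Subgroup G) (hXq : IsPGroup q ↥X)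
    (hXH : ∀ t ∈ X, ∀ h ∈ H, t * h * t⁻¹ ∈ H) (hq : ¬ q ∣ Nat.card ↥H)
    (u w w' : G) (hu : ∀ t ∈ X, t * u * t⁻¹ = u) (hw : ∀ t ∈ X, t * w * t⁻¹ = w)
    (hw' : ∀ t ∈ X, t * w' * t⁻¹ = w')
    (g₀ : G) (hg₀ : g₀ ∈ H) (h1 : g₀ * u * g₀⁻¹ = u) (h2 : g₀ * w * g₀⁻¹ = w') :
    ∃ g ∈ H, (∀ t ∈ X, t * g * t⁻¹ = g) ∧ g * u * g⁻¹ = u ∧ g * w * g⁻¹ = w' := by
  obtain ⟨S₀, hS₀def⟩ : ∃ S₀ : Subgroup G,
    S₀ = H ⊓ Subgroup.centralizer ({u, w} : Set G) := ⟨_, rfl⟩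
  have hS₀ : ∀ s : G, s ∈ S₀ ↔ (s ∈ H ∧ s * u * s⁻¹ = u ∧ s * w * s⁻¹ = w) := by
    intro s
    rw [hS₀def, Subgroup.mem_inf, Subgroup.mem_centralizer_iff]
    constructor
    · rintro ⟨hs, hc⟩
      exact ⟨hs, (ffx_conj_iff s u).mpr (hc u (Set.mem_insert _ _)),
        (ffx_conj_iff s w).mpr (hc w (Set.mem_insert_of_mem _ (Set.mem_singleton _)))⟩
    · rintro ⟨hs, hcu, hcw⟩
      refine ⟨hs, ?_⟩
      intro h hh
      rcases hh with hh | hh
      · rw [hh]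
        exact (ffx_conj_iff s u).mp hcu
      · rw [Set.mem_singleton_iff.mp hh]
        exact (ffx_conj_iff s w).mp hcw
  have hS₀H : S₀ ≤ H := by rw [hS₀def]; exact inf_le_left
  have hqS : ¬ q ∣ Nat.card ↥S₀ := fun h => hq (h.trans (Subgroup.card_dvd_of_le hS₀H))
  obtain ⟨α, hα⟩ : ∃ α : ↥X →* MulAut G,
      ∀ (t : ↥X) (g : G), α t g = (t : G) * g * (t : G)⁻¹ :=
    ⟨MulAut.conj.comp X.subtype, fun t g => rfl⟩
  have hinv : ∀ (t : ↥X) (s : G), s ∈ S₀ → g₀⁻¹ * α t (g₀ * s) ∈ S₀ := by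
    intro t s hs
    obtain ⟨hsH, hsu, hsw⟩ := (hS₀ s).mp hs
    have htu := hu t t.2
    have htu' : (t : G)⁻¹ * u * (t : G) = u := by
      calc (t : G)⁻¹ * u * (t : G) = (t : G)⁻¹ * ((t : G) * u * (t : G)⁻¹) * (t : G) := by
            rw [htu]
        _ = u := by group
    have htw := hw t t.2
    have htw' : (t : G)⁻¹ * w * (t : G) = w := by
      calc (t : G)⁻¹ * w * (t : G) = (t : G)⁻¹ * ((t : G) * w * (t : G)⁻¹) * (t : G) := by
            rw [htw]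
        _ = w := by group
    have hg₀u' : g₀⁻¹ * u * g₀ = u := by
      calc g₀⁻¹ * u * g₀ = g₀⁻¹ * (g₀ * u * g₀⁻¹) * g₀ := by rw [h1]
        _ = u := by group
    have hg₀w' : g₀⁻¹ * w' * g₀ = w := by
      rw [← h2]; group
    rw [hα]
    refine (hS₀ _).mpr ⟨?_, ?_, ?_⟩
    · have e : g₀⁻¹ * ((t : G) * (g₀ * s) * (t : G)⁻¹)
          = g₀⁻¹ * ((t : G) * g₀ * (t : G)⁻¹) * ((t : G) * s * (t : G)⁻¹) := by group
      rw [e]
      exact H.mul_mem (H.mul_mem (H.inv_mem hg₀) (hXH t t.2 g₀ hg₀)) (hXH t t.2 s hsH)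
    · calc g₀⁻¹ * ((t : G) * (g₀ * s) * (t : G)⁻¹) * u
            * (g₀⁻¹ * ((t : G) * (g₀ * s) * (t : G)⁻¹))⁻¹
          = g₀⁻¹ * ((t : G) * (g₀ * (s * ((t : G)⁻¹ * u * (t : G)) * s⁻¹) * g₀⁻¹)
              * (t : G)⁻¹) * g₀ := by group
        _ = u := by rw [htu', hsu, h1, htu, hg₀u']
    · calc g₀⁻¹ * ((t : G) * (g₀ * s) * (t : G)⁻¹) * w
            * (g₀⁻¹ * ((t : G) * (g₀ * s) * (t : G)⁻¹))⁻¹
          = g₀⁻¹ * ((t : G) * (g₀ * (s * ((t : G)⁻¹ * w * (t : G)) * s⁻¹) * g₀⁻¹)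
              * (t : G)⁻¹) * g₀ := by group
        _ = w := by rw [htw', hsw, h2, hw' t t.2, hg₀w']
  obtain ⟨s, hsS, hfix⟩ := ffx_fixed hXq α S₀ hqS g₀ hinv
  obtain ⟨hsH, hsu, hsw⟩ := (hS₀ s).mp hsS
  refine ⟨g₀ * s, H.mul_mem hg₀ hsH, ?_, ?_, ?_⟩
  · intro t ht
    have h := hfix ⟨t, ht⟩
    rw [hα] at h
    exact h
  · calc g₀ * s * u * (g₀ * s)⁻¹ = g₀ * (s * u * s⁻¹) * g₀⁻¹ := by group
      _ = u := by rw [hsu, h1]
  · calc g₀ * s * w * (g₀ * s)⁻¹ = g₀ * (s * w * s⁻¹) * g₀⁻¹ := by group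
      _ = w' := by rw [hsw, h2]

theorem ffx_tv_conj {p : ℕ} {V H : Subgroup G} {a x : G} (T : IsTv p V H a x) {g : G}
    (hgH : ∀ h ∈ H, g * h * g⁻¹ ∈ H) (hgV : ∀ v ∈ V, g * v * g⁻¹ ∈ V)
    (hgV' : ∀ v ∈ V, g⁻¹ * v * g ∈ V) : IsTv p V H (g * a * g⁻¹) (g * x * g⁻¹) := by
  refine ⟨hgH a T.aH, ?_, hgV x T.xV, ?_, ?_, ?_⟩
  · rw [conj_pow, T.ap]; group
  · intro h
    apply T.x1
    calc x = g⁻¹ * (g * x * g⁻¹) * g := by group
      _ = 1 := by rw [h]; group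
  · calc g * a * g⁻¹ * (g * x * g⁻¹) * (g * a * g⁻¹)⁻¹ = g * (a * x * a⁻¹) * g⁻¹ := by group
      _ = g * x * g⁻¹ := by rw [T.ax]
  · intro v hv
    obtain ⟨n, hn⟩ := T.av _ (hgV' v hv)
    refine ⟨n, ?_⟩
    calc g * a * g⁻¹ * v * (g * a * g⁻¹)⁻¹ = g * (a * (g⁻¹ * v * g) * a⁻¹) * g⁻¹ := by group
      _ = g * (g⁻¹ * v * g * x ^ n) * g⁻¹ := by rw [hn]
      _ = v * (g * x ^ n * g⁻¹) := by simp only [mul_assoc, mul_inv_cancel_left]
      _ = v * (g * x * g⁻¹) ^ n := by rw [ffp_conj_pow]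

theorem ffx_comp_conj [Finite G] {p : ℕ} [Fact p.Prime] {V H Q : Subgroup G}
    (S : FFSet p V H Q) {a b x y r : G} (T : IsTv p V H a x) (ha1 : a ≠ 1) (hr : r ∈ Q)
    (D : PData p V H Q a b x y r) {t : G}
    (htH : ∀ h ∈ H, t * h * t⁻¹ ∈ H) (htV : ∀ v ∈ V, t * v * t⁻¹ ∈ V)
    (htV' : ∀ v ∈ V, t⁻¹ * v * t ∈ V) (htQ : ∀ r' ∈ Q, t * r' * t⁻¹ ∈ Q) :
    IsComp p V H Q (Subgroup.closure ({t * a * t⁻¹, t * b * t⁻¹} : Set G)) := by
  have P := D.P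
  have T' := ffx_tv_conj T htH htV htV'
  have ha1' : t * a * t⁻¹ ≠ 1 := by
    intro h
    apply ha1
    calc a = t⁻¹ * (t * a * t⁻¹) * t := by group
      _ = 1 := by rw [h]; group
  have hra : r * a ≠ a * r := by
    intro hcomm
    have e0 : r * a * r⁻¹ = a := by rw [hcomm]; group
    have hcl := D.hcl
    rw [e0] at hcl
    have hb : b ∈ Subgroup.closure ({a, a} : Set G) := by
      rw [← hcl]
      exact Subgroup.subset_closure (Set.mem_insert_of_mem _ (Set.mem_singleton _))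
    have hle : Subgroup.closure ({a, a} : Set G) ≤ Subgroup.zpowers a := by
      rw [Subgroup.closure_le]
      intro c hc
      rcases hc with hc | hc
      · rw [hc]; exact Subgroup.mem_zpowers a
      · rw [Set.mem_singleton_iff.mp hc]; exact Subgroup.mem_zpowers a
    obtain ⟨k, hk⟩ := Subgroup.mem_zpowers_iff.mp (hle hb)
    have hab : a * b = b * a := by
      rw [← hk]
      exact ((Commute.refl a).zpow_right k).eq
    have h1 : a * b * x * (a * b)⁻¹ = x * (y * x) := by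
      calc a * b * x * (a * b)⁻¹ = a * (b * x * b⁻¹) * a⁻¹ := by group
        _ = a * (x * y) * a⁻¹ := by rw [P.hbx]
        _ = (a * x * a⁻¹) * (a * y * a⁻¹) := by group
        _ = x * (y * x) := by rw [P.hax, P.hay]
    have h2 : b * a * x * (b * a)⁻¹ = x * y := by
      calc b * a * x * (b * a)⁻¹ = b * (a * x * a⁻¹) * b⁻¹ := by group
        _ = x * y := by rw [P.hax, P.hbx]
    rw [hab, h2] at h1
    have h3 : y * 1 = y * x := by rw [mul_one]; exact mul_left_cancel h1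
    exact P.hx1 (mul_left_cancel h3).symm
  have hqa' : t * r * t⁻¹ * (t * a * t⁻¹) ≠ t * a * t⁻¹ * (t * r * t⁻¹) := by
    intro h
    apply hra
    have h2 : t * (r * a) * t⁻¹ = t * (a * r) * t⁻¹ := by
      calc t * (r * a) * t⁻¹ = t * r * t⁻¹ * (t * a * t⁻¹) := by group
        _ = t * a * t⁻¹ * (t * r * t⁻¹) := h
        _ = t * (a * r) * t⁻¹ := by group
    exact mul_left_cancel (mul_right_cancel h2)
  obtain ⟨b', y', D'⟩ := ffp_pair S T' ha1' (htQ r hr) hqa'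
  refine ⟨⟨t * a * t⁻¹, b', t * x * t⁻¹, y', t * r * t⁻¹, T', ha1', htQ r hr, D', ?_⟩⟩
  rw [D'.hcl]
  have e : t * r * t⁻¹ * (t * a * t⁻¹) * (t * r * t⁻¹)⁻¹ = t * (r * a * r⁻¹) * t⁻¹ := by group
  rw [e, ← ffx_conj_closure, ← ffx_conj_closure, D.hcl]

end grp

theorem ffx_sl2_three : 3 ∣ Nat.card (Matrix.SpecialLinearGroup (Fin 2) (ZMod 2)) := by
  have hdet : (ffm_mat ((0 : ZMod 2), 1, 1, 1)).det = 1 := by
    unfold ffm_mat
    rw [Matrix.det_fin_two_of]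
    decide
  obtain ⟨M, hM⟩ : ∃ M : Matrix.SpecialLinearGroup (Fin 2) (ZMod 2),
    M.1 = ffm_mat ((0 : ZMod 2), 1, 1, 1) := ⟨⟨_, hdet⟩, rfl⟩
  have h3 : M ^ 3 = 1 := by
    apply Subtype.ext
    rw [Matrix.SpecialLinearGroup.coe_pow, Matrix.SpecialLinearGroup.coe_one, hM, pow_three',
      ffm_mat_mul, ffm_mat_mul, ← ffm_mat_one]
    exact congrArg ffm_mat (by decide)
  have h1 : M ≠ 1 := by
    intro h
    have h2 : M.1 = 1 := by rw [h, Matrix.SpecialLinearGroup.coe_one]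
    rw [hM, ← ffm_mat_one] at h2
    have h4 := ffm_mat_inj h2
    revert h4
    decide
  have ho : orderOf M = 3 := orderOf_eq_prime h3 h1
  have hd := orderOf_dvd_natCard M
  rw [ho] at hd
  exact hd

theorem ffx_sl2_two : 2 ∣ Nat.card (Matrix.SpecialLinearGroup (Fin 2) (ZMod 3)) := by
  have hdet : (ffm_mat ((2 : ZMod 3), 0, 0, 2)).det = 1 := by
    unfold ffm_mat
    rw [Matrix.det_fin_two_of]
    decide
  obtain ⟨M, hM⟩ : ∃ M : Matrix.SpecialLinearGroup (Fin 2) (ZMod 3),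
    M.1 = ffm_mat ((2 : ZMod 3), 0, 0, 2) := ⟨⟨_, hdet⟩, rfl⟩
  have h3 : M ^ 2 = 1 := by
    apply Subtype.ext
    rw [Matrix.SpecialLinearGroup.coe_pow, Matrix.SpecialLinearGroup.coe_one, hM, sq,
      ffm_mat_mul, ← ffm_mat_one]
    exact congrArg ffm_mat (by decide)
  have h1 : M ≠ 1 := by
    intro h
    have h2 : M.1 = 1 := by rw [h, Matrix.SpecialLinearGroup.coe_one]
    rw [hM, ← ffm_mat_one] at h2
    have h4 := ffm_mat_inj h2
    revert h4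
    decide
  have ho : orderOf M = 2 := orderOf_eq_prime h3 h1
  have hd := orderOf_dvd_natCard M
  rw [ho] at hd
  exact hd

theorem ffx_sl2_dvd (p : ℕ) :
    (p = 2 → 3 ∣ Nat.card (Matrix.SpecialLinearGroup (Fin 2) (ZMod p))) ∧
    (p = 3 → 2 ∣ Nat.card (Matrix.SpecialLinearGroup (Fin 2) (ZMod p))) := by
  constructor
  · intro h; subst h; exact ffx_sl2_three
  · intro h; subst h; exact ffx_sl2_two

theorem ffx_arith {p q i : ℕ} (hp : p = 2 ∨ p = 3) (hq : q.Prime) (hqp : q ≠ p)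
    (h2 : p = 3 → q ≠ 2) (h3 : p = 2 → q ≠ 3) (hi : i ≤ 2) (h : p ^ 2 ≡ p ^ i [MOD q]) :
    i = 2 := by
  rcases hp with hp | hp
  · subst hp
    interval_cases i
    · exfalso
      have h' : q ∣ 2 ^ 2 - 2 ^ 0 := (Nat.modEq_iff_dvd' (by norm_num)).mp h.symm
      have h5 : (2 : ℕ) ^ 2 - 2 ^ 0 = 3 := by norm_num
      rw [h5] at h'
      exact h3 rfl ((Nat.prime_dvd_prime_iff_eq hq Nat.prime_three).mp h')
    · exfalso
      have h' : q ∣ 2 ^ 2 - 2 ^ 1 := (Nat.modEq_iff_dvd' (by norm_num)).mp h.symm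
      have h5 : (2 : ℕ) ^ 2 - 2 ^ 1 = 2 := by norm_num
      rw [h5] at h'
      exact hqp ((Nat.prime_dvd_prime_iff_eq hq Nat.prime_two).mp h')
    · rfl
  · subst hp
    interval_cases i
    · exfalso
      have h' : q ∣ 3 ^ 2 - 3 ^ 0 := (Nat.modEq_iff_dvd' (by norm_num)).mp h.symm
      have h5 : (3 : ℕ) ^ 2 - 3 ^ 0 = 2 ^ 3 := by norm_num
      rw [h5] at h'
      exact h2 rfl ((Nat.prime_dvd_prime_iff_eq hq Nat.prime_two).mp (hq.dvd_of_dvd_pow h'))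
    · exfalso
      have h' : q ∣ 3 ^ 2 - 3 ^ 1 := (Nat.modEq_iff_dvd' (by norm_num)).mp h.symm
      have h5 : (3 : ℕ) ^ 2 - 3 ^ 1 = 2 * 3 := by norm_num
      rw [h5] at h'
      rcases (Nat.Prime.dvd_mul hq).mp h' with h6 | h6
      · exact h2 rfl ((Nat.prime_dvd_prime_iff_eq hq Nat.prime_two).mp h6)
      · exact hqp ((Nat.prime_dvd_prime_iff_eq hq Nat.prime_three).mp h6)
    · rfl

end Cfsg.Agent.Helper1
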