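import Mathlib
import Cfsg.Agent.Helper1.FFX1

set_option autoImplicit false

namespace Cfsg.Agent.Helper1

open scoped commutatorElement

/-- the orbit of a component under a group of operators -/
abbrev ffxIdx {Γ : Type*} [Group Γ] (X : Subgroup Γ) (a b : Γ) : Type _ :=
  {E' : Subgroup Γ // ∃ t ∈ X, E' = Subgroup.closure ({t * a * t⁻¹, t * b * t⁻¹} : Set Γ)}

theorem ffx_main {Γ : Type*} [Group Γ] [Finite Γ] {p q : ℕ} [Fact p.Prime] [Fact q.Prime]
    (V H X : Subgroup Γ) [hVn : V.Normal]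
    (hV : Cfsg.IsElementaryAbelian p V) (hHV : H ≤ Subgroup.normalizer (V : Set Γ))
    (hf : H ⊓ Subgroup.centralizer (V : Set Γ) = ⊥)
    (hS1 : Subgroup.centralizer (Cfsg.pPrimeCore p ↥H : Set ↥H) ≤ Cfsg.pPrimeCore p ↥H)
    (hS3 : H = ⨆ A : {A : Subgroup Γ // A ≤ H ∧ Cfsg.IsBestOffenderOn p V A}, (A : Subgroup Γ))
    (hH1 : H ≠ ⊥)
    (hXH : X ≤ Subgroup.normalizer (H : Set Γ))
    (hXq : IsPGroup q ↥X) (hq : ¬ q ∣ Nat.card ↥H) :
    (p = 2 ∨ p = 3) ∧ ∃ a b x y : Γ, a ∈ H ∧ b ∈ H ∧ x ∈ V ∧ y ∈ V ∧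
      (∀ t ∈ X, t * a * t⁻¹ = a) ∧ (∀ t ∈ X, t * b * t⁻¹ = b) ∧
      (∀ t ∈ X, t * x * t⁻¹ = x) ∧ (∀ t ∈ X, t * y * t⁻¹ = y) ∧
      x ≠ 1 ∧ a * x * a⁻¹ = x ∧ a * y * a⁻¹ = y * x ∧ b * x * b⁻¹ = x * y ∧
      b * y * b⁻¹ = y := by
  classical
  have hpp := (Fact.out : p.Prime)
  have hqq := (Fact.out : q.Prime)
  have S := ffset_of V H hV hHV hf hS1
  obtain ⟨hp23, -, -, hsup, -, -⟩ := ff_structure V H hV hHV hf hS1 hS3 hH1
  refine ⟨hp23, ?_⟩
  have hne : Nonempty (FFIdx p V H) := by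
    by_contra hemp
    rw [not_nonempty_iff] at hemp
    apply hH1
    rw [← hsup, iSup_of_empty]
  obtain ⟨⟨E₀, A₀, hAH, hA, hAV, hmin, hE₀⟩⟩ := hne
  obtain ⟨a, b, x, y, r, T, ha1, hr, D, -⟩ :=
    (ff_comp_of_offender V H hV hHV hf hS1 A₀ hAH hA hAV hmin).ex
  have P := D.P
  have hXV1 : ∀ t : Γ, ∀ v ∈ V, t * v * t⁻¹ ∈ V := fun t v hv => hVn.conj_mem v hv t
  have hXH1 : ∀ t ∈ X, ∀ h ∈ H, t * h * t⁻¹ ∈ H := fun t ht h hh =>
    (Subgroup.mem_normalizer_iff.mp (hXH ht) h).mp hh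
  have hcompX : ∀ t ∈ X, IsComp p V H ((Cfsg.pPrimeCore p ↥H).map H.subtype)
      (Subgroup.closure ({t * a * t⁻¹, t * b * t⁻¹} : Set Γ)) := fun t ht =>
    ffx_comp_conj S T ha1 hr D (hXH1 t ht) (hXV1 t)
      (fun v hv => by
        have h := hXV1 t⁻¹ v hv
        rwa [inv_inv] at h)
      (fun r' hr' => (Subgroup.mem_normalizer_iff.mp
        (Cfsg.Agent.Helper9.char_map_normalizer H (Cfsg.pPrimeCore p ↥H) (hXH ht)) r').mp hr')
  -- arithmetic facts on `q`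
  have hEH : Subgroup.closure ({a, b} : Set Γ) ≤ H := by
    rw [Subgroup.closure_le]
    intro c hc
    rcases hc with hca | hcb
    · rw [hca]; exact T.aH
    · rw [Set.mem_singleton_iff.mp hcb]; exact D.bH
  have hcardE : Nat.card ↥(Subgroup.closure ({a, b} : Set Γ)) =
      Nat.card (Matrix.SpecialLinearGroup (Fin 2) (ZMod p)) := by
    obtain ⟨ψ, -, -, -⟩ := P.main D.faith
    exact (Nat.card_congr ψ.toEquiv).symm
  have hSLdvd : Nat.card (Matrix.SpecialLinearGroup (Fin 2) (ZMod p)) ∣ Nat.card ↥H := by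
    rw [← hcardE]
    exact Subgroup.card_dvd_of_le hEH
  have hqp : q ≠ p := by
    intro h
    apply hq
    have ho : orderOf a = p := orderOf_eq_prime T.ap ha1
    have hd : orderOf a ∣ Nat.card ↥H := Subgroup.orderOf_dvd_natCard H T.aH
    rw [ho] at hd
    rw [h]
    exact hd
  have hq2 : p = 3 → q ≠ 2 := by
    intro h3 h2
    apply hq
    rw [h2]
    exact ((ffx_sl2_dvd p).2 h3).trans hSLdvd
  have hq3 : p = 2 → q ≠ 3 := by
    intro h2 h3
    apply hq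
    rw [h3]
    exact ((ffx_sl2_dvd p).1 h2).trans hSLdvd
  have hcomm_eq : ⁅V, Subgroup.closure ({a, b} : Set Γ)⁆ = Subgroup.closure ({x, y} : Set Γ) :=
    P.comm_eq
  have hxW0 : x ∈ Subgroup.closure ({x, y} : Set Γ) :=
    Subgroup.subset_closure (Set.mem_insert _ _)
  have hyW0 : y ∈ Subgroup.closure ({x, y} : Set Γ) :=
    Subgroup.subset_closure (Set.mem_insert_of_mem _ (Set.mem_singleton _))
  have hxW : ∀ t : Γ, t * x * t⁻¹ ∈
      ⁅V, Subgroup.closure ({t * a * t⁻¹, t * b * t⁻¹} : Set Γ)⁆ := fun t =>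
    ffx_comm_mem t y a x (hXV1 t _ (V.inv_mem P.hy))
      (Subgroup.subset_closure (Set.mem_insert _ _)) P.hay
  have hyW : ∀ t : Γ, t * y * t⁻¹ ∈
      ⁅V, Subgroup.closure ({t * a * t⁻¹, t * b * t⁻¹} : Set Γ)⁆ := fun t =>
    ffx_comm_mem t x b y (hXV1 t _ (V.inv_mem P.hx))
      (Subgroup.subset_closure (Set.mem_insert_of_mem _ (Set.mem_singleton _))) P.hbx
  -- an operator normalizing the component centralizes its plane
  have htriv : ∀ s ∈ X, Subgroup.closure ({s * a * s⁻¹, s * b * s⁻¹} : Set Γ) =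
      Subgroup.closure ({a, b} : Set Γ) → s * x * s⁻¹ = x ∧ s * y * s⁻¹ = y := by
    intro s hs hcl
    obtain ⟨W, hW⟩ : ∃ W : Subgroup Γ, W = Subgroup.closure ({x, y} : Set Γ) := ⟨_, rfl⟩
    have hxWm : x ∈ W := by rw [hW]; exact hxW0
    have hyWm : y ∈ W := by rw [hW]; exact hyW0
    have hsx : s * x * s⁻¹ ∈ W := by
      have h := hxW s
      rw [hcl, hcomm_eq, ← hW] at h
      exact h
    have hsy : s * y * s⁻¹ ∈ W := by
      have h := hyW s
      rw [hcl, hcomm_eq, ← hW] at h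
      exact h
    have hsW : ∀ w ∈ W, s * w * s⁻¹ ∈ W := by
      intro w hw
      obtain ⟨i, j, hij⟩ := P.wform w (by rw [← hW]; exact hw)
      rw [hij, ffp_conj_mul, ffp_conj_pow, ffp_conj_pow]
      exact W.mul_mem (W.pow_mem hsx i) (W.pow_mem hsy j)
    have hpowW : ∀ n : ℕ, ∀ w ∈ W, s ^ n * w * (s ^ n)⁻¹ ∈ W := by
      intro n
      induction n with
      | zero =>
        intro w hw
        rw [pow_zero, one_mul, inv_one, mul_one]
        exact hw
      | succ n ih =>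
        intro w hw
        have e : s ^ (n + 1) * w * (s ^ (n + 1))⁻¹ = s * (s ^ n * w * (s ^ n)⁻¹) * s⁻¹ := by
          rw [pow_succ']; simp only [mul_inv_rev, mul_assoc]
        rw [e]
        exact hsW _ (ih w hw)
    have hLW : ∀ g ∈ Subgroup.zpowers s, ∀ w ∈ W, g * w * g⁻¹ ∈ W := by
      intro g hg w hw
      obtain ⟨n, hn⟩ := ffp_exists_pow hg
      rw [hn]
      exact hpowW n w hw
    obtain ⟨ρ₀, hρ₀⟩ := ffp_exists_conj_hom W (Subgroup.zpowers s) hLW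
    have hLq : IsPGroup q ↥(Subgroup.zpowers s) := hXq.to_le (Subgroup.zpowers_le.mpr hs)
    have hcardW : Nat.card ↥W = p ^ 2 := by rw [hW]; exact P.card_W
    letI : MulDistribMulAction ↥(Subgroup.zpowers s) ↥W := MulDistribMulAction.compHom ↥W ρ₀
    have hmod := hLq.card_modEq_card_fixedPoints ↥W
    have hfixc : Nat.card ↥(MulAction.fixedPoints ↥(Subgroup.zpowers s) ↥W) =
        Nat.card ↥(FixedPoints.subgroup ↥(Subgroup.zpowers s) ↥W) := rfl
    rw [hfixc, hcardW] at hmod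
    have hdvd : Nat.card ↥(FixedPoints.subgroup ↥(Subgroup.zpowers s) ↥W) ∣ p ^ 2 := by
      rw [← hcardW]
      exact Subgroup.card_subgroup_dvd_card _
    obtain ⟨i, hi, hci⟩ := (Nat.dvd_prime_pow hpp).mp hdvd
    rw [hci] at hmod
    have hi2 := ffx_arith hp23 hqq hqp hq2 hq3 hi hmod
    have htop : FixedPoints.subgroup ↥(Subgroup.zpowers s) ↥W = ⊤ := by
      apply Subgroup.eq_top_of_card_eq
      rw [hci, hi2, hcardW]
    have hfixall : ∀ w : ↥W, ρ₀ ⟨s, Subgroup.mem_zpowers s⟩ w = w := by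
      intro w
      have hw : w ∈ FixedPoints.subgroup ↥(Subgroup.zpowers s) ↥W := by
        rw [htop]; exact Subgroup.mem_top w
      exact hw ⟨s, Subgroup.mem_zpowers s⟩
    constructor
    · have h := congrArg Subtype.val (hfixall ⟨x, hxWm⟩)
      rw [hρ₀] at h
      exact h
    · have h := congrArg Subtype.val (hfixall ⟨y, hyWm⟩)
      rw [hρ₀] at h
      exact h
  have hmapE : ∀ (t s : Γ),
      (Subgroup.closure ({s * a * s⁻¹, s * b * s⁻¹} : Set Γ)).map (MulAut.conj t).toMonoidHom =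
      Subgroup.closure ({(t * s) * a * (t * s)⁻¹, (t * s) * b * (t * s)⁻¹} : Set Γ) := by
    intro t s
    rw [ffx_conj_closure]
    have e1 : t * (s * a * s⁻¹) * t⁻¹ = (t * s) * a * (t * s)⁻¹ := by group
    have e2 : t * (s * b * s⁻¹) * t⁻¹ = (t * s) * b * (t * s)⁻¹ := by group
    rw [e1, e2]
  have hwd : ∀ u ∈ X, ∀ u' ∈ X, Subgroup.closure ({u * a * u⁻¹, u * b * u⁻¹} : Set Γ) =
      Subgroup.closure ({u' * a * u'⁻¹, u' * b * u'⁻¹} : Set Γ) →
      u * x * u⁻¹ = u' * x * u'⁻¹ ∧ u * y * u⁻¹ = u' * y * u'⁻¹ := by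
    intro u hu u' hu' hcl
    have h1 := congrArg (Subgroup.map (MulAut.conj u'⁻¹).toMonoidHom) hcl
    rw [hmapE, hmapE] at h1
    have e3 : u'⁻¹ * u' = 1 := inv_mul_cancel u'
    rw [e3] at h1
    have e4 : (1 : Γ) * a * (1 : Γ)⁻¹ = a := by group
    have e5 : (1 : Γ) * b * (1 : Γ)⁻¹ = b := by group
    rw [e4, e5] at h1
    obtain ⟨hx', hy'⟩ := htriv (u'⁻¹ * u) (X.mul_mem (X.inv_mem hu') hu) h1
    constructor
    · calc u * x * u⁻¹ = u' * ((u'⁻¹ * u) * x * (u'⁻¹ * u)⁻¹) * u'⁻¹ := by group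
        _ = u' * x * u'⁻¹ := by rw [hx']
    · calc u * y * u⁻¹ = u' * ((u'⁻¹ * u) * y * (u'⁻¹ * u)⁻¹) * u'⁻¹ := by group
        _ = u' * y * u'⁻¹ := by rw [hy']
  -- the orbit and the chosen operators
  haveI : Fintype (ffxIdx X a b) := Fintype.ofFinite _
  choose tsel htsel using (fun j : ffxIdx X a b => j.2)
  have hcj : ∀ j : ffxIdx X a b,
      IsComp p V H ((Cfsg.pPrimeCore p ↥H).map H.subtype) j.1 := by
    intro j
    have h := hcompX (tsel j) (htsel j).1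
    rw [← (htsel j).2] at h
    exact h
  have hAj : ∀ j : ffxIdx X a b, tsel j * a * (tsel j)⁻¹ ∈ j.1 := fun j =>
    (htsel j).2.ge (Subgroup.subset_closure (Set.mem_insert _ _))
  have hBj : ∀ j : ffxIdx X a b, tsel j * b * (tsel j)⁻¹ ∈ j.1 := fun j =>
    (htsel j).2.ge (Subgroup.subset_closure (Set.mem_insert_of_mem _ (Set.mem_singleton _)))
  have hxj : ∀ j : ffxIdx X a b, tsel j * x * (tsel j)⁻¹ ∈ ⁅V, j.1⁆ := by
    intro j
    have h := hxW (tsel j)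
    rw [← (htsel j).2] at h
    exact h
  have hyj : ∀ j : ffxIdx X a b, tsel j * y * (tsel j)⁻¹ ∈ ⁅V, j.1⁆ := by
    intro j
    have h := hyW (tsel j)
    rw [← (htsel j).2] at h
    exact h
  have hcross : ∀ i j : ffxIdx X a b, i ≠ j → ∀ g ∈ i.1, ∀ w ∈ ⁅V, j.1⁆, g * w * g⁻¹ = w := by
    intro i j hij g hg w hw
    rcases (hcj j).pair S (hcj i) with h | h
    · exact absurd (Subtype.ext h) hij
    · have hgc := (Subgroup.mem_inf.mp (h hg)).2
      have h2 := Subgroup.mem_centralizer_iff.mp hgc w hw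
      rw [← h2]
      exact mul_inv_cancel_right w g
  letI : CommGroup ↥V :=
    { (inferInstance : Group ↥V) with mul_comm := fun u v => hV.1.is_comm.comm u v }
  obtain ⟨xf, hxf⟩ : ∃ xf : ffxIdx X a b → ↥V,
      ∀ j, ((xf j : ↥V) : Γ) = tsel j * x * (tsel j)⁻¹ :=
    ⟨fun j => ⟨tsel j * x * (tsel j)⁻¹, hXV1 _ x P.hx⟩, fun j => rfl⟩
  obtain ⟨yf, hyf⟩ : ∃ yf : ffxIdx X a b → ↥V,
      ∀ j, ((yf j : ↥V) : Γ) = tsel j * y * (tsel j)⁻¹ :=
    ⟨fun j => ⟨tsel j * y * (tsel j)⁻¹, hXV1 _ y P.hy⟩, fun j => rfl⟩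
  have hκ : ∀ (g : Γ) (v : ↥V), ((MulAut.conjNormal g v : ↥V) : Γ) = g * (v : Γ) * g⁻¹ :=
    fun g v => MulAut.conjNormal_apply g v
  have r1 : ∀ i j : ffxIdx X a b,
      (MulAut.conjNormal (tsel i * a * (tsel i)⁻¹) : MulAut ↥V) (xf j) = xf j := by
    intro i j
    apply Subtype.ext
    rw [hκ, hxf]
    by_cases hij : i = j
    · rw [hij]
      exact ffx_conj_rel _ a x x P.hax
    · exact hcross i j hij _ (hAj i) _ (hxj j)
  have r2 : ∀ i j : ffxIdx X a b,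
      (MulAut.conjNormal (tsel i * a * (tsel i)⁻¹) : MulAut ↥V) (yf j) =
        yf j * (if i = j then xf j else 1) := by
    intro i j
    apply Subtype.ext
    rw [hκ, Subgroup.coe_mul, hyf]
    by_cases hij : i = j
    · rw [hij, if_pos rfl, hxf, ffx_conj_rel _ a y (y * x) P.hay]
      group
    · rw [if_neg hij, Subgroup.coe_one, mul_one]
      exact hcross i j hij _ (hAj i) _ (hyj j)
  have r3 : ∀ i j : ffxIdx X a b,
      (MulAut.conjNormal (tsel i * b * (tsel i)⁻¹) : MulAut ↥V) (yf j) = yf j := by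
    intro i j
    apply Subtype.ext
    rw [hκ, hyf]
    by_cases hij : i = j
    · rw [hij]
      exact ffx_conj_rel _ b y y P.hby
    · exact hcross i j hij _ (hBj i) _ (hyj j)
  have r4 : ∀ i j : ffxIdx X a b,
      (MulAut.conjNormal (tsel i * b * (tsel i)⁻¹) : MulAut ↥V) (xf j) =
        xf j * (if i = j then yf j else 1) := by
    intro i j
    apply Subtype.ext
    rw [hκ, Subgroup.coe_mul, hxf]
    by_cases hij : i = j
    · rw [hij, if_pos rfl, hyf, ffx_conj_rel _ b x (x * y) P.hbx]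
      group
    · rw [if_neg hij, Subgroup.coe_one, mul_one]
      exact hcross i j hij _ (hBj i) _ (hxj j)
  obtain ⟨ah, hahH, hahx, hahy⟩ := ffx_prod (MulAut.conjNormal : Γ →* MulAut ↥V)
    (fun i => tsel i * a * (tsel i)⁻¹) xf yf r1 r2 H (fun i => hXH1 _ (htsel i).1 a T.aH)
  obtain ⟨bh, hbhH, hbhy, hbhx⟩ := ffx_prod (MulAut.conjNormal : Γ →* MulAut ↥V)
    (fun i => tsel i * b * (tsel i)⁻¹) yf xf r3 r4 H (fun i => hXH1 _ (htsel i).1 b D.bH)
  obtain ⟨i₀, -⟩ : ∃ i₀ : ffxIdx X a b, True :=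
    ⟨⟨Subgroup.closure ({1 * a * 1⁻¹, 1 * b * 1⁻¹} : Set Γ), 1, X.one_mem, rfl⟩, trivial⟩
  have hy1 : ∏ j, yf j ≠ 1 := by
    apply ffx_prod_one (MulAut.conjNormal : Γ →* MulAut ↥V)
      (fun i => tsel i * a * (tsel i)⁻¹) xf yf r2 i₀
    intro h
    have h2 := congrArg Subtype.val h
    rw [hxf, Subgroup.coe_one] at h2
    apply P.hx1
    calc x = (tsel i₀)⁻¹ * (tsel i₀ * x * (tsel i₀)⁻¹) * tsel i₀ := by group
      _ = 1 := by rw [h2]; group
  obtain ⟨xh, hxh⟩ : ∃ xh : ↥V, xh = ∏ j, xf j := ⟨_, rfl⟩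
  obtain ⟨yh, hyh⟩ : ∃ yh : ↥V, yh = ∏ j, yf j := ⟨_, rfl⟩
  rw [← hxh] at hahx hahy hbhx
  rw [← hyh] at hahy hbhy hbhx hy1
  have hσex : ∀ t ∈ X, ∃ σ : ffxIdx X a b → ffxIdx X a b,
      ∀ j, (σ j).1 = (j.1).map (MulAut.conj t).toMonoidHom := by
    intro t ht
    refine ⟨fun j => ⟨(j.1).map (MulAut.conj t).toMonoidHom, t * tsel j,
      X.mul_mem ht (htsel j).1, ?_⟩, fun j => rfl⟩
    have h := hmapE t (tsel j)
    rw [← (htsel j).2] at h
    exact h
  have hinvX : ∀ t ∈ X, (MulAut.conjNormal t : MulAut ↥V) xh = xh ∧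
      (MulAut.conjNormal t : MulAut ↥V) yh = yh := by
    intro t ht
    obtain ⟨σ, hσ⟩ := hσex t ht
    have hσinj : Function.Injective σ := by
      intro j j' hjj
      have h1 : (σ j).1 = (σ j').1 := by rw [hjj]
      rw [hσ, hσ] at h1
      exact Subtype.ext (Subgroup.map_injective (MulAut.conj t).injective h1)
    have hσbij : Function.Bijective σ := Finite.injective_iff_bijective.mp hσinj
    have hcl : ∀ j, Subgroup.closure ({(t * tsel j) * a * (t * tsel j)⁻¹,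
        (t * tsel j) * b * (t * tsel j)⁻¹} : Set Γ) =
        Subgroup.closure ({tsel (σ j) * a * (tsel (σ j))⁻¹,
          tsel (σ j) * b * (tsel (σ j))⁻¹} : Set Γ) := by
      intro j
      have h1 := hmapE t (tsel j)
      rw [← (htsel j).2, ← hσ] at h1
      exact h1.symm.trans (htsel (σ j)).2
    have hwx : ∀ j, (MulAut.conjNormal t : MulAut ↥V) (xf j) = xf (σ j) := by
      intro j
      apply Subtype.ext
      rw [hκ, hxf, hxf]
      have h := (hwd (t * tsel j) (X.mul_mem ht (htsel j).1) (tsel (σ j)) (htsel (σ j)).1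
        (hcl j)).1
      rw [← h]
      group
    have hwy : ∀ j, (MulAut.conjNormal t : MulAut ↥V) (yf j) = yf (σ j) := by
      intro j
      apply Subtype.ext
      rw [hκ, hyf, hyf]
      have h := (hwd (t * tsel j) (X.mul_mem ht (htsel j).1) (tsel (σ j)) (htsel (σ j)).1
        (hcl j)).2
      rw [← h]
      group
    constructor
    · rw [hxh, map_prod]
      exact Fintype.prod_bijective σ hσbij _ _ hwx
    · rw [hyh, map_prod]
      exact Fintype.prod_bijective σ hσbij _ _ hwy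
  -- back to elements of `Γ`
  have hfx : ∀ t ∈ X, t * (xh : Γ) * t⁻¹ = (xh : Γ) := by
    intro t ht
    have h := congrArg Subtype.val (hinvX t ht).1
    rw [hκ] at h
    exact h
  have hfy : ∀ t ∈ X, t * (yh : Γ) * t⁻¹ = (yh : Γ) := by
    intro t ht
    have h := congrArg Subtype.val (hinvX t ht).2
    rw [hκ] at h
    exact h
  have hax' : ah * (xh : Γ) * ah⁻¹ = (xh : Γ) := by
    have h := congrArg Subtype.val hahx
    rw [hκ] at h
    exact h
  have hay' : ah * (yh : Γ) * ah⁻¹ = (yh : Γ) * (xh : Γ) := by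
    have h := congrArg Subtype.val hahy
    rw [hκ, Subgroup.coe_mul] at h
    exact h
  have hby' : bh * (yh : Γ) * bh⁻¹ = (yh : Γ) := by
    have h := congrArg Subtype.val hbhy
    rw [hκ] at h
    exact h
  have hbx' : bh * (xh : Γ) * bh⁻¹ = (xh : Γ) * (yh : Γ) := by
    have h := congrArg Subtype.val hbhx
    rw [hκ, Subgroup.coe_mul] at h
    exact h
  obtain ⟨a', ha'H, ha'fix, ha'x, ha'y⟩ := ffx_fix_elt X H hXq hXH1 hq (xh : Γ) (yh : Γ)
    ((yh : Γ) * (xh : Γ)) hfx hfy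
    (fun t ht => by rw [ffp_conj_mul, hfy t ht, hfx t ht]) ah hahH hax' hay'
  obtain ⟨b', hb'H, hb'fix, hb'y, hb'x⟩ := ffx_fix_elt X H hXq hXH1 hq (yh : Γ) (xh : Γ)
    ((xh : Γ) * (yh : Γ)) hfy hfx
    (fun t ht => by rw [ffp_conj_mul, hfx t ht, hfy t ht]) bh hbhH hby' hbx'
  have hx1 : (xh : Γ) ≠ 1 := by
    intro h
    apply hy1
    apply Subtype.ext
    rw [Subgroup.coe_one]
    have h2 := hb'x
    rw [h, one_mul, mul_one, mul_inv_cancel] at h2
    exact h2.symm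
  exact ⟨a', b', (xh : Γ), (yh : Γ), ha'H, hb'H, xh.2, yh.2, ha'fix, hb'fix, hfx, hfy, hx1,
    ha'x, ha'y, hb'x, hb'y⟩

end Cfsg.Agent.Helper1
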