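import Mathlib
import Cfsg.Agent.Helper1.FFX2
import Cfsg.Agent.Helper1.FFTrans2

set_option autoImplicit false

namespace Cfsg.Agent.Helper1

open scoped SemidirectProduct

theorem ffx_restrict {Kt Y : Type*} [Group Kt] [Group Y] (α : Y →* MulAut Kt) (V : Subgroup Kt)
    (hαV : ∀ (t : Y), ∀ v ∈ V, α t v ∈ V) :
    ∃ β : Y →* MulAut ↥V, ∀ (t : Y) (v : ↥V), ((β t v : ↥V) : Kt) = α t (v : Kt) := by
  let f : Y → MulAut ↥V := fun t =>
    { toFun := fun v => ⟨α t (v : Kt), hαV t v v.2⟩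
      invFun := fun v => ⟨α t⁻¹ (v : Kt), hαV t⁻¹ v v.2⟩
      left_inv := fun v => Subtype.ext (by
        show α t⁻¹ (α t (v : Kt)) = (v : Kt)
        rw [← MulAut.mul_apply, ← map_mul α, inv_mul_cancel, map_one, MulAut.one_apply])
      right_inv := fun v => Subtype.ext (by
        show α t (α t⁻¹ (v : Kt)) = (v : Kt)
        rw [← MulAut.mul_apply, ← map_mul α, mul_inv_cancel, map_one, MulAut.one_apply])
      map_mul' := fun v₁ v₂ => Subtype.ext (by
        show α t ((v₁ : Kt) * (v₂ : Kt)) = α t (v₁ : Kt) * α t (v₂ : Kt)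
        exact map_mul (α t) _ _) }
  refine ⟨{ toFun := f, map_one' := ?_, map_mul' := ?_ }, fun t v => rfl⟩
  · apply MulEquiv.ext
    intro v
    apply Subtype.ext
    show α 1 (v : Kt) = (v : Kt)
    rw [map_one, MulAut.one_apply]
  · intro t t'
    apply MulEquiv.ext
    intro v
    apply Subtype.ext
    show α (t * t') (v : Kt) = α t (α t' (v : Kt))
    rw [map_mul α t t', MulAut.mul_apply]

theorem ffx_omega_mem {Kt : Type*} [Group Kt] (p : ℕ) (H : Subgroup Kt) (z : Kt) (hz : z ∈ H)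
    (hzp : z ^ p = 1) : z ∈ Cfsg.omegaOne p H :=
  Subgroup.subset_closure ⟨hz, hzp⟩

theorem ffx_omega_le {Kt : Type*} [Group Kt] (p : ℕ) (H N : Subgroup Kt)
    (h : ∀ z ∈ H, z ^ p = 1 → z ∈ N) : Cfsg.omegaOne p H ≤ N :=
  (Subgroup.closure_le N).mpr (fun z hz => h z hz.1 hz.2)

open Pointwise in
theorem ffx_V_char {Kt : Type*} [Group Kt] (p : ℕ) (ϕ : MulAut Kt) :
    ∀ v ∈ (⨆ S : Sylow p Kt, Cfsg.omegaOne p
        ((S : Subgroup Kt) ⊓ Subgroup.centralizer ((S : Subgroup Kt) : Set Kt))),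
      ϕ v ∈ (⨆ S : Sylow p Kt, Cfsg.omegaOne p
        ((S : Subgroup Kt) ⊓ Subgroup.centralizer ((S : Subgroup Kt) : Set Kt))) := by
  have hle : (⨆ S : Sylow p Kt, Cfsg.omegaOne p
      ((S : Subgroup Kt) ⊓ Subgroup.centralizer ((S : Subgroup Kt) : Set Kt))) ≤
      (⨆ S : Sylow p Kt, Cfsg.omegaOne p
        ((S : Subgroup Kt) ⊓ Subgroup.centralizer ((S : Subgroup Kt) : Set Kt))).comap
          ϕ.toMonoidHom := by
    apply iSup_le
    intro S
    apply ffx_omega_le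
    intro x hxS hxp
    refine Subgroup.mem_comap.mpr ?_
    have hmem : ϕ x ∈ Cfsg.omegaOne p (((ϕ • S : Sylow p Kt) : Subgroup Kt) ⊓
        Subgroup.centralizer (((ϕ • S : Sylow p Kt) : Subgroup Kt) : Set Kt)) := by
      apply ffx_omega_mem
      · refine Subgroup.mem_inf.mpr ⟨?_, ?_⟩
        · rw [Sylow.pointwise_smul_def]
          exact Subgroup.smul_mem_pointwise_smul x ϕ _ (Subgroup.mem_inf.mp hxS).1
        · rw [Subgroup.mem_centralizer_iff]
          intro y hy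
          have hy' : y ∈ (ϕ • (S : Subgroup Kt)) := by
            rw [← Sylow.pointwise_smul_def]; exact hy
          rw [Subgroup.mem_pointwise_smul_iff_inv_smul_mem] at hy'
          have hc := Subgroup.mem_centralizer_iff.mp (Subgroup.mem_inf.mp hxS).2 _ hy'
          have h2 := congrArg ϕ hc
          rw [map_mul, map_mul] at h2
          have e : ϕ (ϕ⁻¹ • y) = y := by
            rw [MulAut.smul_def]; exact MulAut.apply_inv_self Kt ϕ y
          rw [e] at h2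
          exact h2
      · rw [← map_pow, hxp, map_one]
    exact (le_iSup (fun S : Sylow p Kt => Cfsg.omegaOne p
      ((S : Subgroup Kt) ⊓ Subgroup.centralizer ((S : Subgroup Kt) : Set Kt))) (ϕ • S)) hmem
  intro v hv
  exact hle hv

theorem ffx_abs {Kt : Type*} [Group Kt] [Finite Kt] {p q : ℕ} [Fact p.Prime] [Fact q.Prime]
    (V : Subgroup Kt) [V.Normal] (hV : Cfsg.IsElementaryAbelian p V)
    (J : Subgroup Kt) [hJn : J.Normal]
    (𝒜 : Set (Subgroup Kt)) (hJ : J = sSup 𝒜)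
    (hbest : ∀ A ∈ 𝒜, Cfsg.IsBestOffenderOn p V A)
    (hsep : Cfsg.IsPSolvable p Kt)
    (hOp : ∀ D : Subgroup Kt, D.Normal → Subgroup.centralizer (V : Set Kt) ≤ D →
      (∃ k : ℕ, (Subgroup.centralizer (V : Set Kt)).relIndex D = p ^ k) →
      D = Subgroup.centralizer (V : Set Kt))
    (hJC : ¬ J ≤ Subgroup.centralizer (V : Set Kt))
    {Y : Type*} [Group Y] (hY : IsPGroup q Y) (α : Y →* MulAut Kt)
    (hαV : ∀ (t : Y), ∀ v ∈ V, α t v ∈ V) (hαJ : ∀ (t : Y), ∀ j ∈ J, α t j ∈ J)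
    (hq : ¬ q ∣ Nat.card Kt) :
    (p = 2 ∨ p = 3) ∧ ∃ a b x y : Kt, (∀ t, α t a = a) ∧ (∀ t, α t b = b) ∧
      (∀ t, α t x = x) ∧ (∀ t, α t y = y) ∧ x * y = y * x ∧ x ^ p = 1 ∧ y ^ p = 1 ∧ x ≠ 1 ∧
      a * x * a⁻¹ = x ∧ a * y * a⁻¹ = y * x ∧ b * x * b⁻¹ = x * y ∧ b * y * b⁻¹ = y := by
  classical
  have hker : (holRho V).ker = Subgroup.centralizer (V : Set Kt) := hol_ker V
  obtain ⟨hHV', hf', hS1, hS3⟩ := ff_hol_hyps V J 𝒜 hJ hbest hsep hOp
  have hV' := hol_elem V p hV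
  have hH1 : J.map (holRho V) ≠ ⊥ := by
    intro h
    apply hJC
    rw [← hker]
    intro j hj
    rw [MonoidHom.mem_ker]
    have h2 : holRho V j ∈ J.map (holRho V) := Subgroup.mem_map_of_mem _ hj
    rw [h] at h2
    exact Subgroup.mem_bot.mp h2
  obtain ⟨β, hβ⟩ := ffx_restrict α V hαV
  obtain ⟨θ, hθ⟩ : ∃ θ : Y →* Hol V, ∀ t, θ t = SemidirectProduct.inr (β t) :=
    ⟨SemidirectProduct.inr.comp β, fun t => rfl⟩
  have hE1 : ∀ (t : Y) (k : Kt), θ t * holRho V k * (θ t)⁻¹ = holRho V (α t k) := by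
    intro t k
    have h1 : β t * MulAut.conjNormal k = MulAut.conjNormal (α t k) * β t := by
      apply MulEquiv.ext
      intro v
      apply Subtype.ext
      rw [MulAut.mul_apply, MulAut.mul_apply, hβ, MulAut.conjNormal_apply,
        MulAut.conjNormal_apply, hβ, map_mul, map_mul, map_inv]
    have h2 : θ t * holRho V k = holRho V (α t k) * θ t := by
      rw [hθ]
      show SemidirectProduct.inr (β t) * SemidirectProduct.inr (MulAut.conjNormal k) =
        SemidirectProduct.inr (MulAut.conjNormal (α t k)) * SemidirectProduct.inr (β t)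
      rw [← map_mul, ← map_mul, h1]
    rw [h2]
    exact mul_inv_cancel_right _ _
  have hE2 : ∀ (t : Y) (v : ↥V), θ t * SemidirectProduct.inl v * (θ t)⁻¹ =
      (SemidirectProduct.inl (β t v) : Hol V) := by
    intro t v
    rw [hθ, ← map_inv]
    exact (SemidirectProduct.inl_aut (φ := MonoidHom.id (MulAut ↥V)) (β t) v).symm
  have hXq' : IsPGroup q ↥θ.range :=
    hY.of_surjective θ.rangeRestrict θ.rangeRestrict_surjective
  have hnormJ : ∀ (t : Y), ∀ h ∈ J.map (holRho V),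
      θ t * h * (θ t)⁻¹ ∈ J.map (holRho V) := by
    rintro t _ ⟨j, hj, rfl⟩
    rw [hE1]
    exact Subgroup.mem_map_of_mem _ (hαJ t j hj)
  have hXH' : θ.range ≤
      Subgroup.normalizer ((J.map (holRho V) : Subgroup (Hol V)) : Set (Hol V)) := by
    rintro _ ⟨t, rfl⟩
    rw [Subgroup.mem_normalizer_iff]
    intro h
    constructor
    · exact hnormJ t h
    · intro hh
      have h2 := hnormJ t⁻¹ _ hh
      rw [map_inv] at h2
      have e : (θ t)⁻¹ * (θ t * h * (θ t)⁻¹) * (θ t)⁻¹⁻¹ = h := by group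
      rw [e] at h2
      exact h2
  have hq' : ¬ q ∣ Nat.card ↥(J.map (holRho V)) := by
    intro hd
    apply hq
    have h := Subgroup.relIndex_inf_mul_relIndex (⊥ : Subgroup Kt) (holRho V).ker J
    rw [bot_inf_eq, Subgroup.relIndex_bot_left, Subgroup.relIndex_bot_left,
      Subgroup.relIndex_ker] at h
    exact (hd.trans (Dvd.intro_left _ h)).trans (Subgroup.card_subgroup_dvd_card J)
  obtain ⟨hp23, ah, bh, xh, yh, hahJ, hbhJ, hxhV, hyhV, hfa, hfb, hfx, hfy, hx1, hax, hay, hbx,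
    hby⟩ := ffx_main (holV V) (J.map (holRho V)) θ.range hV' hHV' hf' hS1 hS3 hH1 hXH' hXq' hq'
  refine ⟨hp23, ?_⟩
  obtain ⟨vx, rfl⟩ := hxhV
  obtain ⟨vy, rfl⟩ := hyhV
  obtain ⟨ja, hjaJ, rfl⟩ := hahJ
  obtain ⟨jb, hjbJ, rfl⟩ := hbhJ
  have hkerq : ¬ q ∣ Nat.card ↥(holRho V).ker :=
    fun h => hq (h.trans (Subgroup.card_subgroup_dvd_card _))
  have hlift : ∀ j : Kt, (∀ t : Y, θ t * holRho V j * (θ t)⁻¹ = holRho V j) →
      ∃ k : Kt, (∀ t, α t k = k) ∧ holRho V k = holRho V j := by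
    intro j hj
    have hinv : ∀ (t : Y) (s : Kt), s ∈ (holRho V).ker →
        j⁻¹ * α t (j * s) ∈ (holRho V).ker := by
      intro t s hs
      rw [MonoidHom.mem_ker] at hs ⊢
      rw [map_mul, map_inv, ← hE1, map_mul, hs, mul_one, hj t, inv_mul_cancel]
    obtain ⟨s, hs, hfix⟩ := ffx_fixed hY α (holRho V).ker hkerq j hinv
    refine ⟨j * s, hfix, ?_⟩
    rw [map_mul, MonoidHom.mem_ker.mp hs, mul_one]
  obtain ⟨a, hafix, haρ⟩ := hlift ja (fun t => hfa (θ t) ⟨t, rfl⟩)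
  obtain ⟨b, hbfix, hbρ⟩ := hlift jb (fun t => hfb (θ t) ⟨t, rfl⟩)
  rw [← haρ] at hax hay
  rw [← hbρ] at hbx hby
  have hvfix : ∀ (v : ↥V), (∀ t ∈ θ.range,
      t * (SemidirectProduct.inl v : Hol V) * t⁻¹ = SemidirectProduct.inl v) →
      ∀ t : Y, α t (v : Kt) = (v : Kt) := by
    intro v hv t
    have h := hv (θ t) ⟨t, rfl⟩
    rw [hE2] at h
    have h2 := SemidirectProduct.inl_injective h
    rw [← hβ, h2]
  have hrel : ∀ (k : Kt) (v w : ↥V),
      holRho V k * SemidirectProduct.inl v * (holRho V k)⁻¹ =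
        (SemidirectProduct.inl w : Hol V) → k * (v : Kt) * k⁻¹ = (w : Kt) := by
    intro k v w h
    rw [hol_conj] at h
    have h2 := SemidirectProduct.inl_injective h
    rw [← h2, MulAut.conjNormal_apply]
  have hay2 := hrel a vy (vy * vx) (by rw [map_mul]; exact hay)
  have hbx2 := hrel b vx (vx * vy) (by rw [map_mul]; exact hbx)
  rw [Subgroup.coe_mul] at hay2 hbx2
  refine ⟨a, b, (vx : Kt), (vy : Kt), hafix, hbfix, hvfix vx hfx, hvfix vy hfy, ?_,
    hV.2 _ vx.2, hV.2 _ vy.2, ?_, hrel a vx vx hax, hay2, hbx2, hrel b vy vy hby⟩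
  · exact congrArg Subtype.val (hV.1.is_comm.comm vx vy)
  · intro h
    apply hx1
    have h2 : vx = 1 := Subtype.ext (by rw [Subgroup.coe_one]; exact h)
    rw [h2, map_one]

end Cfsg.Agent.Helper1
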