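import Mathlib
import Cfsg.Agent.Helper1.FFX5

set_option autoImplicit false

namespace Cfsg.Agent.Helper1

open scoped commutatorElement

/-- a subgroup containing the fixed points of a coprime operator group and a conjugate of every
element of order `p` contains the whole group generated by best offenders -/
theorem ffx_gen {Γ : Type*} [Group Γ] [Finite Γ] {p q : ℕ} [Fact p.Prime] [Fact q.Prime]
    (V H X M : Subgroup Γ) [hVn : V.Normal]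
    (hV : Cfsg.IsElementaryAbelian p V) (hHV : H ≤ Subgroup.normalizer (V : Set Γ))
    (hf : H ⊓ Subgroup.centralizer (V : Set Γ) = ⊥)
    (hS1 : Subgroup.centralizer (Cfsg.pPrimeCore p ↥H : Set ↥H) ≤ Cfsg.pPrimeCore p ↥H)
    (hS3 : H = ⨆ A : {A : Subgroup Γ // A ≤ H ∧ Cfsg.IsBestOffenderOn p V A}, (A : Subgroup Γ))
    (hXH : X ≤ Subgroup.normalizer (H : Set Γ))
    (hXq : IsPGroup q ↥X) (hq : ¬ q ∣ Nat.card ↥H)
    (hfixM : ∀ m ∈ H, (∀ t ∈ X, t * m * t⁻¹ = m) → m ∈ M)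
    (hpM : ∀ g ∈ H, g ^ p = 1 → ∃ h ∈ H, h * g * h⁻¹ ∈ M) : H ≤ M := by
  classical
  by_cases hH1 : H = ⊥
  · rw [hH1]; exact bot_le
  have S := ffset_of V H hV hHV hf hS1
  have hgen := ff_gen V H hV hHV hf hS1 hS3
  obtain ⟨-, -, -, hsup, -, -⟩ := ff_structure V H hV hHV hf hS1 hS3 hH1
  have hcompF : ∀ E : FFIdx p V H,
      IsComp p V H ((Cfsg.pPrimeCore p ↥H).map H.subtype) (E : Subgroup Γ) := by
    rintro ⟨E, A, hAH, hA, hAV, hmin, rfl⟩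
    exact ff_comp_of_offender V H hV hHV hf hS1 A hAH hA hAV hmin
  apply hgen
  intro a x T ha1
  have hex : ∃ r ∈ ((Cfsg.pPrimeCore p ↥H).map H.subtype), r * a ≠ a * r := by
    by_contra hcon
    push_neg at hcon
    exact ha1 (S.hQc a T.aH T.ap hcon)
  obtain ⟨r, hr, hra⟩ := hex
  obtain ⟨b, y, D⟩ := ffp_pair S T ha1 hr hra
  have P := D.P
  have hE : IsComp p V H ((Cfsg.pPrimeCore p ↥H).map H.subtype)
      (Subgroup.closure ({a, b} : Set Γ)) := ⟨⟨a, b, x, y, r, T, ha1, hr, D, rfl⟩⟩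
  obtain ⟨a', b', ha'H, hb'H, ha'fix, hb'fix, ha'x, ha'y, hb'x, hb'y⟩ :=
    ffx_comp_fixed V H X hV hHV hf hS1 hS3 hXH hXq hq T ha1 hr D
  obtain ⟨W, hW⟩ : ∃ W : Subgroup Γ, W = Subgroup.closure ({x, y} : Set Γ) := ⟨_, rfl⟩
  obtain ⟨E, hEdef⟩ : ∃ E : Subgroup Γ, E = Subgroup.closure ({a, b} : Set Γ) := ⟨_, rfl⟩
  rw [← hEdef] at hE
  have hWeq : ⁅V, E⁆ = W := by rw [hEdef, hW]; exact P.comm_eq
  have hxW : x ∈ W := by rw [hW]; exact Subgroup.subset_closure (Set.mem_insert _ _)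
  have hyW : y ∈ W := by
    rw [hW]; exact Subgroup.subset_closure (Set.mem_insert_of_mem _ (Set.mem_singleton _))
  have haE : a ∈ E := by rw [hEdef]; exact Subgroup.subset_closure (Set.mem_insert _ _)
  have hEH : E ≤ H := hE.le_H
  have hEn : H ≤ Subgroup.normalizer (E : Set Γ) := hE.norm S hgen
  have hHW : ∀ h ∈ H, ∀ w ∈ W, h * w * h⁻¹ ∈ W := by
    intro h hh w hw
    rw [← hWeq] at hw ⊢
    have h1 : (⁅V, E⁆).map (MulAut.conj h).toMonoidHom ≤ ⁅V, E⁆ := by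
      rw [Subgroup.map_commutator]
      apply Subgroup.commutator_mono
      · rintro _ ⟨v, hv, rfl⟩
        exact hVn.conj_mem v hv h
      · rintro _ ⟨e, he, rfl⟩
        exact (Subgroup.mem_normalizer_iff.mp (hEn hh) e).mp he
    exact h1 ⟨w, hw, rfl⟩
  obtain ⟨ρ, hρ⟩ := ffp_exists_conj_hom W H hHW
  have hinj : ∀ g₁ g₂ : ↥H, (g₁ : Γ) ∈ E → (g₂ : Γ) ∈ E → ρ g₁ = ρ g₂ → g₁ = g₂ := by
    intro g₁ g₂ h1 h2 h
    have h3 : ρ (g₁⁻¹ * g₂) = 1 := by rw [map_mul, map_inv, h, inv_mul_cancel]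
    have h4 : ((g₁⁻¹ * g₂ : ↥H) : Γ) = 1 := by
      apply D.faith _ (by rw [← hEdef]; exact E.mul_mem (E.inv_mem h1) h2)
      · have h5 := hρ (g₁⁻¹ * g₂) ⟨x, hxW⟩
        rw [h3] at h5
        exact h5.symm
      · have h5 := hρ (g₁⁻¹ * g₂) ⟨y, hyW⟩
        rw [h3] at h5
        exact h5.symm
    have h6 : g₁⁻¹ * g₂ = 1 := Subtype.ext h4
    exact inv_mul_eq_one.mp h6
  have hwf : ∀ w ∈ W, ∃ i j : ℕ, w = x ^ i * y ^ j := by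
    intro w hw
    exact P.wform w (by rw [← hW]; exact hw)
  have hsame : ∀ (g g' : Γ), g * x * g⁻¹ = g' * x * g'⁻¹ → g * y * g⁻¹ = g' * y * g'⁻¹ →
      ∀ w ∈ W, g * w * g⁻¹ = g' * w * g'⁻¹ := by
    intro g g' h1 h2 w hw
    obtain ⟨i, j, hij⟩ := hwf w hw
    rw [hij, ffp_conj_mul, ffp_conj_pow, ffp_conj_pow, h1, h2, ← ffp_conj_pow, ← ffp_conj_pow,
      ← ffp_conj_mul]
  have hA : ∀ g ∈ Subgroup.closure ({a, b} : Set Γ), ∃ m : ↥H,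
      (∀ t ∈ X, t * (m : Γ) * t⁻¹ = (m : Γ)) ∧
      ∀ w ∈ W, (m : Γ) * w * (m : Γ)⁻¹ = g * w * g⁻¹ := by
    apply ffp_closure_induction (P := fun g => ∃ m : ↥H,
      (∀ t ∈ X, t * (m : Γ) * t⁻¹ = (m : Γ)) ∧
      ∀ w ∈ W, (m : Γ) * w * (m : Γ)⁻¹ = g * w * g⁻¹)
    · intro c hc
      rcases hc with hca | hcb
      · rw [hca]
        exact ⟨⟨a', ha'H⟩, ha'fix, hsame a' a (by rw [ha'x, P.hax]) (by rw [ha'y, P.hay])⟩
      · rw [Set.mem_singleton_iff.mp hcb]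
        exact ⟨⟨b', hb'H⟩, hb'fix, hsame b' b (by rw [hb'x, P.hbx]) (by rw [hb'y, P.hby])⟩
    · exact ⟨1, fun t _ => by rw [Subgroup.coe_one]; group,
        fun w _ => by rw [Subgroup.coe_one]⟩
    · rintro g g' ⟨m, hm, hmw⟩ ⟨m', hm', hmw'⟩
      refine ⟨m * m', ?_, ?_⟩
      · intro t ht
        rw [Subgroup.coe_mul, ffp_conj_mul, hm t ht, hm' t ht]
      · intro w hw
        have hw' : g' * w * g'⁻¹ ∈ W := by
          rw [← hmw' w hw]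
          exact hHW _ m'.2 w hw
        rw [Subgroup.coe_mul]
        calc (m : Γ) * (m' : Γ) * w * ((m : Γ) * (m' : Γ))⁻¹
            = (m : Γ) * ((m' : Γ) * w * (m' : Γ)⁻¹) * (m : Γ)⁻¹ := by group
          _ = (m : Γ) * (g' * w * g'⁻¹) * (m : Γ)⁻¹ := by rw [hmw' w hw]
          _ = g * (g' * w * g'⁻¹) * g⁻¹ := hmw _ hw'
          _ = g * g' * w * (g * g')⁻¹ := by group
  have hC : ∀ h ∈ H, ∃ g ∈ E, ∀ w ∈ W, h * w * h⁻¹ = g * w * g⁻¹ := by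
    intro h hh
    rw [← hsup] at hh
    refine Subgroup.iSup_induction (C := fun h => ∃ g ∈ E, ∀ w ∈ W, h * w * h⁻¹ = g * w * g⁻¹)
      _ hh ?_ ?_ ?_
    · intro E' h' hh'
      rcases hE.pair S (hcompF E') with hEE | hEE
      · exact ⟨h', by rw [← hEE]; exact hh', fun w _ => rfl⟩
      · refine ⟨1, E.one_mem, fun w hw => ?_⟩
        have hc := (Subgroup.mem_inf.mp (hEE hh')).2
        rw [hWeq] at hc
        have h2 := Subgroup.mem_centralizer_iff.mp hc w hw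
        rw [← h2]; group
    · exact ⟨1, E.one_mem, fun w _ => rfl⟩
    · rintro h₁ h₂ ⟨g₁, hg₁, hw₁⟩ ⟨g₂, hg₂, hw₂⟩
      refine ⟨g₁ * g₂, E.mul_mem hg₁ hg₂, fun w hw => ?_⟩
      have hw' : g₂ * w * g₂⁻¹ ∈ W := hHW g₂ (hEH hg₂) w hw
      calc h₁ * h₂ * w * (h₁ * h₂)⁻¹ = h₁ * (h₂ * w * h₂⁻¹) * h₁⁻¹ := by group
        _ = h₁ * (g₂ * w * g₂⁻¹) * h₁⁻¹ := by rw [hw₂ w hw]
        _ = g₁ * (g₂ * w * g₂⁻¹) * g₁⁻¹ := hw₁ _ hw'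
        _ = g₁ * g₂ * w * (g₁ * g₂)⁻¹ := by group
  obtain ⟨h, hh, hcM⟩ := hpM a T.aH T.ap
  obtain ⟨g, hgE, hgw⟩ := hC h hh
  obtain ⟨m, hmfix, hmw⟩ := hA g⁻¹ (by rw [← hEdef]; exact E.inv_mem hgE)
  have hmM : (m : Γ) ∈ M := hfixM m m.2 hmfix
  have hc1 : h * a * h⁻¹ ∈ E := (Subgroup.mem_normalizer_iff.mp (hEn hh) a).mp haE
  have hc2 : (m : Γ) * (h * a * h⁻¹) * (m : Γ)⁻¹ ∈ E :=
    (Subgroup.mem_normalizer_iff.mp (hEn m.2) _).mp hc1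
  have hρeq : ρ ⟨(m : Γ) * (h * a * h⁻¹) * (m : Γ)⁻¹, hEH hc2⟩ = ρ ⟨a, T.aH⟩ := by
    apply MulEquiv.ext
    intro w
    apply Subtype.ext
    rw [hρ, hρ]
    have hw : (w : Γ) ∈ W := w.2
    have hgW : ∀ u ∈ W, g * u * g⁻¹ ∈ W := fun u hu => hHW g (hEH hgE) u hu
    have e1 : (m : Γ)⁻¹ * (w : Γ) * (m : Γ) = g * (w : Γ) * g⁻¹ := by
      have h2 := hmw _ (hgW _ hw)
      have h3 : (m : Γ) * (g * (w : Γ) * g⁻¹) * (m : Γ)⁻¹ = (w : Γ) := by rw [h2]; group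
      calc (m : Γ)⁻¹ * (w : Γ) * (m : Γ)
          = (m : Γ)⁻¹ * ((m : Γ) * (g * (w : Γ) * g⁻¹) * (m : Γ)⁻¹) * (m : Γ) := by rw [h3]
        _ = g * (w : Γ) * g⁻¹ := by group
    have e2 : h⁻¹ * (g * (w : Γ) * g⁻¹) * h = (w : Γ) := by
      rw [← hgw _ hw]; group
    have hw₁ : a * (w : Γ) * a⁻¹ ∈ W := hHW a T.aH _ hw
    have e3 : h * (a * (w : Γ) * a⁻¹) * h⁻¹ = g * (a * (w : Γ) * a⁻¹) * g⁻¹ := hgw _ hw₁
    have e4 : (m : Γ) * (g * (a * (w : Γ) * a⁻¹) * g⁻¹) * (m : Γ)⁻¹ = a * (w : Γ) * a⁻¹ := by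
      rw [hmw _ (hgW _ hw₁)]; group
    calc (m : Γ) * (h * a * h⁻¹) * (m : Γ)⁻¹ * (w : Γ)
          * ((m : Γ) * (h * a * h⁻¹) * (m : Γ)⁻¹)⁻¹
        = (m : Γ) * (h * (a * (h⁻¹ * ((m : Γ)⁻¹ * (w : Γ) * (m : Γ)) * h) * a⁻¹) * h⁻¹)
            * (m : Γ)⁻¹ := by group
      _ = (m : Γ) * (h * (a * (w : Γ) * a⁻¹) * h⁻¹) * (m : Γ)⁻¹ := by rw [e1, e2]
      _ = a * (w : Γ) * a⁻¹ := by rw [e3, e4]
  have hkey : (m : Γ) * (h * a * h⁻¹) * (m : Γ)⁻¹ = a :=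
    congrArg Subtype.val (hinj _ _ hc2 haE hρeq)
  rw [← hkey]
  exact M.mul_mem (M.mul_mem hmM hcM) (M.inv_mem hmM)

end Cfsg.Agent.Helper1
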