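import Mathlib
import Cfsg.Agent.Helper1.FFX6
import Cfsg.Agent.Helper1.FFX4
import Cfsg.Agent.Helper4.ElemAb
import Cfsg.Agent.Helper27.Thompson

set_option autoImplicit false

namespace Cfsg.Agent.Helper1

open scoped SemidirectProduct

/-- `G = J(G) N_G(J(S))` -/
theorem ffx_frattini {G : Type*} [Group G] [Finite G] {p : ℕ} [Fact p.Prime] (S : Sylow p G)
    (g : G) : ∃ c ∈ Cfsg.thompsonSubgroup p G,
      c⁻¹ * g ∈ Subgroup.normalizer (Cfsg.thompsonSubgroupOf p (S : Subgroup G) : Set G) := by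
  obtain ⟨A₀, hA₀, hA₀S⟩ := Cfsg.Agent.Helper4.exists_maxEA_le_sylow (p := p) S
  obtain ⟨A₁, hA₁, hA₁T⟩ := Cfsg.Agent.Helper4.exists_maxEA_le_sylow (p := p) (g • S)
  have hJS := Cfsg.Agent.Helper4.thompsonSubgroupOf_le (S : Subgroup G) hA₀ hA₀S
  have hJT := Cfsg.Agent.Helper4.thompsonSubgroupOf_le ((g • S : Sylow p G) : Subgroup G)
    hA₁ hA₁T
  have hpS : IsPGroup p (Cfsg.thompsonSubgroupOf p (S : Subgroup G)) := by
    refine S.isPGroup'.to_le ?_
    unfold Cfsg.thompsonSubgroupOf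
    exact Subgroup.map_subtype_le _
  have hpT : IsPGroup p (Cfsg.thompsonSubgroupOf p ((g • S : Sylow p G) : Subgroup G)) := by
    refine (g • S).isPGroup'.to_le ?_
    unfold Cfsg.thompsonSubgroupOf
    exact Subgroup.map_subtype_le _
  obtain ⟨c, hc, R, hRp, hRK, hAR, hBR⟩ :=
    Cfsg.Agent.Helper27.exists_conj_le_common_pgroup _ hJS hJT hpS hpT
  rw [Cfsg.Agent.Helper27.thompsonSubgroupOf_eq] at hAR hBR
  have e1 := Cfsg.Agent.Helper27.sSup_maxElAbIn_eq_of_le S R hRp hAR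
  have e2 := Cfsg.Agent.Helper27.sSup_maxElAbIn_eq_of_le (g • S) _ (hRp.map _) hBR
  have e3 := Cfsg.Agent.Helper27.sSup_maxElAbIn_map p (MulAut.conj c) R
  have e4 := Cfsg.Agent.Helper27.sSup_maxElAbIn_map p (MulAut.conj g) (S : Subgroup G)
  have e5 : ((g • S : Sylow p G) : Subgroup G) =
      (S : Subgroup G).map (MulAut.conj g).toMonoidHom :=
    Cfsg.Agent.Helper27.sylow_smul_eq_map g S
  have key : (Cfsg.thompsonSubgroupOf p (S : Subgroup G)).map (MulAut.conj g).toMonoidHom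
      = (Cfsg.thompsonSubgroupOf p (S : Subgroup G)).map (MulAut.conj c).toMonoidHom := by
    rw [Cfsg.Agent.Helper27.thompsonSubgroupOf_eq, ← e4, ← e5, ← e2, e3, e1]
  refine ⟨c, hc, ?_⟩
  rw [Subgroup.mem_normalizer_iff_map_conj_eq]
  change Subgroup.map (MulAut.conj (c⁻¹ * g)).toMonoidHom _ = _
  have h1 : (MulAut.conj (c⁻¹ * g)).toMonoidHom
      = (MulAut.conj c⁻¹).toMonoidHom.comp (MulAut.conj g).toMonoidHom := by
    ext x; simp [mul_assoc]
  rw [h1, ← Subgroup.map_map, key, Subgroup.map_map]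
  have h2 : (MulAut.conj c⁻¹).toMonoidHom.comp (MulAut.conj c).toMonoidHom = MonoidHom.id G := by
    ext x; simp [mul_assoc]
  rw [h2, Subgroup.map_id]

theorem ffx_abs2 {Kt : Type*} [Group Kt] [Finite Kt] {p q : ℕ} [Fact p.Prime] [Fact q.Prime]
    (V : Subgroup Kt) [V.Normal] (hV : Cfsg.IsElementaryAbelian p V)
    (J : Subgroup Kt) [hJn : J.Normal]
    (𝒜 : Set (Subgroup Kt)) (hJ : J = sSup 𝒜)
    (hbest : ∀ A ∈ 𝒜, Cfsg.IsBestOffenderOn p V A)
    (hsep : Cfsg.IsPSolvable p Kt)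
    (hOp : ∀ D : Subgroup Kt, D.Normal → Subgroup.centralizer (V : Set Kt) ≤ D →
      (∃ k : ℕ, (Subgroup.centralizer (V : Set Kt)).relIndex D = p ^ k) →
      D = Subgroup.centralizer (V : Set Kt))
    {Y : Type*} [Group Y] (hY : IsPGroup q Y) (α : Y →* MulAut Kt)
    (hαV : ∀ (t : Y), ∀ v ∈ V, α t v ∈ V) (hαJ : ∀ (t : Y), ∀ j ∈ J, α t j ∈ J)
    (hq : ¬ q ∣ Nat.card Kt)
    (M : Subgroup Kt) (hMC : Subgroup.centralizer (V : Set Kt) ≤ M)
    (hMfix : ∀ k : Kt, (∀ t, α t k = k) → k ∈ M)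
    (hMp : ∀ j ∈ J, (∃ n : ℕ, j ^ (p ^ n) = 1) → ∃ h ∈ J, h * j * h⁻¹ ∈ M) :
    J ≤ M := by
  classical
  have hker : (holRho V).ker = Subgroup.centralizer (V : Set Kt) := hol_ker V
  obtain ⟨hHV', hf', hS1, hS3⟩ := ff_hol_hyps V J 𝒜 hJ hbest hsep hOp
  have hV' := hol_elem V p hV
  obtain ⟨β, hβ⟩ := ffx_restrict α V hαV
  obtain ⟨θ, hθ⟩ : ∃ θ : Y →* Hol V, ∀ t, θ t = SemidirectProduct.inr (β t) :=
    ⟨SemidirectProduct.inr.comp β, fun t => rfl⟩
  have hE1 : ∀ (t : Y) (k : Kt), θ t * holRho V k * (θ t)⁻¹ = holRho V (α t k) := by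
    intro t k
    have h1 : β t * MulAut.conjNormal k = MulAut.conjNormal (α t k) * β t := by
      apply MulEquiv.ext
      intro v
      apply Subtype.ext
      rw [MulAut.mul_apply, MulAut.mul_apply, hβ, MulAut.conjNormal_apply,
        MulAut.conjNormal_apply, hβ, map_mul, map_mul, map_inv]
    have h2 : θ t * holRho V k = holRho V (α t k) * θ t := by
      rw [hθ]
      show SemidirectProduct.inr (β t) * SemidirectProduct.inr (MulAut.conjNormal k) =
        SemidirectProduct.inr (MulAut.conjNormal (α t k)) * SemidirectProduct.inr (β t)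
      rw [← map_mul, ← map_mul, h1]
    rw [h2]
    exact mul_inv_cancel_right _ _
  have hE2 : ∀ (t : Y) (v : ↥V), θ t * SemidirectProduct.inl v * (θ t)⁻¹ =
      (SemidirectProduct.inl (β t v) : Hol V) := by
    intro t v
    rw [hθ, ← map_inv]
    exact (SemidirectProduct.inl_aut (φ := MonoidHom.id (MulAut ↥V)) (β t) v).symm
  have hXq' : IsPGroup q ↥θ.range :=
    hY.of_surjective θ.rangeRestrict θ.rangeRestrict_surjective
  have hnormJ : ∀ (t : Y), ∀ h ∈ J.map (holRho V),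
      θ t * h * (θ t)⁻¹ ∈ J.map (holRho V) := by
    rintro t _ ⟨j, hj, rfl⟩
    rw [hE1]
    exact Subgroup.mem_map_of_mem _ (hαJ t j hj)
  have hXH' : θ.range ≤
      Subgroup.normalizer ((J.map (holRho V) : Subgroup (Hol V)) : Set (Hol V)) := by
    rintro _ ⟨t, rfl⟩
    rw [Subgroup.mem_normalizer_iff]
    intro h
    constructor
    · exact hnormJ t h
    · intro hh
      have h2 := hnormJ t⁻¹ _ hh
      rw [map_inv] at h2
      have e : (θ t)⁻¹ * (θ t * h * (θ t)⁻¹) * (θ t)⁻¹⁻¹ = h := by group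
      rw [e] at h2
      exact h2
  have hq' : ¬ q ∣ Nat.card ↥(J.map (holRho V)) := by
    intro hd
    apply hq
    have h := Subgroup.relIndex_inf_mul_relIndex (⊥ : Subgroup Kt) (holRho V).ker J
    rw [bot_inf_eq, Subgroup.relIndex_bot_left, Subgroup.relIndex_bot_left,
      Subgroup.relIndex_ker] at h
    exact (hd.trans (Dvd.intro_left _ h)).trans (Subgroup.card_subgroup_dvd_card J)
  have hkerq : ¬ q ∣ Nat.card ↥(holRho V).ker :=
    fun h => hq (h.trans (Subgroup.card_subgroup_dvd_card _))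
  have hlift : ∀ j : Kt, (∀ t : Y, θ t * holRho V j * (θ t)⁻¹ = holRho V j) →
      ∃ k : Kt, (∀ t, α t k = k) ∧ holRho V k = holRho V j := by
    intro j hj
    have hinv : ∀ (t : Y) (s : Kt), s ∈ (holRho V).ker →
        j⁻¹ * α t (j * s) ∈ (holRho V).ker := by
      intro t s hs
      rw [MonoidHom.mem_ker] at hs ⊢
      rw [map_mul, map_inv, ← hE1, map_mul, hs, mul_one, hj t, inv_mul_cancel]
    obtain ⟨s, hs, hfix⟩ := ffx_fixed hY α (holRho V).ker hkerq j hinv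
    refine ⟨j * s, hfix, ?_⟩
    rw [map_mul, MonoidHom.mem_ker.mp hs, mul_one]
  have hppart : ∀ j ∈ J, (holRho V j) ^ p = 1 →
      ∃ j' ∈ J, (∃ n : ℕ, j' ^ (p ^ n) = 1) ∧ holRho V j' = holRho V j := by
    intro j hj hgp
    obtain ⟨e, m, hm, hn⟩ := Nat.exists_eq_pow_mul_and_not_dvd (orderOf_pos j).ne' p
      (Fact.out : p.Prime).ne_one
    obtain ⟨m', hm'⟩ := ffp_exists_inv (p := p) m hm
    refine ⟨j ^ (m * m'), J.pow_mem hj _, ⟨e, ?_⟩, ?_⟩
    · rw [← pow_mul, mul_comm (m * m') (p ^ e), ← mul_assoc, ← hn, pow_mul,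
        pow_orderOf_eq_one, one_pow]
    · rw [map_pow]
      exact ffp_pow_modEq_one hgp hm'
  have hmain : J.map (holRho V) ≤ M.map (holRho V) := by
    apply ffx_gen (holV V) (J.map (holRho V)) θ.range (M.map (holRho V)) hV' hHV' hf' hS1 hS3
      hXH' hXq' hq'
    · rintro _ ⟨j, hj, rfl⟩ hfix
      obtain ⟨k, hk, hkρ⟩ := hlift j (fun t => hfix (θ t) ⟨t, rfl⟩)
      rw [← hkρ]
      exact Subgroup.mem_map_of_mem _ (hMfix k hk)
    · rintro _ ⟨j, hj, rfl⟩ hgp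
      obtain ⟨j', hj'J, hj'p, hj'ρ⟩ := hppart j hj hgp
      obtain ⟨h, hhJ, hhM⟩ := hMp j' hj'J hj'p
      refine ⟨holRho V h, Subgroup.mem_map_of_mem _ hhJ, ?_⟩
      rw [← hj'ρ, ← map_inv, ← map_mul, ← map_mul]
      exact Subgroup.mem_map_of_mem _ hhM
  intro j hj
  obtain ⟨m, hm, hmρ⟩ := hmain (Subgroup.mem_map_of_mem _ hj)
  have hk : m⁻¹ * j ∈ (holRho V).ker := by
    rw [MonoidHom.mem_ker, map_mul, map_inv, hmρ, inv_mul_cancel]
  rw [hker] at hk
  have e : j = m * (m⁻¹ * j) := by group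
  rw [e]
  exact M.mul_mem hm (hMC hk)

end Cfsg.Agent.Helper1
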