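import Mathlib
import Cfsg.Agent.Helper27.S4Pres
import Cfsg.Agent.Helper16.DihInvolved
import Cfsg.Agent.Helper1.ZJBridge

set_option autoImplicit false

namespace Cfsg.Agent.Helper1

open Cfsg

/-- Coxeter-type recognition of `S₄` from a dihedral group of order `6` acting on a four-group. -/
theorem s4_embed_of_relations {Q : Type*} [Group Q] (τ ξ υ : Q)
    (hτ : τ * τ = 1) (hξ : ξ * ξ * ξ = 1) (hτξ : τ * ξ * τ⁻¹ = ξ⁻¹) (hτυ : τ * υ = υ * τ)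
    (hυ : υ * υ = 1) (hυξ : υ * ξ * (υ * ξ) * (υ * ξ) = 1) (hne : υ ≠ 1) :
    ∃ φ : Equiv.Perm (Fin 4) →* Q, Function.Injective φ := by
  have e2 : υ⁻¹ = υ := inv_eq_of_mul_eq_one_left hυ
  have e3 : ξ⁻¹ = ξ * ξ := inv_eq_of_mul_eq_one_left hξ
  have e4 : τ * ξ = ξ⁻¹ * τ := by
    calc τ * ξ = (τ * ξ * τ⁻¹) * τ := by group
      _ = ξ⁻¹ * τ := by rw [hτξ]
  have e7 : τ * ξ⁻¹ = ξ * τ := by
    calc τ * ξ⁻¹ = (τ * ξ * τ⁻¹)⁻¹ * τ := by group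
      _ = ξ * τ := by rw [hτξ, inv_inv]
  have e6 : υ * ξ * υ = ξ⁻¹ * υ * ξ⁻¹ := by
    calc υ * ξ * υ = (υ * ξ * (υ * ξ) * (υ * ξ)) * (ξ⁻¹ * υ⁻¹ * ξ⁻¹) := by group
      _ = ξ⁻¹ * υ * ξ⁻¹ := by rw [hυξ, one_mul, e2]
  have hB : τ * ξ * (τ * ξ) = 1 := by
    calc τ * ξ * (τ * ξ) = (τ * ξ * τ⁻¹) * (τ * τ) * ξ := by group
      _ = 1 := by rw [hτξ, hτ, mul_one, inv_mul_cancel]
  have hC : τ * υ * (τ * υ) = 1 := by
    calc τ * υ * (τ * υ) = τ * (υ * τ) * υ := by group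
      _ = τ * (τ * υ) * υ := by rw [hτυ]
      _ = (τ * τ) * (υ * υ) := by group
      _ = 1 := by rw [hτ, hυ, mul_one]
  have r : τ * (τ * ξ * τ) = τ * ξ⁻¹ := by
    calc τ * (τ * ξ * τ) = τ * ((τ * ξ * τ⁻¹) * (τ * τ)) := by group
      _ = τ * ξ⁻¹ := by rw [hτξ, hτ, mul_one]
  have hab : τ * ξ * (τ * (τ * ξ)) = τ * (τ * ξ * τ) := by
    rw [r]
    calc τ * ξ * (τ * (τ * ξ)) = τ * ξ * (τ * τ) * ξ := by group
      _ = τ * (ξ * ξ) := by rw [hτ, mul_one, mul_assoc]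
      _ = τ * ξ⁻¹ := by rw [e3]
  have l : τ * υ * (τ * ξ * (τ * υ)) = ξ⁻¹ * υ * ξ⁻¹ * τ := by
    calc τ * υ * (τ * ξ * (τ * υ)) = (τ * υ) * τ * ξ * (τ * υ) := by group
      _ = (υ * τ) * τ * ξ * (υ * τ) := by rw [hτυ]
      _ = υ * (τ * τ) * ξ * υ * τ := by group
      _ = υ * ξ * υ * τ := by rw [hτ, mul_one]
      _ = ξ⁻¹ * υ * ξ⁻¹ * τ := by rw [e6]
  have r2 : τ * ξ * (τ * υ * (τ * ξ)) = ξ⁻¹ * υ * ξ⁻¹ * τ := by
    calc τ * ξ * (τ * υ * (τ * ξ)) = (τ * ξ) * (τ * υ) * (τ * ξ) := by group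
      _ = (ξ⁻¹ * τ) * (υ * τ) * (ξ⁻¹ * τ) := by rw [e4, hτυ]
      _ = ξ⁻¹ * (τ * υ) * (τ * ξ⁻¹) * τ := by group
      _ = ξ⁻¹ * (υ * τ) * (ξ * τ) * τ := by rw [hτυ, e7]
      _ = ξ⁻¹ * υ * (τ * ξ) * (τ * τ) := by group
      _ = ξ⁻¹ * υ * (ξ⁻¹ * τ) * 1 := by rw [e4, hτ]
      _ = ξ⁻¹ * υ * ξ⁻¹ * τ := by group
  have hbc : τ * υ * (τ * ξ * (τ * υ)) = τ * ξ * (τ * υ * (τ * ξ)) := by rw [l, r2]
  have hac : τ * υ * τ = τ * (τ * υ) := by rw [mul_assoc, ← hτυ]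
  obtain ⟨φ, ha, -, hc⟩ := Helper27.exists_hom_S4 τ (τ * ξ) (τ * υ) hτ hB hC hab hbc hac
  refine ⟨φ, Helper27.s4_hom_injective φ ?_⟩
  rw [ha, hc]
  intro h
  have h9 : τ * υ = τ * 1 := by rw [mul_one]; exact h.symm
  exact hne (mul_left_cancel h9)

theorem s4_centralizer_conj_eq {Q : Type*} [Group Q] {U : Subgroup Q} {g u : Q}
    (hg : g ∈ Subgroup.centralizer (U : Set Q)) (hu : u ∈ U) : g * u * g⁻¹ = u := by
  have h := (Subgroup.mem_centralizer_iff.mp hg) u hu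
  rw [← h, mul_inv_cancel_right]

theorem s4_mem_centralizer_of_conj {Q : Type*} [Group Q] {U : Subgroup Q} {g : Q}
    (h : ∀ u ∈ U, g * u * g⁻¹ = u) : g ∈ Subgroup.centralizer (U : Set Q) := by
  rw [Subgroup.mem_centralizer_iff]
  intro u hu
  exact (mul_inv_eq_iff_eq_mul.mp (h u hu)).symm

theorem s4_centralizer_normal {Q : Type*} [Group Q] (U : Subgroup Q) [hU : U.Normal] :
    (Subgroup.centralizer (U : Set Q)).Normal := by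
  refine ⟨fun c hc g => ?_⟩
  apply s4_mem_centralizer_of_conj
  intro u hu
  have h1 := s4_centralizer_conj_eq hc (show g⁻¹ * u * g ∈ U by
    have h0 := hU.conj_mem u hu g⁻¹; rwa [inv_inv] at h0)
  calc g * c * g⁻¹ * u * (g * c * g⁻¹)⁻¹ = g * (c * (g⁻¹ * u * g) * c⁻¹) * g⁻¹ := by group
    _ = u := by rw [h1]; group

theorem s4_mem_sup_zpowers {Q : Type*} [Group Q] (R : Subgroup Q) (t : Q)
    (ht : t ∈ Subgroup.normalizer (R : Set Q)) :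
    ∀ u ∈ R ⊔ Subgroup.zpowers t, ∃ r ∈ R, ∃ k : ℤ, u = r * t ^ k := by
  have hconj : ∀ (k : ℤ) (r : Q), r ∈ R → t ^ k * r * (t ^ k)⁻¹ ∈ R := fun k r hr =>
    (Subgroup.mem_normalizer_iff.mp (Subgroup.zpow_mem _ ht k) r).mp hr
  let S : Subgroup Q :=
    { carrier := {u | ∃ r ∈ R, ∃ k : ℤ, u = r * t ^ k}
      one_mem' := ⟨1, R.one_mem, 0, by simp⟩
      mul_mem' := by
        rintro _ _ ⟨r, hr, k, rfl⟩ ⟨r', hr', k', rfl⟩
        refine ⟨r * (t ^ k * r' * (t ^ k)⁻¹), R.mul_mem hr (hconj k r' hr'), k + k', ?_⟩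
        rw [zpow_add]
        simp only [mul_assoc, inv_mul_cancel_left]
      inv_mem' := by
        rintro _ ⟨r, hr, k, rfl⟩
        refine ⟨t ^ (-k) * r⁻¹ * (t ^ (-k))⁻¹, hconj (-k) _ (R.inv_mem hr), -k, ?_⟩
        simp only [mul_inv_rev, zpow_neg, inv_inv, mul_assoc, inv_mul_cancel, mul_inv_cancel,
          mul_one] }
  have h : R ⊔ Subgroup.zpowers t ≤ S := by
    apply sup_le
    · intro r hr; exact ⟨r, hr, 0, by simp⟩
    · rw [Subgroup.zpowers_le]; exact ⟨1, R.one_mem, 1, by simp⟩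
  intro u hu
  have h2 : u ∈ S := h hu
  exact h2

theorem s4_conj_pow_swap {Q : Type*} [Group Q] (g p q : Q) (h1 : g * p * g⁻¹ = q)
    (h2 : g * q * g⁻¹ = p) (j : ℕ) : g ^ (2 * j + 1) * p * (g ^ (2 * j + 1))⁻¹ = q := by
  induction j with
  | zero => simpa using h1
  | succ j ih =>
    have e : 2 * (j + 1) + 1 = (2 * j + 1) + 1 + 1 := by ring
    rw [e, pow_succ' g (2 * j + 1 + 1), pow_succ' g (2 * j + 1)]
    generalize g ^ (2 * j + 1) = y at ih ⊢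
    calc g * (g * y) * p * (g * (g * y))⁻¹ = g * (g * (y * p * y⁻¹) * g⁻¹) * g⁻¹ := by group
      _ = q := by rw [ih, h2, h1]

theorem s4_conj_pow_of_comm {Q : Type*} [Group Q] (x c u : Q) (h1 : x * u * x⁻¹ = c * u)
    (h2 : x * c * x⁻¹ = c) (k : ℕ) : x ^ k * u * (x ^ k)⁻¹ = c ^ k * u := by
  induction k with
  | zero => simp
  | succ k ih =>
    rw [pow_succ' x k, pow_succ c k]
    have h3 : x * c ^ k * x⁻¹ = c ^ k := by rw [← conj_pow, h2]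
    generalize x ^ k = y at ih ⊢
    generalize c ^ k = d at ih h3 ⊢
    calc x * y * u * (x * y)⁻¹ = x * (y * u * y⁻¹) * x⁻¹ := by group
      _ = x * (d * u) * x⁻¹ := by rw [ih]
      _ = (x * d * x⁻¹) * (x * u * x⁻¹) := by group
      _ = d * c * u := by rw [h3, h1, ← mul_assoc]

theorem s4_dih1 {Γ : Type*} [Group Γ] (α ξ : Γ) (k : ℤ) (h : α * ξ * α⁻¹ = ξ⁻¹) :
    α * ξ ^ k * ξ * (α * ξ ^ k)⁻¹ = ξ⁻¹ := by
  have hc : ξ ^ k * ξ = ξ * ξ ^ k := ((Commute.refl ξ).zpow_left k).eq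
  generalize ξ ^ k = y at hc ⊢
  calc α * y * ξ * (α * y)⁻¹ = α * (y * ξ) * y⁻¹ * α⁻¹ := by group
    _ = α * (ξ * y) * y⁻¹ * α⁻¹ := by rw [hc]
    _ = α * ξ * α⁻¹ := by group
    _ = ξ⁻¹ := h

theorem s4_dih2 {Γ : Type*} [Group Γ] (α ξ : Γ) (k : ℤ) (h : α * ξ * α⁻¹ = ξ⁻¹)
    (h2 : α * α = 1) : α * ξ ^ k * (α * ξ ^ k) = 1 := by
  have h3 : α * ξ ^ k * α⁻¹ = (ξ ^ k)⁻¹ := by rw [← conj_zpow, h, inv_zpow]
  generalize ξ ^ k = y at h3 ⊢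
  calc α * y * (α * y) = (α * y * α⁻¹) * (α * α) * y := by group
    _ = 1 := by rw [h3, h2, mul_one, inv_mul_cancel]

/-- An element of odd order acting nontrivially on a group of order at most `4` and exponent
`2` permutes its three involutions cyclically. -/
theorem s4_four_group_cycle {Q : Type*} [Group Q] [Finite Q] (U : Subgroup Q)
    (hU4 : Nat.card U ≤ 4)
    (hU2 : ∀ u ∈ U, u * u = 1) (x : Q) (hxU : ∀ u ∈ U, x * u * x⁻¹ ∈ U)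
    (n : ℕ) (hn : Odd n) (hxn : x ^ n ∈ Subgroup.centralizer (U : Set Q))
    (u₁ : Q) (hu₁ : u₁ ∈ U) (hne : x * u₁ * x⁻¹ ≠ u₁) :
    (∀ u ∈ U, u = 1 ∨ u = u₁ ∨ u = x * u₁ * x⁻¹ ∨ u = u₁ * (x * u₁ * x⁻¹)) ∧
    x * (x * u₁ * x⁻¹) * x⁻¹ = u₁ * (x * u₁ * x⁻¹) ∧
    x * (u₁ * (x * u₁ * x⁻¹)) * x⁻¹ = u₁ := by
  obtain ⟨u₂, hu₂d⟩ : ∃ u₂, u₂ = x * u₁ * x⁻¹ := ⟨_, rfl⟩
  rw [← hu₂d] at hne ⊢
  have hu₂ : u₂ ∈ U := by rw [hu₂d]; exact hxU u₁ hu₁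
  have hinv : ∀ u ∈ U, u⁻¹ = u := fun u hu => inv_eq_of_mul_eq_one_left (hU2 u hu)
  have hUc : ∀ u ∈ U, ∀ v ∈ U, u * v = v * u := by
    intro u hu v hv
    have h1 := hinv (u * v) (U.mul_mem hu hv)
    rw [mul_inv_rev, hinv u hu, hinv v hv] at h1
    exact h1.symm
  have h11 : u₁ ≠ 1 := by
    intro h; apply hne; rw [hu₂d, h]; simp
  have h21 : u₂ ≠ 1 := by
    intro h
    apply h11
    calc u₁ = x⁻¹ * (x * u₁ * x⁻¹) * x := by group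
      _ = 1 := by rw [← hu₂d, h]; group
  have h31 : u₁ * u₂ ≠ 1 := by
    intro h
    apply hne
    rw [eq_inv_of_mul_eq_one_right h, hinv u₁ hu₁]
  have h3a : u₁ * u₂ ≠ u₁ := by
    intro h
    have h9 : u₁ * u₂ = u₁ * 1 := by rw [mul_one]; exact h
    exact h21 (mul_left_cancel h9)
  have h3b : u₁ * u₂ ≠ u₂ := by
    intro h
    have h9 : u₁ * u₂ = 1 * u₂ := by rw [one_mul]; exact h
    exact h11 (mul_right_cancel h9)
  have henum : ∀ u ∈ U, u = 1 ∨ u = u₁ ∨ u = u₂ ∨ u = u₁ * u₂ := by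
    intro u hu
    by_contra hcon
    have c1 : u ≠ 1 := fun h => hcon (Or.inl h)
    have c2 : u ≠ u₁ := fun h => hcon (Or.inr (Or.inl h))
    have c3 : u ≠ u₂ := fun h => hcon (Or.inr (Or.inr (Or.inl h)))
    have c4 : u ≠ u₁ * u₂ := fun h => hcon (Or.inr (Or.inr (Or.inr h)))
    classical
    have hsub : ((({u, 1, u₁, u₂, u₁ * u₂} : Finset Q)) : Set Q) ⊆ (U : Set Q) := by
      intro w hw
      simp only [Finset.coe_insert, Finset.coe_singleton, Set.mem_insert_iff,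
        Set.mem_singleton_iff] at hw
      rcases hw with h | h | h | h | h
      · rw [h]; exact hu
      · rw [h]; exact U.one_mem
      · rw [h]; exact hu₁
      · rw [h]; exact hu₂
      · rw [h]; exact U.mul_mem hu₁ hu₂
    have n1 : u ∉ ({1, u₁, u₂, u₁ * u₂} : Finset Q) := by
      simp only [Finset.mem_insert, Finset.mem_singleton]
      rintro (h | h | h | h)
      · exact c1 h
      · exact c2 h
      · exact c3 h
      · exact c4 h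
    have n2 : (1 : Q) ∉ ({u₁, u₂, u₁ * u₂} : Finset Q) := by
      simp only [Finset.mem_insert, Finset.mem_singleton]
      rintro (h | h | h)
      · exact h11 h.symm
      · exact h21 h.symm
      · exact h31 h.symm
    have n3 : u₁ ∉ ({u₂, u₁ * u₂} : Finset Q) := by
      simp only [Finset.mem_insert, Finset.mem_singleton]
      rintro (h | h)
      · exact hne h.symm
      · exact h3a h.symm
    have n4 : u₂ ∉ ({u₁ * u₂} : Finset Q) := by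
      simp only [Finset.mem_singleton]
      intro h; exact h3b h.symm
    have hcard : ({u, 1, u₁, u₂, u₁ * u₂} : Finset Q).card = 5 := by
      rw [Finset.card_insert_of_notMem n1, Finset.card_insert_of_notMem n2,
        Finset.card_insert_of_notMem n3, Finset.card_insert_of_notMem n4, Finset.card_singleton]
    have h6 : Nat.card U = (U : Set Q).ncard := Nat.card_coe_set_eq (U : Set Q)
    have h5 : 5 ≤ Nat.card U := by
      rw [← hcard, ← Set.ncard_coe_finset, h6]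
      exact Set.ncard_le_ncard hsub (Set.toFinite _)
    omega
  have hw : x * u₂ * x⁻¹ = u₁ * u₂ := by
    rcases henum _ (hxU u₂ hu₂) with h | h | h | h
    · exfalso; apply h21
      calc u₂ = x⁻¹ * (x * u₂ * x⁻¹) * x := by group
        _ = 1 := by rw [h]; group
    · exfalso
      obtain ⟨j, hj⟩ := hn
      have h3 := s4_conj_pow_swap x u₁ u₂ hu₂d.symm h j
      rw [← hj] at h3
      have h4 := s4_centralizer_conj_eq hxn hu₁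
      exact hne (h3.symm.trans h4)
    · exfalso; apply hne
      have h5 : x * u₂ * x⁻¹ = x * u₁ * x⁻¹ := by rw [h, ← hu₂d]
      calc u₂ = x⁻¹ * (x * u₂ * x⁻¹) * x := by group
        _ = x⁻¹ * (x * u₁ * x⁻¹) * x := by rw [h5]
        _ = u₁ := by group
    · exact h
  have hw3 : x * (u₁ * u₂) * x⁻¹ = u₁ := by
    calc x * (u₁ * u₂) * x⁻¹ = (x * u₁ * x⁻¹) * (x * u₂ * x⁻¹) := by group
      _ = u₂ * (u₁ * u₂) := by rw [← hu₂d, hw]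
      _ = u₁ * (u₂ * u₂) := by rw [hUc u₂ hu₂ (u₁ * u₂) (U.mul_mem hu₁ hu₂), mul_assoc]
      _ = u₁ := by rw [hU2 u₂ hu₂, mul_one]
  exact ⟨henum, hw, hw3⟩

theorem s4_four_group_cube {Q : Type*} [Group Q] [Finite Q] (U : Subgroup Q)
    (hU4 : Nat.card U ≤ 4)
    (hU2 : ∀ u ∈ U, u * u = 1) (x : Q) (hxU : ∀ u ∈ U, x * u * x⁻¹ ∈ U)
    (n : ℕ) (hn : Odd n) (hxn : x ^ n ∈ Subgroup.centralizer (U : Set Q))
    (u₁ : Q) (hu₁ : u₁ ∈ U) (hne : x * u₁ * x⁻¹ ≠ u₁) :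
    x * x * x ∈ Subgroup.centralizer (U : Set Q) ∧ ∀ f ∈ U, f ≠ 1 → x * f * x⁻¹ ≠ f := by
  obtain ⟨henum, h2, h3⟩ := s4_four_group_cycle U hU4 hU2 x hxU n hn hxn u₁ hu₁ hne
  obtain ⟨u₂, hu₂d⟩ : ∃ u₂, u₂ = x * u₁ * x⁻¹ := ⟨_, rfl⟩
  rw [← hu₂d] at henum h2 h3 hne
  have h1 : x * u₁ * x⁻¹ = u₂ := hu₂d.symm
  constructor
  · apply s4_mem_centralizer_of_conj
    intro u hu
    have e : (x * x * x) * u * (x * x * x)⁻¹ = x * (x * (x * u * x⁻¹) * x⁻¹) * x⁻¹ := by group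
    rw [e]
    rcases henum u hu with h | h | h | h
    · rw [h]; group
    · rw [h, h1, h2, h3]
    · rw [h, h2, h3, h1]
    · rw [h, h3, h1, h2]
  · intro f hf hf1 hfix
    rcases henum f hf with h | h | h | h
    · exact hf1 h
    · rw [h] at hfix
      exact hne (h1.symm.trans hfix)
    · rw [h] at hfix
      have h4 : u₁ * u₂ = u₂ := h2.symm.trans hfix
      have h9 : u₁ * u₂ = 1 * u₂ := by rw [one_mul]; exact h4
      have h5 : u₁ = 1 := mul_right_cancel h9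
      apply hne
      rw [← h1, h5]; simp
    · rw [h] at hfix
      have h4 : u₁ * u₂ = u₁ := hfix.symm.trans h3
      have h9 : u₁ * u₂ = u₁ * 1 := by rw [mul_one]; exact h4
      have h5 : u₂ = 1 := mul_left_cancel h9
      have h6 : u₁ = 1 := by
        calc u₁ = x⁻¹ * (x * u₁ * x⁻¹) * x := by group
          _ = 1 := by rw [h1, h5]; group
      apply hne
      rw [h5, h6]

/-- A finite group with a normal four-group on which an element of odd order acts nontrivially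
and is inverted (modulo the centralizer) by another element involves `S₄`. -/
theorem s4_of_four_group {Q : Type*} [Group Q] [Finite Q] (U : Subgroup Q) [hUn : U.Normal]
    (hU4 : Nat.card U ≤ 4) (hU2 : ∀ u ∈ U, u * u = 1)
    (x a : Q) (n : ℕ) (hn : Odd n) (hxn : x ^ n ∈ Subgroup.centralizer (U : Set Q))
    (hax : a * x * a⁻¹ * x ∈ Subgroup.centralizer (U : Set Q))
    (haa : a * a ∈ Subgroup.centralizer (U : Set Q))
    (u₀ : Q) (hu₀ : u₀ ∈ U) (hxu₀ : x * u₀ * x⁻¹ ≠ u₀) :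
    Cfsg.Involves (Equiv.Perm (Fin 4)) Q := by
  have hxU : ∀ u ∈ U, x * u * x⁻¹ ∈ U := fun u hu => hUn.conj_mem u hu x
  have hinv : ∀ u ∈ U, u⁻¹ = u := fun u hu => inv_eq_of_mul_eq_one_left (hU2 u hu)
  have hUc : ∀ u ∈ U, ∀ v ∈ U, u * v = v * u := by
    intro u hu v hv
    have h1 := hinv (u * v) (U.mul_mem hu hv)
    rw [mul_inv_rev, hinv u hu, hinv v hv] at h1
    exact h1.symm
  obtain ⟨hx3', hxfix⟩ := s4_four_group_cube U hU4 hU2 x hxU n hn hxn u₀ hu₀ hxu₀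
  have hxn' := hxn
  obtain ⟨C, hC⟩ : ∃ C : Subgroup Q, C = Subgroup.centralizer (U : Set Q) := ⟨_, rfl⟩
  rw [← hC] at hxn hax haa hx3'
  have hx3 : x * x * x ∈ C := hx3'
  haveI hCn : C.Normal := by rw [hC]; exact s4_centralizer_normal U
  have hCconj : ∀ c ∈ C, ∀ u ∈ U, c * u * c⁻¹ = u := fun c hc u hu =>
    s4_centralizer_conj_eq (by rw [← hC]; exact hc) hu
  have hCof : ∀ g : Q, (∀ u ∈ U, g * u * g⁻¹ = u) → g ∈ C := fun g h => by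
    rw [hC]; exact s4_mem_centralizer_of_conj h
  -- the quotient by `C`
  obtain ⟨π, hπ⟩ : ∃ π : Q →* Q ⧸ C, π = QuotientGroup.mk' C := ⟨_, rfl⟩
  have hπ1 : ∀ g : Q, π g = 1 ↔ g ∈ C := fun g => by rw [hπ]; exact mk'_eq_one_iff'
  have hα : π a * π x * (π a)⁻¹ = (π x)⁻¹ := by
    apply eq_inv_of_mul_eq_one_left
    rw [← map_inv, ← map_mul, ← map_mul, ← map_mul]
    exact (hπ1 _).mpr hax
  have hαα : π a * π a = 1 := by rw [← map_mul]; exact (hπ1 _).mpr haa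
  -- `M = C⟨x⟩`
  obtain ⟨M, hM⟩ : ∃ M : Subgroup Q, M = C ⊔ Subgroup.zpowers x := ⟨_, rfl⟩
  have hCM : C ≤ M := by rw [hM]; exact le_sup_left
  have hxM : x ∈ M := by rw [hM]; exact Subgroup.mem_sup_right (Subgroup.mem_zpowers x)
  have hxNC : x ∈ Subgroup.normalizer (C : Set Q) := by
    rw [Subgroup.normalizer_eq_top_iff.mpr hCn]; exact Subgroup.mem_top x
  have hMdec : ∀ m ∈ M, ∃ c ∈ C, ∃ k : ℤ, m = c * x ^ k := by
    intro m hm; rw [hM] at hm; exact s4_mem_sup_zpowers C x hxNC m hm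
  have haM : ∀ m ∈ M, a * m * a⁻¹ ∈ M := by
    intro m hm
    obtain ⟨c, hc, k, rfl⟩ := hMdec m hm
    have h1 : a * x * a⁻¹ ∈ M := by
      have h2 : a * x * a⁻¹ = (a * x * a⁻¹ * x) * x⁻¹ := by group
      rw [h2]; exact M.mul_mem (hCM hax) (M.inv_mem hxM)
    have h3 : a * (c * x ^ k) * a⁻¹ = (a * c * a⁻¹) * (a * x * a⁻¹) ^ k := by
      rw [conj_zpow]
      simp only [mul_assoc, inv_mul_cancel_left]
    rw [h3]
    exact M.mul_mem (hCM (hCn.conj_mem c hc a)) (M.zpow_mem h1 k)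
  obtain ⟨N, hN⟩ : ∃ N : Subgroup Q, N = Subgroup.normalizer (M : Set Q) := ⟨_, rfl⟩
  have hMN : M ≤ N := by rw [hN]; exact Subgroup.le_normalizer
  have haN : a ∈ N := by
    rw [hN]; exact Subgroup.mem_normalizer_fintype (fun m hm => haM m hm)
  haveI hM'n : (M.subgroupOf N).Normal := by rw [hN]; exact Subgroup.normal_in_normalizer
  -- a `3`-element acting like `x`
  obtain ⟨α, k, hk3, hord⟩ :=
    Nat.exists_eq_pow_mul_and_not_dvd (orderOf_pos x).ne' 3 (by norm_num)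
  obtain ⟨m, hm1, hm2⟩ : ∃ m : ℕ, m % 3 = 1 ∧ (x ^ m) ^ (3 ^ α) = 1 := by
    have hk : k % 3 = 1 ∨ k % 3 = 2 := by omega
    rcases hk with hk | hk
    · refine ⟨k, hk, ?_⟩
      rw [← pow_mul, mul_comm, ← hord]; exact pow_orderOf_eq_one x
    · refine ⟨2 * k, by omega, ?_⟩
      rw [← pow_mul]
      have e : 2 * k * 3 ^ α = orderOf x * 2 := by rw [hord]; ring
      rw [e, pow_mul, pow_orderOf_eq_one, one_pow]
  obtain ⟨x₃, hx₃d⟩ : ∃ x₃ : Q, x₃ = x ^ m := ⟨_, rfl⟩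
  have hx₃pow : x₃ ^ (3 ^ α) = 1 := by rw [hx₃d]; exact hm2
  have hx₃M : x₃ ∈ M := by rw [hx₃d]; exact M.pow_mem hxM m
  obtain ⟨c₃, hc₃, hx₃c⟩ : ∃ c₃ ∈ C, x₃ = c₃ * x := by
    refine ⟨(x * x * x) ^ (m / 3), C.pow_mem hx3 _, ?_⟩
    have e : m = 3 * (m / 3) + 1 := by omega
    have e3 : x * x * x = x ^ 3 := by simp [pow_succ]
    rw [hx₃d, e3, ← pow_mul, ← pow_succ, ← e]
  have hx₃act : ∀ u ∈ U, x₃ * u * x₃⁻¹ = x * u * x⁻¹ := by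
    intro u hu
    rw [hx₃c]
    calc c₃ * x * u * (c₃ * x)⁻¹ = c₃ * (x * u * x⁻¹) * c₃⁻¹ := by group
      _ = x * u * x⁻¹ := hCconj c₃ hc₃ _ (hxU u hu)
  have hπx₃ : π x₃ = π x := by
    rw [hx₃c, map_mul, (hπ1 c₃).mpr hc₃, one_mul]
  -- Frattini
  haveI : Fact (Nat.Prime 3) := ⟨Nat.prime_three⟩
  obtain ⟨y₃, hy₃⟩ : ∃ y₃ : ↥(M.subgroupOf N), ((y₃ : ↥N) : Q) = x₃ :=
    ⟨⟨⟨x₃, hMN hx₃M⟩, Subgroup.mem_subgroupOf.mpr hx₃M⟩, rfl⟩
  have hy₃pow : y₃ ^ (3 ^ α) = 1 := by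
    apply Subtype.ext; apply Subtype.ext
    show ((y₃ : ↥N) : Q) ^ (3 ^ α) = 1
    rw [hy₃]; exact hx₃pow
  have hz : IsPGroup 3 (Subgroup.zpowers y₃) := by
    rintro ⟨g, hg⟩
    obtain ⟨i, rfl⟩ := Subgroup.mem_zpowers_iff.mp hg
    refine ⟨α, Subtype.ext ?_⟩
    show (y₃ ^ i) ^ (3 ^ α) = 1
    rw [← zpow_natCast, ← zpow_mul, mul_comm, zpow_mul, zpow_natCast, hy₃pow, one_zpow]
  obtain ⟨P₃, hP₃⟩ := hz.exists_le_sylow
  have hfr := Sylow.normalizer_sup_eq_top P₃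
  have ha' : (⟨a, haN⟩ : ↥N) ∈ (⊤ : Subgroup ↥N) := Subgroup.mem_top _
  rw [← hfr] at ha'
  obtain ⟨n', hn', m', hm', hnm⟩ := Subgroup.mem_sup_of_normal_right.mp ha'
  obtain ⟨R₃, hR₃⟩ : ∃ R₃ : Subgroup Q, R₃ =
      (((P₃ : Subgroup ↥(M.subgroupOf N)).map (M.subgroupOf N).subtype).map N.subtype) :=
    ⟨_, rfl⟩
  have hR₃p : IsPGroup 3 R₃ := by rw [hR₃]; exact (P₃.isPGroup'.map _).map _
  have hx₃R : x₃ ∈ R₃ := by
    rw [hR₃]
    exact ⟨(y₃ : ↥N), ⟨y₃, hP₃ (Subgroup.mem_zpowers y₃), rfl⟩, hy₃⟩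
  obtain ⟨t, ht⟩ : ∃ t : Q, t = (n' : Q) := ⟨_, rfl⟩
  have htN : t ∈ Subgroup.normalizer (R₃ : Set Q) := by
    rw [ht, hR₃]
    exact Subgroup.le_normalizer_map N.subtype ⟨n', hn', rfl⟩
  have hm'M : (m' : Q) ∈ M := Subgroup.mem_subgroupOf.mp hm'
  have hat : a = t * (m' : Q) := by rw [ht]; exact (congrArg Subtype.val hnm).symm
  obtain ⟨c, hc, j, hmj⟩ := hMdec _ (M.inv_mem hm'M)
  have htd : t = a * (c * x ^ j) := by
    rw [← hmj, hat, mul_inv_cancel_right]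
  have hπt : π t = π a * π x ^ j := by
    rw [htd, map_mul, map_mul, map_zpow, (hπ1 c).mpr hc, one_mul]
  have ht_x : t * x * t⁻¹ * x ∈ C := by
    apply (hπ1 _).mp
    rw [map_mul, map_mul, map_mul, map_inv, hπt, s4_dih1 (π a) (π x) j hα, inv_mul_cancel]
  have ht_t : t * t ∈ C := by
    apply (hπ1 _).mp
    rw [map_mul, hπt]
    exact s4_dih2 (π a) (π x) j hα hαα
  -- a fixed point of `t`
  have htU : ∀ u ∈ U, t * u * t⁻¹ ∈ U := fun u hu => hUn.conj_mem u hu t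
  have hu₀1 : u₀ ≠ 1 := by
    intro h; apply hxu₀; rw [h]; simp
  obtain ⟨f, hfU, hf1, hft⟩ : ∃ f ∈ U, f ≠ 1 ∧ t * f * t⁻¹ = f := by
    by_cases hw : t * u₀ * t⁻¹ = u₀
    · exact ⟨u₀, hu₀, hu₀1, hw⟩
    · refine ⟨u₀ * (t * u₀ * t⁻¹), U.mul_mem hu₀ (htU u₀ hu₀), ?_, ?_⟩
      · intro h
        apply hw
        rw [eq_inv_of_mul_eq_one_right h, hinv u₀ hu₀]
      · have h1 : t * (t * u₀ * t⁻¹) * t⁻¹ = u₀ := by
          have h2 := hCconj (t * t) ht_t u₀ hu₀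
          calc t * (t * u₀ * t⁻¹) * t⁻¹ = (t * t) * u₀ * (t * t)⁻¹ := by group
            _ = u₀ := h2
        calc t * (u₀ * (t * u₀ * t⁻¹)) * t⁻¹
            = (t * u₀ * t⁻¹) * (t * (t * u₀ * t⁻¹) * t⁻¹) := by group
          _ = (t * u₀ * t⁻¹) * u₀ := by rw [h1]
          _ = u₀ * (t * u₀ * t⁻¹) := hUc _ (htU u₀ hu₀) _ hu₀
  have hxf : x * f * x⁻¹ ≠ f := hxfix f hfU hf1
  obtain ⟨henum, h2, h3⟩ := s4_four_group_cycle U hU4 hU2 x hxU n hn hxn' f hfU hxf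
  obtain ⟨u₂, hu₂d⟩ : ∃ u₂, u₂ = x * f * x⁻¹ := ⟨_, rfl⟩
  rw [← hu₂d] at henum h2 h3 hxf
  have hu₂U : u₂ ∈ U := by rw [hu₂d]; exact hxU f hfU
  have htu₂ : t * u₂ * t⁻¹ = f * u₂ := by
    obtain ⟨c', hc', hc'd⟩ : ∃ c' ∈ C, t * x * t⁻¹ = c' * x⁻¹ :=
      ⟨t * x * t⁻¹ * x, ht_x, by group⟩
    have h4 : x⁻¹ * f * x = f * u₂ := by
      calc x⁻¹ * f * x = x⁻¹ * (x * (f * u₂) * x⁻¹) * x := by rw [h3]
        _ = f * u₂ := by group
    calc t * u₂ * t⁻¹ = (t * x * t⁻¹) * (t * f * t⁻¹) * (t * x * t⁻¹)⁻¹ := by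
          rw [hu₂d]; group
      _ = (c' * x⁻¹) * f * (c' * x⁻¹)⁻¹ := by rw [hc'd, hft]
      _ = c' * (x⁻¹ * f * x) * c'⁻¹ := by group
      _ = c' * (f * u₂) * c'⁻¹ := by rw [h4]
      _ = f * u₂ := hCconj c' hc' _ (U.mul_mem hfU hu₂U)
  -- the subgroup `S = R₃⟨t⟩` avoids `f`
  obtain ⟨S, hS⟩ : ∃ S : Subgroup Q, S = R₃ ⊔ Subgroup.zpowers t := ⟨_, rfl⟩
  have htS : t ∈ S := by rw [hS]; exact Subgroup.mem_sup_right (Subgroup.mem_zpowers t)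
  have hx₃S : x₃ ∈ S := by rw [hS]; exact Subgroup.mem_sup_left hx₃R
  have hSdec : ∀ s ∈ S, ∃ r ∈ R₃, ∃ k : ℤ, s = r * t ^ k := by
    intro s hs; rw [hS] at hs; exact s4_mem_sup_zpowers R₃ t htN s hs
  have hfS : f ∉ S := by
    intro hfS
    have hu₂S : u₂ ∈ S := by
      rw [hu₂d, ← hx₃act f hfU]
      exact S.mul_mem (S.mul_mem hx₃S hfS) (S.inv_mem hx₃S)
    obtain ⟨r, hr, k, hrk⟩ := hSdec u₂ hu₂S
    have hcm : t * t ^ k = t ^ k * t := ((Commute.refl t).zpow_right k).eq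
    have h5 : t * u₂ * t⁻¹ * u₂⁻¹ = (t * r * t⁻¹) * r⁻¹ := by
      rw [hrk]
      generalize t ^ k = y at hcm ⊢
      calc t * (r * y) * t⁻¹ * (r * y)⁻¹ = t * r * (t⁻¹ * (t * y) * t⁻¹ * y⁻¹) * r⁻¹ := by group
        _ = t * r * (t⁻¹ * (y * t) * t⁻¹ * y⁻¹) * r⁻¹ := by rw [hcm]
        _ = (t * r * t⁻¹) * r⁻¹ := by group
    have h6 : t * u₂ * t⁻¹ * u₂⁻¹ = f := by
      rw [htu₂, mul_inv_cancel_right]
    have hfR : f ∈ R₃ := by
      rw [← h6, h5]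
      exact R₃.mul_mem ((Subgroup.mem_normalizer_iff.mp htN r).mp hr) (R₃.inv_mem hr)
    obtain ⟨i, hi⟩ := hR₃p ⟨f, hfR⟩
    have hi' : f ^ (3 ^ i) = 1 := congrArg Subtype.val hi
    have hf2 : f ^ 2 = 1 := by rw [pow_two]; exact hU2 f hfU
    have h7 : f ^ Nat.gcd (3 ^ i) 2 = 1 := pow_gcd_eq_one.mpr ⟨hi', hf2⟩
    have h8 : Nat.gcd (3 ^ i) 2 = 1 := Nat.Coprime.pow_left i (by norm_num)
    rw [h8, pow_one] at h7
    exact hf1 h7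
  -- the section
  obtain ⟨C₁, hC₁⟩ : ∃ C₁ : Subgroup Q, C₁ = C ⊓ S := ⟨_, rfl⟩
  have hC₁mem : ∀ g, g ∈ C₁ ↔ g ∈ C ∧ g ∈ S := fun g => by rw [hC₁]; exact Subgroup.mem_inf
  have hSN : ∀ s ∈ S, s ∈ Subgroup.normalizer (C₁ : Set Q) := by
    intro s hs
    apply Subgroup.mem_normalizer_fintype
    intro c hc
    obtain ⟨h1, h2⟩ := (hC₁mem c).mp hc
    exact (hC₁mem _).mpr ⟨hCn.conj_mem c h1 s, S.mul_mem (S.mul_mem hs h2) (S.inv_mem hs)⟩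
  have hfN : f ∈ Subgroup.normalizer (C₁ : Set Q) := by
    apply Subgroup.mem_normalizer_fintype
    intro c hc
    obtain ⟨h1, h2⟩ := (hC₁mem c).mp hc
    have h3 : f * c * f⁻¹ = c := by
      have h4 := hCconj c h1 f hfU
      calc f * c * f⁻¹ = (c * f * c⁻¹) * c * f⁻¹ := by rw [h4]
        _ = c := by group
    rw [h3]; exact hc
  obtain ⟨N₁, hN₁⟩ : ∃ N₁ : Subgroup Q, N₁ = Subgroup.normalizer (C₁ : Set Q) := ⟨_, rfl⟩
  haveI hC₁n : (C₁.subgroupOf N₁).Normal := by rw [hN₁]; exact Subgroup.normal_in_normalizer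
  have htN₁ : t ∈ N₁ := by rw [hN₁]; exact hSN t htS
  have hx₃N₁ : x₃ ∈ N₁ := by rw [hN₁]; exact hSN x₃ hx₃S
  have hfN₁ : f ∈ N₁ := by rw [hN₁]; exact hfN
  have key : ∀ w : ↥N₁, (w : Q) ∈ C₁ → (QuotientGroup.mk' (C₁.subgroupOf N₁) w) = 1 :=
    fun w hw => mk'_eq_one_iff'.mpr (Subgroup.mem_subgroupOf.mpr hw)
  obtain ⟨τ, hτd⟩ : ∃ τ : ↥N₁ ⧸ C₁.subgroupOf N₁,
      τ = QuotientGroup.mk' (C₁.subgroupOf N₁) ⟨t, htN₁⟩ := ⟨_, rfl⟩
  obtain ⟨ξ, hξd⟩ : ∃ ξ : ↥N₁ ⧸ C₁.subgroupOf N₁,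
      ξ = QuotientGroup.mk' (C₁.subgroupOf N₁) ⟨x₃, hx₃N₁⟩ := ⟨_, rfl⟩
  obtain ⟨υ, hυd⟩ : ∃ υ : ↥N₁ ⧸ C₁.subgroupOf N₁,
      υ = QuotientGroup.mk' (C₁.subgroupOf N₁) ⟨f, hfN₁⟩ := ⟨_, rfl⟩
  have r1 : τ * τ = 1 := by
    rw [hτd, ← map_mul]
    exact key _ ((hC₁mem _).mpr ⟨ht_t, S.mul_mem htS htS⟩)
  have hx₃cube : x₃ * x₃ * x₃ ∈ C₁ := by
    refine (hC₁mem _).mpr ⟨?_, S.mul_mem (S.mul_mem hx₃S hx₃S) hx₃S⟩
    apply hCof
    intro u hu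
    have e : (x₃ * x₃ * x₃) * u * (x₃ * x₃ * x₃)⁻¹
        = x₃ * (x₃ * (x₃ * u * x₃⁻¹) * x₃⁻¹) * x₃⁻¹ := by group
    rw [e, hx₃act u hu, hx₃act _ (hxU u hu), hx₃act _ (hxU _ (hxU u hu))]
    have e2 : x * (x * (x * u * x⁻¹) * x⁻¹) * x⁻¹ = (x * x * x) * u * (x * x * x)⁻¹ := by group
    rw [e2]; exact hCconj _ hx3 u hu
  have r2 : ξ * ξ * ξ = 1 := by
    rw [hξd, ← map_mul, ← map_mul]
    exact key _ hx₃cube
  have r3 : τ * ξ * τ⁻¹ = ξ⁻¹ := by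
    apply eq_inv_of_mul_eq_one_left
    rw [hτd, hξd, ← map_inv, ← map_mul, ← map_mul, ← map_mul]
    refine key _ ((hC₁mem _).mpr ⟨?_, ?_⟩)
    · apply (hπ1 _).mp
      show π (t * x₃ * t⁻¹ * x₃) = 1
      rw [map_mul, map_mul, map_mul, map_inv, hπx₃, ← map_inv, ← map_mul, ← map_mul,
        ← map_mul]
      exact (hπ1 _).mpr ht_x
    · exact S.mul_mem (S.mul_mem (S.mul_mem htS hx₃S) (S.inv_mem htS)) hx₃S
  have r4 : τ * υ = υ * τ := by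
    rw [hτd, hυd, ← map_mul, ← map_mul]
    congr 1
    apply Subtype.ext
    show t * f = f * t
    calc t * f = (t * f * t⁻¹) * t := by group
      _ = f * t := by rw [hft]
  have r5 : υ * υ = 1 := by
    rw [hυd, ← map_mul]
    have h1 : (⟨f, hfN₁⟩ : ↥N₁) * ⟨f, hfN₁⟩ = 1 := Subtype.ext (hU2 f hfU)
    rw [h1, map_one]
  have r6 : υ * ξ * (υ * ξ) * (υ * ξ) = 1 := by
    rw [hυd, hξd, ← map_mul, ← map_mul, ← map_mul]
    refine key _ ?_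
    show f * x₃ * (f * x₃) * (f * x₃) ∈ C₁
    have h1 : x₃ * f * x₃⁻¹ = u₂ := by rw [hx₃act f hfU, hu₂d]
    have h2' : x₃ * u₂ * x₃⁻¹ = f * u₂ := by rw [hx₃act u₂ hu₂U, h2]
    have h4 : f * u₂ * (f * u₂) = 1 := hU2 _ (U.mul_mem hfU hu₂U)
    have e : f * x₃ * (f * x₃) * (f * x₃)
        = f * (x₃ * f * x₃⁻¹) * (x₃ * (x₃ * f * x₃⁻¹) * x₃⁻¹) * (x₃ * x₃ * x₃) := by group
    rw [e, h1, h2', h4, one_mul]
    exact hx₃cube
  have r7 : υ ≠ 1 := by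
    intro h
    rw [hυd] at h
    have h1 := mk'_eq_one_iff'.mp h
    rw [Subgroup.mem_subgroupOf] at h1
    exact hfS ((hC₁mem f).mp h1).2
  obtain ⟨φ, hφ⟩ := s4_embed_of_relations τ ξ υ r1 r2 r3 r4 r5 r6 r7
  have h1 : Cfsg.Involves (Equiv.Perm (Fin 4)) (↥N₁ ⧸ C₁.subgroupOf N₁) :=
    Helper27.involves_of_surj φ.range (MonoidHom.ofInjective hφ).symm.toMonoidHom
      (MonoidHom.ofInjective hφ).symm.surjective
  exact Helper16.involves_of_section N₁ (QuotientGroup.mk' (C₁.subgroupOf N₁))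
    (QuotientGroup.mk'_surjective _) h1

/-- `S₄` from a module: `x` (odd order on `U`) and `a` (inverting `x`) act on the
exponent-`2` group `U`, centralizing a subgroup `U₂` of index at most `4`. -/
theorem s4_of_module {G : Type*} [Group G] [Finite G] (U U₂ : Subgroup G) (hU₂U : U₂ ≤ U)
    (hU2 : ∀ u ∈ U, u * u = 1) (hcard : Nat.card U ≤ 4 * Nat.card U₂)
    (x a : G) (hxN : x ∈ Subgroup.normalizer (U : Set G))
    (haN : a ∈ Subgroup.normalizer (U : Set G))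
    (hxU₂ : ∀ u ∈ U₂, x * u * x⁻¹ = u)
    (n : ℕ) (hn : Odd n) (hxn : x ^ n ∈ Subgroup.centralizer (U : Set G))
    (hax : a * x * a⁻¹ * x ∈ Subgroup.centralizer (U : Set G))
    (haa : a * a ∈ Subgroup.centralizer (U : Set G))
    (u₀ : G) (hu₀ : u₀ ∈ U) (hxu₀ : x * u₀ * x⁻¹ ≠ u₀) :
    Cfsg.Involves (Equiv.Perm (Fin 4)) G := by
  have hxU : ∀ u ∈ U, x * u * x⁻¹ ∈ U := fun u hu =>
    (Subgroup.mem_normalizer_iff.mp hxN u).mp hu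
  have hxU' : ∀ u ∈ U, x⁻¹ * u * x ∈ U := fun u hu => by
    have h := (Subgroup.mem_normalizer_iff.mp (Subgroup.inv_mem _ hxN) u).mp hu
    rwa [inv_inv] at h
  have haU : ∀ u ∈ U, a * u * a⁻¹ ∈ U := fun u hu =>
    (Subgroup.mem_normalizer_iff.mp haN u).mp hu
  have hinv : ∀ u ∈ U, u⁻¹ = u := fun u hu => inv_eq_of_mul_eq_one_left (hU2 u hu)
  have hUc : ∀ u ∈ U, ∀ v ∈ U, u * v = v * u := by
    intro u hu v hv
    have h1 := hinv (u * v) (U.mul_mem hu hv)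
    rw [mul_inv_rev, hinv u hu, hinv v hv] at h1
    exact h1.symm
  have hCc : ∀ c ∈ Subgroup.centralizer (U : Set G), ∀ u ∈ U, c * u * c⁻¹ = u :=
    fun c hc u hu => s4_centralizer_conj_eq hc hu
  let τ : ↥U →* G := MonoidHom.mk' (fun u => x * (u : G) * x⁻¹ * (u : G)⁻¹) (by
    intro u v
    show x * ((u : G) * (v : G)) * x⁻¹ * ((u : G) * (v : G))⁻¹
      = (x * (u : G) * x⁻¹ * (u : G)⁻¹) * (x * (v : G) * x⁻¹ * (v : G)⁻¹)
    have h1 := hUc _ (hxU v v.2) _ (U.inv_mem u.2)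
    have h0 : ((u : G) * (v : G))⁻¹ = (u : G)⁻¹ * (v : G)⁻¹ := by
      rw [mul_inv_rev]; exact hUc _ (U.inv_mem v.2) _ (U.inv_mem u.2)
    calc x * ((u : G) * (v : G)) * x⁻¹ * ((u : G) * (v : G))⁻¹
        = x * ((u : G) * (v : G)) * x⁻¹ * ((u : G)⁻¹ * (v : G)⁻¹) := by rw [h0]
      _ = (x * (u : G) * x⁻¹) * ((x * (v : G) * x⁻¹) * (u : G)⁻¹) * (v : G)⁻¹ := by group
      _ = (x * (u : G) * x⁻¹) * ((u : G)⁻¹ * (x * (v : G) * x⁻¹)) * (v : G)⁻¹ := by rw [h1]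
      _ = (x * (u : G) * x⁻¹ * (u : G)⁻¹) * (x * (v : G) * x⁻¹ * (v : G)⁻¹) := by group)
  have hτ : ∀ u : ↥U, τ u = x * (u : G) * x⁻¹ * (u : G)⁻¹ := fun u => rfl
  obtain ⟨W, hW⟩ : ∃ W : Subgroup G, W = τ.range := ⟨_, rfl⟩
  have hWmem : ∀ w, w ∈ W ↔ ∃ u ∈ U, w = x * u * x⁻¹ * u⁻¹ := by
    intro w; rw [hW, MonoidHom.mem_range]
    constructor
    · rintro ⟨u, rfl⟩; exact ⟨u, u.2, rfl⟩
    · rintro ⟨u, hu, rfl⟩; exact ⟨⟨u, hu⟩, rfl⟩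
  have hWU : W ≤ U := by
    intro w hw
    obtain ⟨u, hu, rfl⟩ := (hWmem w).mp hw
    exact U.mul_mem (hxU u hu) (U.inv_mem hu)
  have hWcard : Nat.card W ≤ 4 := by
    have h1 : τ.ker.index = Nat.card W := by rw [hW]; exact Subgroup.index_ker τ
    have h2 : τ.ker.index * Nat.card τ.ker = Nat.card U := Subgroup.index_mul_card τ.ker
    have h3 : Nat.card U₂ ≤ Nat.card τ.ker := by
      rw [← card_subgroupOf_of_le hU₂U]
      apply Subgroup.card_le_of_le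
      intro u hu
      rw [MonoidHom.mem_ker, hτ, hxU₂ _ (Subgroup.mem_subgroupOf.mp hu), mul_inv_cancel]
    have h4 : 0 < Nat.card τ.ker := Nat.card_pos
    rw [h1] at h2
    have h5 : Nat.card W * Nat.card τ.ker ≤ 4 * Nat.card τ.ker := by
      rw [h2]; exact hcard.trans (Nat.mul_le_mul_left 4 h3)
    exact Nat.le_of_mul_le_mul_right h5 h4
  have hxW : x ∈ Subgroup.normalizer (W : Set G) := by
    apply Subgroup.mem_normalizer_fintype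
    intro w hw
    obtain ⟨u, hu, rfl⟩ := (hWmem w).mp hw
    exact (hWmem _).mpr ⟨x * u * x⁻¹, hxU u hu, by group⟩
  have haW : a ∈ Subgroup.normalizer (W : Set G) := by
    apply Subgroup.mem_normalizer_fintype
    intro w hw
    obtain ⟨u, hu, rfl⟩ := (hWmem w).mp hw
    obtain ⟨u', hu'⟩ : ∃ u', u' = a * u * a⁻¹ := ⟨_, rfl⟩
    have hu'U : u' ∈ U := by rw [hu']; exact haU u hu
    have hvU : x⁻¹ * u'⁻¹ * x ∈ U := hxU' _ (U.inv_mem hu'U)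
    refine (hWmem _).mpr ⟨x⁻¹ * u'⁻¹ * x, hvU, ?_⟩
    obtain ⟨c, hc⟩ : ∃ c, c = a * x * a⁻¹ * x := ⟨_, rfl⟩
    have hcC : c ∈ Subgroup.centralizer (U : Set G) := by rw [hc]; exact hax
    have h1 := hCc c hcC _ (hxU' u' hu'U)
    have h2 := hUc _ (hxU' u' hu'U) _ (U.inv_mem hu'U)
    calc a * (x * u * x⁻¹ * u⁻¹) * a⁻¹
        = (c * (x⁻¹ * u' * x) * c⁻¹) * u'⁻¹ := by rw [hc, hu']; group
      _ = (x⁻¹ * u' * x) * u'⁻¹ := by rw [h1]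
      _ = u'⁻¹ * (x⁻¹ * u' * x) := h2
      _ = x * (x⁻¹ * u'⁻¹ * x) * x⁻¹ * (x⁻¹ * u'⁻¹ * x)⁻¹ := by group
  obtain ⟨w₀, hw₀W, hw₀⟩ : ∃ w₀ ∈ W, x * w₀ * x⁻¹ ≠ w₀ := by
    by_contra hcon
    have hfix : ∀ w ∈ W, x * w * x⁻¹ = w := fun w hw => by
      by_contra h; exact hcon ⟨w, hw, h⟩
    obtain ⟨c, hc⟩ : ∃ c, c = x * u₀ * x⁻¹ * u₀⁻¹ := ⟨_, rfl⟩
    have hcW : c ∈ W := (hWmem c).mpr ⟨u₀, hu₀, hc⟩
    have h1 : x * u₀ * x⁻¹ = c * u₀ := by rw [hc]; group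
    have h2 := hfix c hcW
    have h3 := s4_conj_pow_of_comm x c u₀ h1 h2 n
    have h4 := hCc _ hxn u₀ hu₀
    rw [h4] at h3
    have h5 : c ^ n = 1 := by
      have h9 : c ^ n * u₀ = 1 * u₀ := by rw [one_mul]; exact h3.symm
      exact mul_right_cancel h9
    have h6 : c ^ 2 = 1 := by rw [pow_two]; exact hU2 c (hWU hcW)
    have h7 : c ^ Nat.gcd n 2 = 1 := pow_gcd_eq_one.mpr ⟨h5, h6⟩
    have h8 : Nat.gcd n 2 = 1 := hn.coprime_two_right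
    rw [h8, pow_one] at h7
    apply hxu₀
    rw [h1, h7, one_mul]
  obtain ⟨Nw, hNw⟩ : ∃ Nw : Subgroup G, Nw = Subgroup.normalizer (W : Set G) := ⟨_, rfl⟩
  have hWN : W ≤ Nw := by rw [hNw]; exact Subgroup.le_normalizer
  haveI hWn : (W.subgroupOf Nw).Normal := by rw [hNw]; exact Subgroup.normal_in_normalizer
  have hxNw : x ∈ Nw := by rw [hNw]; exact hxW
  have haNw : a ∈ Nw := by rw [hNw]; exact haW
  have hcentr : ∀ g : ↥Nw, (g : G) ∈ Subgroup.centralizer (U : Set G) →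
      g ∈ Subgroup.centralizer ((W.subgroupOf Nw : Subgroup ↥Nw) : Set ↥Nw) := by
    intro g hg
    rw [Subgroup.mem_centralizer_iff]
    intro h hh
    apply Subtype.ext
    exact (Subgroup.mem_centralizer_iff.mp hg) (h : G) (hWU (Subgroup.mem_subgroupOf.mp hh))
  have h1 : Cfsg.Involves (Equiv.Perm (Fin 4)) ↥Nw :=
    s4_of_four_group (W.subgroupOf Nw)
      (by rw [card_subgroupOf_of_le hWN]; exact hWcard)
      (fun u hu => Subtype.ext (hU2 (u : G) (hWU (Subgroup.mem_subgroupOf.mp hu))))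
      ⟨x, hxNw⟩ ⟨a, haNw⟩ n hn (hcentr (⟨x, hxNw⟩ ^ n) hxn)
      (hcentr (⟨a, haNw⟩ * ⟨x, hxNw⟩ * ⟨a, haNw⟩⁻¹ * ⟨x, hxNw⟩) hax)
      (hcentr (⟨a, haNw⟩ * ⟨a, haNw⟩) haa)
      ⟨w₀, hWN hw₀W⟩ (Subgroup.mem_subgroupOf.mpr hw₀W)
      (fun h => hw₀ (congrArg Subtype.val h))
  exact Helper27.involves_of_injective Nw.subtype (Subgroup.subtype_injective Nw) h1

end Cfsg.Agent.Helper1
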