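import Mathlib
import Cfsg.Agent.Helper1.FFX7
import Cfsg.Agent.Helper1.S4Sec
import Cfsg.Agent.S0601
import Cfsg.Agent.S0602
import Cfsg.Agent.S0606

set_option autoImplicit false

namespace Cfsg.Agent.Helper1

open scoped SemidirectProduct commutatorElement

section ffy_small

variable {M : Type*} [Group M]

theorem ffy_c1 (hc : ∀ u v : M, u * v = v * u) (hs : ∀ u : M, u * u = 1) (v x y : M) :
    v * x * (y * x) = v * y := by
  rw [hc y x, ← mul_assoc, mul_assoc v x x, hs x, mul_one]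

theorem ffy_c3 (hc : ∀ u v : M, u * v = v * u) (hs : ∀ u : M, u * u = 1) (v x y : M) :
    v * x * (x * (y * x)) = v * (x * y) := by
  rw [hc y x, ← mul_assoc x x y, hs x, one_mul, mul_assoc]

theorem ffy_c4 (hc : ∀ u v : M, u * v = v * u) (hs : ∀ u : M, u * u = 1) (v x y : M) :
    v * y * (x * y * y) = v * (x * y) := by
  rw [mul_assoc x y y, hs y, mul_one, mul_assoc, hc y x]

theorem ffy_c5 (hc : ∀ u v : M, u * v = v * u) (hs : ∀ u : M, u * u = 1) (x y : M) :
    x * (y * x) = y := by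
  rw [hc y x, ← mul_assoc, hs x, one_mul]

theorem ffy_c6 (hc : ∀ u v : M, u * v = v * u) (hs : ∀ u : M, u * u = 1) (x y : M) :
    (y * x) * y = x := by
  rw [hc y x, mul_assoc, hs y, mul_one]

theorem ffy_d1 (v : M) : v * (1 * 1) = v := by rw [mul_one, mul_one]

theorem ffy_d2 (hs : ∀ u : M, u * u = 1) (v x : M) : v * x * (x * 1) = v := by
  rw [mul_one, mul_assoc, hs x, mul_one]

theorem ffy_d3 (hs : ∀ u : M, u * u = 1) (v y : M) : v * y * (1 * y) = v := by
  rw [one_mul, mul_assoc, hs y, mul_one]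

theorem ffy_d4 (hs : ∀ u : M, u * u = 1) (v x y : M) : v * (x * y) * (x * y) = v := by
  rw [mul_assoc, hs (x * y), mul_one]

end ffy_small

theorem ffy_norm_top {G : Type*} [Group G] (V : Subgroup G) [hVn : V.Normal] (g : G) :
    g ∈ Subgroup.normalizer (V : Set G) := by
  rw [Subgroup.mem_normalizer_iff]
  intro h
  constructor
  · intro hh
    exact hVn.conj_mem h hh g
  · intro hh
    have h2 := hVn.conj_mem _ hh g⁻¹
    have e : g⁻¹ * (g * h * g⁻¹) * g⁻¹⁻¹ = h := by group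
    rw [e] at h2
    exact h2

/-- a failure of Thompson factorization for `p = 2` produces a section `S₄` -/
theorem ffy_s4 {G : Type*} [Group G] [Finite G]
    (V : Subgroup G) [hVn : V.Normal] (hV : Cfsg.IsElementaryAbelian 2 V)
    (J : Subgroup G) [hJn : J.Normal]
    (𝒜 : Set (Subgroup G)) (hJ : J = sSup 𝒜)
    (hbest : ∀ A ∈ 𝒜, Cfsg.IsBestOffenderOn 2 V A)
    (hsep : Cfsg.IsPSolvable 2 G)
    (hOp : ∀ D : Subgroup G, D.Normal → Subgroup.centralizer (V : Set G) ≤ D →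
      (∃ k : ℕ, (Subgroup.centralizer (V : Set G)).relIndex D = 2 ^ k) →
      D = Subgroup.centralizer (V : Set G))
    (hJC : ¬ J ≤ Subgroup.centralizer (V : Set G)) :
    Cfsg.Involves (Equiv.Perm (Fin 4)) G := by
  classical
  have hker : (holRho V).ker = Subgroup.centralizer (V : Set G) := hol_ker V
  obtain ⟨hHV', hf', hS1, hS3⟩ := ff_hol_hyps V J 𝒜 hJ hbest hsep hOp
  have hV' := hol_elem V 2 hV
  have hH1 : J.map (holRho V) ≠ ⊥ := by
    intro h
    apply hJC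
    rw [← hker]
    intro j hj
    rw [MonoidHom.mem_ker]
    have h2 : holRho V j ∈ J.map (holRho V) := Subgroup.mem_map_of_mem _ hj
    rw [h] at h2
    exact Subgroup.mem_bot.mp h2
  obtain ⟨-, -, -, hsup, -, -⟩ :=
    ff_structure (holV V) (J.map (holRho V)) hV' hHV' hf' hS1 hS3 hH1
  have hne : Nonempty (FFIdx 2 (holV V) (J.map (holRho V))) := by
    by_contra hemp
    rw [not_nonempty_iff] at hemp
    apply hH1
    rw [← hsup, iSup_of_empty]
  obtain ⟨⟨E₀, A₀, hAH, hA, hAV, hmin, hE₀⟩⟩ := hne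
  obtain ⟨a, b, x, y, r, T, ha1, hr, D, -⟩ :=
    (ff_comp_of_offender (holV V) (J.map (holRho V)) hV' hHV' hf' hS1 A₀ hAH hA hAV hmin).ex
  have P := D.P
  obtain ⟨ja, hjaJ, rfl⟩ := T.aH
  obtain ⟨jb, hjbJ, rfl⟩ := D.bH
  obtain ⟨vx, rfl⟩ := P.hx
  obtain ⟨vy, rfl⟩ := P.hy
  obtain ⟨κ, hκ⟩ : ∃ κ : G →* MulAut ↥V, κ = MulAut.conjNormal := ⟨_, rfl⟩
  have hκv : ∀ (g : G) (v : ↥V), ((κ g v : ↥V) : G) = g * (v : G) * g⁻¹ := by
    intro g v
    rw [hκ]
    exact MulAut.conjNormal_apply g v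
  have hrel : ∀ (k : G) (v w : ↥V),
      holRho V k * SemidirectProduct.inl v * (holRho V k)⁻¹ =
        (SemidirectProduct.inl w : Hol V) → κ k v = w := by
    intro k v w h
    rw [hol_conj] at h
    rw [hκ]
    exact SemidirectProduct.inl_injective h
  have hconj : ∀ (k : G) (v : ↥V), holRho V k * SemidirectProduct.inl v * (holRho V k)⁻¹ =
      (SemidirectProduct.inl (κ k v) : Hol V) := by
    intro k v
    rw [hκ]
    exact hol_conj V k v
  have hc : ∀ u v : ↥V, u * v = v * u := fun u v => hV.1.is_comm.comm u v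
  have hs : ∀ u : ↥V, u * u = 1 := by
    intro u
    apply Subtype.ext
    rw [Subgroup.coe_mul, Subgroup.coe_one, ← pow_two]
    exact hV.2 _ u.2
  have hx2 : (SemidirectProduct.inl vx : Hol V) ^ 2 = 1 := P.exp _ P.hx
  have hy2 : (SemidirectProduct.inl vy : Hol V) ^ 2 = 1 := P.exp _ P.hy
  have hax : κ ja vx = vx := hrel ja vx vx P.hax
  have hay : κ ja vy = vy * vx := hrel ja vy (vy * vx) (by rw [map_mul]; exact P.hay)
  have hbx : κ jb vx = vx * vy := hrel jb vx (vx * vy) (by rw [map_mul]; exact P.hbx)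
  have hby : κ jb vy = vy := hrel jb vy vy P.hby
  have hav : ∀ v : ↥V, κ ja v = v ∨ κ ja v = v * vx := by
    intro v
    obtain ⟨n, hn⟩ := P.hav (SemidirectProduct.inl v) ⟨v, rfl⟩
    obtain ⟨m, hm | hm⟩ := Nat.even_or_odd' n
    · left
      apply hrel
      rw [hn, hm, pow_mul, hx2, one_pow, mul_one]
    · right
      apply hrel
      rw [hn, hm, pow_succ, pow_mul, hx2, one_pow, one_mul, map_mul]
  have hbv : ∀ v : ↥V, κ jb v = v ∨ κ jb v = v * vy := by
    intro v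
    obtain ⟨n, hn⟩ := P.hbv (SemidirectProduct.inl v) ⟨v, rfl⟩
    obtain ⟨m, hm | hm⟩ := Nat.even_or_odd' n
    · left
      apply hrel
      rw [hn, hm, pow_mul, hy2, one_pow, mul_one]
    · right
      apply hrel
      rw [hn, hm, pow_succ, pow_mul, hy2, one_pow, one_mul, map_mul]
  have hcx : κ (ja * jb) vx = vy := by
    rw [map_mul κ ja jb, MulAut.mul_apply, hbx, map_mul (κ ja) vx vy, hax, hay]
    exact ffy_c5 hc hs vx vy
  have hcy : κ (ja * jb) vy = vy * vx := by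
    rw [map_mul κ ja jb, MulAut.mul_apply, hby, hay]
  have hcz : κ (ja * jb) (vy * vx) = vx := by
    rw [map_mul (κ (ja * jb)) vy vx, hcy, hcx]
    exact ffy_c6 hc hs vx vy
  have hc3 : ∀ v : ↥V, κ ((ja * jb) ^ 3) v = κ (ja * jb) (κ (ja * jb) (κ (ja * jb) v)) := by
    intro v
    have e : (ja * jb) ^ 3 = (ja * jb) * ((ja * jb) * (ja * jb)) := by
      calc (ja * jb) ^ 3 = (ja * jb) ^ 2 * (ja * jb) := pow_succ (ja * jb) 2
        _ = (ja * jb) * ((ja * jb) * (ja * jb)) := by rw [pow_two, mul_assoc]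
    rw [e, map_mul κ (ja * jb) ((ja * jb) * (ja * jb)), map_mul κ (ja * jb) (ja * jb),
      MulAut.mul_apply, MulAut.mul_apply]
  have hfx3 : κ ((ja * jb) ^ 3) vx = vx := by rw [hc3, hcx, hcy, hcz]
  have hfy3 : κ ((ja * jb) ^ 3) vy = vy := by rw [hc3, hcy, hcz, hcx]
  have h3 : holRho V ((ja * jb) ^ 3) = 1 := by
    apply D.faith
    · rw [map_pow, map_mul]
      exact Subgroup.pow_mem _ (Subgroup.mul_mem _
        (Subgroup.subset_closure (Set.mem_insert _ _))
        (Subgroup.subset_closure (Set.mem_insert_of_mem _ (Set.mem_singleton _)))) 3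
    · rw [hconj, hfx3]
    · rw [hconj, hfy3]
  have hfix_mem : ∀ u : ↥V, κ ja u = u → κ jb u = u →
      (u : G) ∈ V ⊓ Subgroup.centralizer ({ja, jb} : Set G) := by
    intro u h1 h2
    refine Subgroup.mem_inf.mpr ⟨u.2, ?_⟩
    rw [Subgroup.mem_centralizer_iff]
    intro h hh
    have e1 : ja * (u : G) * ja⁻¹ = u := by rw [← hκv, h1]
    have e2 : jb * (u : G) * jb⁻¹ = u := by rw [← hκv, h2]
    rcases hh with hh | hh
    · rw [hh]; exact mul_inv_eq_iff_eq_mul.mp e1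
    · rw [Set.mem_singleton_iff.mp hh]; exact mul_inv_eq_iff_eq_mul.mp e2
  have hxU₂ : ∀ u ∈ V ⊓ Subgroup.centralizer ({ja, jb} : Set G),
      (ja * jb) * u * (ja * jb)⁻¹ = u := by
    intro u hu
    have hcz' := Subgroup.mem_centralizer_iff.mp (Subgroup.mem_inf.mp hu).2
    have h1 : ja * u = u * ja := hcz' ja (Set.mem_insert _ _)
    have h2 : jb * u = u * jb := hcz' jb (Set.mem_insert_of_mem _ (Set.mem_singleton _))
    rw [mul_inv_rev, mul_assoc ja jb u, h2, ← mul_assoc ja u jb, h1]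
    group
  obtain ⟨F, hF⟩ : ∃ F : ↥(V ⊓ Subgroup.centralizer ({ja, jb} : Set G)) × Bool × Bool → ↥V,
      ∀ (w : ↥V) (h : (w : G) ∈ V ⊓ Subgroup.centralizer ({ja, jb} : Set G)) (i j : Bool),
        F (⟨(w : G), h⟩, i, j) = w * (cond i vx 1 * cond j vy 1) :=
    ⟨fun q => (⟨(q.1 : G), (Subgroup.mem_inf.mp q.1.2).1⟩ : ↥V) *
      (cond q.2.1 vx 1 * cond q.2.2 vy 1), fun w h i j => rfl⟩
  have hFs : Function.Surjective F := by
    intro v
    rcases hav v with h1 | h1 <;> rcases hbv v with h2 | h2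
    · exact ⟨(⟨(v : G), hfix_mem v h1 h2⟩, false, false),
        (hF v _ false false).trans (ffy_d1 v)⟩
    · have e1 : κ ja (v * vx) = v * vx := by rw [map_mul (κ ja) v vx, h1, hax]
      have e2 : κ jb (v * vx) = v * vx := by
        rw [map_mul (κ jb) v vx, h2, hbx]
        exact ffy_c1 hc hs v vy vx
      exact ⟨(⟨((v * vx : ↥V) : G), hfix_mem (v * vx) e1 e2⟩, true, false),
        (hF (v * vx) _ true false).trans (ffy_d2 hs v vx)⟩
    · have e1 : κ ja (v * vy) = v * vy := by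
        rw [map_mul (κ ja) v vy, h1, hay]
        exact ffy_c1 hc hs v vx vy
      have e2 : κ jb (v * vy) = v * vy := by rw [map_mul (κ jb) v vy, h2, hby]
      exact ⟨(⟨((v * vy : ↥V) : G), hfix_mem (v * vy) e1 e2⟩, false, true),
        (hF (v * vy) _ false true).trans (ffy_d3 hs v vy)⟩
    · have e1 : κ ja (v * (vx * vy)) = v * (vx * vy) := by
        rw [map_mul (κ ja) v (vx * vy), map_mul (κ ja) vx vy, h1, hax, hay]
        exact ffy_c3 hc hs v vx vy
      have e2 : κ jb (v * (vx * vy)) = v * (vx * vy) := by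
        rw [map_mul (κ jb) v (vx * vy), map_mul (κ jb) vx vy, h2, hbx, hby]
        exact ffy_c4 hc hs v vx vy
      exact ⟨(⟨((v * (vx * vy) : ↥V) : G), hfix_mem (v * (vx * vy)) e1 e2⟩, true, true),
        (hF (v * (vx * vy)) _ true true).trans (ffy_d4 hs v vx vy)⟩
  have hcard : Nat.card ↥V ≤ 4 * Nat.card ↥(V ⊓ Subgroup.centralizer ({ja, jb} : Set G)) := by
    have h := Nat.card_le_card_of_surjective F hFs
    rw [Nat.card_prod, Nat.card_prod, Nat.card_eq_fintype_card (α := Bool),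
      Fintype.card_bool] at h
    omega
  have hxy : vy ≠ vx := by
    intro h
    apply P.y_ne 1
    rw [pow_one, h]
  have hρa2 : holRho V ja * holRho V ja = 1 := by rw [← pow_two]; exact T.ap
  have hρb2 : holRho V jb * holRho V jb = 1 := by rw [← pow_two]; exact D.bp
  refine s4_of_module V (V ⊓ Subgroup.centralizer ({ja, jb} : Set G)) inf_le_left
    (fun u hu => by rw [← pow_two]; exact hV.2 u hu) hcard (ja * jb) ja
    (ffy_norm_top V _) (ffy_norm_top V _) hxU₂ 3 ⟨1, rfl⟩ ?_ ?_ ?_ (vx : G) vx.2 ?_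
  · rw [← hker, MonoidHom.mem_ker]
    exact h3
  · rw [← hker, MonoidHom.mem_ker]
    have e : ja * (ja * jb) * ja⁻¹ * (ja * jb) = (ja * ja) * (jb * jb) := by group
    rw [e, map_mul (holRho V) (ja * ja) (jb * jb), map_mul (holRho V) ja ja,
      map_mul (holRho V) jb jb, hρa2, hρb2, one_mul]
  · rw [← hker, MonoidHom.mem_ker, map_mul]
    exact hρa2
  · intro h
    apply hxy
    apply Subtype.ext
    rw [← hcx, hκv]
    exact h

/-- the `O_{2'} = 1` case: `J(T)` is normal -/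
theorem ffy_core {G : Type*} [Group G] [Finite G] (hsep : Cfsg.IsPSolvable 2 G)
    (hO : Cfsg.pPrimeCore 2 G = ⊥) (hS4 : ¬ Cfsg.Involves (Equiv.Perm (Fin 4)) G)
    (T : Sylow 2 G)
    (hcl : ∀ a ∈ (T : Subgroup G), ∀ r ∈ (T : Subgroup G), ∀ t ∈ (T : Subgroup G),
      (a * r * a⁻¹ * r⁻¹) * t = t * (a * r * a⁻¹ * r⁻¹)) :
    Subgroup.normalizer (Cfsg.thompsonSubgroupOf 2 (T : Subgroup G) : Set G) = ⊤ := by
  have hc := Cfsg.Agent.Helper20.PLen.centralizer_pCore_le_of_psolvable 2 hsep hO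
  obtain ⟨V, hVdef⟩ : ∃ V : Subgroup G, V = (⨆ S : Sylow 2 G, Cfsg.omegaOne 2
      ((S : Subgroup G) ⊓ Subgroup.centralizer ((S : Subgroup G) : Set G))) := ⟨_, rfl⟩
  have h601 := Cfsg.Agent.S0601.result (G := G) (p := 2) hc
  rw [← hVdef] at h601
  obtain ⟨hVn, hVe, hOp⟩ := h601
  have hJchar : (Cfsg.thompsonSubgroup 2 G).Characteristic :=
    (Cfsg.Agent.S0602.result (G := G) (p := 2)).1
  have hJn : (Cfsg.thompsonSubgroup 2 G).Normal := by
    haveI := hJchar
    exact Subgroup.normal_of_characteristic _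
  haveI := hVn
  have hJCle : Cfsg.thompsonSubgroup 2 G ≤ Subgroup.centralizer (V : Set G) := by
    by_contra h
    exact hS4 (ffy_s4 (hJn := hJn) V hVe (Cfsg.thompsonSubgroup 2 G)
      (Cfsg.maxElementaryAbelianSubgroups 2 G) rfl
      (fun A hA => Cfsg.Agent.S0606.result V hVe A hA) hsep hOp h)
  obtain ⟨R, hRdef⟩ : ∃ R : Subgroup G, R = Cfsg.pCore 2 G := ⟨_, rfl⟩
  rw [← hRdef] at hc
  have hRn : R.Normal := by rw [hRdef]; exact Cfsg.Agent.Helper16.pCore_normal 2 G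
  have hRp : IsPGroup 2 ↥R := by rw [hRdef]; exact Cfsg.Agent.Helper9.pCore_isPGroup 2
  have hRT : R ≤ (T : Subgroup G) := by
    rw [hRdef]; exact Cfsg.Agent.Helper16.pCore_le_sylow T
  obtain ⟨π, hπdef⟩ : ∃ π : G →* G ⧸ V, π = QuotientGroup.mk' V := ⟨_, rfl⟩
  have hπs : Function.Surjective π := by rw [hπdef]; exact QuotientGroup.mk'_surjective V
  have hπker : ∀ g : G, π g = 1 → g ∈ V := by
    intro g hg
    rw [hπdef] at hg
    exact (QuotientGroup.eq_one_iff g).1 hg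
  have hπV : ∀ g ∈ V, π g = 1 := by
    intro g hg
    rw [hπdef]
    exact (QuotientGroup.eq_one_iff g).2 hg
  have hRbn : (R.map π).Normal := hRn.map π hπs
  have hCn : (Subgroup.centralizer ((R.map π : Subgroup (G ⧸ V)) : Set (G ⧸ V))).Normal :=
    s4_centralizer_normal (R.map π)
  have hCVn : (Subgroup.centralizer (V : Set G)).Normal := s4_centralizer_normal V
  obtain ⟨N, hNdef⟩ : ∃ N : Subgroup G, N = Subgroup.centralizer (V : Set G) ⊓
      (Subgroup.centralizer ((R.map π : Subgroup (G ⧸ V)) : Set (G ⧸ V))).comap π := ⟨_, rfl⟩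
  have hNn : N.Normal := by
    rw [hNdef]
    exact inferInstance
  have hNmem : ∀ g : G, g ∈ N ↔ g ∈ Subgroup.centralizer (V : Set G) ∧
      ∀ r ∈ R, π r * π g = π g * π r := by
    intro g
    rw [hNdef, Subgroup.mem_inf, Subgroup.mem_comap]
    constructor
    · rintro ⟨h1, h2⟩
      refine ⟨h1, fun r hr => ?_⟩
      exact Subgroup.mem_centralizer_iff.mp h2 (π r) (Subgroup.mem_map_of_mem π hr)
    · rintro ⟨h1, h2⟩
      refine ⟨h1, Subgroup.mem_centralizer_iff.mpr ?_⟩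
      rintro _ ⟨r, hr, rfl⟩
      exact h2 r hr
  have hV2 : ∀ v ∈ V, v ^ 2 = 1 := hVe.2
  have hNp : IsPGroup 2 ↥N := by
    rintro ⟨g, hg⟩
    obtain ⟨e, m, hm, hn⟩ := Nat.exists_eq_pow_mul_and_not_dvd (orderOf_pos g).ne' 2
      (by norm_num)
    refine ⟨e, ?_⟩
    apply Subtype.ext
    rw [Subgroup.coe_pow, Subgroup.coe_one]
    show g ^ 2 ^ e = 1
    obtain ⟨g', hg'def⟩ : ∃ g' : G, g' = g ^ 2 ^ e := ⟨_, rfl⟩
    rw [← hg'def]
    have hg'N : g' ∈ N := by rw [hg'def]; exact N.pow_mem hg _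
    have hg'm : g' ^ m = 1 := by
      rw [hg'def, ← pow_mul, ← hn, pow_orderOf_eq_one]
    obtain ⟨hg'V, hg'R⟩ := (hNmem g').mp hg'N
    obtain ⟨j, hj⟩ : ∃ j, m = 2 * j + 1 := by
      obtain ⟨j, hj | hj⟩ := Nat.even_or_odd' m
      · exact absurd (Dvd.intro j hj.symm) hm
      · exact ⟨j, hj⟩
    have hcentR : g' ∈ Subgroup.centralizer (R : Set G) := by
      apply s4_mem_centralizer_of_conj
      intro r hr
      have hvV : g' * r * g'⁻¹ * r⁻¹ ∈ V := by
        apply hπker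
        rw [map_mul, map_mul, map_mul, map_inv, map_inv, ← hg'R r hr]
        group
      have h1 : g' * r * g'⁻¹ = (g' * r * g'⁻¹ * r⁻¹) * r := by group
      have h2 : g' * (g' * r * g'⁻¹ * r⁻¹) * g'⁻¹ = g' * r * g'⁻¹ * r⁻¹ :=
        s4_centralizer_conj_eq hg'V hvV
      have h3 := s4_conj_pow_of_comm g' (g' * r * g'⁻¹ * r⁻¹) r h1 h2 m
      rw [hg'm, inv_one, mul_one, one_mul] at h3
      have h4 : (1 : G) * r = (g' * r * g'⁻¹ * r⁻¹) ^ m * r := by
        rw [one_mul]; exact h3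
      have h5 := mul_right_cancel h4
      rw [hj, pow_succ, pow_mul, hV2 _ hvV, one_pow, one_mul] at h5
      calc g' * r * g'⁻¹ = (g' * r * g'⁻¹ * r⁻¹) * r := h1
        _ = r := by rw [← h5, one_mul]
    have hg'R2 : g' ∈ R := hc hcentR
    obtain ⟨k, hk⟩ := hRp ⟨g', hg'R2⟩
    have hk' : g' ^ 2 ^ k = 1 := by
      have h := congrArg Subtype.val hk
      rw [Subgroup.coe_pow, Subgroup.coe_one] at h
      exact h
    have hcop : Nat.Coprime (2 ^ k) m :=
      Nat.Coprime.pow_left k ((Nat.Prime.coprime_iff_not_dvd Nat.prime_two).mpr hm)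
    have hd : orderOf g' ∣ Nat.gcd (2 ^ k) m :=
      Nat.dvd_gcd (orderOf_dvd_of_pow_eq_one hk') (orderOf_dvd_of_pow_eq_one hg'm)
    rw [hcop.gcd_eq_one] at hd
    exact orderOf_eq_one_iff.mp (Nat.dvd_one.mp hd)
  have hNR : N ≤ R := by rw [hRdef]; exact Cfsg.Agent.Helper9.le_pCore hNn hNp
  obtain ⟨A₀, hA₀, hA₀T⟩ := Cfsg.Agent.Helper4.exists_maxEA_le_sylow (p := 2) T
  have hJT : Cfsg.thompsonSubgroupOf 2 (T : Subgroup G) ≤ Cfsg.thompsonSubgroup 2 G :=
    Cfsg.Agent.Helper4.thompsonSubgroupOf_le (T : Subgroup G) hA₀ hA₀T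
  have hJR : sSup (Cfsg.Agent.Helper27.maxElAbIn 2 (T : Subgroup G)) ≤ R := by
    apply sSup_le
    intro A hA
    have hAT : A ≤ (T : Subgroup G) := hA.1
    have hAe : Cfsg.IsElementaryAbelian 2 A := hA.2.1
    have hAJ : A ≤ Cfsg.thompsonSubgroupOf 2 (T : Subgroup G) := by
      rw [Cfsg.Agent.Helper27.thompsonSubgroupOf_eq]
      exact le_sSup hA
    intro a ha
    apply hNR
    rw [hNmem]
    refine ⟨hJCle (hJT (hAJ ha)), ?_⟩
    intro r hr
    have haT : a ∈ (T : Subgroup G) := hAT ha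
    have hrT : r ∈ (T : Subgroup G) := hRT hr
    have ha2 : a ^ 2 = 1 := hAe.2 a ha
    have haa : a * a = 1 := by rw [← pow_two]; exact ha2
    have hcT : a * r * a⁻¹ * r⁻¹ ∈ (T : Subgroup G) :=
      Subgroup.mul_mem _ (Subgroup.mul_mem _ (Subgroup.mul_mem _ haT hrT)
        (Subgroup.inv_mem _ haT)) (Subgroup.inv_mem _ hrT)
    have hcZ : a * r * a⁻¹ * r⁻¹ ∈ Subgroup.centralizer ((T : Subgroup G) : Set G) := by
      rw [Subgroup.mem_centralizer_iff]
      intro t ht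
      exact (hcl a haT r hrT t ht).symm
    have hc2 : (a * r * a⁻¹ * r⁻¹) ^ 2 = 1 := by
      have h1 : (a * r * a⁻¹ * r⁻¹) * a = a * (a * r * a⁻¹ * r⁻¹) := hcl a haT r hrT a haT
      have h2 : a * (a * r * a⁻¹ * r⁻¹) = r * a⁻¹ * r⁻¹ := by
        calc a * (a * r * a⁻¹ * r⁻¹) = (a * a) * r * a⁻¹ * r⁻¹ := by group
          _ = r * a⁻¹ * r⁻¹ := by rw [haa, one_mul]
      calc (a * r * a⁻¹ * r⁻¹) ^ 2
          = ((a * r * a⁻¹ * r⁻¹) * a) * (r * a⁻¹ * r⁻¹) := by rw [pow_two]; group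
        _ = (r * a⁻¹ * r⁻¹) * (r * a⁻¹ * r⁻¹) := by rw [h1, h2]
        _ = r * (a * a)⁻¹ * r⁻¹ := by group
        _ = 1 := by rw [haa]; group
    have hcV : a * r * a⁻¹ * r⁻¹ ∈ V := by
      rw [hVdef]
      exact (le_iSup (fun S : Sylow 2 G => Cfsg.omegaOne 2
        ((S : Subgroup G) ⊓ Subgroup.centralizer ((S : Subgroup G) : Set G))) T)
        (ffx_omega_mem 2 _ _ (Subgroup.mem_inf.mpr ⟨hcT, hcZ⟩) hc2)
    have hπc : π (a * r * a⁻¹ * r⁻¹) = 1 := hπV _ hcV
    have e : a * r = (a * r * a⁻¹ * r⁻¹) * (r * a) := by group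
    rw [← map_mul, ← map_mul, e, map_mul π (a * r * a⁻¹ * r⁻¹) (r * a), hπc, one_mul]
  have e1 := Cfsg.Agent.Helper27.sSup_maxElAbIn_eq_of_le T R hRp hJR
  rw [eq_top_iff]
  intro g _
  rw [Subgroup.mem_normalizer_iff_map_conj_eq]
  change Subgroup.map (MulAut.conj g).toMonoidHom _ = _
  have hRmap : R.map (MulAut.conj g).toMonoidHom = R := by
    apply le_antisymm
    · rintro _ ⟨r, hr, rfl⟩
      exact hRn.conj_mem r hr g
    · intro r hr
      refine ⟨g⁻¹ * r * g, ?_, ?_⟩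
      · have h := hRn.conj_mem r hr g⁻¹
        rw [inv_inv] at h
        exact h
      · show g * (g⁻¹ * r * g) * g⁻¹ = r
        group
  rw [Cfsg.Agent.Helper27.thompsonSubgroupOf_eq, ← e1,
    ← Cfsg.Agent.Helper27.sSup_maxElAbIn_map 2 (MulAut.conj g) R, hRmap]

end Cfsg.Agent.Helper1
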