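import Mathlib
import Cfsg.Agent.Helper1.FFY1
import Cfsg.Agent.Helper1.QdPlane
import Cfsg.Agent.S0609
import Cfsg.Agent.Helper20.SolvPSolv

set_option autoImplicit false

namespace Cfsg.Agent.Helper1

open scoped commutatorElement

/-- a solvable `S₄`-free group whose Sylow `2`-subgroups have class at most two is
`O_{2'}(G) N_G(J(S))` -/
theorem ffy_main {G : Type*} [Group G] [Finite G] [Group.IsSolvable G]
    (hS4 : ¬ Cfsg.Involves (Equiv.Perm (Fin 4)) G) (S : Sylow 2 G)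
    (hcl : Subgroup.lowerCentralSeries (S : Subgroup G) 2 = ⊥) :
    Subgroup.normalizer ((Cfsg.thompsonSubgroupOf 2 (S : Subgroup G)) : Set G) ⊔
      Cfsg.pPrimeCore 2 G = ⊤ := by
  classical
  have hKc : (Nat.card (Cfsg.pPrimeCore 2 G)).Coprime 2 :=
    Cfsg.Agent.Helper17.pPrimeCore_card_coprime 2
  have hKp : ¬ 2 ∣ Nat.card (Cfsg.pPrimeCore 2 G) :=
    (Nat.Prime.coprime_iff_not_dvd Nat.prime_two).1 hKc.symm
  have hπ : Function.Surjective (QuotientGroup.mk' (Cfsg.pPrimeCore 2 G)) :=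
    QuotientGroup.mk'_surjective _
  have hbot := Cfsg.Agent.S0609.pPrimeCore_quot_eq_bot (G := G) 2
  have hsepG : Cfsg.IsPSolvable 2 G := Cfsg.Agent.Helper20.PLen.isPSolvable_of_isSolvable 2
  have hsep : Cfsg.IsPSolvable 2 (G ⧸ Cfsg.pPrimeCore 2 G) :=
    ffh_psolv_surj 2 hsepG (QuotientGroup.mk' (Cfsg.pPrimeCore 2 G)) hπ
  have hS4' : ¬ Cfsg.Involves (Equiv.Perm (Fin 4)) (G ⧸ Cfsg.pPrimeCore 2 G) :=
    fun h => hS4 (involves_of_surjective_hom (QuotientGroup.mk' (Cfsg.pPrimeCore 2 G)) hπ h)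
  have hclS : ∀ a ∈ (S : Subgroup G), ∀ r ∈ (S : Subgroup G), ∀ t ∈ (S : Subgroup G),
      (a * r * a⁻¹ * r⁻¹) * t = t * (a * r * a⁻¹ * r⁻¹) := by
    intro a ha r hr t ht
    have h1 : ⁅a, r⁆ ∈ Subgroup.lowerCentralSeries (S : Subgroup G) (0 + 1) := by
      rw [Subgroup.lowerCentralSeries_succ, Subgroup.lowerCentralSeries_zero]
      exact Subgroup.commutator_mem_commutator ha hr
    have h2 : ⁅⁅a, r⁆, t⁆ ∈ Subgroup.lowerCentralSeries (S : Subgroup G) (0 + 1 + 1) := by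
      rw [Subgroup.lowerCentralSeries_succ]
      exact Subgroup.commutator_mem_commutator h1 ht
    have h2' : ⁅⁅a, r⁆, t⁆ ∈ Subgroup.lowerCentralSeries (S : Subgroup G) 2 := h2
    rw [hcl, Subgroup.mem_bot] at h2'
    have h3 : (a * r * a⁻¹ * r⁻¹) * t * (a * r * a⁻¹ * r⁻¹)⁻¹ * t⁻¹ = 1 := h2'
    calc (a * r * a⁻¹ * r⁻¹) * t
        = ((a * r * a⁻¹ * r⁻¹) * t * (a * r * a⁻¹ * r⁻¹)⁻¹ * t⁻¹) *
            (t * (a * r * a⁻¹ * r⁻¹)) := by group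
      _ = t * (a * r * a⁻¹ * r⁻¹) := by rw [h3, one_mul]
  obtain ⟨T, hT⟩ : ∃ T : Sylow 2 (G ⧸ Cfsg.pPrimeCore 2 G),
      (T : Subgroup (G ⧸ Cfsg.pPrimeCore 2 G)) =
        (S : Subgroup G).map (QuotientGroup.mk' (Cfsg.pPrimeCore 2 G)) :=
    ⟨S.mapSurjective hπ, Sylow.coe_mapSurjective hπ S⟩
  have hclT : ∀ a ∈ (T : Subgroup (G ⧸ Cfsg.pPrimeCore 2 G)),
      ∀ r ∈ (T : Subgroup (G ⧸ Cfsg.pPrimeCore 2 G)),
      ∀ t ∈ (T : Subgroup (G ⧸ Cfsg.pPrimeCore 2 G)),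
      (a * r * a⁻¹ * r⁻¹) * t = t * (a * r * a⁻¹ * r⁻¹) := by
    intro a ha r hr t ht
    rw [hT] at ha hr ht
    obtain ⟨a₀, ha₀, rfl⟩ := ha
    obtain ⟨r₀, hr₀, rfl⟩ := hr
    obtain ⟨t₀, ht₀, rfl⟩ := ht
    have h := congrArg (QuotientGroup.mk' (Cfsg.pPrimeCore 2 G)) (hclS a₀ ha₀ r₀ hr₀ t₀ ht₀)
    simp only [map_mul, map_inv] at h
    exact h
  have hN := ffy_core hsep hbot hS4' T hclT
  rw [hT, Cfsg.Agent.S0609.thompsonOf_map_quot (Cfsg.pPrimeCore 2 G) hKc (S : Subgroup G)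
    S.isPGroup'] at hN
  obtain ⟨J, hJdef⟩ : ∃ J : Subgroup G, J = Cfsg.thompsonSubgroupOf 2 (S : Subgroup G) :=
    ⟨_, rfl⟩
  rw [← hJdef] at hN ⊢
  have hJS : J ≤ (S : Subgroup G) := by
    rw [hJdef]
    unfold Cfsg.thompsonSubgroupOf
    exact Subgroup.map_subtype_le _
  have hJp : IsPGroup 2 ↥J := S.isPGroup'.to_le hJS
  rw [eq_top_iff]
  intro g _
  have hn' : QuotientGroup.mk' (Cfsg.pPrimeCore 2 G) g ∈ Subgroup.normalizer
      ((J.map (QuotientGroup.mk' (Cfsg.pPrimeCore 2 G)) :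
        Subgroup (G ⧸ Cfsg.pPrimeCore 2 G)) : Set (G ⧸ Cfsg.pPrimeCore 2 G)) := by
    rw [hN]
    exact Subgroup.mem_top _
  have hJinj : ∀ a b : ↥J, QuotientGroup.mk' (Cfsg.pPrimeCore 2 G) (a : G) =
      QuotientGroup.mk' (Cfsg.pPrimeCore 2 G) (b : G) → a = b := by
    intro a b hab
    have h1 : (a : G)⁻¹ * (b : G) ∈ Cfsg.pPrimeCore 2 G := by
      apply (QuotientGroup.eq_one_iff _).1
      show QuotientGroup.mk' (Cfsg.pPrimeCore 2 G) ((a : G)⁻¹ * (b : G)) = 1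
      rw [map_mul, map_inv, hab, inv_mul_cancel]
    have h2 : (a : G)⁻¹ * (b : G) ∈ (S : Subgroup G) :=
      Subgroup.mul_mem _ (Subgroup.inv_mem _ (hJS a.2)) (hJS b.2)
    have h3 := Cfsg.Agent.S0609.eq_one_of_mem_pgroup_of_mem_coprime (S : Subgroup G)
      (Cfsg.pPrimeCore 2 G) S.isPGroup' hKc h2 h1
    apply Subtype.ext
    calc (a : G) = (a : G) * ((a : G)⁻¹ * (b : G)) := by rw [h3, mul_one]
      _ = (b : G) := by group
  have hex : ∀ u : ↥J, ∃ u' : ↥J, QuotientGroup.mk' (Cfsg.pPrimeCore 2 G) (u' : G)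
      = QuotientGroup.mk' (Cfsg.pPrimeCore 2 G) g *
        QuotientGroup.mk' (Cfsg.pPrimeCore 2 G) (u : G) *
        (QuotientGroup.mk' (Cfsg.pPrimeCore 2 G) g)⁻¹ := by
    intro u
    have h1 := (Subgroup.mem_normalizer_iff.1 hn'
      (QuotientGroup.mk' (Cfsg.pPrimeCore 2 G) (u : G))).1 (Subgroup.mem_map_of_mem _ u.2)
    obtain ⟨u', hu', hu'e⟩ := Subgroup.mem_map.1 h1
    exact ⟨⟨u', hu'⟩, hu'e⟩
  choose β hβ using hex
  have hβmul : ∀ a b : ↥J, β (a * b) = β a * β b := by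
    intro a b
    apply hJinj
    rw [hβ (a * b)]
    show _ = QuotientGroup.mk' (Cfsg.pPrimeCore 2 G) ((β a : G) * (β b : G))
    rw [map_mul, hβ a, hβ b]
    show QuotientGroup.mk' (Cfsg.pPrimeCore 2 G) g *
      QuotientGroup.mk' (Cfsg.pPrimeCore 2 G) ((a : G) * (b : G))
      * (QuotientGroup.mk' (Cfsg.pPrimeCore 2 G) g)⁻¹ = _
    rw [map_mul]
    group
  obtain ⟨k₂, hk₂, hn₂⟩ := Cfsg.Agent.S0609.lift_conj_aux (Cfsg.pPrimeCore 2 G) hKp J hJp g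
    (J.subtype.comp (MonoidHom.mk' β hβmul)) (by
    intro u
    apply (QuotientGroup.eq_one_iff _).1
    show QuotientGroup.mk' (Cfsg.pPrimeCore 2 G) (g⁻¹ * ((β u : ↥J) : G) * g * (u : G)⁻¹) = 1
    simp only [map_mul, map_inv]
    rw [hβ u]
    group)
  have hnN : g * k₂ ∈ Subgroup.normalizer (J : Set G) := by
    apply Cfsg.Agent.S0609.mem_normalizer_of_conj_mem
    intro b hb
    have h1 : (g * k₂) * b * (g * k₂)⁻¹ = ((β ⟨b, hb⟩ : ↥J) : G) := hn₂ ⟨b, hb⟩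
    rw [h1]
    exact (β ⟨b, hb⟩).2
  have e : g = (g * k₂) * k₂⁻¹ := by group
  rw [e]
  exact Subgroup.mul_mem_sup hnN (Subgroup.inv_mem _ hk₂)

end Cfsg.Agent.Helper1
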