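import Mathlib
import Cfsg.Agent.Helper1.Basic
import Cfsg.Agent.Helper4.CardMul
import Cfsg.Agent.Helper17.Basic

set_option autoImplicit false

namespace Cfsg.Agent.Helper1

open Pointwise

/-- Subgroups of coprime index: the index of the intersection is the product. -/
theorem index_inf_of_coprime {G : Type*} [Group G] [Finite G] (H K : Subgroup G)
    (h : H.index.Coprime K.index) : (H ⊓ K).index = H.index * K.index := by
  refine Nat.le_antisymm Subgroup.index_inf_le (Nat.le_of_dvd ?_ ?_)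
  · exact Nat.pos_of_ne_zero Subgroup.index_ne_zero_of_finite
  · exact Nat.Coprime.mul_dvd_of_dvd_of_dvd h (Subgroup.index_dvd_of_le inf_le_left)
      (Subgroup.index_dvd_of_le inf_le_right)

/-- Subgroups of coprime index: the relative index equals the index. -/
theorem relIndex_of_coprime {G : Type*} [Group G] [Finite G] (H K : Subgroup G)
    (h : H.index.Coprime K.index) : K.relIndex H = K.index := by
  have h1 := Subgroup.relIndex_mul_index (inf_le_left : H ⊓ K ≤ H)
  rw [Subgroup.inf_relIndex_left, index_inf_of_coprime H K h] at h1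
  have h0 : 0 < H.index := Nat.pos_of_ne_zero Subgroup.index_ne_zero_of_finite
  have h2 : H.index * K.relIndex H = H.index * K.index := by rw [← h1, mul_comm]
  exact Nat.eq_of_mul_eq_mul_left h0 h2

/-- Subgroups of coprime index factorise the group. -/
theorem mul_eq_univ_of_coprime {G : Type*} [Group G] [Finite G] (H K : Subgroup G)
    (h : H.index.Coprime K.index) (g : G) : ∃ x ∈ H, ∃ y ∈ K, g = x * y := by
  have h1 := Cfsg.Agent.Helper4.card_mul_card_eq H K
  have h2 := index_inf_of_coprime H K h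
  have h3 := Subgroup.card_mul_index (H ⊓ K)
  rw [h2] at h3
  have h4 := Subgroup.card_mul_index H
  have h5 := Subgroup.card_mul_index K
  have hG : 0 < Nat.card G := Nat.card_pos
  have key : ∀ a b i j c s n : ℕ, a * b = s * c → c * (i * j) = n → a * i = n → b * j = n →
      0 < n → s = n := by
    intro a b i j c s n e1 e2 e3 e4 hn
    have e5 : s * n = n * n := by
      calc s * n = s * (c * (i * j)) := by rw [e2]
        _ = (s * c) * (i * j) := by ring
        _ = (a * b) * (i * j) := by rw [e1]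
        _ = (a * i) * (b * j) := by ring
        _ = n * n := by rw [e3, e4]
    exact Nat.eq_of_mul_eq_mul_right hn e5
  have h6 := key _ _ _ _ _ _ _ h1 h3 h4 h5 hG
  have h7 : ((H : Set G) * (K : Set G) : Set G) = Set.univ := by
    apply Set.eq_of_subset_of_ncard_le (Set.subset_univ _)
    rw [Set.ncard_univ, ← Nat.card_coe_set_eq, h6]
  have h8 : g ∈ ((H : Set G) * (K : Set G) : Set G) := h7 ▸ Set.mem_univ g
  obtain ⟨x, hx, y, hy, hxy⟩ := Set.mem_mul.mp h8
  exact ⟨x, hx, y, hy, hxy.symm⟩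

/-- If `G = H K`, `N ≤ H` is a `p`-subgroup normalised by `H` and `p ∤ [G : K]`, then the normal
closure of `N` lies in `K`. -/
theorem normalClosure_le_of_factor {G : Type*} [Group G] [Finite G] (H K N : Subgroup G)
    (hHK : ∀ g : G, ∃ x ∈ H, ∃ y ∈ K, g = x * y)
    (hnorm : ∀ x ∈ H, ∀ n ∈ N, x * n * x⁻¹ ∈ N)
    (p : ℕ) (hp : p.Prime) (hNp : IsPGroup p N) (hpK : ¬ p ∣ K.index) :
    Subgroup.normalClosure (N : Set G) ≤ K := by
  haveI : Fact p.Prime := ⟨hp⟩
  obtain ⟨Q0⟩ : Nonempty (Sylow p K) := inferInstance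
  have hQcard : Nat.card ((Q0 : Subgroup K).map K.subtype) = p ^ (Nat.card G).factorization p := by
    rw [Subgroup.card_map_of_injective K.subtype_injective, Sylow.card_eq_multiplicity]
    congr 1
    have h1 : Nat.card G = Nat.card K * K.index := (Subgroup.card_mul_index K).symm
    rw [h1, Nat.factorization_mul Nat.card_pos.ne' Subgroup.index_ne_zero_of_finite,
      Finsupp.add_apply, Nat.factorization_eq_zero_of_not_dvd hpK, add_zero]
  obtain ⟨Q, hQ⟩ : ∃ Q : Sylow p G, (Q : Subgroup G) = (Q0 : Subgroup K).map K.subtype :=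
    ⟨Sylow.ofCard _ hQcard, rfl⟩
  have hQK : (Q : Subgroup G) ≤ K := by
    rw [hQ]
    exact Subgroup.map_subtype_le _
  obtain ⟨g, hg⟩ := Cfsg.Agent.Helper17.exists_conj_le_sylow Q N hNp
  have hNK : N ≤ K := by
    intro n hn
    obtain ⟨x, hx, y, hy, hxy⟩ := hHK g⁻¹
    have hn' : x * n * x⁻¹ ∈ N := hnorm x hx n hn
    have h1 : g * (x * n * x⁻¹) * g⁻¹ ∈ K :=
      hQK (hg (Cfsg.Agent.Helper17.conj_mem_map_conj _ g hn'))
    have hg' : g = y⁻¹ * x⁻¹ := by
      rw [← mul_inv_rev, ← hxy, inv_inv]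
    have h2 : n = y * (g * (x * n * x⁻¹) * g⁻¹) * y⁻¹ := by
      rw [hg']; group
    rw [h2]
    exact K.mul_mem (K.mul_mem hy h1) (K.inv_mem hy)
  show Subgroup.closure (Group.conjugatesOfSet (N : Set G)) ≤ K
  rw [Subgroup.closure_le]
  intro c hc
  rw [Group.mem_conjugatesOfSet_iff] at hc
  obtain ⟨n, hn, hconj⟩ := hc
  obtain ⟨g', rfl⟩ := isConj_iff.mp hconj
  obtain ⟨x, hx, y, hy, hxy⟩ := hHK g'⁻¹
  have hg' : g' = y⁻¹ * x⁻¹ := by rw [← mul_inv_rev, ← hxy, inv_inv]
  have hx' : x⁻¹ * n * x ∈ N := by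
    have h3 := hnorm x⁻¹ (H.inv_mem hx) n hn
    rwa [inv_inv] at h3
  have h2 : g' * n * g'⁻¹ = y⁻¹ * (x⁻¹ * n * x) * y := by rw [hg']; group
  show g' * n * g'⁻¹ ∈ K
  rw [h2]
  exact K.mul_mem (K.mul_mem (K.inv_mem hy) (hNK hx')) hy

end Cfsg.Agent.Helper1
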