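import Mathlib
import Cfsg.Agent.Helper1.Kegel2

set_option autoImplicit false

universe u

open Cfsg Pointwise

namespace Cfsg.Agent.Helper1

theorem closure_normal_of_conj_invariant {G : Type*} [Group G] (S : Set G)
    (hS : ∀ s ∈ S, ∀ g : G, g * s * g⁻¹ ∈ S) : (Subgroup.closure S).Normal := by
  constructor
  intro n hn g
  have h1 : Subgroup.closure S ≤ (Subgroup.closure S).comap (MulAut.conj g : G →* G) := by
    rw [Subgroup.closure_le]
    intro s hs
    show (MulAut.conj g) s ∈ Subgroup.closure S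
    exact Subgroup.subset_closure (hS s hs g)
  exact h1 hn

/-- **Hughes–Thompson–Kegel**: if `H` is a proper normal subgroup of the finite group `G`, all
elements outside `H` have order dividing `p`, and `G` is not a `p`-group, then `H` is nilpotent of
index `p`. -/
theorem hughes_thompson {G : Type u} [Group G] [Finite G] (p : ℕ) (hp : p.Prime)
    (hG : ¬ IsPGroup p G) (H : Subgroup G) [hHn : H.Normal] (hH : H ≠ ⊤)
    (hout : ∀ g : G, g ∉ H → g ^ p = 1) :
    Group.IsNilpotent H ∧ H.index = p := by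
  haveI : Fact p.Prime := ⟨hp⟩
  obtain ⟨x₀, hx₀⟩ : ∃ x₀ : G, x₀ ∉ H := by
    by_contra hcon
    push_neg at hcon
    exact hH ((Subgroup.eq_top_iff' H).mpr hcon)
  have hconjN : ∀ g : G, g ∉ H → ∀ h ∈ H, fpfN (MulAut.conj g) p h = 1 := by
    intro g hg h hh
    have hhg : h * g ∉ H := fun hc => hg (by
      have h1 : g = h⁻¹ * (h * g) := by group
      rw [h1]; exact H.mul_mem (H.inv_mem hh) hc)
    rw [fpfN_conj, hout g hg, hout (h * g) hhg, inv_one, mul_one]
  have hHnil : Group.IsNilpotent H := by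
    obtain ⟨α, hα⟩ : ∃ α : H ≃* H, ∀ h : H, ((α h : H) : G) = x₀ * h * x₀⁻¹ :=
      ⟨MulAut.conjNormal x₀, fun h => rfl⟩
    have hα' : ∀ h : H, ((α h : H) : G) = (MulAut.conj x₀) (h : G) := hα
    have hαr : α ^ p = 1 := by
      apply MulEquiv.ext
      intro h
      apply Subtype.ext
      rw [restrict_pow (MulAut.conj x₀) H α hα' p h, ← map_pow, hout x₀ hx₀, map_one]
      rfl
    have hαN : ∀ h : H, fpfN α p h = 1 := by
      intro h
      apply Subtype.ext
      exact (fpfN_restrict (MulAut.conj x₀) H α hα' p h).trans (hconjN x₀ hx₀ h h.2)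
    exact split_nilpotent p hp α hαr hαN
  refine ⟨hHnil, ?_⟩
  haveI := hHnil
  obtain ⟨M, hMn, hMcop, j, hMj⟩ := npc_data (npc_of_nilpotent (G := H) p)
  have hQp : IsPGroup p (G ⧸ H) := by
    intro q
    obtain ⟨g, rfl⟩ := QuotientGroup.mk_surjective q
    refine ⟨1, ?_⟩
    rw [pow_one]
    by_cases hg : g ∈ H
    · have h1 : (QuotientGroup.mk g : G ⧸ H) = 1 := (QuotientGroup.eq_one_iff g).mpr hg
      rw [h1, one_pow]
    · exact (QuotientGroup.eq_one_iff (g ^ p)).mpr (by rw [hout g hg]; exact H.one_mem)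
  have hMb : M ≠ ⊥ := by
    intro hMb
    apply hG
    intro g
    by_cases hg : g ∈ H
    · refine ⟨j, ?_⟩
      have h1 := hMj ⟨g, hg⟩
      rw [hMb, Subgroup.mem_bot] at h1
      exact congrArg Subtype.val h1
    · exact ⟨1, by rw [pow_one]; exact hout g hg⟩
  haveI : Nontrivial ↥M := (Subgroup.nontrivial_iff_ne_bot M).mpr hMb
  have hc := Group.IsNilpotent.center_ne_bot (G := ↥M)
  obtain ⟨z', hz'c, hz'1⟩ : ∃ z' : ↥M, z' ∈ Subgroup.center ↥M ∧ z' ≠ 1 := by
    by_contra hcon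
    push_neg at hcon
    exact hc ((Subgroup.eq_bot_iff_forall _).mpr hcon)
  rw [Subgroup.mem_center_iff] at hz'c
  obtain ⟨z, hzdef⟩ : ∃ z : G, z = ((z' : ↥H) : G) := ⟨_, rfl⟩
  have hzH : z ∈ H := by rw [hzdef]; exact (z' : ↥H).2
  have hz1 : z ≠ 1 := by
    rw [hzdef]
    exact fun h => hz'1 (Subtype.ext (Subtype.ext h))
  have hzM : z ^ Nat.card ↥M = 1 := by
    rw [hzdef]
    exact congrArg (fun t : ↥M => ((t : ↥H) : G)) (pow_card_eq_one' (x := z'))
  have hcop' : (p ^ j).Coprime (Nat.card ↥M) := (Nat.Coprime.pow_right j hMcop).symm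
  have hzc : ∀ h' : ↥H, h' * (z' : ↥H) = (z' : ↥H) * h' := by
    intro h'
    have hmem : h' ∈ Subgroup.centralizer ({(z' : ↥H)} : Set ↥H) := by
      apply mem_of_pow_mem_coprime _ h' (p ^ j) (Nat.card ↥M) hcop'
      · rw [Subgroup.mem_centralizer_singleton_iff]
        exact congrArg Subtype.val (hz'c ⟨h' ^ (p ^ j), hMj h'⟩)
      · rw [Subgroup.mem_centralizer_singleton_iff]
        have h1 : (h' ^ Nat.card ↥M) ^ (p ^ j) = 1 := by
          rw [← pow_mul, mul_comm, pow_mul]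
          exact congrArg Subtype.val
            (pow_card_eq_one' (x := (⟨h' ^ (p ^ j), hMj h'⟩ : ↥M)))
        have h2 : (z' : ↥H) ^ Nat.card ↥M = 1 :=
          congrArg Subtype.val (pow_card_eq_one' (x := z'))
        have h3 : (orderOf (h' ^ Nat.card ↥M)).Coprime (orderOf (z' : ↥H)) :=
          Nat.Coprime.coprime_dvd_left (orderOf_dvd_of_pow_eq_one h1)
            (Nat.Coprime.coprime_dvd_right (orderOf_dvd_of_pow_eq_one h2) hcop')
        exact (Helper21.commute_of_coprime_orderOf _ _ h3).eq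
    exact Subgroup.mem_centralizer_singleton_iff.mp hmem
  obtain ⟨V, hVmem⟩ : ∃ V : Subgroup G, ∀ a : G, a ∈ V ↔
      (a ∈ H ∧ (∀ h ∈ H, h * a = a * h) ∧ a ^ Nat.card ↥M = 1) := by
    refine ⟨{ carrier := {a | a ∈ H ∧ (∀ h ∈ H, h * a = a * h) ∧ a ^ Nat.card ↥M = 1}
              mul_mem' := ?_
              one_mem' := ?_
              inv_mem' := ?_ }, fun a => Iff.rfl⟩
    · rintro a b ⟨haH, hac, ham⟩ ⟨hbH, hbc, hbm⟩
      refine ⟨H.mul_mem haH hbH, fun h hh => ?_, ?_⟩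
      · calc h * (a * b) = (h * a) * b := (mul_assoc h a b).symm
          _ = (a * h) * b := by rw [hac h hh]
          _ = a * (h * b) := mul_assoc a h b
          _ = a * (b * h) := by rw [hbc h hh]
          _ = a * b * h := (mul_assoc a b h).symm
      · have hcomm : Commute a b := hbc a haH
        rw [hcomm.mul_pow, ham, hbm, one_mul]
    · exact ⟨H.one_mem, fun h _ => by rw [mul_one, one_mul], one_pow _⟩
    · rintro a ⟨haH, hac, ham⟩
      refine ⟨H.inv_mem haH, fun h hh => ?_, by rw [inv_pow, ham, inv_one]⟩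
      have h1 := hac h hh
      calc h * a⁻¹ = a⁻¹ * (a * h) * a⁻¹ := by group
        _ = a⁻¹ * (h * a) * a⁻¹ := by rw [h1]
        _ = a⁻¹ * h := by group
  haveI hVn : V.Normal := by
    constructor
    intro a ha g
    rw [hVmem] at ha ⊢
    obtain ⟨haH, hac, ham⟩ := ha
    refine ⟨hHn.conj_mem a haH g, fun h hh => ?_, ?_⟩
    · have h1 := hac (g⁻¹ * h * g) (by
        have h2 := hHn.conj_mem h hh g⁻¹
        rwa [inv_inv] at h2)
      calc h * (g * a * g⁻¹) = g * (g⁻¹ * h * g * a) * g⁻¹ := by group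
        _ = g * (a * (g⁻¹ * h * g)) * g⁻¹ := by rw [h1]
        _ = g * a * g⁻¹ * h := by group
    · rw [conj_pow, ham, mul_one, mul_inv_cancel]
  have hVc : ∀ a ∈ V, ∀ b ∈ V, a * b = b * a := by
    intro a ha b hb
    exact ((hVmem b).mp hb).2.1 a ((hVmem a).mp ha).1
  have hVcop : (Nat.card V).Coprime p := by
    rw [Nat.coprime_comm, Nat.Prime.coprime_iff_not_dvd hp]
    intro hdvd
    obtain ⟨v, hv⟩ := exists_prime_orderOf_dvd_card' p hdvd
    have h1 : (v : G) ^ Nat.card ↥M = 1 := ((hVmem v).mp v.2).2.2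
    have h2 : orderOf (v : G) ∣ Nat.card ↥M := orderOf_dvd_of_pow_eq_one h1
    rw [Subgroup.orderOf_coe, hv] at h2
    exact hp.one_lt.ne' (Nat.Coprime.eq_one_of_dvd hMcop.symm h2)
  have hzV : z ∈ V := by
    rw [hVmem]
    refine ⟨hzH, fun h hh => ?_, hzM⟩
    rw [hzdef]
    exact congrArg Subtype.val (hzc ⟨h, hh⟩)
  haveI : Nontrivial (G ⧸ H) :=
    ⟨⟨QuotientGroup.mk x₀, 1, fun h => hx₀ ((QuotientGroup.eq_one_iff x₀).mp h)⟩⟩
  haveI := hQp.center_nontrivial
  obtain ⟨yq, hyqc, hyq1⟩ : ∃ yq : G ⧸ H, yq ∈ Subgroup.center (G ⧸ H) ∧ yq ≠ 1 := by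
    obtain ⟨⟨c, hc⟩, hc1⟩ := exists_ne (1 : Subgroup.center (G ⧸ H))
    exact ⟨c, hc, fun h => hc1 (Subtype.ext h)⟩
  obtain ⟨y, rfl⟩ := QuotientGroup.mk_surjective yq
  have hyH : y ∉ H := fun h => hyq1 ((QuotientGroup.eq_one_iff y).mpr h)
  have hucomm : ∀ u ∈ Subgroup.zpowers y, ∀ g : G, g⁻¹ * u⁻¹ * g * u ∈ H := by
    intro u hu g
    obtain ⟨k, rfl⟩ := Subgroup.mem_zpowers_iff.mp hu
    have h1 : (QuotientGroup.mk (y ^ k) : G ⧸ H) ∈ Subgroup.center (G ⧸ H) :=
      Subgroup.zpow_mem _ hyqc k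
    rw [Subgroup.mem_center_iff] at h1
    have h2 := h1 (QuotientGroup.mk g)
    rw [← QuotientGroup.eq_one_iff]
    show (QuotientGroup.mk g : G ⧸ H)⁻¹ * (QuotientGroup.mk (y ^ k) : G ⧸ H)⁻¹
      * (QuotientGroup.mk g : G ⧸ H) * (QuotientGroup.mk (y ^ k) : G ⧸ H) = 1
    rw [mul_assoc, h2]
    group
  have hyp : y ^ p = 1 := hout y hyH
  have hy1 : y ≠ 1 := fun h => hyH (h ▸ H.one_mem)
  have htop : H ⊔ Subgroup.zpowers y = ⊤ := by
    by_contra hne
    obtain ⟨x, hx⟩ : ∃ x : G, x ∉ H ⊔ Subgroup.zpowers y := by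
      by_contra hcon
      push_neg at hcon
      exact hne ((Subgroup.eq_top_iff' _).mpr hcon)
    have huxH : ∀ u ∈ Subgroup.zpowers y, u * x ∉ H := by
      intro u hu hc
      apply hx
      have h1 : x = u⁻¹ * (u * x) := by group
      rw [h1]
      exact Subgroup.mul_mem _ (Subgroup.mem_sup_right (Subgroup.inv_mem _ hu))
        (Subgroup.mem_sup_left hc)
    have hZcard : ∃ k, Nat.card (Subgroup.zpowers y) = p ^ k :=
      ⟨1, by rw [Nat.card_zpowers, pow_one]; exact orderOf_eq_prime hyp hy1⟩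
    have hcent := split_centralizes_Z (MulAut.conj x) p hp V hVc
      (fun v hv => hVn.conj_mem v hv x) (Subgroup.zpowers y) hZcard
      (by
        intro u hu v hv
        show x * (u * v * u⁻¹) * x⁻¹ = u * (x * v * x⁻¹) * u⁻¹
        have hd : x⁻¹ * u⁻¹ * x * u ∈ H := hucomm u hu x
        have hdv := ((hVmem v).mp hv).2.1 _ hd
        calc x * (u * v * u⁻¹) * x⁻¹
            = u * x * (x⁻¹ * u⁻¹ * x * u * v) * (x⁻¹ * u⁻¹ * x * u)⁻¹ * x⁻¹ * u⁻¹ := by group
          _ = u * x * (v * (x⁻¹ * u⁻¹ * x * u)) * (x⁻¹ * u⁻¹ * x * u)⁻¹ * x⁻¹ * u⁻¹ := by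
            rw [hdv]
          _ = u * (x * v * x⁻¹) * u⁻¹ := by group)
      (by
        intro u hu v hv
        rw [← map_mul]
        exact hconjN (u * x) (huxH u hu) v ((hVmem v).mp hv).1)
      hVcop
    have hzy := hcent y (Subgroup.mem_zpowers y) z hzV
    have hzy' : Commute z y := by
      show z * y = y * z
      exact (mul_inv_eq_iff_eq_mul.mp hzy).symm
    have hzyH : z * y ∉ H := fun hc => hyH (by
      have h1 : y = z⁻¹ * (z * y) := by group
      rw [h1]; exact H.mul_mem (H.inv_mem hzH) hc)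
    have h3 : z ^ p = 1 := by
      have h4 := hout (z * y) hzyH
      rw [hzy'.mul_pow, hyp, mul_one] at h4
      exact h4
    have h5 : z ∈ (⊥ : Subgroup G) :=
      mem_of_pow_mem_coprime ⊥ z (Nat.card ↥M) p hMcop (by rw [hzM]; exact Subgroup.one_mem _)
        (by rw [h3]; exact Subgroup.one_mem _)
    exact hz1 (Subgroup.mem_bot.mp h5)
  rw [Subgroup.index_eq_card]
  have hgen : ∀ q : G ⧸ H, q ∈ Subgroup.zpowers (QuotientGroup.mk y : G ⧸ H) := by
    intro q
    obtain ⟨g, rfl⟩ := QuotientGroup.mk_surjective q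
    have hg : g ∈ H ⊔ Subgroup.zpowers y := by rw [htop]; exact Subgroup.mem_top g
    have hg' : g ∈ (H : Set G) * (Subgroup.zpowers y : Set G) := by
      rw [← Subgroup.normal_mul]; exact hg
    obtain ⟨h, hh, u, hu, rfl⟩ := Set.mem_mul.mp hg'
    obtain ⟨k, rfl⟩ := Subgroup.mem_zpowers_iff.mp hu
    rw [Subgroup.mem_zpowers_iff]
    refine ⟨k, ?_⟩
    rw [QuotientGroup.mk_mul, QuotientGroup.mk_zpow, (QuotientGroup.eq_one_iff h).mpr hh, one_mul]
  rw [← orderOf_eq_card_of_forall_mem_zpowers hgen]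
  apply orderOf_eq_prime
  · exact (QuotientGroup.eq_one_iff (y ^ p)).mpr (by rw [hyp]; exact H.one_mem)
  · exact hyq1

end Cfsg.Agent.Helper1
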