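import Mathlib
import Cfsg.Agent.Lead.NilBound

set_option autoImplicit false

namespace Cfsg.Agent.Helper1

/-- In a finite nilpotent group, a Sylow `p`-subgroup together with its centralizer is the
whole group. -/
theorem nilperm_sylow_sup_centralizer {N : Type} [Group N] [Finite N]
    (hN : Group.IsNilpotent N) (p : ℕ) [Fact p.Prime] (P : Sylow p N) :
    (P : Subgroup N) ⊔ Subgroup.centralizer ((P : Subgroup N) : Set N) = ⊤ := by
  have hnorm := ((Group.isNilpotent_of_finite_tfae (G := N)).out 0 3).mp hN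
  rw [← Subgroup.index_eq_one, Nat.eq_one_iff_not_exists_prime_dvd]
  intro q hq hdvd
  haveI : Fact q.Prime := ⟨hq⟩
  by_cases hqp : q = p
  · subst hqp
    exact P.not_dvd_index (hdvd.trans (Subgroup.index_dvd_of_le le_sup_left))
  · obtain ⟨Q⟩ : Nonempty (Sylow q N) := inferInstance
    have hQle : (Q : Subgroup N) ≤ Subgroup.centralizer ((P : Subgroup N) : Set N) := by
      intro y hy
      rw [Subgroup.mem_centralizer_iff]
      intro x hx
      exact (Subgroup.commute_of_normal_of_disjoint (P : Subgroup N) (Q : Subgroup N)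
        (hnorm p inferInstance P) (hnorm q inferInstance Q)
        (IsPGroup.disjoint_of_ne p q (Ne.symm hqp) _ _ P.isPGroup' Q.isPGroup') x y hx hy).eq
    exact Q.not_dvd_index (hdvd.trans (Subgroup.index_dvd_of_le (hQle.trans le_sup_right)))

/-- The orbit of a point under a normal subgroup `P` has cardinality dividing the degree of a
transitive action. -/
theorem nilperm_orbit_card_dvd {N Ω : Type} [Group N] [Finite N] [Fintype Ω] [MulAction N Ω]
    [MulAction.IsPretransitive N Ω] (P : Subgroup N) [hPn : P.Normal] (w : Ω) :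
    Nat.card ↥(MulAction.orbit ↥P w) ∣ Nat.card Ω := by
  have h1 : MulAction.orbit ↥P w = MulAction.orbit ↥(P ⊔ MulAction.stabilizer N w) w := by
    ext y
    constructor
    · rintro ⟨x, rfl⟩
      exact ⟨⟨x.1, (le_sup_left : P ≤ P ⊔ MulAction.stabilizer N w) x.2⟩, rfl⟩
    · rintro ⟨x, rfl⟩
      have hx : (x : N) ∈ (P ⊔ MulAction.stabilizer N w : Subgroup N) := x.2
      rw [← SetLike.mem_coe, Subgroup.normal_mul] at hx
      obtain ⟨h, hh, s, hs, hxe⟩ := Set.mem_mul.mp hx
      refine ⟨⟨h, hh⟩, ?_⟩
      show h • w = (x : N) • w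
      rw [← hxe, mul_smul, MulAction.mem_stabilizer_iff.mp hs]
  have h2 : MulAction.stabilizer ↥(P ⊔ MulAction.stabilizer N w) w =
      (MulAction.stabilizer N w).subgroupOf (P ⊔ MulAction.stabilizer N w) := by
    ext x
    rw [Subgroup.mem_subgroupOf, MulAction.mem_stabilizer_iff, MulAction.mem_stabilizer_iff]
    rfl
  have h3 : (MulAction.stabilizer N w).relIndex (P ⊔ MulAction.stabilizer N w) *
      (P ⊔ MulAction.stabilizer N w).index = (MulAction.stabilizer N w).index :=
    Subgroup.relIndex_mul_index le_sup_right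
  have h4 : (MulAction.stabilizer N w).index = Nat.card Ω :=
    MulAction.index_stabilizer_of_transitive N w
  have h5 : (MulAction.stabilizer ↥(P ⊔ MulAction.stabilizer N w) w).index =
      (MulAction.orbit ↥(P ⊔ MulAction.stabilizer N w) w).ncard :=
    MulAction.index_stabilizer ↥(P ⊔ MulAction.stabilizer N w) w
  have h6 : Nat.card ↥(MulAction.orbit ↥P w) =
      (MulAction.stabilizer N w).relIndex (P ⊔ MulAction.stabilizer N w) := by
    rw [Nat.card_coe_set_eq, h1, ← h5, h2]
    rfl
  rw [h6, ← h4, ← h3]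
  exact dvd_mul_right _ _

/-- A Sylow `p`-subgroup of a finite nilpotent group acting faithfully and transitively on `Ω`
has order dividing `(p ^ v_p |Ω|)!`. -/
theorem nil_sylow_card_dvd {N Ω : Type} [Group N] [Finite N] [Fintype Ω] [MulAction N Ω]
    [FaithfulSMul N Ω] [MulAction.IsPretransitive N Ω] (hN : Group.IsNilpotent N) (p : ℕ)
    [Fact p.Prime] (P : Sylow p N) :
    Nat.card P ∣ (p ^ (Fintype.card Ω).factorization p).factorial := by
  have hp : p.Prime := Fact.out
  rcases isEmpty_or_nonempty Ω with hΩ | ⟨⟨w⟩⟩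
  · have htriv : ∀ g : N, g = 1 := fun g =>
      FaithfulSMul.eq_of_smul_eq_smul (α := Ω) (fun a => (hΩ.false a).elim)
    haveI : Subsingleton N := ⟨fun a b => (htriv a).trans (htriv b).symm⟩
    have h1 : Nat.card P = 1 := Nat.card_eq_one_iff_unique.mpr ⟨inferInstance, ⟨1⟩⟩
    rw [h1]
    exact one_dvd _
  · have hnorm := ((Group.isNilpotent_of_finite_tfae (G := N)).out 0 3).mp hN
    have hPn : (P : Subgroup N).Normal := hnorm p inferInstance P
    have hwne : Nonempty Ω := ⟨w⟩
    have htop := nilperm_sylow_sup_centralizer hN p P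
    -- `P` acts faithfully on the orbit of `w`
    have hfaith : ∀ x : ↥(P : Subgroup N),
        (∀ o ∈ MulAction.orbit ↥(P : Subgroup N) w, x • o = o) → x = 1 := by
      intro x hx
      apply Subtype.ext
      apply FaithfulSMul.eq_of_smul_eq_smul (α := Ω)
      intro ω
      obtain ⟨g, rfl⟩ := MulAction.exists_smul_eq N w ω
      have hg : g ∈ ((P : Subgroup N) ⊔ Subgroup.centralizer ((P : Subgroup N) : Set N) :
          Subgroup N) := by
        rw [htop]; exact Subgroup.mem_top g
      rw [← SetLike.mem_coe, Subgroup.normal_mul] at hg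
      obtain ⟨h, hh, c, hc, rfl⟩ := Set.mem_mul.mp hg
      rw [Subgroup.coe_one, one_smul]
      have hc1 : ∀ y ∈ (P : Subgroup N), y * c = c * y := fun y hy =>
        Subgroup.mem_centralizer_iff.mp hc y hy
      have h1 : (⟨h, hh⟩ : ↥(P : Subgroup N)) • w ∈ MulAction.orbit ↥(P : Subgroup N) w :=
        MulAction.mem_orbit w _
      have h3 : (x : N) • (h • w) = h • w := hx _ h1
      calc (x : N) • (h * c) • w = ((x : N) * h * c) • w := by rw [← mul_smul, ← mul_assoc]
        _ = (c * ((x : N) * h)) • w := by rw [hc1 _ (Subgroup.mul_mem _ x.2 hh)]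
        _ = c • ((x : N) • (h • w)) := by rw [mul_smul, mul_smul]
        _ = c • (h • w) := by rw [h3]
        _ = (c * h) • w := by rw [mul_smul]
        _ = (h * c) • w := by rw [hc1 h hh]
    -- so `P` embeds in the symmetric group of the orbit
    have hφ : Function.Injective
        (MulAction.toPermHom ↥(P : Subgroup N) ↥(MulAction.orbit ↥(P : Subgroup N) w)) := by
      rw [injective_iff_map_eq_one]
      intro x hx
      apply hfaith
      intro o ho
      have := congrArg (fun σ : Equiv.Perm ↥(MulAction.orbit ↥(P : Subgroup N) w) =>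
        ((σ ⟨o, ho⟩ : ↥(MulAction.orbit ↥(P : Subgroup N) w)) : Ω)) hx
      simpa using this
    have hdvd1 : Nat.card ↥(P : Subgroup N) ∣
        Nat.card (Equiv.Perm ↥(MulAction.orbit ↥(P : Subgroup N) w)) :=
      Subgroup.card_dvd_of_injective _ hφ
    rw [Nat.card_perm] at hdvd1
    obtain ⟨k, hk⟩ := P.isPGroup'.card_orbit w
    have hdiv : Nat.card ↥(MulAction.orbit ↥(P : Subgroup N) w) ∣ Nat.card Ω :=
      nilperm_orbit_card_dvd (P : Subgroup N) w
    rw [hk] at hdvd1 hdiv
    rw [Nat.card_eq_fintype_card] at hdiv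
    have hΩ0 : Fintype.card Ω ≠ 0 := Fintype.card_ne_zero
    have hle : k ≤ (Fintype.card Ω).factorization p :=
      (hp.pow_dvd_iff_le_factorization hΩ0).mp hdiv
    exact hdvd1.trans (Nat.factorial_dvd_factorial (Nat.pow_le_pow_right hp.pos hle))

end Cfsg.Agent.Helper1
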