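import Mathlib
import Cfsg.Agent.Helper1.NilPerm

/-! Part C0 of S2255: in a finite nilpotent group the Sylow 2-subgroup has a complement
of odd order that centralizes it. -/

namespace Cfsg.Agent.Helper1

theorem nil_two_complement {G : Type} [Group G] [Finite G] (hG : Group.IsNilpotent G)
    (P : Sylow 2 G) :
    ∃ Q : Subgroup G, Odd (Nat.card Q) ∧
      (∀ x ∈ (P : Subgroup G), ∀ y ∈ Q, x * y = y * x) ∧
      Nat.card G = Nat.card P * Nat.card Q := by
  have : Fact (Nat.Prime 2) := ⟨Nat.prime_two⟩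
  have hnorm := ((Group.isNilpotent_of_finite_tfae (G := G)).out 0 3).mp hG
  have hPn : (P : Subgroup G).Normal := hnorm 2 ⟨Nat.prime_two⟩ P
  have hcop : Nat.Coprime (Nat.card (P : Subgroup G)) (P : Subgroup G).index :=
    P.card_coprime_index
  obtain ⟨Q, hQ⟩ := Subgroup.exists_right_complement'_of_coprime hcop
  have hcard : Nat.card (P : Subgroup G) * Nat.card Q = Nat.card G := hQ.card_mul_card
  have hidx : (P : Subgroup G).index = Nat.card Q := hQ.symm.index_eq_card
  have hodd : Odd (Nat.card Q) := by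
    rw [← hidx, ← Nat.not_even_iff_odd, even_iff_two_dvd]
    exact P.not_dvd_index
  refine ⟨Q, hodd, ?_, hcard.symm⟩
  intro x hx y hy
  have htop := nilperm_sylow_sup_centralizer hG 2 P
  have hy' : y ∈ (((P : Subgroup G) ⊔
      Subgroup.centralizer ((P : Subgroup G) : Set G) : Subgroup G) : Set G) := by
    rw [htop]; trivial
  rw [Subgroup.normal_mul] at hy'
  obtain ⟨a, ha, d, hd, rfl⟩ := Set.mem_mul.mp hy'
  have hd' : d ∈ Subgroup.centralizer ((P : Subgroup G) : Set G) := hd
  have hcomm : Commute a d := (Subgroup.mem_centralizer_iff.mp hd') a ha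
  have hpow : (a * d) ^ Nat.card Q = 1 :=
    orderOf_dvd_iff_pow_eq_one.mp (Subgroup.orderOf_dvd_natCard Q hy)
  rw [hcomm.mul_pow] at hpow
  have hak : a ^ Nat.card Q ∈ Subgroup.centralizer ((P : Subgroup G) : Set G) := by
    rw [eq_inv_of_mul_eq_one_left hpow]
    exact inv_mem (pow_mem hd' _)
  have hco : Nat.Coprime (Nat.card Q) (orderOf a) := by
    have h1 : orderOf a ∣ Nat.card (P : Subgroup G) :=
      Subgroup.orderOf_dvd_natCard (P : Subgroup G) ha
    have h2 := Nat.Coprime.coprime_dvd_left h1 hcop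
    rw [hidx] at h2
    exact h2.symm
  obtain ⟨m, hm⟩ := exists_pow_eq_self_of_coprime hco
  have ha' : a ∈ Subgroup.centralizer ((P : Subgroup G) : Set G) := by
    rw [← hm]
    exact pow_mem hak m
  exact (Subgroup.mem_centralizer_iff.mp (mul_mem ha' hd')) x hx
end Cfsg.Agent.Helper1
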