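import Mathlib
import Cfsg.Agent.Helper1.NilAlt

/-! Part F4 of S2256: a nilpotent subgroup of `S_n` (`n % 4 = 3`) of order
`3 * 2 ^ w` with `v_2((n-3)!) ≤ w + 1` is `T × ⟨z⟩` with `z` a 3-cycle. -/

namespace Cfsg.Agent.Helper1

open scoped Nat

theorem alt3_structure_aux (n : ℕ) (hn : n % 4 = 3) (N : Subgroup (Equiv.Perm (Fin n)))
    (hN : Group.IsNilpotent N) (w : ℕ) (hw : (n - 3).factorial.factorization 2 ≤ w + 1)
    (hcard : Nat.card N = 3 * 2 ^ w) :
    ∃ (z : Equiv.Perm (Fin n)) (T : Subgroup (Equiv.Perm (Fin n))), z.cycleType = {3} ∧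
      Nat.card T = 2 ^ w ∧ (∀ t ∈ T, t * z = z * t) ∧
      N = T ⊔ Subgroup.zpowers z := by
  have : Fact (Nat.Prime 2) := ⟨Nat.prime_two⟩
  have : Fact (Nat.Prime 3) := ⟨Nat.prime_three⟩
  obtain ⟨P⟩ : Nonempty (Sylow 2 ↥N) := inferInstance
  obtain ⟨Q, hQodd, hQcomm, hQcard⟩ := nil_two_complement hN P
  -- orders
  have hfac : (3 * 2 ^ w).factorization 2 = w := by
    rw [Nat.factorization_mul (by norm_num) (by positivity), Finsupp.add_apply,
      Nat.factorization_pow, Finsupp.smul_apply, Nat.prime_two.factorization_self,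
      Nat.factorization_eq_zero_of_not_dvd (by norm_num)]
    simp
  have hPcard : Nat.card P = 2 ^ w := by
    rw [Sylow.card_eq_multiplicity, hcard, hfac]
  have hQ3 : Nat.card Q = 3 := by
    have h1 : 2 ^ w * Nat.card Q = 2 ^ w * 3 := by
      rw [← hPcard, ← hQcard, hcard, hPcard, mul_comm]
    exact Nat.eq_of_mul_eq_mul_left (by positivity) h1
  haveI : Nontrivial Q := by
    rw [← Finite.one_lt_card_iff_nontrivial, hQ3]; norm_num
  obtain ⟨z', hz'⟩ := exists_ne (1 : Q)
  have hz'ord : orderOf z' = 3 :=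
    orderOf_eq_prime (by rw [← hQ3]; exact pow_card_eq_one') hz'
  obtain ⟨z, hzdef⟩ : ∃ z : Equiv.Perm (Fin n), z = ((z' : ↥N) : Equiv.Perm (Fin n)) :=
    ⟨_, rfl⟩
  have hzord : orderOf z = 3 := by
    rw [hzdef, Subgroup.orderOf_coe, Subgroup.orderOf_coe, hz'ord]
  obtain ⟨T, hTdef⟩ : ∃ T : Subgroup (Equiv.Perm (Fin n)),
      T = (P : Subgroup ↥N).map N.subtype := ⟨_, rfl⟩
  have hTcard : Nat.card T = 2 ^ w := by
    rw [hTdef, Subgroup.card_map_of_injective N.subtype_injective]; exact hPcard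
  have hTz : ∀ t ∈ T, t * z = z * t := by
    intro t ht
    rw [hTdef] at ht
    obtain ⟨p, hp, rfl⟩ := ht
    have := hQcomm p hp (z' : ↥N) z'.2
    rw [hzdef]
    exact congrArg Subtype.val this
  have hTN : T ≤ N := by
    intro t ht
    rw [hTdef] at ht
    obtain ⟨p, -, rfl⟩ := ht
    exact p.2
  have hzN : Subgroup.zpowers z ≤ N := by
    rw [Subgroup.zpowers_le, hzdef]; exact (z' : ↥N).2
  have hsup : T ⊔ Subgroup.zpowers z ≤ N := sup_le hTN hzN
  have heq : T ⊔ Subgroup.zpowers z = N := by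
    apply Subgroup.eq_of_le_of_card_ge hsup
    rw [hcard]
    have h1 : 2 ^ w ∣ Nat.card ↥(T ⊔ Subgroup.zpowers z) := by
      rw [← hTcard]; exact Subgroup.card_dvd_of_le le_sup_left
    have h2 : 3 ∣ Nat.card ↥(T ⊔ Subgroup.zpowers z) := by
      rw [← hzord, ← Nat.card_zpowers]; exact Subgroup.card_dvd_of_le le_sup_right
    have h3 : 3 * 2 ^ w ∣ Nat.card ↥(T ⊔ Subgroup.zpowers z) :=
      Nat.Coprime.mul_dvd_of_dvd_of_dvd (Nat.Coprime.pow_right w (by norm_num)) h2 h1
    exact Nat.le_of_dvd Nat.card_pos h3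
  -- the cycle type
  obtain ⟨j, hj⟩ := Equiv.Perm.cycleType_prime_order (σ := z)
    (by rw [hzord]; exact Nat.prime_three)
  rw [hzord] at hj
  have hj0 : j = 0 := by
    by_contra hjne
    have hsum : (j + 1) * 3 ≤ n := by
      have h1 := Equiv.Perm.sum_cycleType z
      have h2 := Finset.card_le_univ z.support
      rw [hj, Multiset.sum_replicate, smul_eq_mul] at h1
      rw [← h1] at h2
      simpa using h2
    have hcent : Nat.card (Subgroup.centralizer {z}) =
        (n - (j + 1) * 3)! * 3 ^ (j + 1) * (j + 1)! := by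
      have htf : (Multiset.replicate (j + 1) 3).toFinset = {3} := by
        ext a
        rw [Multiset.mem_toFinset, Multiset.mem_replicate, Finset.mem_singleton]
        exact ⟨fun h => h.2, fun h => ⟨Nat.succ_ne_zero j, h⟩⟩
      rw [Equiv.Perm.nat_card_centralizer, hj, Multiset.sum_replicate,
        Multiset.prod_replicate, smul_eq_mul, Fintype.card_fin, htf, Finset.prod_singleton,
        Multiset.count_replicate_self]
    have hTle : T ≤ Subgroup.centralizer {z} := by
      intro t ht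
      rw [Subgroup.mem_centralizer_iff]
      intro h hh
      rw [Set.mem_singleton_iff] at hh
      rw [hh]; exact (hTz t ht).symm
    have hdvd : 2 ^ w ∣ (n - (j + 1) * 3)! * 3 ^ (j + 1) * (j + 1)! := by
      rw [← hcent, ← hTcard]; exact Subgroup.card_dvd_of_le hTle
    have hdvd2 : 2 ^ w ∣ (n - (j + 1) * 3)! * (j + 1)! := by
      have hc : Nat.Coprime (2 ^ w) (3 ^ (j + 1)) := Nat.Coprime.pow _ _ (by norm_num)
      apply hc.dvd_of_dvd_mul_right
      have h3 : (n - (j + 1) * 3)! * (j + 1)! * 3 ^ (j + 1) =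
          (n - (j + 1) * 3)! * 3 ^ (j + 1) * (j + 1)! := by ring
      rw [h3]; exact hdvd
    have hdvd3 : 2 ^ w ∣ (n - 4)! :=
      hdvd2.trans ((Nat.factorial_mul_factorial_dvd_factorial_add _ _).trans
        (Nat.factorial_dvd_factorial (by omega)))
    have hvle : w ≤ (n - 4)!.factorization 2 :=
      (Nat.prime_two.pow_dvd_iff_le_factorization (Nat.factorial_ne_zero _)).mp hdvd3
    have hn3 : n - 3 = (n - 4) + 1 := by omega
    have h4 : 2 ^ 2 ∣ (n - 4) + 1 := by
      rw [show (2 : ℕ) ^ 2 = 4 from rfl]; omega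
    have h2le : 2 ≤ ((n - 4) + 1).factorization 2 :=
      (Nat.prime_two.pow_dvd_iff_le_factorization (Nat.succ_ne_zero _)).mp h4
    have hveq : (n - 3)!.factorization 2 =
        ((n - 4) + 1).factorization 2 + (n - 4)!.factorization 2 := by
      rw [hn3, Nat.factorial_succ,
        Nat.factorization_mul (Nat.succ_ne_zero _) (Nat.factorial_ne_zero _),
        Finsupp.add_apply]
    omega
  subst hj0
  refine ⟨z, T, ?_, hTcard, hTz, heq.symm⟩
  rw [hj]; simp

theorem alt3_structure (n : ℕ) (hn : n % 4 = 3) (h7 : 7 ≤ n)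
    (N : Subgroup (Equiv.Perm (Fin n))) (hN : Group.IsNilpotent N)
    (hcard : 2 * Nat.card N = 3 * 2 ^ ((n - 3).factorial.factorization 2)) :
    ∃ (z : Equiv.Perm (Fin n)) (T : Subgroup (Equiv.Perm (Fin n))), z.cycleType = {3} ∧
      2 * Nat.card T = 2 ^ ((n - 3).factorial.factorization 2) ∧
      (∀ t ∈ T, t * z = z * t) ∧ N = T ⊔ Subgroup.zpowers z := by
  have hn3 : n - 3 = (n - 4) + 1 := by omega
  have h4 : 2 ^ 2 ∣ (n - 4) + 1 := by
    rw [show (2 : ℕ) ^ 2 = 4 from rfl]; omega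
  have h2le : 2 ≤ ((n - 4) + 1).factorization 2 :=
    (Nat.prime_two.pow_dvd_iff_le_factorization (Nat.succ_ne_zero _)).mp h4
  have hveq : (n - 3)!.factorization 2 =
      ((n - 4) + 1).factorization 2 + (n - 4)!.factorization 2 := by
    rw [hn3, Nat.factorial_succ,
      Nat.factorization_mul (Nat.succ_ne_zero _) (Nat.factorial_ne_zero _),
      Finsupp.add_apply]
  obtain ⟨w, hw⟩ : ∃ w, (n - 3)!.factorization 2 = w + 1 :=
    ⟨(n - 3)!.factorization 2 - 1, by omega⟩
  rw [hw] at hcard ⊢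
  have hcard' : Nat.card N = 3 * 2 ^ w := by
    rw [pow_succ] at hcard; omega
  obtain ⟨z, T, h1, h2, h3, h4'⟩ := alt3_structure_aux n hn N hN w (by omega) hcard'
  exact ⟨z, T, h1, by rw [h2, pow_succ]; ring, h3, h4'⟩

end Cfsg.Agent.Helper1
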